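/-
Centralisers and class counts in `Inndiag(PSL_n(F))` for involutory graph-field automorphisms.
-/
import Mathlib
import Cfsg.Agent.Lib.KS71.PSLCent
import Cfsg.Agent.Lib.KS71.GUBasic

set_option autoImplicit false

namespace Cfsg.Agent.Lib.KS71.PSLCentGF

open Matrix
open scoped MatrixGroups
open Cfsg.Agent.Lib.KS71.PSLCore Cfsg.Agent.Lib.KS71.PSLAutGroup Cfsg.Agent.Lib.KS71.PSLTwist
open Cfsg.Agent.Lib.KS71.Speiser Cfsg.Agent.Lib.KS71.PSLClassConj Cfsg.Agent.Lib.KS71.ClassSplit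
open Cfsg.Agent.Lib.KS71.PSLCent

variable {F : Type*} [Field F] {n : ℕ}

theorem mem_GU_iff_Θ {q : ℕ} (σ : F ≃+* F) (hσq : ∀ x, σ x = x ^ q) (g : GL (Fin n) F) :
    g ∈ Cfsg.GU n F q ↔ Θ σ g = g := by
  rw [Cfsg.Agent.Lib.KS71.GUBasic.mem_GU_iff_mat (σ : F →+* F) hσq]
  have h1 : (g : Matrix (Fin n) (Fin n) F).map σ * ((g⁻¹ : GL (Fin n) F) : Matrix (Fin n) (Fin n) F).map σ = 1 := by
    rw [← coe_mapGL, ← coe_mapGL, ← Units.val_mul, ← mapGL_mul, mul_inv_cancel]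
    have : mapGL σ (1 : GL (Fin n) F) = 1 := map_one _
    rw [this, Units.val_one]
  have h2 : ((g⁻¹ : GL (Fin n) F) : Matrix (Fin n) (Fin n) F).map σ * (g : Matrix (Fin n) (Fin n) F).map σ = 1 :=
    mul_eq_one_comm.1 h1
  constructor
  · intro h
    apply Units.ext
    rw [coe_Θ]
    have h3 : (g : Matrix (Fin n) (Fin n) F)ᵀ = ((g⁻¹ : GL (Fin n) F) : Matrix (Fin n) (Fin n) F).map σ := by
      calc (g : Matrix (Fin n) (Fin n) F)ᵀ = (g : Matrix (Fin n) (Fin n) F)ᵀ *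
            ((g : Matrix (Fin n) (Fin n) F).map σ * ((g⁻¹ : GL (Fin n) F) : Matrix (Fin n) (Fin n) F).map σ) := by
            rw [h1, Matrix.mul_one]
        _ = _ := by
            rw [← Matrix.mul_assoc]
            have h' : (g : Matrix (Fin n) (Fin n) F)ᵀ * (g : Matrix (Fin n) (Fin n) F).map σ = 1 := h
            rw [h', Matrix.one_mul]
    rw [← h3, Matrix.transpose_transpose]
  · intro h
    have h3 := congrArg (fun z : GL (Fin n) F => ((z : GL (Fin n) F) : Matrix (Fin n) (Fin n) F)ᵀ) h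
    simp only [coe_Θ, Matrix.transpose_transpose] at h3
    show (g : Matrix (Fin n) (Fin n) F)ᵀ * (g : Matrix (Fin n) (Fin n) F).map σ = 1
    rw [← h3]
    exact h2

theorem invTrGL_sc (c : Fˣ) : invTrGL (sc n c : GL (Fin n) F) = sc n c⁻¹ := by
  apply Units.ext
  rw [coe_invTrGL]
  have h1 : ((sc n c)⁻¹ : GL (Fin n) F) = sc n c⁻¹ := (map_inv _ c).symm
  rw [h1, coe_sc, Matrix.transpose_smul, Matrix.transpose_one]

theorem Θ_sc (σ : F ≃+* F) (c : Fˣ) :
    Θ σ (sc n c : GL (Fin n) F) = sc n (Units.map (σ : F →+* F) c)⁻¹ := by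
  rw [Θ, invTrGL_sc, mapGL_sc, map_inv]

theorem Θ_Θ (σ : F ≃+* F) (hσ2 : ∀ x, σ (σ x) = x) (g : GL (Fin n) F) : Θ σ (Θ σ g) = g := by
  apply Units.ext
  rw [coe_Θ, ← Θ_inv, coe_Θ_inv]
  refine Matrix.ext fun i j => ?_
  simp [hσ2]

theorem sc_inj (hn : 1 ≤ n) {a b : Fˣ} (h : (sc n a : GL (Fin n) F) = sc n b) : a = b := by
  apply Units.ext
  have h1 := congrArg (fun z : GL (Fin n) F => ((z : GL (Fin n) F) : Matrix (Fin n) (Fin n) F)) h
  simp only [coe_sc] at h1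
  have h2 := congrFun (congrFun h1 ⟨0, by omega⟩) ⟨0, by omega⟩
  simpa using h2

/-- Elements whose conjugation commutes with the graph-field automorphism. -/
theorem cc_graph [Finite F] (hn : 2 ≤ n) (σ : F ≃+* F) (hσ : orderOf σ = 2) (g : GL (Fin n) F)
    (h : autOf (conjS g) * gf σ = gf σ * autOf (conjS g)) :
    ∃ b : Fˣ, Θ σ (g * sc n b) = g * sc n b := by
  have hσ1 : σ ^ 2 = 1 := by rw [← hσ]; exact pow_orderOf_eq_one σ
  have hσ2 : ∀ x, σ (σ x) = x := by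
    intro x
    have := DFunLike.congr_fun hσ1 x
    rwa [pow_two] at this
  rw [gf_conj] at h
  have h1 := mul_right_cancel h
  have h2 : autOf (conjS g) * autOf (fieldS (1 : F ≃+* F)) =
      autOf (conjS (Θ σ g)) * autOf (fieldS 1) := by
    rw [h1]
  obtain ⟨-, c, hc⟩ := semi_inj hn h2
  have h3 : (c : F) = σ c := by
    have h4 := congrArg (Θ σ) hc
    rw [Θ_Θ σ hσ2, Θ_mul, ← hc, Θ_sc, mul_assoc, ← sc_mul] at h4
    have h5 : (sc n (c * (Units.map (σ : F →+* F) c)⁻¹) : GL (Fin n) F) = sc n 1 := by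
      have : (sc n (1 : Fˣ) : GL (Fin n) F) = 1 := map_one _
      rw [this]
      exact mul_eq_left.1 h4
    have h6 := sc_inj (by omega) h5
    have h7 := mul_inv_eq_one.1 h6
    exact congrArg Units.val h7
  obtain ⟨a, ha0, ha⟩ := nrm_surj σ hσ _ c.ne_zero h3.symm
  have hnrm : a * σ a = c := by
    rw [← ha]
    simp [nrm, Finset.prod_range_succ]
  let b : Fˣ := Units.mk0 a ha0
  refine ⟨b, ?_⟩
  rw [Θ_mul, ← hc, Θ_sc, mul_assoc, ← sc_mul]
  congr 2
  apply Units.ext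
  rw [Units.val_mul, Units.val_inv_eq_inv_val]
  show (c : F) * (σ a)⁻¹ = a
  rw [← hnrm]
  have : σ a ≠ 0 := (map_ne_zero σ).2 ha0
  field_simp

section main

variable [Fintype F] {q : ℕ}

/-- The centraliser of the graph-field automorphism. -/
theorem cent_iso (hn : 2 ≤ n) (σ : F ≃+* F) (hσ : orderOf σ = 2) (hσq : ∀ x, σ x = x ^ q) :
    Nonempty (↥(Cfsg.inndiagPSL n F ⊓ Subgroup.centralizer {gf (n := n) σ}) ≃* Cfsg.PGU n F q) := by
  classical
  have hbase : ∀ u : ↥(Cfsg.GU n F q), (conjHom (u : GL (Fin n) F)) ∈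
      Cfsg.inndiagPSL n F ⊓ Subgroup.centralizer {gf (n := n) σ} := by
    intro u
    refine ⟨mem_inndiag_iff.2 ⟨u, rfl⟩, ?_⟩
    have : (u : GL (Fin n) F) ∈ (Subgroup.centralizer {gf (n := n) σ}).comap (conjHom (n := n) (F := F)) := by
      rw [mem_comap_iff, gf_conj, (mem_GU_iff_Θ σ hσq _).1 u.2]
    exact this
  let base : ↥(Cfsg.GU n F q) →* MulAut (ProjectiveSpecialLinearGroup (Fin n) F) :=
    conjHom.comp (Cfsg.GU n F q).subtype
  let Ψ : ↥(Cfsg.GU n F q) →* ↥(Cfsg.inndiagPSL n F ⊓ Subgroup.centralizer {gf (n := n) σ}) :=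
    base.codRestrict _ hbase
  have hsurj : Function.Surjective Ψ := by
    rintro ⟨δ, hδ₁, hδ₂⟩
    obtain ⟨g, rfl⟩ := mem_inndiag_iff.1 hδ₁
    have h1 : g ∈ (Subgroup.centralizer {gf (n := n) σ}).comap (conjHom (n := n) (F := F)) := hδ₂
    rw [mem_comap_iff] at h1
    obtain ⟨b, hb⟩ := cc_graph hn σ hσ g h1
    refine ⟨⟨g * sc n b, (mem_GU_iff_Θ σ hσq _).2 hb⟩, ?_⟩
    apply Subtype.ext
    show autOf (conjS (g * sc n b)) = _
    rw [conj_scalar]
  have hker : Ψ.ker = (Cfsg.Geo.scalars (Fin n) F).subgroupOf (Cfsg.GU n F q) := by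
    ext u
    have h1 : u ∈ Ψ.ker ↔ autOf (conjS (u : GL (Fin n) F)) = 1 := by
      rw [MonoidHom.mem_ker]
      constructor
      · intro h
        exact congrArg Subtype.val h
      · intro h
        exact Subtype.ext h
    rw [h1, conj_eq_one_iff hn, Subgroup.mem_subgroupOf, Cfsg.Geo.mem_scalars_iff]
    constructor
    · rintro ⟨c, hc⟩
      exact ⟨c, by rw [hc, coe_sc]⟩
    · rintro ⟨c, hc⟩
      refine ⟨c, ?_⟩
      apply Units.ext
      rw [hc, coe_sc]
  let e1 := QuotientGroup.quotientKerEquivOfSurjective Ψ hsurj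
  let e2 : (↥(Cfsg.GU n F q) ⧸ Ψ.ker) ≃* Cfsg.PGU n F q := QuotientGroup.quotientMulEquivOfEq hker
  exact ⟨e1.symm.trans e2⟩

theorem dg_mul (hn : 1 ≤ n) (u v : Fˣ) : (dg hn (u * v) : GL (Fin n) F) = dg hn u * dg hn v := by
  apply Units.ext
  rw [Units.val_mul, coe_dg, coe_dg, coe_dg, Matrix.diagonal_mul_diagonal]
  congr 1
  funext i
  by_cases hi : i = ⟨0, by omega⟩
  · subst hi
    simp
  · simp [hi]

theorem dg_one (hn : 1 ≤ n) : (dg hn (1 : Fˣ) : GL (Fin n) F) = 1 := by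
  apply Units.ext
  rw [coe_dg, Units.val_one, Units.val_one, ← Matrix.diagonal_one]
  congr 1
  funext i
  by_cases hi : i = ⟨0, by omega⟩
  · subst hi
    simp
  · simp [hi]

theorem dg_inv (hn : 1 ≤ n) (u : Fˣ) : (dg hn u⁻¹ : GL (Fin n) F) = (dg hn u)⁻¹ := by
  apply eq_inv_of_mul_eq_one_left
  rw [← dg_mul, inv_mul_cancel, dg_one]

theorem Θ_dg (hn : 1 ≤ n) (σ : F ≃+* F) (u : Fˣ) (hu : (u : F) * σ u = 1) :
    Θ σ (dg hn u : GL (Fin n) F) = dg hn u := by
  apply Units.ext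
  rw [coe_Θ, ← dg_inv, coe_dg, coe_dg]
  refine Matrix.ext fun i j => ?_
  by_cases hij : i = j
  · subst hij
    by_cases hi : i = ⟨0, by omega⟩
    · subst hi
      have hσu : σ (u : F) = (u : F)⁻¹ := eq_inv_of_mul_eq_one_right hu
      simp [hσu]
    · simp [hi]
  · simp [hij, Ne.symm hij]

theorem D_graph (hF : Fintype.card F = q ^ 2) (hn : 2 ≤ n) (σ : F ≃+* F) (hσ : orderOf σ = 2)
    (hσq : ∀ x, σ x = x ^ q) :
    ((Subgroup.centralizer {gf (n := n) σ}).comap (conjHom (n := n) (F := F))).map (dt (n := n) (F := F)) =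
      (powMonoidHom (q + 1) : Fˣ →* Fˣ).ker ⊔ (powMonoidHom n : Fˣ →* Fˣ).range := by
  apply le_antisymm
  · rintro _ ⟨g, hg, rfl⟩
    have h1 := (mem_comap_iff g _).1 hg
    obtain ⟨b, hb⟩ := cc_graph hn σ hσ g h1
    have h2 : dt (g * sc n b) ∈ (powMonoidHom (q + 1) : Fˣ →* Fˣ).ker := by
      rw [MonoidHom.mem_ker, powMonoidHom_apply]
      apply Units.ext
      have h3 := (mem_GU_iff_Θ σ hσq _).2 hb
      rw [Cfsg.Agent.Lib.KS71.GUBasic.mem_GU_iff_mat (σ : F →+* F) hσq] at h3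
      have h4 := congrArg Matrix.det h3
      rw [Matrix.det_mul, Matrix.det_transpose, Matrix.det_one] at h4
      have h5 : ((g * sc n b : GL (Fin n) F) : Matrix (Fin n) (Fin n) F).map (σ : F →+* F) =
          (σ : F →+* F).mapMatrix _ := rfl
      rw [h5, ← RingHom.map_det] at h4
      show ((dt (g * sc n b) : Fˣ) : F) ^ (q + 1) = 1
      rw [coe_dt, pow_succ, mul_comm, ← h4]
      congr 1
      exact hσq _ |>.symm
    have h3 : dt g = dt (g * sc n b) * (b⁻¹) ^ n := by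
      rw [map_mul, dt_sc, inv_pow, mul_inv_cancel_right]
    rw [h3]
    exact Subgroup.mul_mem _ (Subgroup.mem_sup_left h2) (Subgroup.mem_sup_right ⟨b⁻¹, rfl⟩)
  · apply sup_le
    · intro u hu
      refine ⟨dg (by omega) u, ?_, dt_dg _ u⟩
      have hu' : u ^ (q + 1) = 1 := hu
      have hu2 : (u : F) * σ u = 1 := by
        rw [hσq, ← pow_succ']
        have := congrArg Units.val hu'
        simpa using this
      rw [SetLike.mem_coe, mem_comap_iff, gf_conj, Θ_dg _ σ u hu2]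
    · rintro _ ⟨c, rfl⟩
      refine ⟨sc n c, ?_, dt_sc c⟩
      rw [SetLike.mem_coe, mem_comap_iff, (conj_eq_one_iff hn _).2 ⟨c, rfl⟩, one_mul, mul_one]

theorem count_graph (hF : Fintype.card F = q ^ 2) (hn : 2 ≤ n) (σ : F ≃+* F) (hσ : orderOf σ = 2)
    (hσq : ∀ x, σ x = x ^ q) :
    Cfsg.splitClassCount (Cfsg.inndiagPSL n F) (Cfsg.Inn (ProjectiveSpecialLinearGroup (Fin n) F))
      (gf σ) = Nat.gcd n (q - 1) := by
  classical
  have hq1 : 1 ≤ q := by
    rcases Nat.eq_zero_or_pos q with h | h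
    · subst h
      have := Fintype.one_lt_card (α := F)
      rw [hF] at this
      simp at this
    · exact h
  have hN : Nat.card Fˣ = (q + 1) * (q - 1) := by
    rw [Nat.card_eq_fintype_card, Fintype.card_units, hF]
    obtain ⟨k, rfl⟩ : ∃ k, q = k + 1 := ⟨q - 1, by omega⟩
    simp only [Nat.add_sub_cancel]
    have : (k + 1) ^ 2 = (k + 1 + 1) * k + 1 := by ring
    omega
  rw [count_eq (by omega), D_graph hF hn σ hσ hσq, sup_comm]
  have h1 : (powMonoidHom (q + 1) : Fˣ →* Fˣ).ker = (powMonoidHom (q - 1) : Fˣ →* Fˣ).range := by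
    have h2 := subgroup_eq_range (powMonoidHom (q + 1) : Fˣ →* Fˣ).ker
    have h3 : Nat.card (powMonoidHom (q + 1) : Fˣ →* Fˣ).ker = q + 1 := by
      rw [IsCyclic.card_powMonoidHom_ker, hN]
      exact Nat.gcd_eq_right (dvd_mul_right _ _)
    rw [h3, hN, Nat.mul_div_cancel_left _ (by omega)] at h2
    exact h2
  rw [h1]
  exact index_range_sup n _ (by rw [hN]; exact dvd_mul_left _ _)

end main

/-- Commutation with the graph-field automorphism of the field automorphisms and the graph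
automorphism, in the case the automorphisms of `F` commute. -/
theorem field_gf [Finite F] (ρ σ : F ≃+* F) :
    autOf (fieldS ρ) * gf (n := n) σ = gf σ * autOf (fieldS ρ) := by
  rw [gf]
  calc autOf (fieldS ρ) * (autOf (fieldS σ) * autOf invTrS)
      = autOf (fieldS (ρ * σ)) * autOf invTrS := by rw [← mul_assoc, ← field_mul]
    _ = autOf (fieldS (σ * ρ)) * autOf invTrS := by rw [Cfsg.Agent.Lib.KS71.GalFin.comm]
    _ = autOf (fieldS σ) * (autOf (fieldS ρ) * autOf invTrS) := by rw [field_mul, mul_assoc]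
    _ = autOf (fieldS σ) * (autOf invTrS * autOf (fieldS ρ)) := by rw [invTr_field]
    _ = _ := by rw [mul_assoc]

theorem invTr_gf (σ : F ≃+* F) : autOf invTrS * gf (n := n) σ = gf σ * autOf invTrS := by
  rw [gf, mul_assoc, ← mul_assoc, invTr_field, mul_assoc]

section final

variable [Fintype F] {p f : ℕ} [Fact p.Prime]

/-- Any two conjugates of a graph-field automorphism under `Aut` are conjugate under `Inndiag`. -/
theorem gf_conj_aut (hp : p.Prime) (hF : Fintype.card F = p ^ f) (hf : 1 ≤ f) (hn : 2 ≤ n)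
    (σ : F ≃+* F) (γ : MulAut (ProjectiveSpecialLinearGroup (Fin n) F)) :
    ∃ g : GL (Fin n) F, γ * gf σ * γ⁻¹ = autOf (conjS g) * gf σ * (autOf (conjS g))⁻¹ := by
  obtain ⟨g, τ, rfl | rfl⟩ := Cfsg.Agent.Lib.KS71.PSLAutMain.main hp hF hf hn γ
  · refine ⟨g, ?_⟩
    have h1 : autOf (fieldS τ) * gf σ * (autOf (fieldS τ))⁻¹ = gf (n := n) σ := by
      rw [field_gf, mul_inv_cancel_right]
    calc autOf (conjS g) * autOf (fieldS τ) * gf σ * (autOf (conjS g) * autOf (fieldS τ))⁻¹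
        = autOf (conjS g) * (autOf (fieldS τ) * gf σ * (autOf (fieldS τ))⁻¹) * (autOf (conjS g))⁻¹ := by
          group
      _ = _ := by rw [h1]
  · refine ⟨g, ?_⟩
    have h1 : autOf (fieldS τ) * gf σ * (autOf (fieldS τ))⁻¹ = gf (n := n) σ := by
      rw [field_gf, mul_inv_cancel_right]
    have h2 : autOf invTrS * gf σ * (autOf invTrS)⁻¹ = gf (n := n) σ := by
      rw [invTr_gf, mul_inv_cancel_right]
    calc autOf (conjS g) * autOf (fieldS τ) * autOf invTrS * gf σ * (autOf (conjS g) * autOf (fieldS τ) * autOf invTrS)⁻¹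
        = autOf (conjS g) * (autOf (fieldS τ) * (autOf invTrS * gf σ * (autOf invTrS)⁻¹) * (autOf (fieldS τ))⁻¹) * (autOf (conjS g))⁻¹ := by
          group
      _ = _ := by rw [h2, h1]

/-- The main theorem for graph-field involutions. -/
theorem main_gf (hF : Fintype.card F = p ^ f) (hf : 1 ≤ f) (hn : 3 ≤ n)
    (x : MulAut (ProjectiveSpecialLinearGroup (Fin n) F)) (hx : Cfsg.IsGraphFieldAutClassPSL x)
    (hx2 : orderOf x = 2) :
    Even f ∧ (∀ y : MulAut (ProjectiveSpecialLinearGroup (Fin n) F),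
        Cfsg.IsGraphFieldAutClassPSL y → orderOf y = 2 → Cfsg.IsConjUnder (Cfsg.inndiagPSL n F) x y) ∧
      Nonempty (↥(Cfsg.inndiagPSL n F ⊓ Subgroup.centralizer {x}) ≃* Cfsg.PGU n F (p ^ (f / 2))) ∧
      Cfsg.splitClassCount (Cfsg.inndiagPSL n F) (Cfsg.Inn (ProjectiveSpecialLinearGroup (Fin n) F)) x =
        Nat.gcd n (p ^ (f / 2) - 1) := by
  have hp : p.Prime := Fact.out
  have hn2 : 2 ≤ n := by omega
  have hnorm := fun a b hb => inndiag_normal (n := n) hp hF hf hn2 a b hb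
  have key : ∀ y : MulAut (ProjectiveSpecialLinearGroup (Fin n) F),
      Cfsg.IsGraphFieldAutClassPSL y → orderOf y = 2 → ∃ (α : MulAut (ProjectiveSpecialLinearGroup (Fin n) F))
        (σ : F ≃+* F), orderOf σ = 2 ∧ α * y * α⁻¹ = gf σ := by
    rintro y ⟨-, α, φ, γ, σ, hσ, hstd, hinv, hαy⟩ hy2
    have h1 := eq_field_of_isStd hstd
    have h2 := eq_invTr_of_isInvTr hinv
    have h3 : α * y * α⁻¹ = gf σ := by
      rw [hαy, h1, h2]
      rfl
    have h4 : orderOf (gf (n := n) σ) = 2 := by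
      rw [← h3, conj_orderOf, hy2]
    exact ⟨α, σ, (gf_order hn Nat.prime_two hσ h4).2, h3⟩
  obtain ⟨α, σ, hσ, hαx⟩ := key x hx hx2
  obtain ⟨hE, hcard, hfrob⟩ := Cfsg.Agent.Lib.KS71.GalFin.invol_eq_frob hF hf hσ
  refine ⟨hE, ?_, ?_, ?_⟩
  · intro y hy hy2
    obtain ⟨β, τ, hτ, hβy⟩ := key y hy hy2
    obtain ⟨-, -, hfrob'⟩ := Cfsg.Agent.Lib.KS71.GalFin.invol_eq_frob hF hf hτ
    have hτσ : τ = σ := by
      ext z
      rw [hfrob, hfrob']
    subst hτσ
    -- `y` is a conjugate of `x`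
    obtain ⟨g, hg⟩ := gf_conj_aut hp hF hf hn2 τ (α * β⁻¹)
    have hmem : α⁻¹ * autOf (conjS g) * (α⁻¹)⁻¹ ∈ Cfsg.inndiagPSL n F :=
      hnorm α⁻¹ _ (mem_inndiag_iff.2 ⟨g, rfl⟩)
    refine ⟨_, hmem, ?_⟩
    have h5 : y = β⁻¹ * gf τ * β := by
      rw [← hβy]
      group
    have h6 : x = α⁻¹ * gf τ * α := by
      rw [← hαx]
      group
    have h7 : α * y * α⁻¹ = (α * β⁻¹) * gf τ * (α * β⁻¹)⁻¹ := by
      rw [h5]
      group
    rw [hg] at h7
    have h8 : y = α⁻¹ * (α * y * α⁻¹) * α := by group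
    rw [h8, h7, h6]
    group
  · obtain ⟨e⟩ := cent_iso (q := p ^ (f / 2)) hn2 σ hσ hfrob
    exact ⟨(centConj _ hnorm α x _ hαx).trans e⟩
  · rw [← split_conj _ _ hnorm (fun a b hb => inn_normal a b hb) α x, hαx]
    exact count_graph hcard hn2 σ hσ hfrob

end final

end Cfsg.Agent.Lib.KS71.PSLCentGF
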