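/-
Real linear functionals on the roots of a Chevalley datum, their norm, and the closed subsets of roots they cut out.
-/
import Mathlib
import Cfsg.Agent.Lib.KS71.StCell

set_option autoImplicit false
set_option linter.unusedSectionVars false
set_option linter.unusedVariables false

namespace Cfsg.Agent.Lib.KS71.BTFun

open Cfsg Cfsg.Lie Cfsg.Lie.ChevalleyDatum
open Cfsg.Agent.Lib.Chev.Tables Cfsg.Agent.Lib.Chev.Tables2 Cfsg.Agent.Lib.Chev.Tables3 Cfsg.Agent.Lib.Chev.Raise
open Cfsg.Agent.Lib.Chev.Basic Cfsg.Agent.Lib.Chev.AxBasic Cfsg.Agent.Lib.Chev.Torus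
open Cfsg.Agent.Lib.Chev.Products Cfsg.Agent.Lib.Chev.Products2 Cfsg.Agent.Lib.Chev.Mono1
open Cfsg.Agent.Lib.Chev.Mono2 Cfsg.Agent.Lib.Chev.Mono3 Cfsg.Agent.Lib.Chev.Bn
open Cfsg.Agent.Lib.Chev.Order1 Cfsg.Agent.Lib.Chev.Order2 Cfsg.Agent.Lib.Chev.Parab
open Cfsg.Agent.Lib.KS71.StWeyl Cfsg.Agent.Lib.KS71.StCell

variable {D : ChevalleyDatum} {F : Type*} [Field F]

/-- The linear functional with weights `v` on the fundamental roots. -/
noncomputable def fl (D : ChevalleyDatum) (v : ℕ → ℝ) (r : ℕ) : ℝ :=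
  ∑ i ∈ Finset.range D.rank, v i * (coef D r i : ℝ)

/-- The invariant quadratic form. -/
noncomputable def Qf (D : ChevalleyDatum) (v : ℕ → ℝ) : ℝ :=
  ∑ r ∈ Finset.range D.nroots, (fl D v r) ^ 2

/-- The action of a fundamental reflection on weights. -/
noncomputable def sAct (D : ChevalleyDatum) (i : ℕ) (v : ℕ → ℝ) (j : ℕ) : ℝ :=
  v j - v i * (D.cartan i (D.simple j) : ℝ)

/-- The action of a word on weights. -/
noncomputable def wAct (D : ChevalleyDatum) : List ℕ → (ℕ → ℝ) → ℕ → ℝ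
  | [], v => v
  | i :: l, v => wAct D l (sAct D i v)

/-- Dominant weights. -/
def Dom (D : ChevalleyDatum) (v : ℕ → ℝ) : Prop := ∀ i, i < D.rank → 0 ≤ v i

/-- The roots at level at least `a`. -/
def clP (D : ChevalleyDatum) (v : ℕ → ℝ) (a : ℝ) (r : ℕ) : Prop := r < D.nroots ∧ a ≤ fl D v r

lemma fl_congr {v v' : ℕ → ℝ} (hv : ∀ i, i < D.rank → v i = v' i) (r : ℕ) : fl D v r = fl D v' r := by
  apply Finset.sum_congr rfl
  intro i hi
  rw [hv i (Finset.mem_range.mp hi)]

lemma Qf_congr {v v' : ℕ → ℝ} (hv : ∀ i, i < D.rank → v i = v' i) : Qf D v = Qf D v' := by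
  apply Finset.sum_congr rfl
  intro r _
  rw [fl_congr hv]

lemma fl_add (v v' : ℕ → ℝ) (r : ℕ) : fl D (fun i => v i + v' i) r = fl D v r + fl D v' r := by
  simp only [fl, add_mul, Finset.sum_add_distrib]

lemma fl_sub (v v' : ℕ → ℝ) (r : ℕ) : fl D (fun i => v i - v' i) r = fl D v r - fl D v' r := by
  simp only [fl, sub_mul, Finset.sum_sub_distrib]

lemma fl_smul (c : ℝ) (v : ℕ → ℝ) (r : ℕ) : fl D (fun i => c * v i) r = c * fl D v r := by
  simp only [fl, Finset.mul_sum, mul_assoc]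

lemma Qf_smul (c : ℝ) (v : ℕ → ℝ) : Qf D (fun i => c * v i) = c ^ 2 * Qf D v := by
  simp only [Qf, fl_smul, Finset.mul_sum, mul_pow]

/-- The parallelogram law. -/
lemma Qf_para (v v' : ℕ → ℝ) :
    Qf D (fun i => (1 / 2) * (v i + v' i)) =
      (Qf D v + Qf D v') / 2 - Qf D (fun i => v i - v' i) / 4 := by
  simp only [Qf, fl_smul, fl_add, fl_sub]
  rw [← Finset.sum_add_distrib, Finset.sum_div, Finset.sum_div, ← Finset.sum_sub_distrib]
  apply Finset.sum_congr rfl
  intro r _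
  ring

lemma Qf_nonneg (v : ℕ → ℝ) : 0 ≤ Qf D v := Finset.sum_nonneg fun r _ => sq_nonneg _

lemma fl_sq_le {r : ℕ} (hr : r < D.nroots) (v : ℕ → ℝ) : (fl D v r) ^ 2 ≤ Qf D v :=
  Finset.single_le_sum (f := fun r => (fl D v r) ^ 2) (fun r _ => sq_nonneg _) (Finset.mem_range.mpr hr)

variable (h : Tab D) (h2 : Tab2 D) (ax : Ax D F)

include h

lemma fl_simple (v : ℕ → ℝ) {i : ℕ} (hi : i < D.rank) : fl D v (D.simple i) = v i := by
  rw [fl, Finset.sum_eq_single i]
  · rw [h.coef_simple i hi i hi, if_pos rfl]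
    simp
  · intro j hj hne
    rw [h.coef_simple i hi j (Finset.mem_range.mp hj), if_neg hne]
    simp
  · intro hn
    exact (hn (Finset.mem_range.mpr hi)).elim

lemma fl_neg (v : ℕ → ℝ) {r : ℕ} (hr : r < D.nroots) : fl D v (D.neg r) = - fl D v r := by
  rw [fl, fl, ← Finset.sum_neg_distrib]
  apply Finset.sum_congr rfl
  intro i hi
  rw [h.coef_neg r hr i (Finset.mem_range.mp hi)]
  push_cast
  ring

lemma fl_comb (v : ℕ → ℝ) {u r s : ℕ} {a b : ℤ}
    (hv : ∀ m, m < D.rank → coef D u m = a * coef D r m + b * coef D s m) :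
    fl D v u = a * fl D v r + b * fl D v s := by
  rw [fl, fl, fl, Finset.mul_sum, Finset.mul_sum, ← Finset.sum_add_distrib]
  apply Finset.sum_congr rfl
  intro i hi
  rw [hv i (Finset.mem_range.mp hi)]
  push_cast
  ring

lemma fl_reflect (v : ℕ → ℝ) {i s : ℕ} (hi : i < D.rank) (hs : s < D.nroots) :
    fl D v (D.reflectRoot i s) = fl D (sAct D i v) s := by
  have hc : ((D.cartan i s : ℤ) : ℝ) = ∑ j ∈ Finset.range D.rank, (coef D s j : ℝ) * (D.cartan i (D.simple j) : ℝ) := by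
    rw [h.cartan_lin i hi s hs]
    push_cast
    rfl
  have h1 : fl D v (D.reflectRoot i s) = fl D v s - v i * (D.cartan i s : ℝ) := by
    rw [fl, fl]
    have : ∀ j ∈ Finset.range D.rank, v j * (coef D (D.reflectRoot i s) j : ℝ) =
        v j * (coef D s j : ℝ) - (if j = i then v i * (D.cartan i s : ℝ) else 0) := by
      intro j hj
      rw [h.coef_reflect i hi s hs j (Finset.mem_range.mp hj)]
      by_cases hji : j = i
      · subst hji
        simp
        ring
      · simp [hji]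
    rw [Finset.sum_congr rfl this, Finset.sum_sub_distrib, Finset.sum_ite_eq' (Finset.range D.rank) i, if_pos (Finset.mem_range.mpr hi)]
  rw [h1, fl, fl, hc, Finset.mul_sum, ← Finset.sum_sub_distrib]
  apply Finset.sum_congr rfl
  intro j _
  rw [sAct]
  ring

lemma fl_wWord (l : List ℕ) (hl : ∀ i ∈ l, i < D.rank) (v : ℕ → ℝ) {s : ℕ} (hs : s < D.nroots) :
    fl D v (wWord D l s) = fl D (wAct D l v) s := by
  induction l generalizing v with
  | nil => rfl
  | cons i l ih =>
    have hl' : ∀ j ∈ l, j < D.rank := fun j hj => hl j (by simp [hj])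
    have hi : i < D.rank := hl i (by simp)
    have e : wWord D (i :: l) s = D.reflectRoot i (wWord D l s) := rfl
    rw [e, fl_reflect h v hi (wWord_lt h hl' hs), ih hl']
    rfl

lemma Qf_sAct {i : ℕ} (hi : i < D.rank) (v : ℕ → ℝ) : Qf D (sAct D i v) = Qf D v := by
  rw [Qf, Qf]
  apply Finset.sum_nbij' (fun r => D.reflectRoot i r) (fun r => D.reflectRoot i r)
  · intro r hr
    exact Finset.mem_range.mpr (h.reflect_lt i hi r (Finset.mem_range.mp hr))
  · intro r hr
    exact Finset.mem_range.mpr (h.reflect_lt i hi r (Finset.mem_range.mp hr))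
  · intro r hr
    exact reflect_reflect h hi (Finset.mem_range.mp hr)
  · intro r hr
    exact reflect_reflect h hi (Finset.mem_range.mp hr)
  · intro r hr
    rw [fl_reflect h v hi (Finset.mem_range.mp hr)]

lemma Qf_wAct (l : List ℕ) (hl : ∀ i ∈ l, i < D.rank) (v : ℕ → ℝ) : Qf D (wAct D l v) = Qf D v := by
  induction l generalizing v with
  | nil => rfl
  | cons i l ih =>
    have hl' : ∀ j ∈ l, j < D.rank := fun j hj => hl j (by simp [hj])
    have hi : i < D.rank := hl i (by simp)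
    rw [wAct, ih hl', Qf_sAct h hi]

/-- The weights of a form with vanishing value vanish. -/
lemma eq_zero_of_Qf (v : ℕ → ℝ) (h0 : Qf D v = 0) {i : ℕ} (hi : i < D.rank) : v i = 0 := by
  have h1 := fl_sq_le (h.simple_lt i hi) v
  rw [h0, fl_simple h v hi] at h1
  nlinarith [sq_nonneg (v i)]

lemma Qf_pos_of_ne (v : ℕ → ℝ) {i : ℕ} (hi : i < D.rank) (hne : v i ≠ 0) : 0 < Qf D v := by
  rcases (Qf_nonneg (D := D) v).lt_or_eq with h1 | h1
  · exact h1
  · exact (hne (eq_zero_of_Qf h v h1.symm hi)).elim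

lemma fl_nonneg_of_Dom {v : ℕ → ℝ} (hv : Dom D v) {r : ℕ} (hr : D.IsPosRoot r) : 0 ≤ fl D v r := by
  apply Finset.sum_nonneg
  intro i hi
  have hi' := Finset.mem_range.mp hi
  have := (isPosRoot_iff h hr.1).mp hr i hi'
  exact mul_nonneg (hv i hi') (by exact_mod_cast this)

/-- A root at positive level for a dominant weight is positive. -/
lemma isPos_of_fl_pos {v : ℕ → ℝ} (hv : Dom D v) {r : ℕ} (hr : r < D.nroots) (hp : 0 < fl D v r) : D.IsPosRoot r := by
  by_contra hn
  have hneg := (not_isPos_iff h hr).mp hn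
  have hp' : D.IsPosRoot (D.neg r) := (isPosRoot_neg h hr).mpr hneg
  have := fl_nonneg_of_Dom h hv hp'
  rw [fl_neg h v hr] at this
  linarith

lemma clP_pos {v : ℕ → ℝ} (hv : Dom D v) {a : ℝ} (ha : 0 < a) {r : ℕ} (hr : clP D v a r) : D.IsPosRoot r :=
  isPos_of_fl_pos h hv hr.1 (lt_of_lt_of_le ha hr.2)

/-- A root of positive level is outside the subsystem of the roots where the weights vanish. -/
lemma not_inRootSub_of_fl_pos {v : ℕ → ℝ} {r : ℕ} (hr : r < D.nroots) (hp : 0 < fl D v r) :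
    ¬ D.InRootSub {j | j < D.rank ∧ v j = 0} r := by
  intro hJ
  have h1 := (inRootSub_iff h hr).mp hJ
  have : fl D v r = 0 := by
    apply Finset.sum_eq_zero
    intro i hi
    have hi' := Finset.mem_range.mp hi
    by_cases h0 : v i = 0
    · rw [h0, zero_mul]
    · rw [h1 i hi' (fun hm => h0 hm.2)]
      simp
  linarith

omit h in
lemma clP_mono {v : ℕ → ℝ} {a b : ℝ} (hab : a ≤ b) (r : ℕ) (hr : clP D v b r) : clP D v a r :=
  ⟨hr.1, le_trans hab hr.2⟩

end Cfsg.Agent.Lib.KS71.BTFun
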