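/-
Intersections of unipotent subgroups cut out by linear functionals.
-/
import Mathlib
import Cfsg.Agent.Lib.KS71.BTFun

set_option autoImplicit false
set_option linter.unusedSectionVars false
set_option linter.unusedVariables false

namespace Cfsg.Agent.Lib.KS71.BTInter

open Cfsg Cfsg.Lie Cfsg.Lie.ChevalleyDatum
open Cfsg.Agent.Lib.Chev.Tables Cfsg.Agent.Lib.Chev.Tables2 Cfsg.Agent.Lib.Chev.Tables3 Cfsg.Agent.Lib.Chev.Raise
open Cfsg.Agent.Lib.Chev.Basic Cfsg.Agent.Lib.Chev.AxBasic Cfsg.Agent.Lib.Chev.Torus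
open Cfsg.Agent.Lib.Chev.Products Cfsg.Agent.Lib.Chev.Products2 Cfsg.Agent.Lib.Chev.Mono1
open Cfsg.Agent.Lib.Chev.Mono2 Cfsg.Agent.Lib.Chev.Mono3 Cfsg.Agent.Lib.Chev.Bn
open Cfsg.Agent.Lib.Chev.Order1 Cfsg.Agent.Lib.Chev.Order2 Cfsg.Agent.Lib.Chev.Parab
open Cfsg.Agent.Lib.KS71.StWeyl Cfsg.Agent.Lib.KS71.StCell Cfsg.Agent.Lib.KS71.BTFun

variable {D : ChevalleyDatum} {F : Type*} [Field F]
variable (h : Tab D) (h2 : Tab2 D) (ax : Ax D F)

/-- Sets of positive roots closed under the commutator formula. -/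
structure GP (D : ChevalleyDatum) (P : ℕ → Prop) : Prop where
  pos : ∀ r, P r → D.IsPosRoot r
  closed : ∀ r s, P r → P s → r < s → ∀ c ∈ D.commTerms r s, P c.1

open Classical in
/-- The list of the positive roots in a set. -/
noncomputable def LP (D : ChevalleyDatum) (P : ℕ → Prop) : List ℕ := D.posRoots.filter fun r => decide (P r)

lemma mem_LP {P : ℕ → Prop} (hP : GP D P) {r : ℕ} : r ∈ LP D P ↔ P r := by
  simp only [LP, List.mem_filter, decide_eq_true_eq]
  exact ⟨fun h => h.2, fun h => ⟨mem_posRoots.mpr (hP.pos r h), h⟩⟩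

include h in
lemma goodList_LP {P : ℕ → Prop} (hP : GP D P) : GoodList D (LP D P) where
  sorted := (goodList_posRoots h).sorted.filter _
  pos := fun r hr => hP.pos r ((mem_LP hP).mp hr)
  closed := by
    intro r hr s hs hrs c hc
    rw [mem_LP hP] at hr hs ⊢
    exact hP.closed r s hr hs hrs c hc

lemma rootClosure_LP {P : ℕ → Prop} (hP : GP D P) : rootClosure ax (· ∈ LP D P) = rootClosure ax P := by
  congr 1
  funext r
  exact propext (mem_LP hP)

lemma wordL_filter (L : List ℕ) (p : ℕ → Bool) (t : ℕ → F) :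
    wordL ax (L.filter p) t = wordL ax L (fun r => if p r then t r else 0) := by
  induction L with
  | nil => rfl
  | cons a L ih =>
    by_cases hp : p a
    · rw [List.filter_cons_of_pos hp, wordL_cons, wordL_cons, ih]
      simp [hp]
    · rw [List.filter_cons_of_neg hp, wordL_cons, ih]
      simp [hp]

include h in
lemma exists_normal {P : ℕ → Prop} (hP : GP D P) {u : GL D.Idx F} (hu : u ∈ rootClosure ax P) :
    ∃ t : ℕ → F, u = wordL ax D.posRoots t ∧ ∀ r, ¬ P r → t r = 0 := by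
  classical
  rw [← rootClosure_LP ax hP] at hu
  obtain ⟨t, rfl⟩ := exists_wordL ax h (goodList_LP h hP) hu
  refine ⟨fun r => if P r then t r else 0, ?_, fun r hr => by simp [hr]⟩
  rw [LP, wordL_filter]
  simp

include h h2 in
/-- The intersection of two closed sets of positive roots. -/
theorem inter_GP {P P' : ℕ → Prop} (hP : GP D P) (hP' : GP D P') {u : GL D.Idx F} (hu : u ∈ rootClosure ax P)
    (hu' : u ∈ rootClosure ax P') : u ∈ rootClosure ax (fun r => P r ∧ P' r) := by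
  classical
  obtain ⟨t, e, ht⟩ := exists_normal h ax hP hu
  obtain ⟨t', e', ht'⟩ := exists_normal h ax hP' hu'
  have he := wordL_inj ax h h2 (goodList_posRoots h) (e.symm.trans e')
  rw [e]
  have e2 : wordL ax D.posRoots t = wordL ax (D.posRoots.filter fun r => decide (P r ∧ P' r)) t := by
    rw [wordL_filter]
    apply wordL_congr
    intro r hr
    by_cases h3 : P r ∧ P' r
    · simp [h3]
    · have : t r = 0 := by
        by_contra hne
        apply h3
        constructor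
        · by_contra hn
          exact hne (ht r hn)
        · by_contra hn
          exact hne (by rw [he r hr, ht' r hn])
      simp [h3, this]
  rw [e2]
  refine rootClosure_mono ax ?_ (wordL_mem ax t)
  intro r hr
  simp only [List.mem_filter, decide_eq_true_eq] at hr
  exact hr.2

lemma GP.and {P P' : ℕ → Prop} (hP : GP D P) (hP' : GP D P') : GP D (fun r => P r ∧ P' r) where
  pos := fun r hr => hP.pos r hr.1
  closed := fun r s hr hs hrs c hc =>
    ⟨hP.closed r s hr.1 hs.1 hrs c hc, hP'.closed r s hr.2 hs.2 hrs c hc⟩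

include h in
lemma GP_Pp {l : List ℕ} (hl : ∀ i ∈ l, i < D.rank) : GP D (Pp D l) where
  pos := fun r hr => hr.1
  closed := fun r s hr hs hrs c hc =>
    mem_Lp.mp ((goodList_Lp h hl).closed r (mem_Lp.mpr hr) s (mem_Lp.mpr hs) hrs c hc)

include h in
/-- Levels of the terms of the commutator formula. -/
lemma fl_term (v : ℕ → ℝ) {a : ℝ} (ha : 0 < a) {r s : ℕ} (hr : r < D.nroots) (hs : s < D.nroots)
    (hr' : a ≤ fl D v r) (hs' : a ≤ fl D v s) {c : ℕ × ℤ × ℕ × ℕ} (hc : c ∈ D.commTerms r s) :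
    clP D v a c.1 := by
  obtain ⟨hlt, hi, hj, hv⟩ := commTerms_spec h hr hs hc
  refine ⟨hlt, ?_⟩
  rw [fl_comb h v (a := c.2.2.1) (b := c.2.2.2) hv]
  have h3 : (1 : ℝ) ≤ ((c.2.2.1 : ℤ) : ℝ) := by exact_mod_cast hi
  have h4 : (1 : ℝ) ≤ ((c.2.2.2 : ℤ) : ℝ) := by exact_mod_cast hj
  nlinarith

include h in
lemma GP_clP {v : ℕ → ℝ} (hv : Dom D v) {a : ℝ} (ha : 0 < a) : GP D (clP D v a) where
  pos := fun r hr => clP_pos h hv ha hr
  closed := fun r s hr hs _ c hc => fl_term h v ha hr.1 hs.1 hr.2 hs.2 hc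

include h in
lemma GP_pos_clP (v : ℕ → ℝ) {a : ℝ} (ha : 0 < a) : GP D (fun r => D.IsPosRoot r ∧ clP D v a r) where
  pos := fun r hr => hr.1
  closed := fun r s hr hs _ c hc =>
    ⟨commTerms_pos h hr.1 hs.1 hc, fl_term h v ha hr.2.1 hs.2.1 hr.2.2 hs.2.2 hc⟩

section conj
include h h2

lemma conj_up {l : List ℕ} (hl : ∀ i ∈ l, i < D.rank) (v : ℕ → ℝ) (a : ℝ) {u : GL D.Idx F}
    (hu : u ∈ rootClosure ax (clP D (wAct D l v) a)) :
    nw D ax l * u * (nw D ax l)⁻¹ ∈ rootClosure ax (clP D v a) := by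
  refine conj_mem_of_gen ax ?_ hu
  rintro r t ⟨hr, hf⟩
  obtain ⟨t', e⟩ := nw_conj_xG h h2 ax hl hr t
  rw [e]
  exact xG_mem_rootClosure ax ⟨wWord_lt h hl hr, by rw [fl_wWord h l hl v hr]; exact hf⟩ t'

lemma conj_down {l : List ℕ} (hl : ∀ i ∈ l, i < D.rank) (v : ℕ → ℝ) (a : ℝ) {u : GL D.Idx F}
    (hu : u ∈ rootClosure ax (clP D v a)) :
    (nw D ax l)⁻¹ * u * nw D ax l ∈ rootClosure ax (clP D (wAct D l v) a) := by
  obtain ⟨c, hc⟩ := exists_isNor_nw h h2 ax hl
  have key : (nw D ax l)⁻¹ * u * (nw D ax l)⁻¹⁻¹ ∈ rootClosure ax (clP D (wAct D l v) a) := by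
    refine conj_mem_of_gen ax ?_ hu
    rintro r t ⟨hr, hf⟩
    set s : Fin D.nroots := (wPw h l)⁻¹ ⟨r, hr⟩ with hs
    have e1 : wPw h l s = ⟨r, hr⟩ := by simp [hs]
    have e2 := hc.conj s (((c s : Fˣ)⁻¹ : Fˣ) * t)
    have e3 : (c s : F) * (((c s : Fˣ)⁻¹ : Fˣ) * t) = t := by
      rw [Units.val_inv_eq_inv_val]
      have := (c s).ne_zero
      field_simp
    rw [e3, e1] at e2
    have e4 : (nw D ax l)⁻¹ * xG ax r t * (nw D ax l)⁻¹⁻¹ = xG ax s (((c s : Fˣ)⁻¹ : Fˣ) * t) := by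
      have e5 : xG ax r t = nw D ax l * xG ax s (((c s : Fˣ)⁻¹ : Fˣ) * t) * (nw D ax l)⁻¹ := e2.symm
      rw [e5]
      group
    rw [e4]
    refine xG_mem_rootClosure ax ⟨s.isLt, ?_⟩ _
    rw [← fl_wWord h l hl v s.isLt, ← wPw_val h hl s, e1]
    exact hf
  simpa using key

end conj

section borel
include h

lemma xG_conj_clP {v : ℕ → ℝ} (hv : Dom D v) {a : ℝ} (ha : 0 < a) {s : ℕ} (hs : D.IsPosRoot s) (t : F)
    {u : GL D.Idx F} (hu : u ∈ rootClosure ax (clP D v a)) :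
    (xG ax s t)⁻¹ * u * xG ax s t ∈ rootClosure ax (clP D v a) := by
  have key : (xG ax s t)⁻¹ * u * (xG ax s t)⁻¹⁻¹ ∈ rootClosure ax (clP D v a) := by
    refine conj_mem_of_gen ax ?_ hu
    intro r w hr
    have hrP := clP_pos h hv ha hr
    by_cases hrs : r = s
    · subst hrs
      have : (xG ax r t)⁻¹ * xG ax r w * (xG ax r t)⁻¹⁻¹ = xG ax r w := by
        rw [inv_inv, xG_inv, xG_add, xG_add]
        congr 1
        ring
      rw [this]
      exact xG_mem_rootClosure ax hr w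
    · have hneg : r ≠ D.neg s := by
        intro he
        rw [he] at hrP
        exact not_isNeg_of_isPos h hrP ((isNegRoot_neg h hs.1).mpr hs)
      have e := xG_comm ax hs.1 hrP.1 hrs hneg t w
      have e2 : (xG ax s t)⁻¹ * xG ax r w * (xG ax s t)⁻¹⁻¹ = xG ax r w * wordG ax (D.commWord F s r t w) := by
        rw [inv_inv, mul_assoc, e]; group
      rw [e2]
      refine Subgroup.mul_mem _ (xG_mem_rootClosure ax hr w) ?_
      apply wordG_mem_rootClosure
      intro p hp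
      obtain ⟨hp0, i, j, hi, hj, hpv⟩ := commWord_spec h hs.1 hrP.1 hp
      refine ⟨hp0, ?_⟩
      rw [fl_comb h v (a := i) (b := j) hpv]
      have h3 := fl_nonneg_of_Dom h hv hs
      have h4 := hr.2
      have h5 : (0 : ℝ) ≤ ((i : ℤ) : ℝ) := by positivity
      have h6 : (1 : ℝ) ≤ ((j : ℤ) : ℝ) := by exact_mod_cast hj
      nlinarith [mul_nonneg h5 h3]
  simpa using key

lemma borel_le_nor {v : ℕ → ℝ} (hv : Dom D v) {a : ℝ} (ha : 0 < a) :
    D.borelSubgroup F ≤ Subgroup.normalizer (rootClosure ax (clP D v a) : Set (GL D.Idx F)) := by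
  apply sup_le
  · rw [posUnipotent_eq ax]
    apply rootClosure_le
    intro s t hs
    apply mem_normalizer_of_conj
    · intro u hu
      have := xG_conj_clP h ax hv ha hs (-t) hu
      rw [xG_inv, neg_neg, ← xG_inv ax s t] at this
      exact this
    · intro u hu
      exact xG_conj_clP h ax hv ha hs t hu
  · exact diagonal_le_normalizer ax h (fun r hr => hr.1)

lemma borel_conj {v : ℕ → ℝ} (hv : Dom D v) {a : ℝ} (ha : 0 < a) {b u : GL D.Idx F} (hb : b ∈ D.borelSubgroup F)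
    (hu : u ∈ rootClosure ax (clP D v a)) : b * u * b⁻¹ ∈ rootClosure ax (clP D v a) :=
  (Subgroup.mem_normalizer_iff.mp (borel_le_nor h ax hv ha hb) u).mp hu

lemma clP_le_U {v : ℕ → ℝ} (hv : Dom D v) {a : ℝ} (ha : 0 < a) :
    rootClosure ax (clP D v a) ≤ D.posUnipotent F := by
  rw [posUnipotent_eq ax]
  exact rootClosure_mono ax fun r hr => clP_pos h hv ha hr

/-- For a dominant weight, `𝔘(v, a)` lies in the unipotent radical. -/
lemma clP_le_radical {v : ℕ → ℝ} (hv : Dom D v) {a : ℝ} (ha : 0 < a) (h2 : Tab2 D) :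
    rootClosure ax (clP D v a) ≤ D.unipotentRadical F {j | j < D.rank ∧ v j = 0} := by
  rw [unipotentRadical_eq h h2 ax]
  apply rootClosure_mono ax
  intro r hr
  exact ⟨clP_pos h hv ha hr, not_inRootSub_of_fl_pos h hr.1 (lt_of_lt_of_le ha hr.2)⟩

end borel

include h h2 in
/-- Elements of `U` conjugated into `U` by `n_w` lie in `U ∩ U^{n_w}`. -/
lemma mem_Pp_of_conj [Finite F] {l : List ℕ} (hl : ∀ i ∈ l, i < D.rank) {u : GL D.Idx F}
    (hu : u ∈ D.posUnipotent F) (hn : nw D ax l * u * (nw D ax l)⁻¹ ∈ D.posUnipotent F) :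
    u ∈ rootClosure ax (Pp D l) := by
  obtain ⟨a, ha, b, hb, rfl⟩ := U_factor h h2 ax hl hu
  have h3 := conj_Um h h2 ax hl ha
  have h4 := conj_Up h h2 ax hl hb
  have e : nw D ax l * a * (nw D ax l)⁻¹ =
      (nw D ax l * (a * b) * (nw D ax l)⁻¹) * (nw D ax l * b * (nw D ax l)⁻¹)⁻¹ := by group
  have h5 : nw D ax l * a * (nw D ax l)⁻¹ ∈ D.borelSubgroup F := by
    rw [e]
    exact (le_sup_left : D.posUnipotent F ≤ _) (Subgroup.mul_mem _ hn (Subgroup.inv_mem _ h4))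
  have h6 := eq_one_of_conj_mem h h2 ax h3 h5
  rw [h6, one_mul]
  exact hb

include h h2 in
/-- The key property: elements in `𝔘(v₁, a)` and in `𝔘(v₃, a)` lie in the closure of the common roots. -/
theorem inter_main [Finite F] {v₁ v₃ : ℕ → ℝ} {l : List ℕ} (hl : ∀ i ∈ l, i < D.rank) (hv₁ : Dom D v₁)
    (hv₂ : Dom D (wAct D l v₃)) {a : ℝ} (ha : 0 < a) {u : GL D.Idx F} (h1 : u ∈ rootClosure ax (clP D v₁ a))
    (h3 : (nw D ax l)⁻¹ * u * nw D ax l ∈ rootClosure ax (clP D (wAct D l v₃) a)) :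
    u ∈ rootClosure ax (fun r => r < D.nroots ∧ a ≤ fl D v₁ r ∧ a ≤ fl D v₃ r) := by
  set u' := (nw D ax l)⁻¹ * u * nw D ax l with hu'
  have hu'U : u' ∈ D.posUnipotent F := clP_le_U h ax hv₂ ha h3
  have huU : u ∈ D.posUnipotent F := clP_le_U h ax hv₁ ha h1
  have e : nw D ax l * u' * (nw D ax l)⁻¹ = u := by rw [hu']; group
  have h4 : u' ∈ rootClosure ax (Pp D l) := mem_Pp_of_conj h h2 ax hl hu'U (by rw [e]; exact huU)
  have h5 := inter_GP h h2 ax (GP_Pp h hl) (GP_clP h hv₂ ha) h4 h3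
  have h6 : nw D ax l * u' * (nw D ax l)⁻¹ ∈ rootClosure ax (fun s => D.IsPosRoot s ∧ clP D v₃ a s) := by
    refine conj_mem_of_gen ax ?_ h5
    rintro r t ⟨⟨hr, hwr⟩, hr0, hf⟩
    obtain ⟨t', e'⟩ := nw_conj_xG h h2 ax hl hr0 t
    rw [e']
    exact xG_mem_rootClosure ax ⟨hwr, wWord_lt h hl hr0, by rw [fl_wWord h l hl v₃ hr0]; exact hf⟩ t'
  rw [e] at h6
  have h7 := inter_GP h h2 ax (GP_pos_clP h v₃ ha) (GP_clP h hv₁ ha) h6 h1
  refine rootClosure_mono ax ?_ h7
  rintro r ⟨⟨-, -, h8⟩, h9, h10⟩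
  exact ⟨h9, h10, h8⟩

end Cfsg.Agent.Lib.KS71.BTInter
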