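/-
The Borel–Tits theorem for the Chevalley groups, by optimising a linear functional on the roots.
-/
import Mathlib
import Cfsg.Agent.Lib.KS71.BTInter
import Cfsg.Agent.Lib.KS71.ChevInv

set_option autoImplicit false
set_option linter.unusedSectionVars false
set_option linter.unusedVariables false

namespace Cfsg.Agent.Lib.KS71.BTMain

open Cfsg Cfsg.Lie Cfsg.Lie.ChevalleyDatum
open Cfsg.Agent.Lib.Chev.Tables Cfsg.Agent.Lib.Chev.Tables2 Cfsg.Agent.Lib.Chev.Tables3 Cfsg.Agent.Lib.Chev.Raise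
open Cfsg.Agent.Lib.Chev.Basic Cfsg.Agent.Lib.Chev.AxBasic Cfsg.Agent.Lib.Chev.Torus
open Cfsg.Agent.Lib.Chev.Products Cfsg.Agent.Lib.Chev.Products2 Cfsg.Agent.Lib.Chev.Mono1
open Cfsg.Agent.Lib.Chev.Mono2 Cfsg.Agent.Lib.Chev.Mono3 Cfsg.Agent.Lib.Chev.Bn
open Cfsg.Agent.Lib.Chev.Order1 Cfsg.Agent.Lib.Chev.Order2 Cfsg.Agent.Lib.Chev.Parab
open Cfsg.Agent.Lib.KS71.StWeyl Cfsg.Agent.Lib.KS71.StCell Cfsg.Agent.Lib.KS71.BTFun Cfsg.Agent.Lib.KS71.BTInter

variable {D : ChevalleyDatum} {F : Type*} [Field F]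
variable (h : Tab D) (h2 : Tab2 D) (ax : Ax D F)

/-- A solution: the subset `R`, conjugated by `g`, lies in the subgroup cut out by `v` at level `Q(v)`. -/
def Sol (ax : Ax D F) (R : Set (GL D.Idx F)) (g : GL D.Idx F) (v : ℕ → ℝ) : Prop :=
  (∃ i, i < D.rank ∧ v i ≠ 0) ∧ ∀ u ∈ R, g⁻¹ * u * g ∈ rootClosure ax (clP D v (Qf D v))

lemma exists_of_ne_one {P : ℕ → Prop} {u : GL D.Idx F} (hu : u ∈ rootClosure ax P) (hne : u ≠ 1) : ∃ r, P r := by
  by_contra hn
  push Not at hn
  have : rootClosure ax P = ⊥ := by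
    rw [eq_bot_iff]
    apply rootClosure_le
    intro r t hr
    exact (hn r hr).elim
  rw [this, Subgroup.mem_bot] at hu
  exact hne hu

lemma exists_ne_of_Qf_pos {v : ℕ → ℝ} (hQ : 0 < Qf D v) : ∃ i, i < D.rank ∧ v i ≠ 0 := by
  by_contra hn
  push Not at hn
  have e : Qf D v = Qf D (fun _ => 0) := Qf_congr hn
  have e2 : Qf D (fun _ => (0 : ℝ)) = 0 := by
    simp [Qf, fl]
  rw [e, e2] at hQ
  exact lt_irrefl _ hQ

lemma conj_ne_one {g u : GL D.Idx F} (hu : u ≠ 1) : g⁻¹ * u * g ≠ 1 := by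
  intro he
  apply hu
  have : u = g * (g⁻¹ * u * g) * g⁻¹ := by group
  rw [this, he]
  group

/-- Rescaling. -/
lemma rescale {R : Set (GL D.Idx F)} (hR : ∃ u ∈ R, u ≠ 1) {g : GL D.Idx F} {v : ℕ → ℝ} {a : ℝ} (ha : 0 < a)
    (hg : ∀ u ∈ R, g⁻¹ * u * g ∈ rootClosure ax (clP D v a)) :
    0 < Qf D v ∧ Sol ax R g (fun i => (a / Qf D v) * v i) ∧
      Qf D (fun i => (a / Qf D v) * v i) = a ^ 2 / Qf D v := by
  obtain ⟨u₀, hu₀, hne⟩ := hR
  obtain ⟨r, hr⟩ := exists_of_ne_one ax (hg u₀ hu₀) (conj_ne_one hne)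
  have hQ : 0 < Qf D v := by
    have h3 := fl_sq_le hr.1 v
    have h4 := hr.2
    nlinarith
  have e : Qf D (fun i => (a / Qf D v) * v i) = a ^ 2 / Qf D v := by
    rw [Qf_smul]
    field_simp
  have hQ' : 0 < Qf D (fun i => (a / Qf D v) * v i) := by
    rw [e]
    positivity
  refine ⟨hQ, ⟨exists_ne_of_Qf_pos hQ', ?_⟩, e⟩
  intro u hu
  refine rootClosure_mono ax ?_ (hg u hu)
  rintro s ⟨hs, hf⟩
  refine ⟨hs, ?_⟩
  rw [fl_smul, e]
  have h3 : a ^ 2 / Qf D v = (a / Qf D v) * a := by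
    field_simp
  rw [h3]
  exact mul_le_mul_of_nonneg_left hf (by positivity)

/-! ### The maximum -/

lemma continuous_fl (r : ℕ) : Continuous fun v : ℕ → ℝ => fl D v r := by
  unfold fl
  exact continuous_finset_sum _ fun i _ => (continuous_apply i).mul continuous_const

lemma continuous_Qf : Continuous fun v : ℕ → ℝ => Qf D v := by
  unfold Qf
  exact continuous_finset_sum _ fun r _ => (continuous_fl r).pow 2

/-- Truncation of weights. -/
noncomputable def trunc (D : ChevalleyDatum) (v : ℕ → ℝ) (i : ℕ) : ℝ := if i < D.rank then v i else 0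

lemma trunc_eq (v : ℕ → ℝ) {i : ℕ} (hi : i < D.rank) : trunc D v i = v i := by simp [trunc, hi]

/-- The cube. -/
def cube (D : ChevalleyDatum) : Set (ℕ → ℝ) :=
  Set.pi Set.univ fun i => if i < D.rank then Set.Icc (-1 : ℝ) 1 else {0}

lemma isCompact_cube : IsCompact (cube D) := by
  apply isCompact_univ_pi
  intro i
  split_ifs
  · exact isCompact_Icc
  · exact isCompact_singleton

/-- The compact set of candidates for a set of roots. -/
def cand (D : ChevalleyDatum) (S : Finset ℕ) : Set (ℕ → ℝ) := cube D ∩ {v | ∀ r ∈ S, Qf D v ≤ fl D v r}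

lemma isCompact_cand (S : Finset ℕ) : IsCompact (cand D S) := by
  apply isCompact_cube.inter_right
  have : {v : ℕ → ℝ | ∀ r ∈ S, Qf D v ≤ fl D v r} = ⋂ r ∈ S, {v | Qf D v ≤ fl D v r} := by
    ext v
    simp
  rw [this]
  exact isClosed_biInter fun r _ => isClosed_le continuous_Qf (continuous_fl r)

include h in
/-- Bounds for weights. -/
lemma trunc_mem_cand {v : ℕ → ℝ} {S : Finset ℕ} (hS : S.Nonempty) (hS0 : ∀ r ∈ S, r < D.nroots)
    (hv : ∀ r ∈ S, Qf D v ≤ fl D v r) : trunc D v ∈ cand D S := by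
  obtain ⟨r, hr⟩ := hS
  have h3 := fl_sq_le (hS0 r hr) v
  have h4 := hv r hr
  have h5 : Qf D v ≤ 1 := by nlinarith [Qf_nonneg (D := D) v]
  have e1 : ∀ s, fl D (trunc D v) s = fl D v s := fun s => fl_congr (fun i hi => trunc_eq v hi) s
  have e2 : Qf D (trunc D v) = Qf D v := Qf_congr (fun i hi => trunc_eq v hi)
  refine ⟨?_, ?_⟩
  · intro i _
    by_cases hi : i < D.rank
    · simp only [hi, if_true, trunc]
      have h6 := fl_sq_le (h.simple_lt i hi) v
      rw [fl_simple h v hi] at h6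
      rw [Set.mem_Icc]
      constructor <;> nlinarith
    · simp [hi, trunc]
  · intro s hs
    show Qf D (trunc D v) ≤ fl D (trunc D v) s
    rw [e1, e2]
    exact hv s hs

include h in
theorem exists_max_sol [Finite F] {R : Set (GL D.Idx F)} (hR : ∃ u ∈ R, u ≠ 1)
    (hex : ∃ g ∈ D.group F, ∃ v, Sol ax R g v) :
    ∃ g ∈ D.group F, ∃ v, Sol ax R g v ∧ ∀ g' ∈ D.group F, ∀ v', Sol ax R g' v' → Qf D v' ≤ Qf D v := by
  classical
  let SS : Finset (Finset ℕ) := (Finset.range D.nroots).powerset.filter fun S =>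
    S.Nonempty ∧ ∃ g ∈ D.group F, ∀ u ∈ R, g⁻¹ * u * g ∈ rootClosure ax (· ∈ S)
  let CC : Set (ℕ → ℝ) := ⋃ S ∈ SS, cand D S
  have hCC : IsCompact CC := SS.isCompact_biUnion fun S _ => isCompact_cand S
  have key : ∀ g' ∈ D.group F, ∀ v', Sol ax R g' v' → trunc D v' ∈ CC := by
    intro g' hg' v' hs
    let S := (Finset.range D.nroots).filter fun r => Qf D v' ≤ fl D v' r
    have hSS : S ∈ SS := by
      simp only [SS, Finset.mem_filter, Finset.mem_powerset]
      refine ⟨Finset.filter_subset _ _, ?_, g', hg', ?_⟩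
      · obtain ⟨u₀, hu₀, hne⟩ := hR
        obtain ⟨r, hr⟩ := exists_of_ne_one ax (hs.2 u₀ hu₀) (conj_ne_one hne)
        exact ⟨r, Finset.mem_filter.mpr ⟨Finset.mem_range.mpr hr.1, hr.2⟩⟩
      · intro u hu
        refine rootClosure_mono ax ?_ (hs.2 u hu)
        rintro r ⟨h3, h4⟩
        exact Finset.mem_filter.mpr ⟨Finset.mem_range.mpr h3, h4⟩
    refine Set.mem_biUnion hSS (trunc_mem_cand h ?_ ?_ ?_)
    · obtain ⟨u₀, hu₀, hne⟩ := hR
      obtain ⟨r, hr⟩ := exists_of_ne_one ax (hs.2 u₀ hu₀) (conj_ne_one hne)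
      exact ⟨r, Finset.mem_filter.mpr ⟨Finset.mem_range.mpr hr.1, hr.2⟩⟩
    · intro r hr
      exact Finset.mem_range.mp (Finset.mem_filter.mp hr).1
    · intro r hr
      exact (Finset.mem_filter.mp hr).2
  obtain ⟨g₀, hg₀, v₀, hv₀⟩ := hex
  obtain ⟨vs, hvs, hmax⟩ := hCC.exists_isMaxOn ⟨_, key g₀ hg₀ v₀ hv₀⟩ (continuous_Qf (D := D)).continuousOn
  have hQ0 : 0 < Qf D v₀ := by
    obtain ⟨i, hi, hne⟩ := hv₀.1
    exact Qf_pos_of_ne h v₀ hi hne
  have htr : ∀ v', Qf D (trunc D v') = Qf D v' := fun v' => Qf_congr (fun i hi => trunc_eq v' hi)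
  have hle : ∀ g' ∈ D.group F, ∀ v', Sol ax R g' v' → Qf D v' ≤ Qf D vs := by
    intro g' hg' v' hs
    have : Qf D (trunc D v') ≤ Qf D vs := hmax (key g' hg' v' hs)
    rwa [htr] at this
  obtain ⟨S, hS, hvS⟩ := Set.mem_iUnion₂.mp hvs
  simp only [SS, Finset.mem_filter, Finset.mem_powerset] at hS
  obtain ⟨hS0, -, g, hg, hgR⟩ := hS
  refine ⟨g, hg, vs, ⟨exists_ne_of_Qf_pos (lt_of_lt_of_le hQ0 (hle g₀ hg₀ v₀ hv₀)), ?_⟩, hle⟩
  intro u hu
  refine rootClosure_mono ax ?_ (hgR u hu)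
  intro r hr
  exact ⟨Finset.mem_range.mp (hS0 hr), hvS.2 r hr⟩

/-! ### Dominance -/

include h h2 ax in
/-- Every weight is conjugate to a dominant one. -/
theorem exists_dom (v : ℕ → ℝ) : ∃ l : List ℕ, (∀ i ∈ l, i < D.rank) ∧ Dom D (wAct D l v) := by
  classical
  let A : Finset (Fin D.nroots) := Finset.univ.filter fun r => D.IsPosRoot r
  let φ : Equiv.Perm (Fin D.nroots) → ℝ := fun w => ∑ r ∈ A, fl D v (w r)
  obtain ⟨w, hw, hmax⟩ := Finset.exists_max_image (Wc h) φ ⟨1, (mem_Wc h).mpr (Subgroup.one_mem _)⟩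
  have hw' := (mem_Wc h).mp hw
  obtain ⟨l, hl, rfl⟩ := (mem_Wp_iff h).mp hw'
  have hl' : ∀ i ∈ l, i < D.rank := fun i hi => hl i hi
  refine ⟨l, hl', ?_⟩
  intro k hk
  have e0 : ∀ s : Fin D.nroots, fl D v (wPw h l s) = fl D (wAct D l v) s := by
    intro s
    rw [wPw_val h hl' s]
    exact fl_wWord h l hl' v s.isLt
  have hmem : wPw h l * wP h k ∈ Wc h := (mem_Wc h).mpr (Subgroup.mul_mem _ hw' (wP_mem_W h hk))
  have hle := hmax _ hmem
  -- compare the sums
  set v' := wAct D l v with hv'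
  set p : Fin D.nroots := sr h hk with hp
  have hpA : p ∈ A := Finset.mem_filter.mpr ⟨Finset.mem_univ _, sr_isPos h hk⟩
  have e1 : φ (wPw h l) = fl D v' p + ∑ r ∈ A.erase p, fl D v' r := by
    show ∑ r ∈ A, fl D v (wPw h l r) = _
    rw [Finset.sum_congr rfl (fun r _ => e0 r), Finset.add_sum_erase A (fun r => fl D v' (r : ℕ)) hpA]
  have e2 : φ (wPw h l * wP h k) = fl D v' (negF h p) + ∑ r ∈ A.erase p, fl D v' r := by
    show ∑ r ∈ A, fl D v ((wPw h l * wP h k) r) = _
    have : ∀ r ∈ A, fl D v ((wPw h l * wP h k) r) = fl D v' (wP h k r) := by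
      intro r _
      rw [Equiv.Perm.mul_apply, e0]
    rw [Finset.sum_congr rfl this, ← Finset.add_sum_erase A (fun r => fl D v' (wP h k r : ℕ)) hpA]
    congr 1
    · show fl D v' (wP h k p) = _
      rw [hp, wP_sr h hk]
    · apply Finset.sum_equiv (wP h k)
      · intro r
        simp only [Finset.mem_erase, A, Finset.mem_filter, Finset.mem_univ, true_and]
        constructor
        · rintro ⟨hne, hpos⟩
          refine ⟨?_, ?_⟩
          · intro he
            have h3 : wP h k (wP h k r) = wP h k p := by rw [he]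
            have h4 : wP h k (wP h k r) = r := by
              rw [← Equiv.Perm.mul_apply, wP_mul_self]
              rfl
            rw [h4, hp, wP_sr h hk] at h3
            rw [h3] at hpos
            exact ((isPos_negF_iff h _).mp hpos) (sr_isPos h hk)
          · rw [wP_of_lt h hk]
            have hne' : (r : ℕ) ≠ D.simple k := fun he => hne (Fin.ext he)
            have := isPos_reflect h h2 hk hpos hne'
            rw [wF_val]
            exact this
        · rintro ⟨hne, hpos⟩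
          have hne2 : (wP h k r : ℕ) ≠ D.simple k := fun he => hne (Fin.ext he)
          rw [wP_of_lt h hk] at hpos hne2
          have hr0 := isPos_reflect h h2 hk hpos hne2
          rw [wF_val, reflect_reflect h hk r.isLt] at hr0
          refine ⟨?_, hr0⟩
          intro he
          rw [he] at hpos
          apply (isPos_negF_iff h p).mp _ (sr_isPos h hk)
          have e6 := wP_sr h hk
          rw [wP_of_lt h hk] at e6
          rw [hp]
          rw [← e6]
          exact hpos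
      · intro r hr
        rfl
  have e3 : fl D v' (negF h p) = - fl D v' p := fl_neg h v' p.isLt
  have e4 : fl D v' p = v' k := fl_simple h v' hk
  rw [e1, e2, e3, e4] at hle
  linarith

/-! ### Stabilisers of dominant weights -/

include h h2 ax in
/-- The stabiliser of a dominant weight in the Weyl group is generated by reflections in the simple roots where
the weight vanishes. -/
theorem mem_Wp_of_fix {v : ℕ → ℝ} (hv : Dom D v) (n : ℕ) :
    ∀ w ∈ Wp h (Set.Iio D.rank), Nw D w ≤ n → (∀ r : Fin D.nroots, fl D v (w r) = fl D v r) →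
      w ∈ Wp h {j | j < D.rank ∧ v j = 0} := by
  induction n with
  | zero =>
    intro w hw hn _
    have := eq_one_of_Nw_eq_zero h h2 ax hw (by omega)
    rw [this]
    exact Subgroup.one_mem _
  | succ n ih =>
    intro w hw hn hfix
    by_cases hp : PosOn h w (Set.Iio D.rank)
    · have := eq_one_of_PosOn h h2 ax (fun j hj => hj) hw hp
      rw [this]
      exact Subgroup.one_mem _
    · simp only [PosOn] at hp
      push Not at hp
      obtain ⟨k, hk, -, hneg⟩ := hp
      have h3 : fl D v (w (sr h hk)) = v k := by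
        rw [hfix, sr, fl_simple h v hk]
      have h4 : fl D v (w (sr h hk)) ≤ 0 := by
        have hneg' : D.IsPosRoot (negF h (w (sr h hk))) := (isPos_negF_iff h _).mpr hneg
        have := fl_nonneg_of_Dom h hv hneg'
        rw [show ((negF h (w (sr h hk)) : Fin D.nroots) : ℕ) = D.neg (w (sr h hk)) from rfl, fl_neg h v (w (sr h hk)).isLt] at this
        linarith
      have h0 : v k = 0 := le_antisymm (by linarith) (hv k hk)
      have hlt := Nw_mul_wP_lt h h2 ax hw hk hneg
      have hmem : w * wP h k ∈ Wp h (Set.Iio D.rank) := Subgroup.mul_mem _ hw (wP_mem_W h hk)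
      have hfix' : ∀ r : Fin D.nroots, fl D v ((w * wP h k) r) = fl D v r := by
        intro r
        rw [Equiv.Perm.mul_apply, hfix, wP_of_lt h hk, wF_val, fl_reflect h v hk r.isLt]
        apply fl_congr
        intro j _
        rw [sAct, h0]
        ring
      have h5 := ih _ hmem (by omega) hfix'
      have e : w = (w * wP h k) * wP h k := by
        rw [mul_assoc, wP_mul_self, mul_one]
      rw [e]
      exact Subgroup.mul_mem _ h5 (wP_mem_Wp h ⟨hk, h0⟩ |> fun x => x)

end Cfsg.Agent.Lib.KS71.BTMain
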