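/-
The Borel–Tits theorem for the Chevalley groups: the conclusion.
-/
import Mathlib
import Cfsg.Agent.Lib.KS71.BTMain

set_option autoImplicit false
set_option linter.unusedSectionVars false
set_option linter.unusedVariables false

namespace Cfsg.Agent.Lib.KS71.BTFinal

open Cfsg Cfsg.Lie Cfsg.Lie.ChevalleyDatum
open Cfsg.Agent.Lib.Chev.Tables Cfsg.Agent.Lib.Chev.Tables2 Cfsg.Agent.Lib.Chev.Tables3 Cfsg.Agent.Lib.Chev.Raise
open Cfsg.Agent.Lib.Chev.Basic Cfsg.Agent.Lib.Chev.AxBasic Cfsg.Agent.Lib.Chev.Torus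
open Cfsg.Agent.Lib.Chev.Products Cfsg.Agent.Lib.Chev.Products2 Cfsg.Agent.Lib.Chev.Mono1
open Cfsg.Agent.Lib.Chev.Mono2 Cfsg.Agent.Lib.Chev.Mono3 Cfsg.Agent.Lib.Chev.Bn
open Cfsg.Agent.Lib.Chev.Order1 Cfsg.Agent.Lib.Chev.Order2 Cfsg.Agent.Lib.Chev.Parab
open Cfsg.Agent.Lib.KS71.StWeyl Cfsg.Agent.Lib.KS71.StCell Cfsg.Agent.Lib.KS71.BTFun Cfsg.Agent.Lib.KS71.BTInter
open Cfsg.Agent.Lib.KS71.BTMain

variable {D : ChevalleyDatum} {F : Type*} [Field F]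
variable (h : Tab D) (h2 : Tab2 D) (ax : Ax D F)

include h in
lemma sAct_sAct {i : ℕ} (hi : i < D.rank) (v : ℕ → ℝ) : sAct D i (sAct D i v) = v := by
  funext j
  simp only [sAct]
  rw [h.cartan_self i hi]
  push_cast
  ring

lemma wAct_append (a b : List ℕ) (v : ℕ → ℝ) : wAct D (a ++ b) v = wAct D b (wAct D a v) := by
  induction a generalizing v with
  | nil => rfl
  | cons i a ih =>
    rw [List.cons_append, wAct, wAct, ih]

include h in
lemma wAct_reverse (l : List ℕ) (hl : ∀ i ∈ l, i < D.rank) (v : ℕ → ℝ) : wAct D l (wAct D l.reverse v) = v := by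
  induction l generalizing v with
  | nil => rfl
  | cons i l ih =>
    have hl' : ∀ j ∈ l, j < D.rank := fun j hj => hl j (by simp [hj])
    have hi : i < D.rank := hl i (by simp)
    rw [List.reverse_cons, wAct_append, wAct, wAct, wAct, sAct_sAct h hi, ih hl']

include h h2 in
/-- Two dominant optimal solutions are related by the Weyl group. -/
theorem dom_unique [Finite F] {R : Set (GL D.Idx F)} (hR : ∃ u ∈ R, u ≠ 1) {g₁ g₂ : GL D.Idx F}
    (hg₁ : g₁ ∈ D.group F) (hg₂ : g₂ ∈ D.group F) {v₁ v₂ : ℕ → ℝ} (hs₁ : Sol ax R g₁ v₁) (hs₂ : Sol ax R g₂ v₂)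
    (hd₁ : Dom D v₁) (hd₂ : Dom D v₂) (hQ : Qf D v₂ = Qf D v₁)
    (hmax : ∀ g' ∈ D.group F, ∀ v', Sol ax R g' v' → Qf D v' ≤ Qf D v₁) {l : List ℕ} (hl : ∀ i ∈ l, i < D.rank)
    (hc : g₁⁻¹ * g₂ ∈ cell D F (nw D ax l)) : ∀ r, r < D.nroots → fl D v₁ (wWord D l r) = fl D v₂ r := by
  set m := Qf D v₁ with hm
  have hm0 : 0 < m := by
    obtain ⟨i, hi, hne⟩ := hs₁.1
    exact Qf_pos_of_ne h v₁ hi hne
  obtain ⟨b₁, hb₁, b₂, hb₂, e⟩ := mem_cell.mp hc
  have hlr : ∀ i ∈ l.reverse, i < D.rank := fun i hi => hl i (List.mem_reverse.mp hi)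
  set v₃ := wAct D l.reverse v₂ with hv₃
  have hv₃' : wAct D l v₃ = v₂ := wAct_reverse h l hl v₂
  have hQ3 : Qf D v₃ = m := by rw [hv₃, Qf_wAct h _ hlr, hQ]
  set vh : ℕ → ℝ := fun i => (1 / 2) * (v₁ i + v₃ i) with hvh
  have hg' : g₁ * b₁ ∈ D.group F := Subgroup.mul_mem _ hg₁ (borel_le_group h ax hb₁)
  have key : ∀ u ∈ R, (g₁ * b₁)⁻¹ * u * (g₁ * b₁) ∈ rootClosure ax (clP D vh m) := by
    intro u hu
    have h3 : g₁⁻¹ * u * g₁ ∈ rootClosure ax (clP D v₁ m) := hs₁.2 u hu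
    have h4 : g₂⁻¹ * u * g₂ ∈ rootClosure ax (clP D v₂ m) := by
      have := hs₂.2 u hu
      rwa [hQ] at this
    have h5 : (g₁ * b₁)⁻¹ * u * (g₁ * b₁) ∈ rootClosure ax (clP D v₁ m) := by
      have := borel_conj h ax hd₁ hm0 (Subgroup.inv_mem _ hb₁) h3
      have e2 : b₁⁻¹ * (g₁⁻¹ * u * g₁) * b₁⁻¹⁻¹ = (g₁ * b₁)⁻¹ * u * (g₁ * b₁) := by group
      rwa [e2] at this
    have h6 : (nw D ax l)⁻¹ * ((g₁ * b₁)⁻¹ * u * (g₁ * b₁)) * nw D ax l ∈
        rootClosure ax (clP D (wAct D l v₃) m) := by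
      rw [hv₃']
      have := borel_conj h ax hd₂ hm0 hb₂ h4
      have e1 : g₂ = g₁ * (b₁ * nw D ax l * b₂) := by
        rw [← e]
        group
      have e2 : b₂ * (g₂⁻¹ * u * g₂) * b₂⁻¹ =
          (nw D ax l)⁻¹ * ((g₁ * b₁)⁻¹ * u * (g₁ * b₁)) * nw D ax l := by
        rw [e1]
        group
      rwa [e2] at this
    have h7 := inter_main h h2 ax hl hd₁ (by rw [hv₃']; exact hd₂) hm0 h5 h6
    refine rootClosure_mono ax ?_ h7
    rintro r ⟨h8, h9, h10⟩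
    refine ⟨h8, ?_⟩
    rw [hvh, fl_smul, fl_add]
    linarith
  obtain ⟨hQh, hsol, hQe⟩ := rescale ax hR hm0 key
  have h3 := hmax _ hg' _ hsol
  rw [hQe] at h3
  have hpara := Qf_para (D := D) v₁ v₃
  rw [← hm, hQ3] at hpara
  have h4 : m ^ 2 ≤ m * Qf D vh := by
    rw [div_le_iff₀ hQh] at h3
    exact h3
  have h5 : m ≤ Qf D vh := by
    by_contra hn
    push Not at hn
    nlinarith
  have h6 : Qf D (fun i => v₁ i - v₃ i) = 0 := by
    have h7 := Qf_nonneg (D := D) (fun i => v₁ i - v₃ i)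
    have h8 : Qf D vh = (m + m) / 2 - Qf D (fun i => v₁ i - v₃ i) / 4 := hpara
    linarith
  have h9 : ∀ i, i < D.rank → v₁ i = v₃ i := by
    intro i hi
    have := eq_zero_of_Qf h _ h6 hi
    linarith
  intro r hr
  rw [fl_congr h9, fl_wWord h l hl v₃ hr, hv₃']

include h h2 ax in
/-- A `p`-subgroup is conjugate into `U`. -/
lemma exists_conj_U [Fintype F] (p : ℕ) [Fact p.Prime] [CharP F p] {U : Subgroup (GL D.Idx F)} (hUG : U ≤ D.group F)
    (hU : IsPGroup p ↥U) : ∃ g ∈ D.group F, ∀ u ∈ U, g⁻¹ * u * g ∈ D.posUnipotent F := by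
  obtain ⟨P, hP⟩ := Cfsg.Agent.Lib.KS71.ChevInv.exists_sylow h h2 ax p
  have hpg : IsPGroup p (U.subgroupOf (D.group F)) := hU.of_equiv (Subgroup.subgroupOfEquivOfLe hUG).symm
  obtain ⟨Q, hQ⟩ := hpg.exists_le_sylow
  obtain ⟨y, hy⟩ := MulAction.exists_smul_eq ↥(D.group F) Q P
  refine ⟨(y⁻¹ : ↥(D.group F)), (y⁻¹ : ↥(D.group F)).2, ?_⟩
  intro u hu
  have hg1 : (⟨u, hUG hu⟩ : ↥(D.group F)) ∈ (Q : Subgroup ↥(D.group F)) :=
    hQ (Subgroup.mem_subgroupOf.mpr hu)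
  have hg2 : y * ⟨u, hUG hu⟩ * y⁻¹ ∈ ((y • Q : Sylow p ↥(D.group F)) : Subgroup ↥(D.group F)) := by
    rw [Sylow.coe_subgroup_smul]
    exact Subgroup.smul_mem_pointwise_smul _ (MulAut.conj y) _ hg1
  rw [hy, hP, Subgroup.mem_subgroupOf] at hg2
  simpa using hg2

include h in
lemma one_le_fl_one {r : ℕ} (hr : D.IsPosRoot r) : 1 ≤ fl D (fun _ => 1) r := by
  have h3 := ht_pos h hr
  have h4 : (1 : ℤ) ≤ ht D r := h3
  have e : fl D (fun _ => 1) r = ((ht D r : ℤ) : ℝ) := by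
    simp [fl, ht, lin]
  rw [e]
  exact_mod_cast h4

include h h2 ax in
/-- The Borel–Tits theorem. -/
theorem borel_tits [Fintype F] (p : ℕ) [Fact p.Prime] [CharP F p] (U : Subgroup (GL D.Idx F)) (hUG : U ≤ D.group F)
    (hU : IsPGroup p ↥U) (hne : U ≠ ⊥) :
    ∃ g ∈ D.group F, ∃ J : Set ℕ, (∃ i, i < D.rank ∧ i ∉ J) ∧
      Subgroup.normalizer (U : Set (GL D.Idx F)) ⊓ D.group F ≤ (D.parabolicSubgroup F J).map (MulAut.conj g).toMonoidHom ∧
      U ≤ (D.unipotentRadical F J).map (MulAut.conj g).toMonoidHom := by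
  set R : Set (GL D.Idx F) := (U : Set (GL D.Idx F)) with hRdef
  have hR : ∃ u ∈ R, u ≠ 1 := by
    obtain ⟨a, ha⟩ := Subgroup.ne_bot_iff_exists_ne_one.mp hne
    exact ⟨a.1, a.2, fun he => ha (Subtype.ext he)⟩
  -- existence of a solution
  have hex : ∃ g ∈ D.group F, ∃ v, Sol ax R g v := by
    obtain ⟨g, hg, hgU⟩ := exists_conj_U h h2 ax p hUG hU
    refine ⟨g, hg, _, (rescale ax hR (a := 1) one_pos (v := fun _ => 1) ?_).2.1⟩
    intro u hu
    have := hgU u hu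
    rw [posUnipotent_eq ax] at this
    refine rootClosure_mono ax ?_ this
    intro r hr
    exact ⟨hr.1, one_le_fl_one h hr⟩
  obtain ⟨g₀, hg₀, v₀, hs₀, hmax₀⟩ := exists_max_sol h ax hR hex
  obtain ⟨l, hl, hdom⟩ := exists_dom h h2 ax v₀
  set v := wAct D l v₀ with hv
  have hQv : Qf D v = Qf D v₀ := Qf_wAct h l hl v₀
  have hQ0 : 0 < Qf D v₀ := by
    obtain ⟨i, hi, hne⟩ := hs₀.1
    exact Qf_pos_of_ne h v₀ hi hne
  have hQpos : 0 < Qf D v := by rw [hQv]; exact hQ0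
  set g := g₀ * nw D ax l with hg
  have hgG : g ∈ D.group F := Subgroup.mul_mem _ hg₀ (monomial_le_group h ax (nw_mem_monomial_aux h h2 ax hl))
  have hs : Sol ax R g v := by
    refine ⟨exists_ne_of_Qf_pos hQpos, ?_⟩
    intro u hu
    rw [hQv]
    have := conj_down h h2 ax hl v₀ (Qf D v₀) (hs₀.2 u hu)
    have e : g⁻¹ * u * g = (nw D ax l)⁻¹ * (g₀⁻¹ * u * g₀) * nw D ax l := by
      rw [hg]; group
    rw [e]
    exact this
  have hmax : ∀ g' ∈ D.group F, ∀ v', Sol ax R g' v' → Qf D v' ≤ Qf D v := by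
    intro g' hg' v' hs'
    rw [hQv]
    exact hmax₀ g' hg' v' hs'
  set J : Set ℕ := {j | j < D.rank ∧ v j = 0} with hJdef
  have hJ : ∀ j ∈ J, j < D.rank := fun j hj => hj.1
  refine ⟨g, hgG, J, ?_, ?_, ?_⟩
  · obtain ⟨i, hi, hne⟩ := hs.1
    exact ⟨i, hi, fun hiJ => hne hiJ.2⟩
  · rintro x ⟨hxn, hxG⟩
    have hs2 : Sol ax R (x * g) v := by
      refine ⟨hs.1, ?_⟩
      intro u hu
      have h3 : x⁻¹ * u * x ∈ U := by
        have h4 := (Subgroup.mem_normalizer_iff.mp hxn (x⁻¹ * u * x))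
        apply h4.mpr
        have e : x * (x⁻¹ * u * x) * x⁻¹ = u := by group
        rw [e]
        exact hu
      have e : (x * g)⁻¹ * u * (x * g) = g⁻¹ * (x⁻¹ * u * x) * g := by group
      rw [e]
      exact hs.2 _ h3
    let y : ↥(D.group F) := ⟨g⁻¹ * (x * g), Subgroup.mul_mem _ (Subgroup.inv_mem _ hgG) (Subgroup.mul_mem _ hxG hgG)⟩
    obtain ⟨l', hl', e', hc⟩ := exists_word h h2 ax y
    have hfix := dom_unique h h2 ax hR hgG (Subgroup.mul_mem _ hxG hgG) hs hs2 hdom hdom rfl hmax hl' hc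
    have hfix' : ∀ r : Fin D.nroots, fl D v (wPw h l' r) = fl D v r := by
      intro r
      rw [wPw_val h hl' r]
      exact hfix r r.isLt
    have hW : wPw h l' ∈ Wp h (Set.Iio D.rank) := by
      rw [← e']
      exact tau_mem h h2 ax y
    have hmem := Cfsg.Agent.Lib.KS71.BTMain.mem_Wp_of_fix h h2 ax hdom _ _ hW le_rfl hfix'
    have hy : (y : GL D.Idx F) ∈ D.parabolicSubgroup F J := by
      rw [mem_parabolic_iff' h h2 ax hJ, e']
      exact hmem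
    refine Subgroup.mem_map.mpr ⟨_, hy, ?_⟩
    simp only [y, MulEquiv.coe_toMonoidHom, MulAut.conj_apply]
    group
  · intro u hu
    have h3 := clP_le_radical h ax hdom hQpos h2 (hs.2 u hu)
    refine Subgroup.mem_map.mpr ⟨_, h3, ?_⟩
    simp only [MulEquiv.coe_toMonoidHom, MulAut.conj_apply]
    group

end Cfsg.Agent.Lib.KS71.BTFinal
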