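/-
The centraliser of a unipotent radical lies in `U`.
-/
import Mathlib
import Cfsg.Agent.Lib.KS71.BTFinal
import Cfsg.Agent.Lib.Chev.Diag

set_option autoImplicit false
set_option linter.unusedSectionVars false
set_option linter.unusedVariables false

namespace Cfsg.Agent.Lib.KS71.BTCent

open Cfsg Cfsg.Lie Cfsg.Lie.ChevalleyDatum
open Cfsg.Agent.Lib.Chev.Tables Cfsg.Agent.Lib.Chev.Tables2 Cfsg.Agent.Lib.Chev.Tables3 Cfsg.Agent.Lib.Chev.Raise
open Cfsg.Agent.Lib.Chev.Basic Cfsg.Agent.Lib.Chev.AxBasic Cfsg.Agent.Lib.Chev.Torus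
open Cfsg.Agent.Lib.Chev.Products Cfsg.Agent.Lib.Chev.Products2 Cfsg.Agent.Lib.Chev.Mono1
open Cfsg.Agent.Lib.Chev.Mono2 Cfsg.Agent.Lib.Chev.Mono3 Cfsg.Agent.Lib.Chev.Bn
open Cfsg.Agent.Lib.Chev.Order1 Cfsg.Agent.Lib.Chev.Order2 Cfsg.Agent.Lib.Chev.Parab
open Cfsg.Agent.Lib.KS71.StWeyl Cfsg.Agent.Lib.KS71.StCell Cfsg.Agent.Lib.KS71.BTFun Cfsg.Agent.Lib.KS71.BTInter
open Cfsg.Agent.Lib.KS71.BTMain Cfsg.Agent.Lib.Chev.Diag

/-- Bounded existential quantifier as a Boolean. -/
def anyBelow : ℕ → (ℕ → Bool) → Bool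
  | 0, _ => false
  | n + 1, p => p n || anyBelow n p

lemma anyBelow_spec {n : ℕ} {p : ℕ → Bool} (h : anyBelow n p = true) : ∃ k, k < n ∧ p k = true := by
  induction n with
  | zero => simp [anyBelow] at h
  | succ n ih =>
    simp only [anyBelow, Bool.or_eq_true] at h
    rcases h with h | h
    · exact ⟨n, by omega, h⟩
    · obtain ⟨k, hk, hp⟩ := ih h
      exact ⟨k, by omega, hp⟩

/-- The table check: for each pair of distinct nodes `k, j` there is a root `r`, with `j` in its support, such that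
`r + p_k` is a root. -/
def t2Chk (D : ChevalleyDatum) : Bool :=
  allBelow D.rank fun k => allBelow D.rank fun j =>
    (k == j) || anyBelow D.nroots fun r =>
      decide (0 < coef D r j) && (D.chainRoot (D.simple k) r 1).isSome

theorem t2Chk_of_mem {D : ChevalleyDatum}
    (hD : D ∈ [chevG2, chevB2, chevD4, chevF4, chevE6, chevE7, chevE8]) : t2Chk D = true := by
  simp only [List.mem_cons, List.not_mem_nil, or_false] at hD
  rcases hD with rfl | rfl | rfl | rfl | rfl | rfl | rfl <;> decide +kernel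

variable {D : ChevalleyDatum} {F : Type*} [Field F]
variable (h : Tab D) (h2 : Tab2 D) (ax : Ax D F)

/-- The consequence of the check. -/
structure T2 (D : ChevalleyDatum) : Prop where
  ex : ∀ k j, k < D.rank → j < D.rank → k ≠ j → ∃ r r', D.IsPosRoot r ∧ 0 < coef D r j ∧ r' < D.nroots ∧
    ∀ m, m < D.rank → coef D r' m = 1 * coef D r m + 1 * coef D (D.simple k) m

include h in
lemma T2_of_chk (hc : t2Chk D = true) : T2 D where
  ex := by
    intro k j hk hj hne
    have h3 := allBelow_spec (allBelow_spec hc k hk) j hj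
    simp only [Bool.or_eq_true, beq_iff_eq, hne, false_or] at h3
    obtain ⟨r, hr, hp⟩ := anyBelow_spec h3
    simp only [Bool.and_eq_true, decide_eq_true_eq, Option.isSome_iff_exists] at hp
    obtain ⟨hpos, r', hr'⟩ := hp
    obtain ⟨h4, h5⟩ := chainRoot_spec h (h.simple_lt k hk) le_rfl hr'
    refine ⟨r, r', isPos_of_coef_pos h hr hj hpos, hpos, h4, fun m hm => ?_⟩
    rw [h5 m hm]
    push_cast
    ring

/-- The height functional. -/
def e1 : ℕ → ℝ := fun _ => 1

lemma dom_e1 : Dom D e1 := fun _ _ => zero_le_one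

include h in
lemma one_le_e1 {r : ℕ} (hr : D.IsPosRoot r) : 1 ≤ fl D e1 r := Cfsg.Agent.Lib.KS71.BTFinal.one_le_fl_one h hr

include h h2 in
lemma eq_zero_of_xG {a : ℕ} (ha : a < D.nroots) {c : F} (e : xG ax a c = 1) : c = 0 := by
  obtain ⟨i, hi, hci⟩ := exists_cast_ne_zero (F := F) _ _ (h2.prim a ha)
  have hna := h.neg_lt a ha
  have he := congrArg (fun w : GL D.Idx F => (w : Matrix D.Idx D.Idx F) (Sum.inl ⟨i, hi⟩) (Sum.inr ⟨D.neg a, hna⟩)) e
  simp only [xG_val, Units.val_one] at he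
  rw [x_row_inl ha, Matrix.one_apply_ne (by simp)] at he
  have hne3 : (⟨D.neg a, hna⟩ : Fin D.nroots) ≠ ⟨a, ha⟩ := by
    intro he
    exact h.neg_ne a ha (Fin.mk.inj_iff.mp he)
  have : D.neg a = D.negIdx.getD a 0 := rfl
  simp only [hne3, if_false, ← this, if_true] at he
  exact (mul_eq_zero.mp he).resolve_left hci

lemma wordL_zero (L : List ℕ) : wordL ax L (fun _ => 0) = 1 := by
  induction L with
  | nil => rfl
  | cons a L ih => rw [wordL_cons, ih, xG_zero, one_mul]

include h h2 in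
/-- A non-trivial root element in the subgroup of a closed set has its root in the set. -/
lemma P_of_xG_mem {P : ℕ → Prop} (hP : GP D P) {s : ℕ} {t : F} (hs : D.IsPosRoot s) (ht : t ≠ 0)
    (hu : xG ax s t ∈ rootClosure ax P) : P s := by
  classical
  by_contra hn
  obtain ⟨τ, e, hτ⟩ := exists_normal h ax hP hu
  have h0 : τ s = 0 := hτ s hn
  have hP₁ : GP D (· = s) := ⟨by rintro r rfl; exact hs, by rintro r r' rfl rfl hlt; omega⟩
  obtain ⟨τ₁, e₁, hτ₁⟩ := exists_normal h ax hP₁ (xG_mem_rootClosure ax (P := (· = s)) (r := s) rfl t)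
  have he := wordL_inj ax h h2 (goodList_posRoots h) (e₁.symm.trans e)
  have h1 : τ₁ s = 0 := by rw [he s (mem_posRoots.mpr hs), h0]
  have h3 : wordL ax D.posRoots τ₁ = wordL ax D.posRoots (fun _ => 0) := by
    apply wordL_congr
    intro r _
    by_cases hr : r = s
    · rw [hr, h1]
    · exact hτ₁ r hr
  rw [wordL_zero] at h3
  exact ht (eq_zero_of_xG h h2 ax hs.1 (e₁.trans h3))

include h h2 in
lemma isPos_of_xG_mem_U {s : ℕ} {t : F} (hs : s < D.nroots) (ht : t ≠ 0) (hu : xG ax s t ∈ D.posUnipotent F) :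
    D.IsPosRoot s := by
  by_contra hn
  have hneg := (not_isPos_iff h hs).mp hn
  have h3 : xG ax s t ∈ D.borelSubgroup F ⊓ D.negUnipotent F := by
    refine ⟨(le_sup_left : D.posUnipotent F ≤ _) hu, ?_⟩
    rw [negUnipotent_eq ax]
    exact xG_mem_rootClosure ax hneg t
  rw [borel_inf_V ax h, Subgroup.mem_bot] at h3
  exact ht (eq_zero_of_xG h h2 ax hs h3)

/-- The root set of a unipotent radical. -/
def TJ' (D : ChevalleyDatum) (J : Set ℕ) (r : ℕ) : Prop := D.IsPosRoot r ∧ ¬ D.InRootSub J r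

section main

variable {J : Set ℕ}

include h in
lemma TJ'_of_coef {j r : ℕ} (hr : D.IsPosRoot r) (hj : j < D.rank) (hjJ : j ∉ J) (hc : 0 < coef D r j) : TJ' D J r := by
  refine ⟨hr, fun hsub => ?_⟩
  have := (inRootSub_iff h hr.1).mp hsub j hj hjJ
  omega

include h h2 in
lemma GP_TJ' : GP D (TJ' D J) where
  pos := fun r hr => hr.1
  closed := by
    intro r s hr hs _ c hc
    obtain ⟨hr1, hr2⟩ := hr
    obtain ⟨hs1, hs2⟩ := hs
    refine ⟨commTerms_pos h hr1 hs1 hc, ?_⟩
    rw [inRootSub_iff h hr1.1] at hr2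
    push Not at hr2
    obtain ⟨m, hm, hmJ, hc0⟩ := hr2
    intro hsub
    obtain ⟨hlt, hi, hj, hv⟩ := commTerms_spec h hr1.1 hs1.1 hc
    have h3 := (inRootSub_iff h hlt).mp hsub m hm hmJ
    rw [hv m hm] at h3
    have h4 := (isPosRoot_iff h hr1.1).mp hr1 m hm
    have h5 := (isPosRoot_iff h hs1.1).mp hs1 m hm
    have h6 : 0 < coef D r m := lt_of_le_of_ne h4 (Ne.symm hc0)
    have h7 : (1 : ℤ) ≤ c.2.2.1 := by exact_mod_cast hi
    have h8 : (0 : ℤ) ≤ c.2.2.2 := by positivity
    nlinarith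

/-- Conjugation by the Bruhat index on the roots of the radical. -/
lemma tau_root {y : ↥(D.group F)} (hy : ∀ u ∈ D.unipotentRadical F J, (y : GL D.Idx F) * u = u * y)
    {r : Fin D.nroots} (hr : TJ' D J r) :
    TJ' D J (tau h h2 ax y r) ∧ fl D e1 r ≤ fl D e1 (tau h h2 ax y r) := by
  obtain ⟨l, hl, e, hc⟩ := exists_word h h2 ax y
  obtain ⟨b₁, hb₁, b₂, hb₂, ey⟩ := mem_cell.mp hc
  rw [e, wPw_val h hl r]
  have hB : ∀ b ∈ D.borelSubgroup F, ∀ u ∈ D.unipotentRadical F J, b * u * b⁻¹ ∈ D.unipotentRadical F J := by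
    intro b hb u hu
    exact (Subgroup.mem_normalizer_iff.mp (parabolic_le_normalizer h h2 ax J (borel_le_parabolic h h2 ax J hb)) u).mp hu
  obtain ⟨c, hc'⟩ := exists_isNor_nw h h2 ax hl
  have hconj := hc'.conj r 1
  have h0 : ((c r : Fˣ) : F) * 1 ≠ 0 := by
    rw [mul_one]
    exact (c r).ne_zero
  rw [show ((wPw h l r : Fin D.nroots) : ℕ) = wWord D l r from wPw_val h hl r] at hconj
  set t' := ((c r : Fˣ) : F) * 1 with ht'
  set c₀ := (b₂ * b₁)⁻¹ with hc₀
  have hc₀B : c₀ ∈ D.borelSubgroup F := Subgroup.inv_mem _ (Subgroup.mul_mem _ hb₂ hb₁)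
  -- conjugation by `n` agrees with conjugation by `c₀` on the radical
  have key : nw D ax l * xG ax r 1 * (nw D ax l)⁻¹ = c₀ * xG ax r 1 * c₀⁻¹ := by
    have hmem : xG ax r 1 ∈ D.unipotentRadical F J := by
      rw [unipotentRadical_eq h h2 ax]
      exact xG_mem_rootClosure ax hr 1
    have h3 : b₂⁻¹ * xG ax r 1 * b₂ ∈ D.unipotentRadical F J := by
      have := hB b₂⁻¹ (Subgroup.inv_mem _ hb₂) _ hmem
      simpa using this
    have h4 := hy _ h3
    rw [ey] at h4
    have h5 : b₁ * nw D ax l * b₂ * (b₂⁻¹ * xG ax r 1 * b₂) = b₁ * (nw D ax l * xG ax r 1) * b₂ := by group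
    rw [h5] at h4
    have h6 : nw D ax l * xG ax r 1 = b₁⁻¹ * (b₂⁻¹ * xG ax r 1 * b₂ * (b₁ * nw D ax l * b₂)) * b₂⁻¹ := by
      rw [← h4]
      group
    rw [h6, hc₀]
    group
  rw [key] at hconj
  have hpos : D.IsPosRoot (wWord D l r) := by
    apply isPos_of_xG_mem_U h h2 ax (wWord_lt h hl r.isLt) h0
    rw [← hconj]
    have hr0 := hr.1
    apply (le_sup_left : D.posUnipotent F ≤ D.borelSubgroup F) |> fun _ => ?_
    have : xG ax r 1 ∈ D.unipotentRadical F J := by
      rw [unipotentRadical_eq h h2 ax]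
      exact xG_mem_rootClosure ax hr 1
    exact radical_le_U h h2 ax J (hB c₀ hc₀B _ this)
  constructor
  · have h3 : xG ax (wWord D l r) t' ∈ rootClosure ax (TJ' D J) := by
      rw [← hconj]
      have h4 : xG ax r 1 ∈ D.unipotentRadical F J := by
        rw [unipotentRadical_eq h h2 ax]
        exact xG_mem_rootClosure ax hr 1
      have h5 := hB c₀ hc₀B _ h4
      rwa [unipotentRadical_eq h h2 ax] at h5
    exact P_of_xG_mem h h2 ax (GP_TJ' h h2) hpos h0 h3
  · have ha : 0 < fl D e1 r := lt_of_lt_of_le one_pos (one_le_e1 h hr.1)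
    have h3 : xG ax (wWord D l r) t' ∈ rootClosure ax (clP D e1 (fl D e1 r)) := by
      rw [← hconj]
      exact borel_conj h ax dom_e1 ha hc₀B (xG_mem_rootClosure ax ⟨r.isLt, le_rfl⟩ 1)
    exact (P_of_xG_mem h h2 ax (GP_clP h dom_e1 ha) hpos h0 h3).2

/-- An element centralising a radical is in `B`. -/
theorem tau_eq_one (ht2 : T2 D) {i : ℕ} (hi : i < D.rank) (hiJ : i ∉ J) {y : ↥(D.group F)}
    (hy : ∀ u ∈ D.unipotentRadical F J, (y : GL D.Idx F) * u = u * y) : tau h h2 ax y = 1 := by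
  have hyinv : ∀ u ∈ D.unipotentRadical F J, ((y⁻¹ : ↥(D.group F)) : GL D.Idx F) * u = u * (y⁻¹ : ↥(D.group F)) := by
    intro u hu
    have := hy u hu
    simp only [InvMemClass.coe_inv]
    rw [inv_mul_eq_iff_eq_mul, ← mul_assoc, this, mul_assoc, mul_inv_cancel, mul_one]
  have hfix : ∀ r : Fin D.nroots, TJ' D J r → fl D e1 (tau h h2 ax y r) = fl D e1 r := by
    intro r hr
    obtain ⟨h3, h4⟩ := tau_root h h2 ax hy hr
    obtain ⟨-, h5⟩ := tau_root h h2 ax hyinv h3
    rw [tau_inv] at h5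
    have e5 : (tau h h2 ax y)⁻¹ (tau h h2 ax y r) = r := by simp
    rw [e5] at h5
    exact le_antisymm h5 h4
  have hpos : ∀ k (hk : k < D.rank), D.IsPosRoot (tau h h2 ax y ⟨D.simple k, h.simple_lt k hk⟩) := by
    intro k hk
    by_cases hkJ : k ∈ J
    · have hne : k ≠ i := fun e => hiJ (e ▸ hkJ)
      obtain ⟨r, r', hr, hc, hr', hv⟩ := ht2.ex k i hk hi hne
      obtain ⟨l, hl, e, -⟩ := exists_word h h2 ax y
      have hr1 : TJ' D J r := TJ'_of_coef h hr hi hiJ hc
      have hv' : ∀ m, m < D.rank → 0 ≤ coef D r' m := by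
        intro m hm
        rw [hv m hm]
        have h3 := (isPosRoot_iff h hr.1).mp hr m hm
        have h4 := (isPosRoot_iff h (h.simple_lt k hk)).mp (simple_isPos h hk) m hm
        omega
      have hr'P : D.IsPosRoot r' := (isPosRoot_iff h hr').mpr hv'
      have hr2 : TJ' D J r' := by
        apply TJ'_of_coef h hr'P hi hiJ
        rw [hv i hi]
        have h4 := (isPosRoot_iff h (h.simple_lt k hk)).mp (simple_isPos h hk) i hi
        omega
      have h3 := hfix ⟨r, hr.1⟩ hr1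
      have h4 := hfix ⟨r', hr'⟩ hr2
      rw [e, wPw_val h hl] at h3 h4
      rw [e, wPw_val h hl]
      simp only at h3 h4 ⊢
      rw [fl_wWord h l hl _ hr.1] at h3
      rw [fl_wWord h l hl _ hr'] at h4
      have h5 := fl_comb h (wAct D l e1) hv
      have h6 := fl_comb h e1 hv
      have h7 : fl D e1 (D.simple k) = 1 := fl_simple h e1 hk
      apply isPos_of_fl_pos h dom_e1 (wWord_lt h hl (h.simple_lt k hk))
      rw [fl_wWord h l hl _ (h.simple_lt k hk)]
      push_cast at h5 h6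
      linarith
    · exact (tau_root h h2 ax hy (r := ⟨D.simple k, h.simple_lt k hk⟩) (TJ'_of_coef h (simple_isPos h hk) hk hkJ
        (by rw [h.coef_simple k hk k hk, if_pos rfl]; norm_num))).1.1
  exact eq_one_of_PosOn h h2 ax (J := Set.Iio D.rank) (fun j hj => hj) (tau_mem h h2 ax y) (fun k hk _ => hpos k hk)

include h h2 in
/-- Commutators with `U` raise heights. -/
lemma conj_U_x {r : ℕ} (hr : D.IsPosRoot r) {u : GL D.Idx F} (hu : u ∈ D.posUnipotent F) (t : F) :
    u * xG ax r t * u⁻¹ * xG ax r (-t) ∈ rootClosure ax (clP D e1 (fl D e1 r + 1)) := by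
  have hA : 0 < fl D e1 r + 1 := by
    have := one_le_e1 h hr
    linarith
  have hK : ∀ b ∈ D.borelSubgroup F, ∀ z ∈ rootClosure ax (clP D e1 (fl D e1 r + 1)),
      b * z * b⁻¹ ∈ rootClosure ax (clP D e1 (fl D e1 r + 1)) := fun b hb z hz =>
    borel_conj h ax dom_e1 hA hb hz
  rw [posUnipotent_eq ax] at hu
  suffices H : u ∈ D.borelSubgroup F ∧ ∀ t, u * xG ax r t * u⁻¹ * xG ax r (-t) ∈
      rootClosure ax (clP D e1 (fl D e1 r + 1)) from H.2 t
  refine rootClosure_induction ax (Q := fun u => u ∈ D.borelSubgroup F ∧ ∀ t, u * xG ax r t * u⁻¹ * xG ax r (-t) ∈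
    rootClosure ax (clP D e1 (fl D e1 r + 1))) ?_ ?_ ?_ hu
  · refine ⟨Subgroup.one_mem _, fun t => ?_⟩
    simp only [one_mul, inv_one, mul_one]
    rw [xG_add, add_neg_cancel, xG_zero]
    exact Subgroup.one_mem _
  · intro s c hs
    refine ⟨xG_mem_borel h h2 ax hs c, fun t => ?_⟩
    by_cases hsr : s = r
    · subst hsr
      have : xG ax s c * xG ax s t * (xG ax s c)⁻¹ * xG ax s (-t) = 1 := by
        rw [xG_inv, xG_add, xG_add, xG_add]
        have : c + t + -c + -t = 0 := by ring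
        rw [this, xG_zero]
      rw [this]
      exact Subgroup.one_mem _
    · have hneg : s ≠ D.neg r := by
        intro he
        rw [he] at hs
        exact not_isNeg_of_isPos h hs ((isNegRoot_neg h hr.1).mpr hr)
      have e := xG_comm ax hr.1 hs.1 hsr hneg t c
      have e2 : xG ax s c * xG ax r t * (xG ax s c)⁻¹ * xG ax r (-t) =
          (xG ax r t * xG ax s c) * wordG ax (D.commWord F r s t c) * (xG ax r t * xG ax s c)⁻¹ := by
        rw [e, ← xG_inv ax r t]
        group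
      rw [e2]
      apply hK
      · exact Subgroup.mul_mem _ (xG_mem_borel h h2 ax hr t) (xG_mem_borel h h2 ax hs c)
      · apply wordG_mem_rootClosure
        intro q hq
        obtain ⟨hq0, i, j, hi, hj, hqv⟩ := commWord_spec h hr.1 hs.1 hq
        refine ⟨hq0, ?_⟩
        rw [fl_comb h e1 (a := i) (b := j) hqv]
        have h3 := one_le_e1 h hr
        have h4 := one_le_e1 h hs
        have h5 : (1 : ℝ) ≤ ((i : ℤ) : ℝ) := by exact_mod_cast hi
        have h6 : (1 : ℝ) ≤ ((j : ℤ) : ℝ) := by exact_mod_cast hj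
        nlinarith
  · rintro a b ⟨ha1, ha⟩ ⟨hb1, hb⟩
    refine ⟨Subgroup.mul_mem _ ha1 hb1, fun t => ?_⟩
    have e : a * b * xG ax r t * (a * b)⁻¹ * xG ax r (-t) =
        (a * (b * xG ax r t * b⁻¹ * xG ax r (-t)) * a⁻¹) * (a * xG ax r t * a⁻¹ * xG ax r (-t)) := by
      have : xG ax r (-t) = (xG ax r t)⁻¹ := (xG_inv ax r t).symm
      rw [this]
      group
    rw [e]
    exact Subgroup.mul_mem _ (hK a ha1 _ (hb t)) (ha t)

include h h2 ax in
/-- The centraliser of a proper radical lies in `U`. -/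
theorem centralizer_le_U (ht2 : T2 D) {i : ℕ} (hi : i < D.rank) (hiJ : i ∉ J) {y : ↥(D.group F)}
    (hy : ∀ u ∈ D.unipotentRadical F J, (y : GL D.Idx F) * u = u * y) : (y : GL D.Idx F) ∈ D.posUnipotent F := by
  have hB : y ∈ BG D F := mem_BG_of_tau h h2 ax (tau_eq_one h h2 ax ht2 hi hiJ hy)
  obtain ⟨u, hu, a, ha, e⟩ := (mem_borel_iff ax h).mp (mem_BG.mp hB)
  obtain ⟨z, rfl⟩ := exists_tor_of_mem ax h ha
  -- `z` acts trivially on the roots of the radical
  have hchi : ∀ r, TJ' D J r → chi D z r = 1 := by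
    intro r hr
    have hr0 := hr.1.1
    have hmem : xG ax r 1 ∈ D.unipotentRadical F J := by
      rw [unipotentRadical_eq h h2 ax]
      exact xG_mem_rootClosure ax hr 1
    have h3 := hy _ hmem
    rw [e] at h3
    have h4 : u * (tor D z * xG ax r 1 * (tor D z)⁻¹) * u⁻¹ = xG ax r 1 := by
      calc u * (tor D z * xG ax r 1 * (tor D z)⁻¹) * u⁻¹
          = (u * tor D z) * xG ax r 1 * (u * tor D z)⁻¹ := by group
        _ = xG ax r 1 * (u * tor D z) * (u * tor D z)⁻¹ := by rw [h3]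
        _ = xG ax r 1 := by group
    rw [tor_conj_xG ax h z hr0, mul_one] at h4
    have h5 := conj_U_x h h2 ax hr.1 hu ((chi D z r : Fˣ) : F)
    rw [h4, xG_add] at h5
    by_contra hne
    have hne' : (1 : F) + -((chi D z r : Fˣ) : F) ≠ 0 := by
      intro h6
      apply hne
      apply Units.ext
      simp only [Units.val_one]
      linear_combination -h6
    have hA : 0 < fl D e1 r + 1 := by
      have := one_le_e1 h hr.1
      linarith
    have h7 := (P_of_xG_mem h h2 ax (GP_clP h dom_e1 hA) hr.1 hne' h5).2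
    linarith
  have hsimple : ∀ k, k < D.rank → z k = 1 := by
    intro k hk
    by_cases hkJ : k ∈ J
    · have hne : k ≠ i := fun e => hiJ (e ▸ hkJ)
      obtain ⟨r, r', hr, hc, hr', hv⟩ := ht2.ex k i hk hi hne
      have hr1 : TJ' D J r := TJ'_of_coef h hr hi hiJ hc
      have hv' : ∀ m, m < D.rank → 0 ≤ coef D r' m := by
        intro m hm
        rw [hv m hm]
        have h3 := (isPosRoot_iff h hr.1).mp hr m hm
        have h4 := (isPosRoot_iff h (h.simple_lt k hk)).mp (simple_isPos h hk) m hm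
        omega
      have hr'P : D.IsPosRoot r' := (isPosRoot_iff h hr').mpr hv'
      have hr2 : TJ' D J r' := by
        apply TJ'_of_coef h hr'P hi hiJ
        rw [hv i hi]
        have h4 := (isPosRoot_iff h (h.simple_lt k hk)).mp (simple_isPos h hk) i hi
        omega
      have h3 := chi_vec (y := z) hv
      rw [hchi r hr1, hchi r' hr2, chi_simple h z hk] at h3
      simpa using h3.symm
    · have := hchi (D.simple k) (TJ'_of_coef h (simple_isPos h hk) hk hkJ (by rw [h.coef_simple k hk k hk, if_pos rfl]; norm_num))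
      rwa [chi_simple h z hk] at this
  have hz : tor D z = (1 : GL D.Idx F) := by
    rw [← tor_one (D := D) (F := F)]
    apply tor_eq_of_chi
    intro s _
    rw [chi_one, chi]
    show _ = (1 : Fˣ)
    apply Finset.prod_eq_one
    intro m hm
    rw [hsimple m (Finset.mem_range.mp hm), one_zpow]
  rw [e, hz, mul_one]
  exact hu

end main

end Cfsg.Agent.Lib.KS71.BTCent
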