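/-
A criterion for a finite group to have exactly two `p`-blocks.
-/
import Mathlib
import Cfsg.Agent.S0906
import Cfsg.Agent.S0908
import Cfsg.Agent.S0914
import Cfsg.Agent.S0920
import Cfsg.Agent.S0953
import Cfsg.Agent.S0955
import Cfsg.Agent.S4652
import Cfsg.Agent.Lib.BlockH.Idem
import Cfsg.Agent.Lib.BlockH.Rank
import Cfsg.Agent.Lib.BlockT.Normal
import Cfsg.Agent.Lib.Blocks.Third

set_option autoImplicit false
set_option linter.unusedSectionVars false
set_option linter.unusedVariables false

namespace Cfsg.Agent.Lib.KS71.BlockTwo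

open Cfsg
open Cfsg.Agent.Lib.Blocks.Central Cfsg.Agent.Lib.Blocks.Third

universe u

variable {G : Type u} [Group G] [Fintype G] {p : ℕ} [hpp : Fact p.Prime] {M : Ideal AlgInt}

/-- A normal `p`-subgroup containing its centraliser forces a single block. -/
theorem all_mem_of_cent (hM : IsPModular p M) (P : Subgroup G) (hPn : P.Normal) (hP : IsPGroup p P)
    (hC : Subgroup.centralizer (P : Set G) ≤ P) {B : Set (IrrCharacter G)} (hB : IsPBlock M B)
    (ψ : IrrCharacter G) : ψ ∈ B := by
  classical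
  haveI : M.IsPrime := hM.2.1.isPrime
  haveI := Cfsg.Agent.Lib.Char.Ortho.finite_irrCharacter (G := G)
  letI := Fintype.ofFinite (IrrCharacter G)
  have hzero : ∀ g : G, g ≠ 1 → blockCoeff B g = 0 := by
    intro g hg
    by_cases hgC : g ∈ Subgroup.centralizer (P : Set G)
    · have hgP := hC hgC
      obtain ⟨k, hk⟩ := (IsPGroup.iff_orderOf.mp hP) ⟨g, hgP⟩
      have hk' : orderOf g = p ^ k := by
        rw [← hk, Subgroup.orderOf_mk]
      have hk0 : k ≠ 0 := by
        rintro rfl
        rw [pow_zero, orderOf_eq_one_iff] at hk'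
        exact hg hk'
      exact Cfsg.Agent.Lib.BlockH.Idem.blockCoeff_eq_zero_of_dvd_orderOf hM hB (by rw [hk']; exact dvd_pow_self p hk0)
    · exact Cfsg.Agent.Lib.BlockH.Idem.blockCoeff_eq_zero_of_not_mem_centralizer hM P hPn hP hB hgC
  have hne : B.Nonempty := by
    obtain ⟨χ, rfl⟩ := hB
    exact ⟨χ, mem_blockOf_self χ⟩
  have h1 : (∑ g : G, blockCoeff B g * (ψ : G → ℂ) g) / (ψ : G → ℂ) 1 = if ψ ∈ B then 1 else 0 := by
    have h := omegaHom_idem B ψ
    rw [omegaHom_apply, lin_apply] at h
    exact h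
  rw [Finset.sum_eq_single (1 : G) (fun g _ hg => by rw [hzero g hg, zero_mul]) (fun hn => (hn (Finset.mem_univ _)).elim)] at h1
  have hψ1 := Cfsg.Agent.Lib.Char.Complete.irr_one_ne_zero ψ.2
  rw [mul_div_assoc, div_self hψ1, mul_one] at h1
  by_contra hψ
  rw [if_neg hψ] at h1
  exact Cfsg.Agent.Lib.BlockH.Rank.blockCoeff_one_ne_zero hne h1

/-- The principal block is a block. -/
lemma isPBlock_principal : IsPBlock M (principalBlock M G) := ⟨oneI G, rfl⟩

/-- An element of a core. -/
lemma le_of_core {D : Subgroup G} (hcore : (pCore p (Subgroup.normalizer (D : Set G))).map (Subgroup.normalizer (D : Set G)).subtype = D)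
    {K : Subgroup G} (hKN : K ≤ Subgroup.normalizer (D : Set G)) (hK : IsPGroup p K)
    (hn : ∀ n ∈ Subgroup.normalizer (D : Set G), ∀ k ∈ K, n * k * n⁻¹ ∈ K) : K ≤ D := by
  intro k hk
  set N := Subgroup.normalizer (D : Set G) with hN
  set K' : Subgroup ↥N := K.subgroupOf N with hK'
  have hnorm : K'.Normal := by
    refine ⟨fun a ha b => ?_⟩
    rw [hK', Subgroup.mem_subgroupOf] at ha ⊢
    exact hn b b.2 a ha
  have hpg : IsPGroup p K' := by
    rw [hK']
    exact hK.of_equiv (Subgroup.subgroupOfEquivOfLe hKN).symm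
  have hle : K' ≤ pCore p ↥N := le_sSup ⟨hnorm, hpg⟩
  have hk' : (⟨k, hKN hk⟩ : ↥N) ∈ K' := by
    rw [hK', Subgroup.mem_subgroupOf]
    exact hk
  rw [← hcore]
  exact ⟨_, hle hk', rfl⟩

/-- Normalisers grow in `p`-groups. -/
lemma exists_norm {D V : Subgroup G} (hV : IsPGroup p V) (hDV : D ≤ V) (hne : D ≠ V) :
    ∃ x ∈ V, x ∉ D ∧ x ∈ Subgroup.normalizer (D : Set G) := by
  have hlt : D.subgroupOf V < ⊤ := by
    rw [lt_top_iff_ne_top]
    intro he
    apply hne
    apply le_antisymm hDV
    intro t ht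
    have : (⟨t, ht⟩ : ↥V) ∈ D.subgroupOf V := by rw [he]; trivial
    exact Subgroup.mem_subgroupOf.mp this
  haveI : Group.IsNilpotent ↥V := hV.isNilpotent
  have hcond := (Group.normalizerCondition_of_isNilpotent (G := ↥V)) _ hlt
  obtain ⟨x, hxN, hxD⟩ := SetLike.exists_of_lt hcond
  refine ⟨x, x.2, fun h => hxD (Subgroup.mem_subgroupOf.mpr h), ?_⟩
  rw [Subgroup.mem_normalizer_iff] at hxN ⊢
  intro y
  constructor
  · intro hy
    have h1 := (hxN ⟨y, hDV hy⟩).mp (Subgroup.mem_subgroupOf.mpr hy)
    exact Subgroup.mem_subgroupOf.mp h1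
  · intro hy
    have hyT : y ∈ V := by
      have h1 := hDV hy
      have h2 : (x : G)⁻¹ * ((x : G) * y * (x : G)⁻¹) * (x : G) = y := by group
      rw [← h2]
      exact Subgroup.mul_mem _ (Subgroup.mul_mem _ (Subgroup.inv_mem _ x.2) h1) x.2
    have h1 := (hxN ⟨y, hyT⟩).mpr (Subgroup.mem_subgroupOf.mpr hy)
    exact Subgroup.mem_subgroupOf.mp h1

/-- A `p`-subgroup which is Sylow in its normaliser is Sylow. -/
lemma sylow_of_sylow_normalizer {D : Subgroup G} (hD : IsPGroup p D)
    (S : Sylow p ↥(Subgroup.normalizer (D : Set G))) (hS : (S : Subgroup _) = D.subgroupOf (Subgroup.normalizer (D : Set G))) :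
    ∃ T : Sylow p G, (T : Subgroup G) = D := by
  classical
  obtain ⟨T, hT⟩ := hD.exists_le_sylow
  refine ⟨T, ?_⟩
  by_contra hne
  -- the normaliser condition in `T`
  have hlt : D.subgroupOf (T : Subgroup G) < ⊤ := by
    rw [lt_top_iff_ne_top]
    intro he
    apply hne
    apply le_antisymm _ hT
    intro t ht
    have : (⟨t, ht⟩ : ↥(T : Subgroup G)) ∈ D.subgroupOf (T : Subgroup G) := by rw [he]; trivial
    exact Subgroup.mem_subgroupOf.mp this
  haveI : Group.IsNilpotent ↥(T : Subgroup G) := T.isPGroup'.isNilpotent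
  have hcond := (Group.normalizerCondition_of_isNilpotent (G := ↥(T : Subgroup G))) _ hlt
  obtain ⟨x, hxN, hxD⟩ := SetLike.exists_of_lt hcond
  have hxnorm : (x : G) ∈ Subgroup.normalizer (D : Set G) := by
    rw [Subgroup.mem_normalizer_iff] at hxN ⊢
    intro y
    constructor
    · intro hy
      have h1 := (hxN ⟨y, hT hy⟩).mp (Subgroup.mem_subgroupOf.mpr hy)
      exact Subgroup.mem_subgroupOf.mp h1
    · intro hy
      have hyT : y ∈ (T : Subgroup G) := by
        have h1 := hT hy
        have h2 : (x : G)⁻¹ * ((x : G) * y * (x : G)⁻¹) * (x : G) = y := by group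
        rw [← h2]
        exact Subgroup.mul_mem _ (Subgroup.mul_mem _ (Subgroup.inv_mem _ x.2) h1) x.2
      have h1 := (hxN ⟨y, hyT⟩).mpr (Subgroup.mem_subgroupOf.mpr hy)
      exact Subgroup.mem_subgroupOf.mp h1
  have hEp : IsPGroup p ((T : Subgroup G).subgroupOf (Subgroup.normalizer (D : Set G))) :=
    T.isPGroup'.comap_subtype
  have hSE : (S : Subgroup ↥(Subgroup.normalizer (D : Set G))) ≤ (T : Subgroup G).subgroupOf (Subgroup.normalizer (D : Set G)) := by
    rw [hS]
    intro a ha
    exact Subgroup.mem_subgroupOf.mpr (hT (Subgroup.mem_subgroupOf.mp ha))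
  have hEe := S.is_maximal' hEp hSE
  have hxE : (⟨x, hxnorm⟩ : ↥(Subgroup.normalizer (D : Set G))) ∈ (T : Subgroup G).subgroupOf (Subgroup.normalizer (D : Set G)) :=
    Subgroup.mem_subgroupOf.mpr x.2
  have hxS : (⟨x, hxnorm⟩ : ↥(Subgroup.normalizer (D : Set G))) ∈ (S : Subgroup ↥(Subgroup.normalizer (D : Set G))) := by
    have h3 : (T : Subgroup G).subgroupOf (Subgroup.normalizer (D : Set G)) = (S : Subgroup ↥(Subgroup.normalizer (D : Set G))) := hEe
    rw [← h3]
    exact hxE
  rw [hS] at hxS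
  exact hxD (Subgroup.mem_subgroupOf.mpr (Subgroup.mem_subgroupOf.mp hxS))

/-- A block whose defect group contains its centraliser has Sylow defect groups. -/
theorem sylow_of_defect (hM : IsPModular p M) {B : Set (IrrCharacter G)} (hB : IsPBlock M B) {D : Subgroup G}
    (hD : IsDefectGroup p M B D) (hDp : IsPGroup p D) (hC : Subgroup.centralizer (D : Set G) ≤ D) :
    ∃ T : Sylow p G, (T : Subgroup G) = D := by
  classical
  set N := Subgroup.normalizer (D : Set G) with hN
  set D' : Subgroup ↥N := D.subgroupOf N with hD'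
  have hDN : D ≤ N := Subgroup.le_normalizer
  have hnorm : D'.Normal := (Subgroup.normal_subgroupOf_iff_le_normalizer hDN).mpr le_rfl
  have hpg : IsPGroup p D' := hDp.of_equiv (Subgroup.subgroupOfEquivOfLe hDN).symm
  have hC' : Subgroup.centralizer (D' : Set ↥N) ≤ D' := by
    intro x hx
    rw [hD', Subgroup.mem_subgroupOf]
    apply hC
    rw [Subgroup.mem_centralizer_iff] at hx ⊢
    intro d hd
    have := hx ⟨d, hDN hd⟩ (Subgroup.mem_subgroupOf.mpr hd)
    exact congrArg Subtype.val this
  obtain ⟨b, ⟨hb, hbD, -⟩, -⟩ := (Cfsg.Agent.S0920.result p M hM D hDp).2 B hB hD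
  have hb0 : b = principalBlock M ↥N := by
    ext ψ
    constructor
    · intro _
      exact all_mem_of_cent hM D' hnorm hpg hC' isPBlock_principal ψ
    · intro _
      exact all_mem_of_cent hM D' hnorm hpg hC' hb ψ
  rw [hb0] at hbD
  obtain ⟨S, hS⟩ := (Cfsg.Agent.S4652.result p M hM _).mp hbD
  exact sylow_of_sylow_normalizer hDp S hS

/-- There is only one block with a given Sylow defect group if it contains its centraliser. -/
theorem unique_sylow (hM : IsPModular p M) (T : Sylow p G) (hC : Subgroup.centralizer ((T : Subgroup G) : Set G) ≤ T)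
    {B : Set (IrrCharacter G)} (hB : IsPBlock M B) (hD : IsDefectGroup p M B (T : Subgroup G)) :
    B = principalBlock M G := by
  classical
  have hcount := Cfsg.Agent.S0953.result p M hM T
  set N := Subgroup.normalizer (((T : Subgroup G)) : Set G) with hN
  have h1 : Nat.card {C : ConjClasses ↥N // ∀ n : ↥N, ConjClasses.mk n = C → ¬ p ∣ orderOf n ∧ (n : G) ∈ Subgroup.centralizer (((T : Subgroup G)) : Set G)} = 1 := by
    rw [Nat.card_eq_one_iff_unique]
    constructor
    · constructor
      rintro ⟨C, hC1⟩ ⟨C', hC2⟩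
      have key : ∀ C : ConjClasses ↥N, (∀ n : ↥N, ConjClasses.mk n = C → ¬ p ∣ orderOf n ∧ (n : G) ∈ Subgroup.centralizer (((T : Subgroup G)) : Set G)) → C = ConjClasses.mk 1 := by
        intro C hC1
        obtain ⟨n, rfl⟩ := ConjClasses.mk_surjective C
        obtain ⟨hn1, hn2⟩ := hC1 n rfl
        have hnT := hC hn2
        obtain ⟨k, hk⟩ := (IsPGroup.iff_orderOf.mp T.isPGroup') ⟨_, hnT⟩
        have hk' : orderOf n = p ^ k := by
          rw [← hk, Subgroup.orderOf_mk, ← Subgroup.orderOf_coe]
        have hk0 : k = 0 := by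
          by_contra hk0
          exact hn1 (by rw [hk']; exact dvd_pow_self p hk0)
        rw [hk0, pow_zero, orderOf_eq_one_iff] at hk'
        rw [hk']
      apply Subtype.ext
      simp only
      rw [key C hC1, key C' hC2]
    · refine ⟨⟨ConjClasses.mk 1, ?_⟩⟩
      intro n hn
      have hn' : n = 1 := by
        have := ConjClasses.mk_eq_mk_iff_isConj.mp hn
        rwa [isConj_one_left] at this
      subst hn'
      refine ⟨by rw [orderOf_one]; exact (Fact.out : p.Prime).one_lt.ne' ∘ Nat.dvd_one.mp, Subgroup.one_mem _⟩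
  rw [h1] at hcount
  have hsub := (Nat.card_eq_one_iff_unique.mp hcount).1
  have hprin : IsDefectGroup p M (principalBlock M G) (T : Subgroup G) :=
    (Cfsg.Agent.S4652.result p M hM _).mpr ⟨T, rfl⟩
  have := hsub.elim ⟨B, hB, hD⟩ ⟨principalBlock M G, isPBlock_principal, hprin⟩
  exact congrArg Subtype.val this

/-- Existence of a defect group. -/
lemma exists_defect (hM : IsPModular p M) {B : Set (IrrCharacter G)} (hB : IsPBlock M B) :
    ∃ D : Subgroup G, IsDefectGroup p M B D := by
  obtain ⟨g, hg⟩ := Cfsg.Agent.S0906.result p M hM B hB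
  obtain ⟨P⟩ : Nonempty (Sylow p (Subgroup.centralizer ({g} : Set G))) := inferInstance
  exact ⟨_, g, hg, P, rfl⟩

/-- **A criterion for exactly two blocks.** -/
theorem card_blocks_eq_two (hM : IsPModular p M) (St : IrrCharacter G)
    (hdeg : p ^ (Nat.card G).factorization p ∣ charDegree (St : G → ℂ))
    (huniq : ∀ χ : IrrCharacter G, p ^ (Nat.card G).factorization p ∣ charDegree (χ : G → ℂ) → χ = St)
    (hne : St ≠ oneI G)
    (hC : ∀ D : Subgroup G, D ≠ ⊥ → IsPGroup p D →
      (pCore p (Subgroup.normalizer (D : Set G))).map (Subgroup.normalizer (D : Set G)).subtype = D →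
      Subgroup.centralizer (D : Set G) ≤ D) :
    Nat.card {B : Set (IrrCharacter G) // IsPBlock M B} = 2 := by
  classical
  haveI : M.IsPrime := hM.2.1.isPrime
  have hp : p.Prime := Fact.out
  have hdeg0 : ∀ χ : IrrCharacter G, charDegree (χ : G → ℂ) ≠ 0 := by
    intro χ h0
    have h1 := Cfsg.Agent.Lib.Char.Degree.charDegree_natCast (Cfsg.Agent.Lib.Char.Basic.isCharacter_of_isIrrCharacter χ.2)
    rw [h0] at h1
    exact Cfsg.Agent.Lib.Char.Complete.irr_one_ne_zero χ.2 (by rw [← h1]; simp)
  -- the block of the Steinberg character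
  have hStB : blockOf M (St : G → ℂ) = {St} := by
    rw [← Cfsg.Agent.S0914.result p M hM St]
    intro hdvd
    obtain ⟨n, ρ, hρ, hχ⟩ := St.2
    haveI : ρ.IsIrreducible := hρ
    have h3 : charDegree (St : G → ℂ) ∣ Nat.card G := by
      have h4 := Cfsg.Agent.Lib.Char.Central.finrank_dvd_card (ρ := ρ)
      have h5 : (charDegree (St : G → ℂ) : ℂ) = (Module.finrank ℂ (Fin n → ℂ) : ℕ) := by
        rw [Cfsg.Agent.Lib.Char.Degree.charDegree_natCast (Cfsg.Agent.Lib.Char.Basic.isCharacter_of_isIrrCharacter St.2), ← hχ]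
        exact Representation.char_one ρ
      have h6 : charDegree (St : G → ℂ) = Module.finrank ℂ (Fin n → ℂ) := by exact_mod_cast h5
      rw [h6]
      exact h4
    obtain ⟨c, hc⟩ := h3
    have hc0 : c ≠ 0 := by
      rintro rfl
      simp at hc
    have h7 : Nat.card G / charDegree (St : G → ℂ) = c := by
      rw [hc]
      exact Nat.mul_div_cancel_left _ (Nat.pos_of_ne_zero (hdeg0 St))
    rw [h7] at hdvd
    have h8 : p ^ ((Nat.card G).factorization p + 1) ∣ Nat.card G := by
      rw [pow_succ]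
      conv_rhs => rw [hc]
      exact mul_dvd_mul hdeg hdvd
    exact Nat.pow_succ_factorization_not_dvd Nat.card_pos.ne' hp h8
  have hnotSt : principalBlock M G ≠ blockOf M (St : G → ℂ) := by
    intro he
    have h1 : oneI G ∈ principalBlock M G := mem_blockOf_self (oneI G)
    rw [he, hStB] at h1
    exact hne h1.symm
  -- every block is one of the two
  have hall : ∀ B : Set (IrrCharacter G), IsPBlock M B → B = principalBlock M G ∨ B = blockOf M (St : G → ℂ) := by
    intro B hB
    obtain ⟨D, hD⟩ := exists_defect hM hB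
    have hDp : IsPGroup p D := by
      have := Cfsg.Agent.S0908.result p M hM B hB D hD
      exact IsPGroup.of_card this
    by_cases hbot : D = ⊥
    · right
      have h1 := Cfsg.Agent.S0908.result p M hM B hB D hD
      rw [hbot, Subgroup.card_bot] at h1
      have h2 : blockDefect p B = 0 := by
        by_contra h0
        have := Nat.one_lt_pow h0 hp.one_lt
        omega
      obtain ⟨χ₀, rfl⟩ := hB
      have hmem : χ₀ ∈ blockOf M (χ₀ : G → ℂ) := mem_blockOf_self χ₀
      have h3 : sInf ((fun χ : IrrCharacter G => (charDegree (χ : G → ℂ)).factorization p) '' blockOf M (χ₀ : G → ℂ)) ≤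
          (charDegree (χ₀ : G → ℂ)).factorization p := Nat.sInf_le ⟨χ₀, hmem, rfl⟩
      have h4 : (Nat.card G).factorization p ≤ (charDegree (χ₀ : G → ℂ)).factorization p := by
        rw [blockDefect] at h2
        omega
      have h5 := (hp.pow_dvd_iff_le_factorization (hdeg0 χ₀)).mpr h4
      rw [huniq χ₀ h5]
    · left
      have hcore := Cfsg.Agent.S0955.result p M hM B hB D hD
      have hCD := hC D hbot hDp hcore
      obtain ⟨T, hT⟩ := sylow_of_defect hM hB hD hDp hCD
      subst hT
      exact unique_sylow hM T hCD hB hD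
  rw [Nat.card_eq_two_iff]
  refine ⟨⟨_, isPBlock_principal⟩, ⟨_, St, rfl⟩, fun he => hnotSt (congrArg Subtype.val he), ?_⟩
  ext ⟨B, hB⟩
  simp only [Set.mem_insert_iff, Set.mem_singleton_iff, Set.mem_univ, iff_true]
  rcases hall B hB with h1 | h1
  · exact Or.inl (Subtype.ext h1)
  · exact Or.inr (Subtype.ext h1)

end Cfsg.Agent.Lib.KS71.BlockTwo
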