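/-
Centralisers of root elements which are central in the unipotent subgroup `U` of a Chevalley group:
such a centraliser lies in a parabolic subgroup, and it is generated by `U` and root subgroups of the Levi factor.
-/
import Mathlib
import Cfsg.Agent.Lib.Chev.Parab
import Cfsg.Agent.Lib.KS71.ChevInv

set_option autoImplicit false
set_option linter.unusedSectionVars false
set_option linter.unusedVariables false

namespace Cfsg.Agent.Lib.KS71.ChevCent

open scoped MatrixGroups Matrix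
open Cfsg Lie ChevalleyDatum
open Cfsg.Agent.Lib.Chev.Tables Cfsg.Agent.Lib.Chev.Tables2 Cfsg.Agent.Lib.Chev.Raise
open Cfsg.Agent.Lib.Chev.Basic Cfsg.Agent.Lib.Chev.AxBasic Cfsg.Agent.Lib.Chev.Torus
open Cfsg.Agent.Lib.Chev.Products Cfsg.Agent.Lib.Chev.Products2 Cfsg.Agent.Lib.Chev.Mono1
open Cfsg.Agent.Lib.Chev.Mono2 Cfsg.Agent.Lib.Chev.Mono3 Cfsg.Agent.Lib.Chev.Bn
open Cfsg.Agent.Lib.Chev.Order1 Cfsg.Agent.Lib.Chev.Diag
open Cfsg.Agent.Lib.Chev.Parab

variable {D : ChevalleyDatum} {F : Type*} [Field F]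

section general

variable {G : Type*} [Group G]

/-- `K H` for `H` normalising `K`: every element of `K ⊔ H` has the shape `k * a`. -/
lemma mem_sup_decomp {K A : Subgroup G} (hA : A ≤ Subgroup.normalizer (K : Set G)) {g : G} (hg : g ∈ K ⊔ A) :
    ∃ k ∈ K, ∃ a ∈ A, g = k * a := by
  let S : Subgroup G :=
    { carrier := {g | ∃ k ∈ K, ∃ a ∈ A, g = k * a}
      one_mem' := ⟨1, K.one_mem, 1, A.one_mem, by simp⟩
      mul_mem' := by
        rintro _ _ ⟨k, hk, a, ha, rfl⟩ ⟨k', hk', a', ha', rfl⟩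
        refine ⟨k * (a * k' * a⁻¹), K.mul_mem hk ?_, a * a', A.mul_mem ha ha', by group⟩
        exact (Subgroup.mem_normalizer_iff.mp (hA ha) k').mp hk'
      inv_mem' := by
        rintro _ ⟨k, hk, a, ha, rfl⟩
        refine ⟨a⁻¹ * k⁻¹ * a, ?_, a⁻¹, A.inv_mem ha, by group⟩
        have := (Subgroup.mem_normalizer_iff.mp (hA (A.inv_mem ha)) k⁻¹).mp (K.inv_mem hk)
        simpa using this }
  have hle : K ⊔ A ≤ S := by
    apply sup_le
    · intro k hk
      exact ⟨k, hk, 1, A.one_mem, by simp⟩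
    · intro a ha
      exact ⟨1, K.one_mem, a, ha, by simp⟩
  exact hle hg

end general

variable (ax : Ax D F)

lemma xG_commute_of_terms {r s : ℕ} (hr : r < D.nroots) (hs : s < D.nroots) (hsr : s ≠ r) (hsn : s ≠ D.neg r)
    (hv : ∀ c ∈ D.commTerms r s, (c.2.1 : F) = 0) (a b : F) :
    xG ax s a * xG ax r b = xG ax r b * xG ax s a := by
  have e := xG_comm ax hr hs hsr hsn b a
  rw [e]
  have : wordG ax (D.commWord F r s b a) = 1 := by
    have key : ∀ L : List (ℕ × ℤ × ℕ × ℕ), (∀ c ∈ L, (c.2.1 : F) = 0) →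
        wordG ax (L.map fun c => (c.1, (c.2.1 : F) * (-b) ^ c.2.2.1 * a ^ c.2.2.2)) = 1 := by
      intro L
      induction L with
      | nil => intro _; rfl
      | cons c L ih =>
        intro hL
        rw [List.map_cons, wordG_cons, ih (fun c' hc' => hL c' (List.mem_cons_of_mem _ hc'))]
        have hc := hL c List.mem_cons_self
        simp [hc, xG_zero]
    exact key _ hv
  rw [this, mul_one]

lemma mem_rootSubgroup' {r : ℕ} {g : GL D.Idx F} (hg : g ∈ rootClosure ax (· = r)) : ∃ t, g = xG ax r t := by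
  refine rootClosure_induction ax (Q := fun g => ∃ t, g = xG ax r t) ⟨0, by simp⟩ ?_ ?_ hg
  · rintro s t rfl
    exact ⟨t, rfl⟩
  · rintro a b ⟨t, rfl⟩ ⟨u, rfl⟩
    exact ⟨t + u, xG_add ax _ _ _⟩

/-- The normaliser of a root subgroup. -/
abbrev NX (ax : Ax D F) (r : ℕ) : Subgroup (GL D.Idx F) :=
  Subgroup.normalizer (rootClosure ax (· = r) : Set (GL D.Idx F))

lemma mem_NX_of_commute {r : ℕ} {x : GL D.Idx F} (hx : ∀ b, x * xG ax r b = xG ax r b * x) : x ∈ NX ax r := by
  have key : ∀ z ∈ rootClosure ax (· = r), x * z * x⁻¹ = z := by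
    intro z hz
    obtain ⟨t, rfl⟩ := mem_rootSubgroup' ax hz
    rw [hx]; group
  refine Subgroup.mem_normalizer_iff.mpr fun z => ?_
  constructor
  · intro hz
    rw [key z hz]; exact hz
  · intro hz
    obtain ⟨t, ht⟩ := mem_rootSubgroup' ax hz
    have : z = x⁻¹ * xG ax r t * x := by
      rw [← ht]; group
    have h3 : x⁻¹ * xG ax r t * x = xG ax r t := by
      rw [mul_assoc, ← hx t]; group
    rw [this, h3]
    exact xG_mem_rootClosure ax (P := (· = r)) rfl t

variable (h : Tab D) (h2 : Tab2 D)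

include h h2 in
/-- The monomial elements in the normaliser of a root subgroup. -/
lemma mem_NX_of_isNor {r : ℕ} (hr : r < D.nroots) {n : GL D.Idx F} {π : Equiv.Perm (Fin D.nroots)}
    {c : Fin D.nroots → Fˣ} (H : IsNor h ax n π c) (hπ : π ⟨r, hr⟩ = ⟨r, hr⟩) : n ∈ NX ax r := by
  refine Subgroup.mem_normalizer_iff.mpr fun z => ?_
  have hconj : ∀ u, n * xG ax r u * n⁻¹ = xG ax r ((c ⟨r, hr⟩ : F) * u) := by
    intro u
    have := H.conj ⟨r, hr⟩ u
    rw [hπ] at this
    exact this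
  constructor
  · intro hz
    obtain ⟨t, rfl⟩ := mem_rootSubgroup' ax hz
    rw [hconj]
    exact xG_mem_rootClosure ax (P := (· = r)) rfl _
  · intro hz
    obtain ⟨t, ht⟩ := mem_rootSubgroup' ax hz
    have e := hconj ((c ⟨r, hr⟩ : F)⁻¹ * t)
    have hne : (c ⟨r, hr⟩ : F) ≠ 0 := (c ⟨r, hr⟩).ne_zero
    rw [mul_inv_cancel_left₀ hne, ← ht] at e
    have : z = xG ax r ((c ⟨r, hr⟩ : F)⁻¹ * t) := by
      have e2 : n * xG ax r ((c ⟨r, hr⟩ : F)⁻¹ * t) = n * z := mul_right_cancel e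
      exact (mul_left_cancel e2).symm
    rw [this]
    exact xG_mem_rootClosure ax (P := (· = r)) rfl _

/-- Hypotheses on a root element `x_r` central in `U`. -/
structure CentData (ax : Ax D F) (r : ℕ) : Prop where
  pos : D.IsPosRoot r
  commP : ∀ s, D.IsPosRoot s → ∀ a b, xG ax s a * xG ax r b = xG ax r b * xG ax s a

include h h2 in
lemma borel_le_NX {r : ℕ} (H : CentData ax r) : D.borelSubgroup F ≤ NX ax r := by
  have hr := H.pos.1
  apply sup_le
  · rw [posUnipotent_eq ax]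
    apply rootClosure_le
    intro s t hs
    exact mem_NX_of_commute ax fun b => H.commP s hs t b
  · exact diagonal_le_normalizer ax h (fun s hs => by subst hs; exact hr)

include h h2 in
/-- A key point: the element of `N` from the Bruhat decomposition fixes the root. -/
theorem mem_NX_of_commute_one {r : ℕ} (H : CentData ax r) {g : GL D.Idx F} (hg : g ∈ D.group F)
    (hc : g * xG ax r 1 = xG ax r 1 * g) : g ∈ NX ax r := by
  have hr := H.pos.1
  have hB := borel_le_NX ax h h2 H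
  obtain ⟨n, hn, hgn⟩ := Cfsg.Agent.Lib.BNPair.Basic.exists_mem_dc (P := bnPair h h2 ax) ⟨g, hg⟩
  obtain ⟨b₁, hb₁, b₂, hb₂, e⟩ := Cfsg.Agent.Lib.BNPair.Basic.mem_dc.mp hgn
  have hb₁' : (b₁ : GL D.Idx F) ∈ D.borelSubgroup F := Subgroup.mem_subgroupOf.mp hb₁
  have hb₂' : (b₂ : GL D.Idx F) ∈ D.borelSubgroup F := Subgroup.mem_subgroupOf.mp hb₂
  have hn' : (n : GL D.Idx F) ∈ D.monomialSubgroup F := Subgroup.mem_subgroupOf.mp hn
  have e' : g = (b₁ : GL D.Idx F) * n * b₂ := by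
    have := congrArg (Subtype.val) e
    simpa using this
  obtain ⟨π, f, Hn⟩ := exists_isNor h h2 ax hn'
  -- conjugates
  have h1 : (b₂ : GL D.Idx F) * xG ax r 1 * (b₂ : GL D.Idx F)⁻¹ ∈ rootClosure ax (· = r) := by
    apply (Subgroup.mem_normalizer_iff.mp (hB hb₂') _).mp
    exact xG_mem_rootClosure ax (P := (· = r)) rfl 1
  obtain ⟨c, hc1⟩ := mem_rootSubgroup' ax h1
  have h3 : (b₁ : GL D.Idx F)⁻¹ * xG ax r 1 * (b₁ : GL D.Idx F)⁻¹⁻¹ ∈ rootClosure ax (· = r) := by
    apply (Subgroup.mem_normalizer_iff.mp (hB (Subgroup.inv_mem _ hb₁')) _).mp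
    exact xG_mem_rootClosure ax (P := (· = r)) rfl 1
  obtain ⟨c', hc3⟩ := mem_rootSubgroup' ax h3
  have hc0 : c ≠ 0 := by
    rintro rfl
    rw [xG_zero] at hc1
    have h4 : xG ax r 1 = 1 := by
      have : xG ax r (1 : F) = (b₂ : GL D.Idx F)⁻¹ * ((b₂ : GL D.Idx F) * xG ax r 1 * (b₂ : GL D.Idx F)⁻¹) * b₂ := by group
      rw [this, hc1]; group
    have h5 : xG ax r (1 : F) = xG ax r 0 := by rw [h4, xG_zero]
    exact one_ne_zero (xG_eq_iff ax h h2 hr hr one_ne_zero h5).2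
  have hmain : (n : GL D.Idx F) * xG ax r c * (n : GL D.Idx F)⁻¹ = xG ax r c' := by
    rw [← hc1, ← hc3]
    rw [e'] at hc
    have e3 : (n : GL D.Idx F) * ((b₂ : GL D.Idx F) * xG ax r 1 * (b₂ : GL D.Idx F)⁻¹) * (n : GL D.Idx F)⁻¹ =
        (b₁ : GL D.Idx F)⁻¹ * (((b₁ : GL D.Idx F) * n * b₂) * xG ax r 1) * ((b₁ : GL D.Idx F) * n * b₂)⁻¹ * b₁ := by
      group
    rw [e3, hc]; group
  have hconj := Hn.conj ⟨r, hr⟩ c
  rw [hmain] at hconj
  have hne : (f ⟨r, hr⟩ : F) * c ≠ 0 := mul_ne_zero (f _).ne_zero hc0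
  have hπ := (xG_eq_iff ax h h2 (π ⟨r, hr⟩).isLt hr hne hconj.symm).1
  have hπ' : π ⟨r, hr⟩ = ⟨r, hr⟩ := Fin.ext hπ
  have hnN : (n : GL D.Idx F) ∈ NX ax r := mem_NX_of_isNor ax h h2 hr Hn hπ'
  rw [e']
  exact Subgroup.mul_mem _ (Subgroup.mul_mem _ (hB hb₁') hnN) (hB hb₂')

/-- The subgroup generated by `U` and the `X_{-p_j}`, `j ∈ J`. -/
abbrev MJ (ax : Ax D F) (J : Set ℕ) : Subgroup (GL D.Idx F) :=
  rootClosure ax (fun s => D.IsPosRoot s ∨ ∃ j, j < D.rank ∧ j ∈ J ∧ s = D.neg (D.simple j))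

include h h2 in
lemma neg_simple_lt {j : ℕ} (hj : j < D.rank) : D.neg (D.simple j) < D.nroots :=
  h.neg_lt _ (h.simple_lt j hj)

include h h2 in
lemma sG_mem_MJ {J : Set ℕ} {j : ℕ} (hj : j < D.rank) (hjJ : j ∈ J) : sG ax j ∈ MJ ax J := by
  have hpos := simple_isPos h hj
  have h1 : ∀ t : F, xG ax (D.simple j) t ∈ MJ ax J := fun t => xG_mem_rootClosure ax (Or.inl hpos) t
  have h3 : ∀ t : F, xG ax (D.neg (D.simple j)) t ∈ MJ ax J := fun t =>
    xG_mem_rootClosure ax (Or.inr ⟨j, hj, hjJ, rfl⟩) t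
  rw [sG, nG]
  exact Subgroup.mul_mem _ (Subgroup.mul_mem _ (h1 _) (h3 _)) (h1 _)

include h h2 in
lemma hG_mem_MJ {J : Set ℕ} {j : ℕ} (hj : j < D.rank) (hjJ : j ∈ J) (c : F) : hG ax (D.simple j) c ∈ MJ ax J := by
  have hpos := simple_isPos h hj
  have h1 : ∀ t : F, xG ax (D.simple j) t ∈ MJ ax J := fun t => xG_mem_rootClosure ax (Or.inl hpos) t
  have h3 : ∀ t : F, xG ax (D.neg (D.simple j)) t ∈ MJ ax J := fun t =>
    xG_mem_rootClosure ax (Or.inr ⟨j, hj, hjJ, rfl⟩) t
  have h4 : ∀ t : F, nG ax (D.simple j) t ∈ MJ ax J := fun t =>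
    Subgroup.mul_mem _ (Subgroup.mul_mem _ (h1 _) (h3 _)) (h1 _)
  rw [hG]
  exact Subgroup.mul_mem _ (h4 _) (h4 _)

lemma hG_one' (r : ℕ) : hG ax r (1 : F) = 1 := by
  rw [hG, ← nG_inv]
  exact mul_inv_cancel _

include h h2 in
/-- Part of the torus lying in `M_J`. -/
lemma tor_psi_mem_MJ {J : Set ℕ} (c : ℕ → Fˣ) (hc : ∀ i, i < D.rank → i ∉ J → c i = 1) :
    tor D (psi D c) ∈ MJ ax J := by
  rw [tor_psi_eq h h2 ax]
  have key : ∀ L : List ℕ, (∀ i ∈ L, i < D.rank) →
      wordG ax (L.flatMap fun i => D.hWord (D.simple i) (c i : F)) ∈ MJ ax J := by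
    intro L
    induction L with
    | nil =>
      intro _
      simp [wordG, Subgroup.one_mem]
    | cons a L ih =>
      intro hL
      have ha := hL a List.mem_cons_self
      rw [List.flatMap_cons, wordG_append]
      refine Subgroup.mul_mem _ ?_ (ih fun i hi => hL i (List.mem_cons_of_mem _ hi))
      have e : wordG ax (D.hWord (D.simple a) (c a : F)) = hG ax (D.simple a) (c a : F) := by
        apply Units.ext
        rw [hG_val, wordG_val]
        rfl
      rw [e]
      by_cases haJ : a ∈ J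
      · exact hG_mem_MJ ax h h2 ha haJ _
      · rw [hc a ha haJ, Units.val_one, hG_one']
        exact Subgroup.one_mem _
  exact key _ fun i hi => List.mem_range.mp hi

include h h2 in
lemma MJ_le_group (J : Set ℕ) : MJ ax J ≤ D.group F := by
  apply rootClosure_le
  rintro r t (hr | ⟨j, hj, -, rfl⟩)
  · exact xG_mem_group ax hr.1 t
  · exact xG_mem_group ax (neg_simple_lt h h2 hj) t

include h h2 in
lemma U_le_MJ (J : Set ℕ) : D.posUnipotent F ≤ MJ ax J := by
  rw [posUnipotent_eq ax]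
  exact rootClosure_mono ax fun r hr => Or.inl hr

include h h2 in
lemma diag_le_norm_MJ (J : Set ℕ) : D.diagonalSubgroup F ≤ Subgroup.normalizer (MJ ax J : Set (GL D.Idx F)) := by
  apply diagonal_le_normalizer ax h
  rintro r (hr | ⟨j, hj, -, rfl⟩)
  · exact hr.1
  · exact neg_simple_lt h h2 hj

include h h2 in
/-- A subgroup of `G` containing `B` and no `s_k`, `k ∉ J`, lies in `H M_J`. -/
theorem mem_sup_of_noS {J : Set ℕ} {Q : Subgroup (GL D.Idx F)} (hB : D.borelSubgroup F ≤ Q)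
    (hs : ∀ k, k < D.rank → k ∉ J → sG ax k ∉ Q) {g : GL D.Idx F} (hgG : g ∈ D.group F) (hgQ : g ∈ Q) :
    g ∈ MJ ax J ⊔ D.diagonalSubgroup F := by
  set P := bnPair h h2 ax with hP
  have hQ1 : P.B ≤ Q.subgroupOf (D.group F) := by
    intro x hx
    exact Subgroup.mem_subgroupOf.mpr (hB (Subgroup.mem_subgroupOf.mp hx))
  have hmem : (⟨g, hgG⟩ : ↥(D.group F)) ∈ Q.subgroupOf (D.group F) := Subgroup.mem_subgroupOf.mpr hgQ
  rw [Cfsg.Agent.Lib.BNPair.Basic.eq_parabolic hQ1] at hmem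
  have hle : P.parabolic {s | s ∈ P.S ∧ s ∈ Q.subgroupOf (D.group F)} ≤
      (MJ ax J ⊔ D.diagonalSubgroup F).subgroupOf (D.group F) := by
    apply sup_le
    · intro x hx
      refine Subgroup.mem_subgroupOf.mpr ?_
      have hx' : (x : GL D.Idx F) ∈ D.borelSubgroup F := Subgroup.mem_subgroupOf.mp hx
      have hle2 : D.borelSubgroup F ≤ MJ ax J ⊔ D.diagonalSubgroup F :=
        sup_le (le_trans (U_le_MJ ax h h2 J) le_sup_left) le_sup_right
      exact hle2 hx'
    · rw [Subgroup.closure_le]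
      rintro s ⟨⟨i, hi, hs1⟩, hs2⟩
      have e := eq_sG_of_mem h h2 ax hs1
      have hs3 : (s : GL D.Idx F) ∈ Q := Subgroup.mem_subgroupOf.mp hs2
      rw [e] at hs3
      have hiJ : i ∈ J := by
        by_contra hn
        exact hs i hi hn hs3
      refine Subgroup.mem_subgroupOf.mpr ?_
      rw [e]
      exact (le_sup_left : MJ ax J ≤ _) (sG_mem_MJ ax h h2 hi hiJ)
  exact Subgroup.mem_subgroupOf.mp (hle hmem)

/-- The element `x_r(1)` is centralised by `M_J`. -/
def CommJ (ax : Ax D F) (J : Set ℕ) (r : ℕ) : Prop :=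
  ∀ j, j < D.rank → j ∈ J → ∀ a b, xG ax (D.neg (D.simple j)) a * xG ax r b = xG ax r b * xG ax (D.neg (D.simple j)) a

include h h2 in
/-- The centraliser in `G` of a root element central in `U`. -/
theorem centralizer_eq {r k : ℕ} (H : CentData ax r) (hk : k < D.rank)
    (hJ : CommJ ax {j | j ≠ k} r)
    (hc1 : D.cartan k r = 1) (hc0 : ∀ j, j < D.rank → j ≠ k → D.cartan j r = 0)
    (hrefl : D.reflectRoot k r ≠ r) :
    D.group F ⊓ Subgroup.centralizer {xG ax r 1} = MJ ax {j | j ≠ k} := by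
  have hr := H.pos.1
  have hMc : ∀ x ∈ MJ ax {j | j ≠ k}, x * xG ax r 1 = xG ax r 1 * x := by
    intro x hx
    refine rootClosure_induction ax (Q := fun x => x * xG ax r 1 = xG ax r 1 * x) (by simp) ?_ ?_ hx
    · rintro s t (hs | ⟨j, hj, hjJ, rfl⟩)
      · exact H.commP s hs t 1
      · exact hJ j hj hjJ t 1
    · intro a b ha hb
      rw [mul_assoc, hb, ← mul_assoc, ha, mul_assoc]
  apply le_antisymm
  · rintro g ⟨hgG, hgc⟩
    have hc : g * xG ax r 1 = xG ax r 1 * g :=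
      ((Subgroup.mem_centralizer_iff.mp hgc) _ (Set.mem_singleton _)).symm
    have hN := mem_NX_of_commute_one ax h h2 H hgG hc
    have hs : ∀ j, j < D.rank → j ∉ ({j | j ≠ k} : Set ℕ) → sG ax j ∉ NX ax r := by
      intro j hj hjJ hmem
      have hjk : j = k := by
        by_contra hn
        exact hjJ hn
      subst hjk
      obtain ⟨f, Hs⟩ := exists_isNor_sG h ax h2 (F := F) hk
      have e1 := Hs.conj ⟨r, hr⟩ 1
      have e2 : sG ax j * xG ax r 1 * (sG ax j)⁻¹ ∈ rootClosure ax (· = r) :=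
        (Subgroup.mem_normalizer_iff.mp hmem _).mp (xG_mem_rootClosure ax (P := (· = r)) rfl 1)
      obtain ⟨u, hu⟩ := mem_rootSubgroup' ax e2
      rw [e1] at hu
      have hne : (f ⟨r, hr⟩ : F) * 1 ≠ 0 := by simp
      have e3 := (xG_eq_iff ax h h2 (wF h j hk ⟨r, hr⟩).isLt hr hne hu).1
      rw [wF_val] at e3
      exact hrefl e3
    have h3 := mem_sup_of_noS ax h h2 (borel_le_NX ax h h2 H) hs hgG hN
    obtain ⟨m, hm, a, ha, rfl⟩ := mem_sup_decomp (diag_le_norm_MJ ax h h2 _) h3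
    obtain ⟨y, rfl⟩ := exists_psi h h2 ax ha
    have hmc := hMc m hm
    have hac : tor D (psi D y) * xG ax r 1 = xG ax r 1 * tor D (psi D y) := by
      have h4 : m * (tor D (psi D y) * xG ax r 1) = m * (xG ax r 1 * tor D (psi D y)) := by
        rw [← mul_assoc, hc, ← mul_assoc, ← hmc, mul_assoc]
      exact mul_left_cancel h4
    have hk1 : y k = 1 := by
      have e1 := (isNor_tor h ax (psi D y)).conj ⟨r, hr⟩ 1
      have e2 : tor D (psi D y) * xG ax r 1 * (tor D (psi D y))⁻¹ = xG ax r 1 := by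
        rw [hac]; group
      rw [e2] at e1
      have e3 := (xG_eq_iff ax h h2 hr hr one_ne_zero e1).2
      have e4 : chi D (psi D y) r = y k := by
        rw [chi_psi h h2 y hr, Finset.prod_eq_single k]
        · rw [hc1, zpow_one]
        · intro i hi hik
          rw [hc0 i (Finset.mem_range.mp hi) hik, zpow_zero]
        · intro hn
          exact (hn (Finset.mem_range.mpr hk)).elim
      have e5 : ((y k : Fˣ) : F) = 1 := by
        have e6 : (1 : F) = ((chi D (psi D y) r : Fˣ) : F) * 1 := e3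
        rw [e4, mul_one] at e6
        exact e6.symm
      exact Units.ext e5
    refine Subgroup.mul_mem _ hm (tor_psi_mem_MJ ax h h2 y ?_)
    intro i hi hiJ
    have : i = k := by
      by_contra hn
      exact hiJ hn
    rw [this, hk1]
  · intro x hx
    refine ⟨MJ_le_group ax h h2 _ hx, ?_⟩
    refine Subgroup.mem_centralizer_iff.mpr ?_
    intro y hy
    rw [Set.mem_singleton_iff] at hy
    subst hy
    exact (hMc x hx).symm

/-- Boolean check for `centralizer_eq` in characteristic two. -/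
def centChk (D : ChevalleyDatum) (r k : ℕ) : Bool :=
  decide (D.IsPosRoot r) && decide (k < D.rank) &&
  (List.range D.nroots).all (fun s => !decide (D.IsPosRoot s) || decide (s = r) ||
      (decide (s ≠ D.neg r) && (D.commTerms r s).all (fun c => decide ((2 : ℤ) ∣ c.2.1)))) &&
  (List.range D.rank).all (fun j => decide (j = k) ||
      (decide (D.neg (D.simple j) ≠ r) && decide (D.neg (D.simple j) ≠ D.neg r) &&
        (D.commTerms r (D.neg (D.simple j))).all (fun c => decide ((2 : ℤ) ∣ c.2.1)) &&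
        decide (D.cartan j r = 0))) &&
  decide (D.cartan k r = 1) && decide (D.reflectRoot k r ≠ r)

include h h2 in
theorem centralizer_eq_of_chk [CharP F 2] {r k : ℕ} (hchk : centChk D r k = true) :
    D.group F ⊓ Subgroup.centralizer {xG ax r 1} = MJ ax {j | j ≠ k} := by
  simp only [centChk, Bool.and_eq_true, decide_eq_true_eq, List.all_eq_true, List.mem_range,
    Bool.or_eq_true, Bool.not_eq_true', decide_eq_false_iff_not] at hchk
  obtain ⟨⟨⟨⟨⟨hpos, hk⟩, hP⟩, hN⟩, hc1⟩, hrefl⟩ := hchk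
  have hr := hpos.1
  have hz : ∀ c : ℤ, (2 : ℤ) ∣ c → (c : F) = 0 := fun c hc => (CharP.intCast_eq_zero_iff F 2 c).mpr (by exact_mod_cast hc)
  refine centralizer_eq ax h h2 ⟨hpos, ?_⟩ hk ?_ hc1 ?_ hrefl
  · intro s hs a b
    by_cases hsr : s = r
    · subst hsr
      rw [xG_add, xG_add, add_comm]
    · rcases hP s hs.1 with (h3 | h3) | h3
      · exact (h3 hs).elim
      · exact (hsr h3).elim
      · exact xG_commute_of_terms ax hr hs.1 hsr h3.1 (fun c hc => hz _ (h3.2 c hc)) a b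
  · intro j hj hjJ a b
    rcases hN j hj with h3 | h3
    · exact (hjJ h3).elim
    · exact xG_commute_of_terms ax hr (h.neg_lt _ (h.simple_lt j hj)) h3.1.1.1 h3.1.1.2
        (fun c hc => hz _ (h3.1.2 c hc)) a b
  · intro j hj hjk
    rcases hN j hj with h3 | h3
    · exact (hjk h3).elim
    · exact h3.2

end Cfsg.Agent.Lib.KS71.ChevCent
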