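/-
Centralisers of products of commuting root elements in characteristic two.  If `v` is a product of root elements
whose `U`-class lies in an abelian group of root elements (with no sums of roots), the Bruhat decomposition of an
element centralising `v` is controlled by a purely combinatorial condition on the Weyl group.
-/
import Mathlib
import Cfsg.Agent.Lib.KS71.ChevCent

set_option autoImplicit false
set_option linter.unusedSectionVars false
set_option linter.unusedVariables false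

namespace Cfsg.Agent.Lib.KS71.ChevAb

open scoped MatrixGroups Matrix
open Cfsg Cfsg.Lie Cfsg.Lie.ChevalleyDatum
open Cfsg.Agent.Lib.Chev.Tables Cfsg.Agent.Lib.Chev.Tables2 Cfsg.Agent.Lib.Chev.Tables3 Cfsg.Agent.Lib.Chev.Raise
open Cfsg.Agent.Lib.Chev.Basic Cfsg.Agent.Lib.Chev.AxBasic Cfsg.Agent.Lib.Chev.Torus
open Cfsg.Agent.Lib.Chev.Products Cfsg.Agent.Lib.Chev.Products2 Cfsg.Agent.Lib.Chev.Mono1
open Cfsg.Agent.Lib.Chev.Mono2 Cfsg.Agent.Lib.Chev.Mono3 Cfsg.Agent.Lib.Chev.Bn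
open Cfsg.Agent.Lib.Chev.Order1 Cfsg.Agent.Lib.Chev.Diag
open Cfsg.Agent.Lib.Chev.Parab
open Cfsg.Agent.Lib.KS71.ChevCent

variable {D : ChevalleyDatum} {F : Type*} [Field F]

/-! ### Commuting families of root elements -/

section family

/-- The sum of the letters of a word. -/
noncomputable def sumS (w : List (ℕ × F)) : ℕ → F := (w.map fun p => (Pi.single p.1 p.2 : ℕ → F)).sum

@[simp] lemma sumS_nil : sumS ([] : List (ℕ × F)) = 0 := rfl

lemma sumS_cons (a : ℕ × F) (w : List (ℕ × F)) : sumS (a :: w) = Pi.single a.1 a.2 + sumS w := by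
  simp [sumS]

lemma sumS_append (v w : List (ℕ × F)) : sumS (v ++ w) = sumS v + sumS w := by
  simp [sumS]

lemma sumS_apply_eq_zero {w : List (ℕ × F)} {ρ : ℕ} (hw : ∀ p ∈ w, p.2 = 0 ∨ p.1 ≠ ρ) : sumS w ρ = 0 := by
  induction w with
  | nil => rfl
  | cons a w ih =>
    rw [sumS_cons, Pi.add_apply, ih fun p hp => hw p (List.mem_cons_of_mem _ hp)]
    rcases hw a List.mem_cons_self with h1 | h1
    · simp [h1]
    · simp [Pi.single_apply, h1.symm]

variable (ax : Ax D F)

/-- A commuting family of roots. -/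
def CommF (T : ℕ → Prop) : Prop :=
  ∀ a b, T a → T b → ∀ s t : F, xG ax a s * xG ax b t = xG ax b t * xG ax a s

/-- Support of coefficient functions. -/
def SuppIn (T : ℕ → Prop) (t : ℕ → F) : Prop := ∀ r, t r ≠ 0 → T r

lemma suppIn_zero (T : ℕ → Prop) : SuppIn T (0 : ℕ → F) := fun r hr => (hr rfl).elim

lemma SuppIn.add {T : ℕ → Prop} {t t' : ℕ → F} (h : SuppIn T t) (h' : SuppIn T t') : SuppIn T (t + t') := by
  intro r hr
  by_cases h0 : t r = 0
  · apply h' r
    intro h1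
    apply hr
    simp [h0, h1]
  · exact h r h0

lemma suppIn_single {T : ℕ → Prop} {a : ℕ} {c : F} (h : c = 0 ∨ T a) : SuppIn T (Pi.single a c) := by
  intro r hr
  by_cases hra : r = a
  · subst hra
    rw [Pi.single_eq_same] at hr
    exact h.resolve_left hr
  · rw [Pi.single_eq_of_ne hra] at hr
    exact (hr rfl).elim

variable {ax}

lemma xG_commute_wordL {T : ℕ → Prop} (hT : CommF ax T) {a : ℕ} {c : F} (hac : c = 0 ∨ T a) {t : ℕ → F}
    (ht : SuppIn T t) (L : List ℕ) : xG ax a c * wordL ax L t = wordL ax L t * xG ax a c := by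
  induction L with
  | nil => simp [wordL_nil]
  | cons b L ih =>
    rw [wordL_cons, ← mul_assoc]
    have e : xG ax a c * xG ax b (t b) = xG ax b (t b) * xG ax a c := by
      by_cases h0 : t b = 0
      · rw [h0, xG_zero]; simp
      · rcases hac with rfl | hTa
        · rw [xG_zero]; simp
        · exact hT a b hTa (ht b h0) c (t b)
    rw [e, mul_assoc, ih, mul_assoc]

lemma wordL_mul {T : ℕ → Prop} (hT : CommF ax T) {t t' : ℕ → F} (ht : SuppIn T t) (ht' : SuppIn T t')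
    (L : List ℕ) : wordL ax L t * wordL ax L t' = wordL ax L (t + t') := by
  induction L with
  | nil => simp [wordL_nil]
  | cons a L ih =>
    rw [wordL_cons, wordL_cons, wordL_cons]
    have hac : t' a = 0 ∨ T a := by
      by_cases h0 : t' a = 0
      · exact Or.inl h0
      · exact Or.inr (ht' a h0)
    have e : wordL ax L t * xG ax a (t' a) = xG ax a (t' a) * wordL ax L t :=
      (xG_commute_wordL hT hac ht L).symm
    calc xG ax a (t a) * wordL ax L t * (xG ax a (t' a) * wordL ax L t')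
        = xG ax a (t a) * (wordL ax L t * xG ax a (t' a)) * wordL ax L t' := by group
      _ = xG ax a (t a) * xG ax a (t' a) * (wordL ax L t * wordL ax L t') := by rw [e]; group
      _ = _ := by rw [ih, xG_add, Pi.add_apply]

lemma wordL_zero (L : List ℕ) : wordL ax L (0 : ℕ → F) = 1 := by
  induction L with
  | nil => rfl
  | cons a L ih => rw [wordL_cons, ih]; simp [xG_zero]

lemma wordL_single {L : List ℕ} (hL : L.Nodup) {a : ℕ} (ha : a ∈ L) (c : F) :
    wordL ax L (Pi.single a c) = xG ax a c := by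
  induction L with
  | nil => simp at ha
  | cons b L ih =>
    rw [wordL_cons]
    obtain ⟨hb, hL'⟩ := List.nodup_cons.mp hL
    by_cases hab : a = b
    · subst hab
      rw [Pi.single_eq_same]
      have : wordL ax L (Pi.single a c) = 1 := by
        rw [← wordL_zero (ax := ax) L]
        apply wordL_congr
        intro r hr
        have : r ≠ a := fun e => hb (e ▸ hr)
        simp [Pi.single_eq_of_ne this]
      rw [this, mul_one]
    · have ha' : a ∈ L := (List.mem_cons.mp ha).resolve_left hab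
      rw [Pi.single_eq_of_ne (Ne.symm hab), xG_zero, one_mul, ih hL' ha']

/-- Words whose letters lie in a commuting family are ordered products. -/
lemma wordG_eq_wordL {T : ℕ → Prop} (hT : CommF ax T) {L : List ℕ} (hL : L.Nodup) (w : List (ℕ × F))
    (hw : ∀ p ∈ w, p.2 = 0 ∨ (T p.1 ∧ p.1 ∈ L)) :
    wordG ax w = wordL ax L (sumS w) ∧ SuppIn T (sumS w) := by
  induction w with
  | nil =>
    refine ⟨by rw [sumS_nil, wordL_zero]; rfl, suppIn_zero T⟩
  | cons a w ih =>
    obtain ⟨h1, h2⟩ := ih fun p hp => hw p (List.mem_cons_of_mem _ hp)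
    have ha := hw a List.mem_cons_self
    have hs : SuppIn T (Pi.single a.1 a.2) := suppIn_single (ha.imp_right And.left)
    refine ⟨?_, ?_⟩
    · rw [wordG_cons, h1, sumS_cons, ← wordL_mul hT hs h2]
      congr 1
      rcases ha with h0 | ⟨_, h0⟩
      · rw [h0, xG_zero]
        have : (Pi.single a.1 (0 : F) : ℕ → F) = 0 := by simp
        rw [this, wordL_zero]
      · exact (wordL_single hL h0 _).symm
    · rw [sumS_cons]
      exact hs.add h2

lemma wordL_eq_wordG (L : List ℕ) (t : ℕ → F) : wordL ax L t = wordG ax (L.map fun r => (r, t r)) := rfl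

lemma sumS_map_eq {L : List ℕ} (hL : L.Nodup) (Q : ℕ → ℕ) (g : ℕ → F) {r₀ : ℕ} (hr₀ : r₀ ∈ L)
    (hQ : ∀ r ∈ L, Q r = Q r₀ → r = r₀) : sumS (L.map fun r => (Q r, g r)) (Q r₀) = g r₀ := by
  induction L with
  | nil => simp at hr₀
  | cons a L ih =>
    obtain ⟨ha, hL'⟩ := List.nodup_cons.mp hL
    rw [List.map_cons, sumS_cons, Pi.add_apply]
    by_cases h0 : a = r₀
    · subst h0
      rw [Pi.single_eq_same, sumS_apply_eq_zero, add_zero]
      intro p hp
      obtain ⟨r, hr, rfl⟩ := List.mem_map.mp hp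
      right
      intro e
      exact ha ((hQ r (List.mem_cons_of_mem _ hr) e) ▸ hr)
    · have h1 : r₀ ∈ L := (List.mem_cons.mp hr₀).resolve_left (Ne.symm h0)
      have h3 : Q a ≠ Q r₀ := fun e => h0 (hQ a List.mem_cons_self e)
      simp only
      rw [Pi.single_eq_of_ne (Ne.symm h3), zero_add]
      exact ih hL' h1 fun r hr => hQ r (List.mem_cons_of_mem _ hr)

lemma sumS_map_notMem {L : List ℕ} (g : ℕ → F) {ρ : ℕ} (hρ : ρ ∉ L) :
    sumS (L.map fun r => (r, g r)) ρ = 0 := by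
  apply sumS_apply_eq_zero
  intro p hp
  obtain ⟨r, hr, rfl⟩ := List.mem_map.mp hp
  right
  exact fun e => hρ (e ▸ hr)

lemma wordG_mem_rootClosure' {P : ℕ → Prop} {w : List (ℕ × F)} (hw : ∀ p ∈ w, p.2 = 0 ∨ P p.1) :
    wordG ax w ∈ rootClosure ax P := by
  induction w with
  | nil => simp [wordG_nil, Subgroup.one_mem]
  | cons a w ih =>
    rw [wordG_cons]
    apply Subgroup.mul_mem
    · rcases hw a List.mem_cons_self with h0 | h0
      · rw [h0, xG_zero]; exact Subgroup.one_mem _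
      · exact xG_mem_rootClosure ax h0 _
    · exact ih fun p hp => hw p (List.mem_cons_of_mem _ hp)

end family

/-! ### The support of a conjugate -/

section support

variable (ax : Ax D F) (h : Tab D) (h2 : Tab2 D)

lemma conj_wordL {n : GL D.Idx F} {P : ℕ → ℕ} {C : ℕ → F} {Ω : List ℕ}
    (hP : ∀ r ∈ Ω, ∀ t, n * xG ax r t * n⁻¹ = xG ax (P r) (C r * t)) (L : List ℕ) (hL : ∀ r ∈ L, r ∈ Ω) (f : ℕ → F) :
    n * wordL ax L f * n⁻¹ = wordG ax (L.map fun r => (P r, C r * f r)) := by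
  induction L with
  | nil => simp [wordL_nil, wordG_nil]
  | cons a L ih =>
    rw [wordL_cons, List.map_cons, wordG_cons]
    have e : n * (xG ax a (f a) * wordL ax L f) * n⁻¹ = (n * xG ax a (f a) * n⁻¹) * (n * wordL ax L f * n⁻¹) := by
      group
    rw [e, hP a (hL a List.mem_cons_self), ih fun r hr => hL r (List.mem_cons_of_mem _ hr)]

include h h2 in
/-- `n` carries a product in a commuting family to such a product only through the family. -/
theorem support_of_conj {n : GL D.Idx F} {P : ℕ → ℕ} {C : ℕ → F} {Ω : List ℕ}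
    (hΩ : GoodList D Ω) (hcomm : CommF ax (· ∈ Ω))
    (hP : ∀ r ∈ Ω, ∀ t, n * xG ax r t * n⁻¹ = xG ax (P r) (C r * t))
    (hPlt : ∀ r ∈ Ω, P r < D.nroots) (hC : ∀ r ∈ Ω, C r ≠ 0) (hPinj : ∀ r ∈ Ω, ∀ s ∈ Ω, P r = P s → r = s)
    {f₁ f₂ : ℕ → F} (hf₁ : SuppIn (· ∈ Ω) f₁) (hf₂ : SuppIn (· ∈ Ω) f₂)
    (he : n * wordL ax Ω f₁ * n⁻¹ = wordL ax Ω f₂) : ∀ r ∈ Ω, f₁ r ≠ 0 → P r ∈ Ω := by
  classical
  have hnd : Ω.Nodup := hΩ.sorted.imp (fun {a b} hab => ne_of_lt hab)
  -- the letters with negative images vanish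
  have hneg : ∀ r ∈ Ω, f₁ r ≠ 0 → ¬ D.IsNegRoot (P r) := by
    set gm : ℕ → F := fun r => if D.IsNegRoot (P r) then f₁ r else 0 with hgm
    set gp : ℕ → F := fun r => if D.IsNegRoot (P r) then 0 else f₁ r with hgp
    have hsum : gp + gm = f₁ := by
      funext r
      simp only [hgm, hgp, Pi.add_apply]
      split_ifs <;> simp
    have hsm : SuppIn (· ∈ Ω) gm := by
      intro r hr
      apply hf₁ r
      intro h0
      apply hr
      simp [hgm, h0]
    have hsp : SuppIn (· ∈ Ω) gp := by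
      intro r hr
      apply hf₁ r
      intro h0
      apply hr
      simp [hgp, h0]
    have hsplit : wordL ax Ω f₁ = wordL ax Ω gp * wordL ax Ω gm := by
      rw [wordL_mul hcomm hsp hsm, hsum]
    have hA : n * wordL ax Ω gp * n⁻¹ ∈ D.posUnipotent F := by
      rw [conj_wordL ax hP Ω (fun r hr => hr), posUnipotent_eq ax]
      apply wordG_mem_rootClosure'
      intro p hp
      obtain ⟨r, hr, rfl⟩ := List.mem_map.mp hp
      by_cases hn : D.IsNegRoot (P r)
      · left
        simp [hgp, hn]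
      · right
        exact (isPos_or_isNeg h (hPlt r hr)).resolve_right hn
    have hB : n * wordL ax Ω gm * n⁻¹ ∈ D.negUnipotent F := by
      rw [conj_wordL ax hP Ω (fun r hr => hr), negUnipotent_eq ax]
      apply wordG_mem_rootClosure'
      intro p hp
      obtain ⟨r, hr, rfl⟩ := List.mem_map.mp hp
      by_cases hn : D.IsNegRoot (P r)
      · right
        exact hn
      · left
        simp [hgm, hn]
    have hU : wordL ax Ω f₂ ∈ D.posUnipotent F := by
      rw [posUnipotent_eq ax]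
      apply rootClosure_mono ax (fun r hr => hΩ.pos r hr)
      exact wordL_mem ax f₂
    have hB2 : n * wordL ax Ω gm * n⁻¹ ∈ D.borelSubgroup F := by
      apply (le_sup_left : D.posUnipotent F ≤ D.borelSubgroup F)
      have e : n * wordL ax Ω gm * n⁻¹ = (n * wordL ax Ω gp * n⁻¹)⁻¹ * wordL ax Ω f₂ := by
        rw [← he, hsplit]; group
      rw [e]
      exact Subgroup.mul_mem _ (Subgroup.inv_mem _ hA) hU
    have h1 : n * wordL ax Ω gm * n⁻¹ ∈ D.borelSubgroup F ⊓ D.negUnipotent F := ⟨hB2, hB⟩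
    rw [borel_inf_V ax h, Subgroup.mem_bot] at h1
    have h3 : wordL ax Ω gm = wordL ax Ω 0 := by
      rw [wordL_zero]
      have : wordL ax Ω gm = n⁻¹ * (n * wordL ax Ω gm * n⁻¹) * n := by group
      rw [this, h1]; group
    have h4 := wordL_inj ax h h2 hΩ h3
    intro r hr hr0 hn
    have h5 := h4 r hr
    simp only [hgm, hn, if_true, Pi.zero_apply] at h5
    exact hr0 h5
  intro r₀ hr₀ hr₀f
  have hpos₀ : D.IsPosRoot (P r₀) := (isPos_or_isNeg h (hPlt r₀ hr₀)).resolve_right (hneg r₀ hr₀ hr₀f)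
  by_contra hnot
  have hnd2 : D.posRoots.Nodup := (goodList_posRoots h).sorted.imp (fun {a b} hab => ne_of_lt hab)
  set T₁ : ℕ → Prop := fun ρ => ∃ r ∈ Ω, P r = ρ with hT₁
  have hcomm₁ : CommF ax T₁ := by
    rintro _ _ ⟨r, hr, rfl⟩ ⟨r', hr', rfl⟩ s t
    have e1 := hP r hr ((C r)⁻¹ * s)
    have e2 := hP r' hr' ((C r')⁻¹ * t)
    rw [mul_inv_cancel_left₀ (hC r hr)] at e1
    rw [mul_inv_cancel_left₀ (hC r' hr')] at e2
    rw [← e1, ← e2]
    have e3 := hcomm r r' hr hr' ((C r)⁻¹ * s) ((C r')⁻¹ * t)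
    calc n * xG ax r ((C r)⁻¹ * s) * n⁻¹ * (n * xG ax r' ((C r')⁻¹ * t) * n⁻¹)
        = n * (xG ax r ((C r)⁻¹ * s) * xG ax r' ((C r')⁻¹ * t)) * n⁻¹ := by group
      _ = n * (xG ax r' ((C r')⁻¹ * t) * xG ax r ((C r)⁻¹ * s)) * n⁻¹ := by rw [e3]
      _ = _ := by group
  have h1 := conj_wordL ax hP Ω (fun r hr => hr) f₁
  rw [he] at h1
  have hw1 := (wordG_eq_wordL hcomm₁ hnd2 (Ω.map fun r => (P r, C r * f₁ r)) (by
    intro p hp
    obtain ⟨r, hr, rfl⟩ := List.mem_map.mp hp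
    by_cases h0 : f₁ r = 0
    · left
      simp [h0]
    · right
      refine ⟨⟨r, hr, rfl⟩, mem_posRoots.mpr ?_⟩
      exact (isPos_or_isNeg h (hPlt r hr)).resolve_right (hneg r hr h0))).1
  have hw2 := (wordG_eq_wordL hcomm hnd2 (Ω.map fun r => (r, f₂ r)) (by
    intro p hp
    obtain ⟨r, hr, rfl⟩ := List.mem_map.mp hp
    right
    exact ⟨hr, mem_posRoots.mpr (hΩ.pos r hr)⟩)).1
  rw [wordL_eq_wordG] at h1
  rw [hw1, hw2] at h1
  have h3 := wordL_inj ax h h2 (goodList_posRoots h) h1 (P r₀) (mem_posRoots.mpr hpos₀)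
  rw [sumS_map_eq hnd (fun r => P r) _ hr₀ (fun r hr e => hPinj r hr r₀ hr₀ e)] at h3
  rw [sumS_map_notMem f₂ hnot] at h3
  exact mul_ne_zero (hC r₀ hr₀) hr₀f h3.symm

end support

/-! ### The class of a product of root elements under `B` -/

section classU

/-- The hypotheses on the family `Ω ⊇ S₀`, in characteristic two. -/
structure AbHyp (D : ChevalleyDatum) (Ω S₀ : List ℕ) : Prop where
  good : GoodList D Ω
  sub : ∀ r ∈ S₀, r ∈ Ω
  even : ∀ r ∈ Ω, ∀ s ∈ Ω, r ≠ s → ∀ c ∈ D.commTerms r s, (2 : ℤ) ∣ c.2.1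
  cl : ∀ s ∈ D.posRoots, ∀ r ∈ Ω, s ≠ r → ∀ c ∈ D.commTerms s r, (2 : ℤ) ∣ c.2.1 ∨ (c.1 ∈ Ω ∧ c.1 ∉ S₀)

variable (ax : Ax D F) (h : Tab D) (h2 : Tab2 D)

lemma cast_even [CharP F 2] {c : ℤ} (hc : (2 : ℤ) ∣ c) : (c : F) = 0 :=
  (CharP.intCast_eq_zero_iff F 2 c).mpr (by exact_mod_cast hc)

lemma cast_odd [CharP F 2] {c : ℤ} (hc : ¬ (2 : ℤ) ∣ c) : (c : F) = 1 := by
  obtain ⟨k, hk⟩ : ∃ k, c = 2 * k + 1 := by
    rcases Int.even_or_odd' c with ⟨k, hk | hk⟩
    · exact (hc ⟨k, hk⟩).elim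
    · exact ⟨k, hk⟩
  have h2F : (2 : F) = 0 := CharTwo.two_eq_zero
  rw [hk]
  push_cast
  rw [h2F]
  simp

variable {Ω S₀ : List ℕ}

include h in
lemma ne_neg_of_pos {r s : ℕ} (hr : D.IsPosRoot r) (hs : D.IsPosRoot s) : s ≠ D.neg r := by
  rintro rfl
  exact not_isNeg_of_isPos h hs ((isNegRoot_neg h hr.1).mpr hr)

include h in
lemma commF_of [CharP F 2] (H : AbHyp D Ω S₀) : CommF ax (· ∈ Ω) := by
  intro a b ha hb s t
  by_cases hab : a = b
  · subst hab
    rw [xG_add, xG_add, add_comm]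
  · have hpa := H.good.pos a ha
    have hpb := H.good.pos b hb
    exact xG_commute_of_terms ax hpb.1 hpa.1 hab (ne_neg_of_pos h hpb hpa)
      (fun c hc => cast_even (H.even b hb a ha (Ne.symm hab) c hc)) s t

include h in
lemma conj_letter {s r : ℕ} (hs : D.IsPosRoot s) (hr : D.IsPosRoot r) (hsr : s ≠ r) (a b : F) :
    xG ax s a * xG ax r b * (xG ax s a)⁻¹ = xG ax r b * wordG ax (D.commWord F s r (-a) b) := by
  have e := xG_comm ax hs.1 hr.1 (Ne.symm hsr) (ne_neg_of_pos h hs hr) (-a) b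
  rw [xG_inv, mul_assoc, e]
  have : xG ax s a * xG ax s (-a) = 1 := by rw [xG_add, add_neg_cancel, xG_zero]
  calc xG ax s a * (xG ax s (-a) * xG ax r b * wordG ax (D.commWord F s r (-a) b))
      = (xG ax s a * xG ax s (-a)) * (xG ax r b * wordG ax (D.commWord F s r (-a) b)) := by group
    _ = _ := by rw [this, one_mul]

/-- The letters produced by conjugating with `x_s(a)`. -/
noncomputable def letW (D : ChevalleyDatum) (Ω : List ℕ) (s : ℕ) (a : F) (f : ℕ → F) : List (ℕ × F) :=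
  Ω.flatMap fun r => if r = s then [] else D.commWord F s r (-a) (f r)

lemma letW_spec [CharP F 2] (H : AbHyp D Ω S₀) {s : ℕ} (hs : D.IsPosRoot s) (a : F) (f : ℕ → F) :
    ∀ p ∈ letW D Ω s a f, p.2 = 0 ∨ (p.1 ∈ Ω ∧ p.1 ∉ S₀) := by
  intro p hp
  simp only [letW, List.mem_flatMap] at hp
  obtain ⟨r, hr, hp⟩ := hp
  by_cases hrs : r = s
  · simp [hrs] at hp
  · rw [if_neg hrs] at hp
    simp only [commWord, List.mem_map] at hp
    obtain ⟨c, hc, rfl⟩ := hp
    rcases H.cl s (mem_posRoots.mpr hs) r hr (Ne.symm hrs) c hc with h1 | h1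
    · left
      simp [cast_even h1]
    · right
      exact h1

include h in
lemma conj_wordL_sub [CharP F 2] (H : AbHyp D Ω S₀) {s : ℕ} (hs : D.IsPosRoot s) (a : F) (f : ℕ → F)
    (L : List ℕ) (hL : ∀ r ∈ L, r ∈ Ω) :
    xG ax s a * wordL ax L f * (xG ax s a)⁻¹ = wordL ax L f * wordG ax (letW D L s a f) := by
  have hcomm := commF_of ax h H
  have hnd : Ω.Nodup := H.good.sorted.imp (fun {a b} hab => ne_of_lt hab)
  have hspec : ∀ L' : List ℕ, (∀ r ∈ L', r ∈ Ω) → ∀ p ∈ letW D L' s a f, p.2 = 0 ∨ (p.1 ∈ Ω) := by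
    intro L' hL' p hp
    simp only [letW, List.mem_flatMap] at hp
    obtain ⟨r, hr, hp⟩ := hp
    have hp' : p ∈ letW D Ω s a f := by
      simp only [letW, List.mem_flatMap]
      exact ⟨r, hL' r hr, hp⟩
    exact (letW_spec H hs a f p hp').imp_right And.left
  induction L with
  | nil => simp [wordL_nil, letW, wordG_nil]
  | cons b L ih =>
    have hb := hL b List.mem_cons_self
    have hL' : ∀ r ∈ L, r ∈ Ω := fun r hr => hL r (List.mem_cons_of_mem _ hr)
    have ih' := ih hL'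
    rw [wordL_cons]
    have e : xG ax s a * (xG ax b (f b) * wordL ax L f) * (xG ax s a)⁻¹ =
        (xG ax s a * xG ax b (f b) * (xG ax s a)⁻¹) * (xG ax s a * wordL ax L f * (xG ax s a)⁻¹) := by group
    rw [e, ih']
    have hlet : letW D (b :: L) s a f = (if b = s then [] else D.commWord F s b (-a) (f b)) ++ letW D L s a f := by
      simp [letW]
    rw [hlet, wordG_append]
    set Wb := (if b = s then [] else D.commWord F s b (-a) (f b)) with hWb
    have hWbspec : ∀ p ∈ Wb, p.2 = 0 ∨ p.1 ∈ Ω := by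
      intro p hp
      apply hspec [b] (by simpa using hb)
      simp only [letW, List.flatMap_cons, List.flatMap_nil, List.append_nil]
      exact hp
    have h1 : xG ax s a * xG ax b (f b) * (xG ax s a)⁻¹ = xG ax b (f b) * wordG ax Wb := by
      by_cases hbs : b = s
      · subst hbs
        simp only [hWb, if_true, wordG_nil, mul_one]
        rw [xG_inv, xG_add, xG_add]
        congr 1
        ring
      · simp only [hWb, if_neg hbs]
        exact conj_letter ax h hs (H.good.pos b hb) (Ne.symm hbs) a (f b)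
    rw [h1]
    -- commutation inside the family
    have hc : wordG ax Wb * wordL ax L f = wordL ax L f * wordG ax Wb := by
      have h3 := wordG_eq_wordL hcomm hnd Wb (fun p hp => (hWbspec p hp).imp_right fun h0 => ⟨h0, h0⟩)
      have h4 := wordG_eq_wordL hcomm hnd (L.map fun r => (r, f r)) (by
        intro p hp
        obtain ⟨r, hr, rfl⟩ := List.mem_map.mp hp
        exact Or.inr ⟨hL' r hr, hL' r hr⟩)
      rw [wordL_eq_wordG, h3.1, h4.1, wordL_mul hcomm h3.2 h4.2, wordL_mul hcomm h4.2 h3.2, add_comm]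
    calc xG ax b (f b) * wordG ax Wb * (wordL ax L f * wordG ax (letW D L s a f))
        = xG ax b (f b) * (wordG ax Wb * wordL ax L f) * wordG ax (letW D L s a f) := by group
      _ = _ := by rw [hc]; group

include h in
/-- Conjugating by a positive root element: the new coefficients. -/
lemma conj_Y [CharP F 2] (H : AbHyp D Ω S₀) {s : ℕ} (hs : D.IsPosRoot s) (a : F) {f : ℕ → F}
    (hf : SuppIn (· ∈ Ω) f) :
    xG ax s a * wordL ax Ω f * (xG ax s a)⁻¹ = wordL ax Ω (f + sumS (letW D Ω s a f)) ∧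
      SuppIn (· ∈ Ω) (f + sumS (letW D Ω s a f)) ∧ ∀ ρ ∈ S₀, (f + sumS (letW D Ω s a f)) ρ = f ρ := by
  have hcomm := commF_of ax h H
  have hnd : Ω.Nodup := H.good.sorted.imp (fun {a b} hab => ne_of_lt hab)
  have hsp := letW_spec H hs a f
  have h3 := wordG_eq_wordL hcomm hnd (letW D Ω s a f)
    (fun p hp => (hsp p hp).imp_right fun h0 => ⟨h0.1, h0.1⟩)
  refine ⟨?_, hf.add h3.2, ?_⟩
  · rw [conj_wordL_sub ax h H hs a f Ω (fun r hr => hr), h3.1, wordL_mul hcomm hf h3.2]
  · intro ρ hρ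
    rw [Pi.add_apply, sumS_apply_eq_zero, add_zero]
    intro p hp
    rcases hsp p hp with h1 | h1
    · exact Or.inl h1
    · right
      rintro rfl
      exact h1.2 hρ

include h in
/-- The `U`-class. -/
theorem class_U [CharP F 2] (H : AbHyp D Ω S₀) {u : GL D.Idx F} (hu : u ∈ D.posUnipotent F) :
    ∀ f : ℕ → F, SuppIn (· ∈ Ω) f →
      ∃ f' : ℕ → F, SuppIn (· ∈ Ω) f' ∧ (∀ ρ ∈ S₀, f' ρ = f ρ) ∧ u * wordL ax Ω f * u⁻¹ = wordL ax Ω f' := by
  rw [posUnipotent_eq ax] at hu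
  refine rootClosure_induction ax (Q := fun u => ∀ f : ℕ → F, SuppIn (· ∈ Ω) f →
      ∃ f' : ℕ → F, SuppIn (· ∈ Ω) f' ∧ (∀ ρ ∈ S₀, f' ρ = f ρ) ∧ u * wordL ax Ω f * u⁻¹ = wordL ax Ω f') ?_ ?_ ?_ hu
  · intro f hf
    exact ⟨f, hf, fun _ _ => rfl, by simp⟩
  · intro s t hs f hf
    obtain ⟨h1, h3, h4⟩ := conj_Y ax h H hs t hf
    exact ⟨_, h3, h4, h1⟩
  · intro a b ha hb f hf
    obtain ⟨f₁, h1, h3, h4⟩ := hb f hf
    obtain ⟨f₂, h5, h6, h7⟩ := ha f₁ h1
    refine ⟨f₂, h5, fun ρ hρ => by rw [h6 ρ hρ, h3 ρ hρ], ?_⟩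
    rw [← h7, ← h4]
    group

include h in
/-- The torus action. -/
lemma tor_conj_Y (H : AbHyp D Ω S₀) (y : ℕ → Fˣ) (f : ℕ → F) :
    tor D y * wordL ax Ω f * (tor D y)⁻¹ = wordL ax Ω (fun r => (chi D y r : F) * f r) := by
  have h1 := conj_wordL ax (n := tor D y) (P := fun r => r) (C := fun r => (chi D y r : F)) (Ω := Ω)
    (fun r hr t => tor_conj_xG ax h y (H.good.pos r hr).1 t) Ω (fun r hr => hr) f
  rw [h1]
  rfl

include h h2 in
/-- The `B`-class. -/
theorem class_B [CharP F 2] (H : AbHyp D Ω S₀) {b : GL D.Idx F} (hb : b ∈ D.borelSubgroup F)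
    (f : ℕ → F) (hf : SuppIn (· ∈ Ω) f) :
    ∃ f' : ℕ → F, SuppIn (· ∈ Ω) f' ∧ (∀ ρ ∈ S₀, f ρ ≠ 0 → f' ρ ≠ 0) ∧ b * wordL ax Ω f * b⁻¹ = wordL ax Ω f' := by
  obtain ⟨u, hu, a, ha, rfl⟩ := (mem_borel_iff ax h).mp hb
  obtain ⟨y, rfl⟩ := exists_tor_of_mem ax h ha
  have hs : SuppIn (· ∈ Ω) (fun r => (chi D y r : F) * f r) := by
    intro r hr
    apply hf r
    intro h0
    apply hr
    simp [h0]
  obtain ⟨f', h1, h3, h4⟩ := class_U ax h H hu _ hs
  refine ⟨f', h1, ?_, ?_⟩
  · intro ρ hρ h0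
    rw [h3 ρ hρ]
    exact mul_ne_zero (Units.ne_zero _) h0
  · rw [← h4, ← tor_conj_Y ax h H]
    group

end classU

/-! ### The parabolic subgroup containing the centraliser -/

section parabolic

variable (ax : Ax D F) (h : Tab D) (h2 : Tab2 D)
variable {Ω S₀ : List ℕ}

/-- The coefficient function of the product of the `x_r(1)`, `r ∈ S₀`. -/
def ind (S₀ : List ℕ) : ℕ → F := by
  classical
  exact fun r => if r ∈ S₀ then 1 else 0

lemma ind_mem {S₀ : List ℕ} {r : ℕ} (hr : r ∈ S₀) : ind (F := F) S₀ r = 1 := by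
  simp [ind, hr]

lemma ind_notMem {S₀ : List ℕ} {r : ℕ} (hr : r ∉ S₀) : ind (F := F) S₀ r = 0 := by
  simp [ind, hr]

lemma suppIn_ind (H : AbHyp D Ω S₀) : SuppIn (· ∈ Ω) (ind (F := F) S₀) := by
  intro r hr
  by_cases h0 : r ∈ S₀
  · exact H.sub r h0
  · exact (hr (ind_notMem h0)).elim

/-- The Weyl group condition. -/
def WeylCond (D : ChevalleyDatum) (Ω S₀ : List ℕ) (J : Set ℕ) : Prop :=
  ∀ l : List ℕ, (∀ i ∈ l, i < D.rank) → (∀ ρ ∈ S₀, wWord D l ρ ∈ Ω ∧ wWord D l.reverse ρ ∈ Ω) →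
    ∃ l' : List ℕ, (∀ i ∈ l', i ∈ J ∧ i < D.rank) ∧ ∀ s, s < D.nroots → wWord D l s = wWord D l' s

include h h2 in
lemma nw_mem_parabolic {J : Set ℕ} (l : List ℕ) (hl : ∀ i ∈ l, i ∈ J ∧ i < D.rank) :
    nw D ax l ∈ D.parabolicSubgroup F J := by
  induction l with
  | nil => simp
  | cons i l ih =>
    rw [nw_cons]
    have hi := hl i List.mem_cons_self
    exact Subgroup.mul_mem _ (simple_mem_parabolic h h2 ax hi.2 hi.1)
      (ih fun j hj => hl j (List.mem_cons_of_mem _ hj))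

include h h2 in
/-- The centraliser of `v` lies in a parabolic subgroup. -/
theorem centralizer_le_parabolic [CharP F 2] (H : AbHyp D Ω S₀) {J : Set ℕ} (hW : WeylCond D Ω S₀ J)
    {g : GL D.Idx F} (hg : g ∈ D.group F)
    (hc : g * wordL ax Ω (ind S₀) = wordL ax Ω (ind S₀) * g) : g ∈ D.parabolicSubgroup F J := by
  classical
  have hcomm := commF_of ax h H
  have hgood := H.good
  have hlt : ∀ r ∈ Ω, r < D.nroots := fun r hr => (hgood.pos r hr).1
  obtain ⟨n, hn, hcell⟩ := bruhat_exists h h2 ax hg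
  obtain ⟨b₁, hb₁, b₂, hb₂, rfl⟩ := mem_cell.mp hcell
  obtain ⟨π, c, Hn⟩ := exists_isNor h h2 ax hn
  obtain ⟨f₁, hf₁, hf₁ne, hf₁e⟩ := class_B ax h h2 H hb₂ (ind S₀) (suppIn_ind H)
  obtain ⟨f₂, hf₂, hf₂ne, hf₂e⟩ := class_B ax h h2 H (Subgroup.inv_mem _ hb₁) (ind S₀) (suppIn_ind H)
  have hmain : n * wordL ax Ω f₁ * n⁻¹ = wordL ax Ω f₂ := by
    rw [← hf₁e, ← hf₂e]
    have e : n * (b₂ * wordL ax Ω (ind S₀) * b₂⁻¹) * n⁻¹ =
        b₁⁻¹ * ((b₁ * n * b₂) * wordL ax Ω (ind S₀)) * (b₁ * n * b₂)⁻¹ * b₁ := by group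
    rw [e, hc]
    group
  -- the images
  set P : ℕ → ℕ := fun r => if hr : r < D.nroots then (π ⟨r, hr⟩ : ℕ) else r with hPdef
  set C : ℕ → F := fun r => if hr : r < D.nroots then (c ⟨r, hr⟩ : F) else 1 with hCdef
  set P' : ℕ → ℕ := fun r => if hr : r < D.nroots then ((π⁻¹) ⟨r, hr⟩ : ℕ) else r with hP'def
  set C' : ℕ → F := fun r => if hr : r < D.nroots then (((c (π⁻¹ ⟨r, hr⟩))⁻¹ : Fˣ) : F) else 1 with hC'def
  have hPv : ∀ r (hr : r < D.nroots), P r = (π ⟨r, hr⟩ : ℕ) := fun r hr => dif_pos hr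
  have hP'v : ∀ r (hr : r < D.nroots), P' r = ((π⁻¹) ⟨r, hr⟩ : ℕ) := fun r hr => dif_pos hr
  have h1 : ∀ r ∈ Ω, f₁ r ≠ 0 → P r ∈ Ω := by
    refine support_of_conj ax h h2 (n := n) (P := P) (C := C) hgood hcomm ?_ ?_ ?_ ?_ hf₁ hf₂ hmain
    · intro r hr t
      have e := Hn.conj ⟨r, hlt r hr⟩ t
      simp only [hPdef, hCdef, dif_pos (hlt r hr)]
      exact e
    · intro r hr
      rw [hPv r (hlt r hr)]
      exact (π _).isLt
    · intro r hr
      simp only [hCdef, dif_pos (hlt r hr)]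
      exact Units.ne_zero _
    · intro r hr s hs e
      rw [hPv r (hlt r hr), hPv s (hlt s hs)] at e
      have := π.injective (Fin.ext e)
      exact Fin.mk.inj_iff.mp this
  have hinv : n⁻¹ * wordL ax Ω f₂ * n⁻¹⁻¹ = wordL ax Ω f₁ := by
    rw [← hmain]; group
  have Hn' := Hn.inv
  have h3 : ∀ r ∈ Ω, f₂ r ≠ 0 → P' r ∈ Ω := by
    refine support_of_conj ax h h2 (n := n⁻¹) (P := P') (C := C') hgood hcomm ?_ ?_ ?_ ?_ hf₂ hf₁ hinv
    · intro r hr t
      have e := Hn'.conj ⟨r, hlt r hr⟩ t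
      simp only [hP'def, hC'def, dif_pos (hlt r hr)]
      exact e
    · intro r hr
      rw [hP'v r (hlt r hr)]
      exact ((π⁻¹) _).isLt
    · intro r hr
      simp only [hC'def, dif_pos (hlt r hr)]
      exact Units.ne_zero _
    · intro r hr s hs e
      rw [hP'v r (hlt r hr), hP'v s (hlt s hs)] at e
      have := (π⁻¹).injective (Fin.ext e)
      exact Fin.mk.inj_iff.mp this
  have hpi := piN_of_isNor h h2 ax (g := ⟨n, hn⟩) Hn
  have hWp := piN_mem_Wp h h2 ax ⟨n, hn⟩
  rw [hpi, mem_Wp_iff] at hWp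
  obtain ⟨l, hl, hπl⟩ := hWp
  have hl' : ∀ i ∈ l, i < D.rank := fun i hi => hl i hi
  have hcond : ∀ ρ ∈ S₀, wWord D l ρ ∈ Ω ∧ wWord D l.reverse ρ ∈ Ω := by
    intro ρ hρ
    have hρΩ := H.sub ρ hρ
    constructor
    · have e := h1 ρ hρΩ (by
        have := hf₁ne ρ hρ (by rw [ind_mem hρ]; exact one_ne_zero)
        exact this)
      rw [hPv ρ (hlt ρ hρΩ), hπl, wPw_val h hl'] at e
      exact e
    · have e := h3 ρ hρΩ (by
        have := hf₂ne ρ hρ (by rw [ind_mem hρ]; exact one_ne_zero)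
        exact this)
      rw [hP'v ρ (hlt ρ hρΩ), hπl, wPw_reverse h l, wPw_val h (fun i hi => hl' i (List.mem_reverse.mp hi))] at e
      exact e
  obtain ⟨l', hl'J, hl'e⟩ := hW l hl' hcond
  have hl'' : ∀ i ∈ l', i < D.rank := fun i hi => (hl'J i hi).2
  have hπl' : π = wPw h l' := by
    apply Equiv.ext
    intro s
    apply Fin.ext
    rw [hπl, wPw_val h hl', wPw_val h hl'']
    exact hl'e s s.isLt
  have hnwm := nw_mem_monomial_aux h h2 ax hl''
  have hdiag : n * (nw D ax l')⁻¹ ∈ D.diagonalSubgroup F := by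
    have := (piN_eq_one_iff h h2 ax (⟨n, hn⟩ * (⟨nw D ax l', hnwm⟩ : ↥(D.monomialSubgroup F))⁻¹)).mp (by
      rw [map_mul, map_inv, hpi, piN_nw h h2 ax hl'', hπl', mul_inv_cancel])
    exact this
  have hnP : n ∈ D.parabolicSubgroup F J := by
    have e : n = (n * (nw D ax l')⁻¹) * nw D ax l' := by group
    rw [e]
    refine Subgroup.mul_mem _ ?_ (nw_mem_parabolic ax h h2 l' hl'J)
    exact borel_le_parabolic h h2 ax J (diag_mem_borel h h2 ax hdiag)
  exact Subgroup.mul_mem _ (Subgroup.mul_mem _ (borel_le_parabolic h h2 ax J hb₁) hnP)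
    (borel_le_parabolic h h2 ax J hb₂)

end parabolic

/-! ### The centraliser -/

section central

variable (ax : Ax D F) (h : Tab D) (h2 : Tab2 D)
variable {Ω S₀ : List ℕ}

/-- What commutes with the letters of `S₀` commutes with `v`. -/
lemma commute_v (x : GL D.Idx F) (hx : ∀ ρ ∈ S₀, ∀ b, x * xG ax ρ b = xG ax ρ b * x) (L : List ℕ) :
    x * wordL ax L (ind S₀) = wordL ax L (ind S₀) * x := by
  induction L with
  | nil => simp [wordL_nil]
  | cons a L ih =>
    rw [wordL_cons, ← mul_assoc]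
    have e : x * xG ax a (ind S₀ a) = xG ax a (ind S₀ a) * x := by
      by_cases ha : a ∈ S₀
      · exact hx a ha _
      · rw [ind_notMem ha, xG_zero]; simp
    rw [e, mul_assoc, ih, mul_assoc]

/-- From the torus part of a centraliser. -/
lemma chi_eq_one_of_commute [CharP F 2] (H : AbHyp D Ω S₀) (y : ℕ → Fˣ) (h' : Tab D)
    {f' : ℕ → F} (h3 : ∀ ρ ∈ S₀, f' ρ = (chi D y ρ : F) * ind S₀ ρ) (h2' : Tab2 D)
    (he : wordL ax Ω f' = wordL ax Ω (ind S₀)) : ∀ ρ ∈ S₀, (chi D y ρ : Fˣ) = 1 := by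
  intro ρ hρ
  have h4 := wordL_inj ax h' h2' H.good he ρ (H.sub ρ hρ)
  rw [h3 ρ hρ, ind_mem hρ, mul_one] at h4
  exact Units.ext h4

include h in
/-- The torus acts trivially when the characters vanish. -/
lemma tor_commute_v (H : AbHyp D Ω S₀) (y : ℕ → Fˣ) (hy : ∀ ρ ∈ S₀, (chi D y ρ : Fˣ) = 1) :
    tor D y * wordL ax Ω (ind S₀) = wordL ax Ω (ind S₀) * tor D y := by
  have h1 := tor_conj_Y ax h H y (ind S₀)
  have h3 : wordL ax Ω (fun r => (chi D y r : F) * ind S₀ r) = wordL ax Ω (ind S₀) := by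
    apply wordL_congr
    intro r _
    by_cases hr : r ∈ S₀
    · rw [hy r hr]; simp
    · rw [ind_notMem hr, mul_zero]
  rw [h3] at h1
  calc tor D y * wordL ax Ω (ind S₀) = tor D y * wordL ax Ω (ind S₀) * (tor D y)⁻¹ * tor D y := by group
    _ = _ := by rw [h1]

/-- Elements of the torus with parameters trivial outside of `J` in a subgroup. -/
lemma tor_psi_mem_of (h : Tab D) (h2 : Tab2 D) {J : Set ℕ} {K : Subgroup (GL D.Idx F)}
    (hK1 : ∀ j, j < D.rank → j ∈ J → ∀ t, xG ax (D.simple j) t ∈ K)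
    (hK2 : ∀ j, j < D.rank → j ∈ J → ∀ t, xG ax (D.neg (D.simple j)) t ∈ K)
    (c : ℕ → Fˣ) (hc : ∀ i, i < D.rank → i ∉ J → c i = 1) : tor D (psi D c) ∈ K := by
  rw [tor_psi_eq h h2 ax]
  have key : ∀ L : List ℕ, (∀ i ∈ L, i < D.rank) →
      wordG ax (L.flatMap fun i => D.hWord (D.simple i) (c i : F)) ∈ K := by
    intro L
    induction L with
    | nil =>
      intro _
      simp [wordG]
    | cons a L ih =>
      intro hL
      have ha := hL a List.mem_cons_self
      rw [List.flatMap_cons, wordG_append]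
      refine Subgroup.mul_mem _ ?_ (ih fun i hi => hL i (List.mem_cons_of_mem _ hi))
      have e : wordG ax (D.hWord (D.simple a) (c a : F)) = hG ax (D.simple a) (c a : F) := by
        apply Units.ext
        rw [hG_val, wordG_val]
        rfl
      rw [e]
      by_cases haJ : a ∈ J
      · have h4 : ∀ t : F, nG ax (D.simple a) t ∈ K := fun t =>
          Subgroup.mul_mem _ (Subgroup.mul_mem _ (hK1 a ha haJ _) (hK2 a ha haJ _)) (hK1 a ha haJ _)
        rw [hG]
        exact Subgroup.mul_mem _ (h4 _) (h4 _)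
      · rw [hc a ha haJ, Units.val_one, hG_one']
        exact Subgroup.one_mem _
  exact key _ fun i hi => List.mem_range.mp hi

include h h2 in
/-- The case where the centraliser contains `U`. -/
theorem centralizer_eq_MJ [CharP F 2] (H : AbHyp D Ω S₀) {J : Set ℕ} (hW : WeylCond D Ω S₀ J)
    (hU : ∀ s, D.IsPosRoot s → ∀ ρ ∈ S₀, ∀ a b, xG ax s a * xG ax ρ b = xG ax ρ b * xG ax s a)
    (hN : ∀ j, j < D.rank → j ∈ J → ∀ ρ ∈ S₀, ∀ a b,
      xG ax (D.neg (D.simple j)) a * xG ax ρ b = xG ax ρ b * xG ax (D.neg (D.simple j)) a)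
    (hdet : ∀ y : ℕ → Fˣ, (∀ ρ ∈ S₀, (chi D (psi D y) ρ : Fˣ) = 1) → ∀ j, j < D.rank → j ∉ J → y j = 1) :
    D.group F ⊓ Subgroup.centralizer {wordL ax Ω (ind S₀)} = MJ ax J := by
  have hMc : ∀ x ∈ MJ ax J, x * wordL ax Ω (ind S₀) = wordL ax Ω (ind S₀) * x := by
    intro x hx
    refine rootClosure_induction ax (Q := fun x => x * wordL ax Ω (ind S₀) = wordL ax Ω (ind S₀) * x)
      (by simp) ?_ ?_ hx
    · rintro s t (hs | ⟨j, hj, hjJ, rfl⟩)
      · exact commute_v ax _ (fun ρ hρ b => hU s hs ρ hρ t b) Ω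
      · exact commute_v ax _ (fun ρ hρ b => hN j hj hjJ ρ hρ t b) Ω
    · intro a b ha hb
      rw [mul_assoc, hb, ← mul_assoc, ha, mul_assoc]
  apply le_antisymm
  · rintro g ⟨hgG, hgc⟩
    have hc : g * wordL ax Ω (ind S₀) = wordL ax Ω (ind S₀) * g :=
      ((Subgroup.mem_centralizer_iff.mp hgc) _ (Set.mem_singleton _)).symm
    have hP := centralizer_le_parabolic ax h h2 H hW hgG hc
    have hle : D.parabolicSubgroup F J ≤ MJ ax J ⊔ D.diagonalSubgroup F := by
      apply sup_le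
      · exact sup_le (le_trans (U_le_MJ ax h h2 J) le_sup_left) le_sup_right
      · rw [Subgroup.closure_le]
        rintro s ⟨j, hjJ, hj, hs⟩
        have e : s = sG ax j := Units.ext (by rw [hs, sG_val])
        rw [e]
        exact (le_sup_left : MJ ax J ≤ _) (sG_mem_MJ ax h h2 hj hjJ)
    obtain ⟨m, hm, a, ha, rfl⟩ := mem_sup_decomp (diag_le_norm_MJ ax h h2 _) (hle hP)
    obtain ⟨y, rfl⟩ := exists_psi h h2 ax ha
    have hmc := hMc m hm
    have hac : tor D (psi D y) * wordL ax Ω (ind S₀) = wordL ax Ω (ind S₀) * tor D (psi D y) := by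
      have h4 : m * (tor D (psi D y) * wordL ax Ω (ind S₀)) = m * (wordL ax Ω (ind S₀) * tor D (psi D y)) := by
        rw [← mul_assoc, hc, ← mul_assoc, ← hmc, mul_assoc]
      exact mul_left_cancel h4
    have hchi : ∀ ρ ∈ S₀, (chi D (psi D y) ρ : Fˣ) = 1 := by
      refine chi_eq_one_of_commute ax H (psi D y) h (f' := fun r => (chi D (psi D y) r : F) * ind S₀ r)
        (fun _ _ => rfl) h2 ?_
      rw [← tor_conj_Y ax h H, hac]
      group
    refine Subgroup.mul_mem _ hm (tor_psi_mem_MJ ax h h2 y ?_)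
    exact fun i hi hiJ => hdet y hchi i hi hiJ
  · intro x hx
    refine ⟨MJ_le_group ax h h2 _ hx, ?_⟩
    refine Subgroup.mem_centralizer_iff.mpr ?_
    intro y hy
    rw [Set.mem_singleton_iff] at hy
    subst hy
    exact (hMc x hx).symm

/-- The pairs `(r, c)` with `c` a term of the commutator of `s` and `r`. -/
def pairsP (D : ChevalleyDatum) (Ω : List ℕ) (s : ℕ) : List (ℕ × (ℕ × ℤ × ℕ × ℕ)) :=
  Ω.flatMap fun r => if r = s then [] else (D.commTerms s r).map fun c => (r, c)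

lemma letW_eq (Ω : List ℕ) (s : ℕ) (a : F) (f : ℕ → F) :
    letW D Ω s a f = (pairsP D Ω s).map fun q =>
      (q.2.1, (q.2.2.1 : F) * (-(-a)) ^ q.2.2.2.1 * (f q.1) ^ q.2.2.2.2) := by
  simp only [letW, pairsP, List.map_flatMap]
  congr 1
  funext r
  by_cases hr : r = s
  · simp [hr]
  · simp [hr, commWord]

/-- The value at a root of a sum of letters, up to vanishing coefficients. -/
lemma sumS_map_filter {α : Type*} (L : List α) (τ : ℕ) (k : α → ℕ) (v : α → F) (p : α → Bool)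
    (hp : ∀ q, p q = false → k q ≠ τ ∨ v q = 0) :
    sumS (L.map fun q => (k q, v q)) τ =
      sumS ((L.filter p).map fun q => (k q, v q)) τ := by
  induction L with
  | nil => rfl
  | cons a L ih =>
    rw [List.map_cons, sumS_cons, Pi.add_apply, ih]
    by_cases hpa : p a = true
    · rw [List.filter_cons_of_pos hpa, List.map_cons, sumS_cons, Pi.add_apply]
    · rw [List.filter_cons_of_neg hpa]
      have hpa' : p a = false := by simpa using hpa
      rcases hp a hpa' with h1 | h1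
      · simp only
        rw [Pi.single_eq_of_ne (Ne.symm h1), zero_add]
      · simp [h1]

/-- A table entry `(s₀, r₀, τ₀)`: the only way `τ₀` occurs as a letter. -/
abbrev TabEntry (D : ChevalleyDatum) (Ω LE : List ℕ) (s₀ r₀ τ₀ : ℕ) : Prop :=
  ∀ s ∈ LE, ((pairsP D Ω s).filter fun q => decide (q.2.1 = τ₀) && decide (¬ (2 : ℤ) ∣ q.2.2.1)).map
      (fun q => (q.1, q.2.2.2.1, q.2.2.2.2)) = if s = s₀ then [(r₀, 1, 1)] else []

lemma letW_apply [CharP F 2] {LE : List ℕ} {s₀ r₀ τ₀ : ℕ} (hT : TabEntry D Ω LE s₀ r₀ τ₀) {s : ℕ} (hs : s ∈ LE)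
    (a : F) (f : ℕ → F) : sumS (letW D Ω s a f) τ₀ = if s = s₀ then a * f r₀ else 0 := by
  rw [letW_eq]
  rw [sumS_map_filter (pairsP D Ω s) τ₀ (fun q => q.2.1)
    (fun q => (q.2.2.1 : F) * (-(-a)) ^ q.2.2.2.1 * (f q.1) ^ q.2.2.2.2)
    (fun q => decide (q.2.1 = τ₀) && decide (¬ (2 : ℤ) ∣ q.2.2.1))]
  · have h1 := hT s hs
    by_cases hss : s = s₀
    · rw [if_pos hss] at h1
      rw [if_pos hss]
      obtain ⟨q, hq, hq1⟩ := List.map_eq_singleton_iff.mp h1
      rw [hq, List.map_singleton, sumS_cons, sumS_nil, add_zero]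
      have hmem : q ∈ (pairsP D Ω s).filter fun q => decide (q.2.1 = τ₀) && decide (¬ (2 : ℤ) ∣ q.2.2.1) := by
        rw [hq]; simp
      have h3 := (List.mem_filter.mp hmem).2
      simp only [Bool.and_eq_true, decide_eq_true_eq] at h3
      obtain ⟨h4, h5⟩ := h3
      simp only [Prod.mk.injEq] at hq1
      obtain ⟨e1, e2, e3⟩ := hq1
      simp only
      rw [h4, Pi.single_eq_same, cast_odd h5, e1, e2, e3]
      simp
    · rw [if_neg hss] at h1 ⊢
      have h3 := List.map_eq_nil_iff.mp h1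
      rw [h3]
      rfl
  · intro q hq
    simp only [Bool.and_eq_false_iff, decide_eq_false_iff_not, not_not] at hq
    rcases hq with hq | hq
    · exact Or.inl hq
    · right
      simp [cast_even hq]

include h in
/-- The effect of an ordered product on the coordinate `τ₀`. -/
lemma act_word [CharP F 2] (H : AbHyp D Ω S₀) {LE : List ℕ} (hLE : ∀ s ∈ LE, D.IsPosRoot s)
    {s₀ r₀ τ₀ : ℕ} (hT : TabEntry D Ω LE s₀ r₀ τ₀) (hr₀ : r₀ ∈ S₀) (t : ℕ → F) (f : ℕ → F) (hf : SuppIn (· ∈ Ω) f)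
    (L : List ℕ) (hL : ∀ s ∈ L, s ∈ LE) (hnd : L.Nodup) :
    ∃ f' : ℕ → F, SuppIn (· ∈ Ω) f' ∧ (∀ ρ ∈ S₀, f' ρ = f ρ) ∧
      wordL ax L t * wordL ax Ω f * (wordL ax L t)⁻¹ = wordL ax Ω f' ∧
      f' τ₀ = f τ₀ + (if s₀ ∈ L then t s₀ * f r₀ else 0) := by
  classical
  induction L with
  | nil =>
    exact ⟨f, hf, fun _ _ => rfl, by simp [wordL_nil], by simp⟩
  | cons a L ih =>
    obtain ⟨ha, hnd'⟩ := List.nodup_cons.mp hnd
    obtain ⟨f₁, h1, h3, h4, h5⟩ := ih (fun s hs => hL s (List.mem_cons_of_mem _ hs)) hnd'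
    have haLE := hL a List.mem_cons_self
    obtain ⟨h6, h7, h8⟩ := conj_Y ax h H (hLE a haLE) (t a) h1
    refine ⟨_, h7, fun ρ hρ => by rw [h8 ρ hρ, h3 ρ hρ], ?_, ?_⟩
    · rw [wordL_cons, ← h6, ← h4]
      group
    · rw [Pi.add_apply, letW_apply hT haLE, h5]
      by_cases has : a = s₀
      · subst has
        rw [if_pos List.mem_cons_self, if_neg ha, if_pos rfl, add_zero, h3 r₀ hr₀]
      · rw [if_neg has, add_zero]
        by_cases hsL : s₀ ∈ L
        · rw [if_pos hsL, if_pos (List.mem_cons_of_mem _ hsL)]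
        · rw [if_neg hsL, if_neg]
          intro hmem
          rcases List.mem_cons.mp hmem with e | e
          · exact has e.symm
          · exact hsL e

include h h2 in
/-- The centraliser when it does not contain `U`: the positive root elements outside of `Cs` act nontrivially. -/
theorem centralizer_eq_E [CharP F 2] (H : AbHyp D Ω S₀) {J : Set ℕ} (hW : WeylCond D Ω S₀ J)
    {Cs : ℕ → Prop} (hCs0 : ∀ s, Cs s → s < D.nroots)
    (hCsc : ∀ s, Cs s → ∀ ρ ∈ S₀, ∀ a b, xG ax s a * xG ax ρ b = xG ax ρ b * xG ax s a)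
    (hCsJ : ∀ s, D.InRootSub J s → Cs s)
    {LE : List ℕ} (hLE : GoodList D LE) (hLE1 : ∀ s, s ∈ LE ↔ D.IsPosRoot s ∧ ¬ D.InRootSub J s)
    (tab : List (ℕ × ℕ × ℕ))
    (htab : ∀ e ∈ tab, TabEntry D Ω LE e.1 e.2.1 e.2.2 ∧ e.2.1 ∈ S₀ ∧ e.2.2 ∉ S₀ ∧ e.2.2 ∈ Ω ∧ e.1 ∈ LE)
    (hLEtab : ∀ s ∈ LE, (∀ e ∈ tab, e.1 ≠ s) → Cs s)
    (hdet : ∀ y : ℕ → Fˣ, (∀ ρ ∈ S₀, (chi D (psi D y) ρ : Fˣ) = 1) → ∀ j, j < D.rank → j ∉ J → y j = 1) :
    D.group F ⊓ Subgroup.centralizer {wordL ax Ω (ind S₀)} = rootClosure ax Cs := by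
  classical
  have hMc : ∀ x ∈ rootClosure ax Cs, x * wordL ax Ω (ind S₀) = wordL ax Ω (ind S₀) * x := by
    intro x hx
    refine rootClosure_induction ax (Q := fun x => x * wordL ax Ω (ind S₀) = wordL ax Ω (ind S₀) * x)
      (by simp) ?_ ?_ hx
    · intro s t hs
      exact commute_v ax _ (fun ρ hρ b => hCsc s hs ρ hρ t b) Ω
    · intro a b ha hb
      rw [mul_assoc, hb, ← mul_assoc, ha, mul_assoc]
  apply le_antisymm
  · rintro g ⟨hgG, hgc⟩
    have hc : g * wordL ax Ω (ind S₀) = wordL ax Ω (ind S₀) * g :=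
      ((Subgroup.mem_centralizer_iff.mp hgc) _ (Set.mem_singleton _)).symm
    have hP := centralizer_le_parabolic ax h h2 H hW hgG hc
    rw [← radical_sup_levi h h2 ax J] at hP
    have hnorm : D.leviSubgroup F J ≤ Subgroup.normalizer (D.unipotentRadical F J : Set (GL D.Idx F)) := by
      refine le_trans ?_ (parabolic_le_normalizer h h2 ax J)
      rw [← radical_sup_levi h h2 ax J]
      exact le_sup_right
    obtain ⟨e, he, l, hl, rfl⟩ := mem_sup_decomp hnorm hP
    have hl2 : l ∈ rootClosure ax Cs ⊔ D.diagonalSubgroup F := by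
      rw [leviSubgroup_eq h h2 ax J] at hl
      have : D.diagonalSubgroup F ⊔ rootClosure ax (D.InRootSub J) ≤ rootClosure ax Cs ⊔ D.diagonalSubgroup F :=
        sup_le le_sup_right (le_trans (rootClosure_mono ax hCsJ) le_sup_left)
      exact this hl
    have hnormC : D.diagonalSubgroup F ≤ Subgroup.normalizer (rootClosure ax Cs : Set (GL D.Idx F)) :=
      diagonal_le_normalizer ax h hCs0
    obtain ⟨c, hcC, a, ha, rfl⟩ := mem_sup_decomp hnormC hl2
    obtain ⟨y, rfl⟩ := exists_psi h h2 ax ha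
    set A := tor D (psi D y) with hA
    set v := wordL ax Ω (ind S₀) with hv
    -- `e A` commutes with `v`
    have hc' : A⁻¹ * c * A ∈ rootClosure ax Cs := by
      have := (Subgroup.mem_normalizer_iff.mp (hnormC (Subgroup.inv_mem _ ha)) c).mp hcC
      simpa using this
    have heA : (e * A) * v = v * (e * A) := by
      have h1 := hMc _ hc'
      have e1 : e * (c * A) = (e * A) * (A⁻¹ * c * A) := by group
      rw [e1] at hc
      have h3 : (e * A) * v * (A⁻¹ * c * A) = v * (e * A) * (A⁻¹ * c * A) := by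
        calc (e * A) * v * (A⁻¹ * c * A) = (e * A) * (v * (A⁻¹ * c * A)) := by group
          _ = (e * A) * ((A⁻¹ * c * A) * v) := by rw [h1]
          _ = (e * A) * (A⁻¹ * c * A) * v := by group
          _ = v * ((e * A) * (A⁻¹ * c * A)) := hc
          _ = _ := by group
      exact mul_right_cancel h3
    have heU : e ∈ D.posUnipotent F := radical_le_U h h2 ax J he
    have hs : SuppIn (· ∈ Ω) (fun r => (chi D (psi D y) r : F) * ind S₀ r) := by
      intro r hr
      apply suppIn_ind (F := F) H r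
      intro h0
      apply hr
      simp [h0]
    obtain ⟨f', h1, h3, h4⟩ := class_U ax h H heU _ hs
    have h5 : wordL ax Ω f' = wordL ax Ω (ind S₀) := by
      rw [← h4, ← tor_conj_Y ax h H]
      change e * (A * v * A⁻¹) * e⁻¹ = v
      have : e * (A * v * A⁻¹) * e⁻¹ = (e * A) * v * (e * A)⁻¹ := by group
      rw [this, heA]
      group
    have hchi : ∀ ρ ∈ S₀, (chi D (psi D y) ρ : Fˣ) = 1 :=
      chi_eq_one_of_commute ax H (psi D y) h h3 h2 h5
    have hAv : A * v = v * A := tor_commute_v ax h H _ hchi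
    have hev : e * v = v * e := by
      have h6 : e * v * A = v * e * A := by
        calc e * v * A = e * (v * A) := by group
          _ = e * (A * v) := by rw [hAv]
          _ = (e * A) * v := by group
          _ = v * (e * A) := heA
          _ = _ := by group
      exact mul_right_cancel h6
    have hAmem : A ∈ rootClosure ax Cs := by
      refine tor_psi_mem_of ax h h2 (J := J) ?_ ?_ y (fun i hi hiJ => hdet y hchi i hi hiJ)
      · intro j hj hjJ t
        apply xG_mem_rootClosure ax (hCsJ _ _)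
        rw [inRootSub_iff h (h.simple_lt j hj)]
        intro m hm hmJ
        rw [h.coef_simple j hj m hm, if_neg (fun e : m = j => hmJ (e ▸ hjJ))]
      · intro j hj hjJ t
        apply xG_mem_rootClosure ax (hCsJ _ _)
        have hp := h.simple_lt j hj
        rw [inRootSub_iff h (h.neg_lt _ hp)]
        intro m hm hmJ
        rw [h.coef_neg _ hp m hm, h.coef_simple j hj m hm, if_neg (fun e : m = j => hmJ (e ▸ hjJ))]
        simp
    -- the radical part
    have heLE : e ∈ rootClosure ax (· ∈ LE) := by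
      rw [unipotentRadical_eq h h2 ax J] at he
      refine rootClosure_mono ax ?_ he
      intro r hr
      exact (hLE1 r).mpr hr
    obtain ⟨t, rfl⟩ := exists_wordL ax h hLE heLE
    have hnd : LE.Nodup := hLE.sorted.imp (fun {a b} hab => ne_of_lt hab)
    have htab0 : ∀ e' ∈ tab, t e'.1 = 0 := by
      intro e' he'
      obtain ⟨h6, h7, h8, h9, h10⟩ := htab e' he'
      obtain ⟨f₂, h11, h12, h13, h14⟩ := act_word ax h H (LE := LE) (fun s hs => hLE.pos s hs) h6 h7 t (ind S₀) (suppIn_ind H)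
        LE (fun s hs => hs) hnd
      have h15 : wordL ax Ω f₂ = wordL ax Ω (ind S₀) := by
        rw [← h13]
        change wordL ax LE t * v * (wordL ax LE t)⁻¹ = v
        rw [hev]; group
      have h16 := wordL_inj ax h h2 H.good h15 _ h9
      rw [h14, ind_notMem h8, if_pos h10, ind_mem h7, zero_add, mul_one] at h16
      exact h16
    have heC : wordL ax LE t ∈ rootClosure ax Cs := by
      apply wordG_mem_rootClosure'
      intro p hp
      obtain ⟨s, hs, rfl⟩ := List.mem_map.mp hp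
      by_cases hst : ∀ e' ∈ tab, e'.1 ≠ s
      · exact Or.inr (hLEtab s hs hst)
      · push Not at hst
        obtain ⟨e', he', rfl⟩ := hst
        exact Or.inl (htab0 e' he')
    exact Subgroup.mul_mem _ heC (Subgroup.mul_mem _ hcC hAmem)
  · intro x hx
    refine ⟨?_, ?_⟩
    · refine (rootClosure_le ax ?_ : rootClosure ax Cs ≤ D.group F) hx
      intro r t hr
      exact xG_mem_group ax (hCs0 r hr) t
    · refine Subgroup.mem_centralizer_iff.mpr ?_
      intro y hy
      rw [Set.mem_singleton_iff] at hy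
      subst hy
      exact (hMc x hx).symm

end central

end Cfsg.Agent.Lib.KS71.ChevAb
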