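/-
Two long root subgroups generate a `p`-group or a conjugate of `⟨X_r, X_{-r}⟩`.
-/
import Mathlib
import Cfsg.Agent.Lib.KS71.ChevAb

set_option autoImplicit false
set_option linter.unusedSectionVars false
set_option linter.unusedVariables false

namespace Cfsg.Agent.Lib.KS71.ChevRank1

open scoped MatrixGroups Matrix
open Cfsg Cfsg.Lie Cfsg.Lie.ChevalleyDatum
open Cfsg.Agent.Lib.Chev.Tables Cfsg.Agent.Lib.Chev.Tables2 Cfsg.Agent.Lib.Chev.Tables3 Cfsg.Agent.Lib.Chev.Raise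
open Cfsg.Agent.Lib.Chev.Basic Cfsg.Agent.Lib.Chev.AxBasic Cfsg.Agent.Lib.Chev.Torus
open Cfsg.Agent.Lib.Chev.Products Cfsg.Agent.Lib.Chev.Products2 Cfsg.Agent.Lib.Chev.Mono1
open Cfsg.Agent.Lib.Chev.Mono2 Cfsg.Agent.Lib.Chev.Mono3 Cfsg.Agent.Lib.Chev.Bn
open Cfsg.Agent.Lib.Chev.Order1 Cfsg.Agent.Lib.Chev.Diag
open Cfsg.Agent.Lib.Chev.Parab
open Cfsg.Agent.Lib.KS71.ChevCent Cfsg.Agent.Lib.KS71.ChevAb

variable {D : ChevalleyDatum} {F : Type*} [Field F]

/-- The decidable hypotheses. -/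
structure Rank1Chk (D : ChevalleyDatum) (words : List (List ℕ)) : Prop where
  pos : D.IsPosRoot (D.nroots - 1)
  neg0 : D.neg (D.nroots - 1) = 0
  comm : ∀ s ∈ D.posRoots, s = D.nroots - 1 ∨
    (s ≠ D.neg (D.nroots - 1) ∧ ∀ c ∈ D.commTerms (D.nroots - 1) s, (2 : ℤ) ∣ c.2.1)
  word : ∀ s ∈ List.range D.nroots, s ≠ 0 → (∀ i ∈ words.getD s [], i < D.rank) ∧
    D.IsPosRoot (wWord D (words.getD s []) (D.nroots - 1)) ∧ D.IsPosRoot (wWord D (words.getD s []) s)

variable (ax : Ax D F) (h : Tab D) (h2 : Tab2 D)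

lemma map_conj_aux {n : GL D.Idx F} {r s : ℕ} {u : Fˣ}
    (e : ∀ t, n * xG ax r t * n⁻¹ = xG ax s ((u : F) * t)) :
    (rootClosure ax (· = r)).map (MulAut.conj n).toMonoidHom = rootClosure ax (· = s) := by
  apply le_antisymm
  · rw [Subgroup.map_le_iff_le_comap]
    intro z hz
    obtain ⟨t, rfl⟩ := mem_rootSubgroup' ax hz
    change n * xG ax r t * n⁻¹ ∈ rootClosure ax (· = s)
    rw [e]
    exact xG_mem_rootClosure ax (P := (· = s)) (r := s) rfl _
  · intro z hz
    obtain ⟨t, rfl⟩ := mem_rootSubgroup' ax hz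
    refine ⟨xG ax r ((u : F)⁻¹ * t), xG_mem_rootClosure ax (P := (· = r)) (r := r) rfl _, ?_⟩
    change n * xG ax r ((u : F)⁻¹ * t) * n⁻¹ = _
    rw [e, mul_inv_cancel_left₀ u.ne_zero]

/-- Conjugation of a root subgroup by an element permuting the root subgroups. -/
lemma map_conj_isNor {n : GL D.Idx F} {π : Equiv.Perm (Fin D.nroots)} {c : Fin D.nroots → Fˣ}
    (H : IsNor h ax n π c) {r : ℕ} (hr : r < D.nroots) :
    (rootClosure ax (· = r)).map (MulAut.conj n).toMonoidHom = rootClosure ax (· = (π ⟨r, hr⟩ : ℕ)) :=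
  map_conj_aux ax (u := c ⟨r, hr⟩) (fun t => H.conj ⟨r, hr⟩ t)

lemma map_conj_of_mem_NX {b : GL D.Idx F} {r : ℕ} (hb : b ∈ NX ax r) :
    (rootClosure ax (· = r)).map (MulAut.conj b).toMonoidHom = rootClosure ax (· = r) := by
  apply le_antisymm
  · rw [Subgroup.map_le_iff_le_comap]
    intro z hz
    simp only [Subgroup.mem_comap, MulEquiv.coe_toMonoidHom, MulAut.conj_apply]
    exact (Subgroup.mem_normalizer_iff.mp hb z).mp hz
  · intro z hz
    refine ⟨b⁻¹ * z * b, ?_, by simp [mul_assoc]⟩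
    have := (Subgroup.mem_normalizer_iff.mp (Subgroup.inv_mem _ hb) z).mp hz
    simpa using this

lemma map_conj_mul (a b : GL D.Idx F) (X : Subgroup (GL D.Idx F)) :
    X.map (MulAut.conj (a * b)).toMonoidHom = (X.map (MulAut.conj b).toMonoidHom).map (MulAut.conj a).toMonoidHom := by
  rw [Subgroup.map_map]
  congr 1
  ext x
  simp [MulAut.conj_apply, mul_assoc]

include ax h h2 in
/-- The main statement. -/
theorem rank1_main [Fintype F] [CharP F 2] {words : List (List ℕ)} (K : Rank1Chk D words)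
    {g : GL D.Idx F} (hg : g ∈ D.group F) :
    IsPGroup 2 ↥(D.rootSubgroup F (D.nroots - 1) ⊔ (D.rootSubgroup F (D.nroots - 1)).map (MulAut.conj g).toMonoidHom) ∨
    ∃ y ∈ D.group F, (D.rootSubgroup F (D.nroots - 1) ⊔ (D.rootSubgroup F (D.nroots - 1)).map (MulAut.conj g).toMonoidHom).map (MulAut.conj y).toMonoidHom = D.rootSubgroup F (D.nroots - 1) ⊔ D.rootSubgroup F 0 := by
  classical
  set r := D.nroots - 1 with hr
  have hr0 : r < D.nroots := K.pos.1
  have hC : CentData ax r := by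
    refine ⟨K.pos, ?_⟩
    intro s hs a b
    rcases K.comm s (mem_posRoots.mpr hs) with e | ⟨h3, h4⟩
    · subst e
      rw [xG_add, xG_add, add_comm]
    · by_cases e : s = r
      · subst e
        rw [xG_add, xG_add, add_comm]
      · exact xG_commute_of_terms ax hr0 hs.1 e h3 (fun c hc => cast_even (h4 c hc)) a b
  have hB := borel_le_NX ax h h2 hC
  obtain ⟨n, hn, hcell⟩ := bruhat_exists h h2 ax hg
  obtain ⟨b₁, hb₁, b₂, hb₂, rfl⟩ := mem_cell.mp hcell
  obtain ⟨π, c, Hn⟩ := exists_isNor h h2 ax hn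
  set s : ℕ := (π ⟨r, hr0⟩ : ℕ) with hs
  have hs0 : s < D.nroots := (π ⟨r, hr0⟩).isLt
  have hX : D.rootSubgroup F r = rootClosure ax (· = r) := rootSubgroup_eq ax r
  have h1 : (rootClosure ax (· = r)).map (MulAut.conj (b₁ * n * b₂)).toMonoidHom =
      (rootClosure ax (· = s)).map (MulAut.conj b₁).toMonoidHom := by
    rw [map_conj_mul, map_conj_of_mem_NX ax (hB hb₂), map_conj_mul, map_conj_isNor ax h Hn hr0]
  have h3 : rootClosure ax (· = r) ⊔ (rootClosure ax (· = s)).map (MulAut.conj b₁).toMonoidHom =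
      (rootClosure ax (· = r) ⊔ rootClosure ax (· = s)).map (MulAut.conj b₁).toMonoidHom := by
    rw [Subgroup.map_sup, map_conj_of_mem_NX ax (hB hb₁)]
  rw [hX, h1, h3]
  by_cases hs1 : s = 0
  · right
    refine ⟨b₁⁻¹, Subgroup.inv_mem _ (borel_le_group h ax hb₁), ?_⟩
    rw [Subgroup.map_map, rootSubgroup_eq ax 0, hs1]
    have : ((MulAut.conj b₁⁻¹).toMonoidHom).comp (MulAut.conj b₁).toMonoidHom = MonoidHom.id _ := by
      ext x
      simp [MulAut.conj_apply, mul_assoc]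
    rw [this, Subgroup.map_id]
  · left
    obtain ⟨hl, hp1, hp2⟩ := K.word s (List.mem_range.mpr hs0) hs1
    set l := words.getD s [] with hldef
    have hUp : IsPGroup 2 ↥(D.posUnipotent F) := by
      obtain ⟨k, hp, hk⟩ := FiniteField.card F 2
      refine IsPGroup.of_card (n := (k : ℕ) * (D.nroots / 2)) ?_
      rw [card_U ax h h2, hk, pow_mul]
    have hnU : rootClosure ax (· = r) ⊔ rootClosure ax (· = s) ≤
        (D.posUnipotent F).map (MulAut.conj (nw D ax l)⁻¹).toMonoidHom := by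
      have key : ∀ ρ, ρ < D.nroots → D.IsPosRoot (wWord D l ρ) → rootClosure ax (· = ρ) ≤
          (D.posUnipotent F).map (MulAut.conj (nw D ax l)⁻¹).toMonoidHom := by
        intro ρ hρ hpos z hz
        obtain ⟨t, rfl⟩ := mem_rootSubgroup' ax hz
        obtain ⟨t', ht'⟩ := nw_conj_xG h h2 ax hl hρ t
        refine ⟨nw D ax l * xG ax ρ t * (nw D ax l)⁻¹, ?_, by simp [MulAut.conj_apply, mul_assoc]⟩
        rw [ht', posUnipotent_eq ax]
        exact xG_mem_rootClosure ax hpos t'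
      exact sup_le (key r hr0 hp1) (key s hs0 hp2)
    have h4 : IsPGroup 2 ↥(rootClosure ax (· = r) ⊔ rootClosure ax (· = s)) :=
      (hUp.map (MulAut.conj (nw D ax l)⁻¹).toMonoidHom).to_le hnU
    exact h4.map _

end Cfsg.Agent.Lib.KS71.ChevRank1
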