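/-
A finite check of the Weyl group condition of `ChevAb` by a table of the Weyl group (for small groups).
Permutations of at most 64 roots are encoded as natural numbers, with six bits for each image.
-/
import Mathlib
import Cfsg.Agent.Lib.KS71.ChevAb

set_option autoImplicit false
set_option linter.unusedSectionVars false
set_option linter.unusedVariables false

namespace Cfsg.Agent.Lib.KS71.ChevWeyl

open Cfsg Cfsg.Lie Cfsg.Lie.ChevalleyDatum
open Cfsg.Agent.Lib.Chev.Tables Cfsg.Agent.Lib.Chev.Tables2 Cfsg.Agent.Lib.Chev.Tables3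
open Cfsg.Agent.Lib.Chev.Mono2 Cfsg.Agent.Lib.Chev.Mono3 Cfsg.Agent.Lib.Chev.Order1
open Cfsg.Agent.Lib.KS71.ChevAb

variable {D : ChevalleyDatum}

/-- the `j`-th image of an encoded permutation -/
def lkp (x j : ℕ) : ℕ := (x >>> (6 * j)) % 64

/-- encoded composition -/
def cmpX (g x : ℕ) : ℕ → ℕ → ℕ
  | 0, acc => acc
  | k + 1, acc => cmpX g x k (acc * 64 + lkp g (lkp x k))

/-- the closure check -/
def closedChk (Tb gens : List ℕ) (n : ℕ) : Bool :=
  Tb.all fun x => gens.all fun g =>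
    Tb.contains (cmpX g x n 0) && (List.range n).all fun k => lkp (cmpX g x n 0) k == lkp g (lkp x k)

/-- the identity is in the table -/
def idChk (Tb : List ℕ) (n : ℕ) : Bool :=
  Tb.any fun x => (List.range n).all fun k => lkp x k == k

/-- the generators are the reflections -/
def gensChk (D : ChevalleyDatum) (gens : List ℕ) : Bool :=
  decide (gens.length = D.rank) &&
    (List.range D.rank).all fun i => (List.range D.nroots).all fun k =>
      lkp (gens.getD i 0) k == D.reflectRoot i k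

/-- the condition implies membership in the parabolic subgroup of the Weyl group -/
def condChk (D : ChevalleyDatum) (Tb : List ℕ) (Ω S₀ : List ℕ) (Jw : List (List ℕ)) : Bool :=
  Tb.all fun x =>
    !(S₀.all fun ρ => Ω.contains (lkp x ρ) && Ω.any fun s => lkp x s == ρ) ||
      Jw.any fun l' => (List.range D.nroots).all fun k => lkp x k == wWord D l' k

lemma exists_table (h : Tab D) {Tb gens : List ℕ} (h0 : idChk Tb D.nroots = true)
    (h1 : closedChk Tb gens D.nroots = true) (hg : gensChk D gens = true) (l : List ℕ) (hl : ∀ i ∈ l, i < D.rank) :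
    ∃ x ∈ Tb, ∀ k, k < D.nroots → wWord D l k = lkp x k := by
  simp only [gensChk, Bool.and_eq_true, decide_eq_true_eq, List.all_eq_true, List.mem_range, beq_iff_eq] at hg
  obtain ⟨hlen, hg⟩ := hg
  simp only [closedChk, Bool.and_eq_true, List.all_eq_true, List.mem_range, beq_iff_eq, List.contains_iff_mem] at h1
  induction l with
  | nil =>
    simp only [idChk, List.any_eq_true, List.all_eq_true, List.mem_range, beq_iff_eq] at h0
    obtain ⟨x, hx, hx2⟩ := h0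
    exact ⟨x, hx, fun k hk => (hx2 k hk).symm⟩
  | cons i l ih =>
    obtain ⟨x, hx, hx2⟩ := ih fun j hj => hl j (List.mem_cons_of_mem _ hj)
    have hi := hl i List.mem_cons_self
    have hgm : gens.getD i 0 ∈ gens := by
      rw [List.getD_eq_getElem _ _ (by omega)]
      exact List.getElem_mem _
    obtain ⟨h3, h4⟩ := h1 x hx _ hgm
    refine ⟨_, h3, fun k hk => ?_⟩
    rw [h4 k hk]
    have hlt : wWord D l k < D.nroots := wWord_lt h (fun j hj => hl j (List.mem_cons_of_mem _ hj)) hk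
    have e : wWord D (i :: l) k = D.reflectRoot i (wWord D l k) := rfl
    rw [e, ← hg i hi _ hlt, hx2 k hk]

lemma wWord_reverse (h : Tab D) {l : List ℕ} (hl : ∀ i ∈ l, i < D.rank) {ρ : ℕ} (hρ : ρ < D.nroots) :
    wWord D l (wWord D l.reverse ρ) = ρ := by
  have hl' : ∀ i ∈ l.reverse, i < D.rank := fun i hi => hl i (List.mem_reverse.mp hi)
  have h1 : wPw h l ((wPw h l)⁻¹ ⟨ρ, hρ⟩) = ⟨ρ, hρ⟩ := by simp
  rw [wPw_reverse h l] at h1
  have h3 := congrArg Fin.val h1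
  rw [wPw_val h hl, wPw_val h hl'] at h3
  exact h3

/-- The Weyl group condition from the tables. -/
theorem weylCond_of_table (h : Tab D) {Tb gens : List ℕ} {Ω S₀ : List ℕ} {Jw : List (List ℕ)} {J : Set ℕ}
    (h0 : idChk Tb D.nroots = true) (h1 : closedChk Tb gens D.nroots = true) (hg : gensChk D gens = true)
    (h3 : condChk D Tb Ω S₀ Jw = true) (hS : ∀ ρ ∈ S₀, ρ < D.nroots)
    (hJ : ∀ l ∈ Jw, ∀ i ∈ l, i ∈ J ∧ i < D.rank) : WeylCond D Ω S₀ J := by
  intro l hl hc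
  obtain ⟨x, hx, hx2⟩ := exists_table h h0 h1 hg l hl
  simp only [condChk, List.all_eq_true, Bool.or_eq_true, Bool.not_eq_true', List.any_eq_true,
    beq_iff_eq, List.mem_range] at h3
  rcases h3 x hx with h4 | ⟨l', hl', h4⟩
  · exfalso
    rw [← Bool.not_eq_true] at h4
    apply h4
    simp only [List.all_eq_true, Bool.and_eq_true, List.contains_iff_mem, List.any_eq_true, beq_iff_eq]
    intro ρ hρ
    obtain ⟨h5, h6⟩ := hc ρ hρ
    refine ⟨?_, _, h6, ?_⟩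
    · rw [← hx2 ρ (hS ρ hρ)]
      exact h5
    · have hl' : ∀ i ∈ l.reverse, i < D.rank := fun i hi => hl i (List.mem_reverse.mp hi)
      rw [← hx2 _ (wWord_lt h hl' (hS ρ hρ))]
      exact wWord_reverse h hl (hS ρ hρ)
  · refine ⟨l', hJ l' hl', fun s hs => ?_⟩
    rw [hx2 s hs, h4 s hs]

/-! ### Wrappers with decidable hypotheses -/

section wrap

variable {F : Type*} [Field F]

open Cfsg.Agent.Lib.Chev.AxBasic Cfsg.Agent.Lib.Chev.Products Cfsg.Agent.Lib.Chev.Products2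
open Cfsg.Agent.Lib.Chev.Torus Cfsg.Agent.Lib.Chev.Diag Cfsg.Agent.Lib.Chev.Mono1
open Cfsg.Agent.Lib.KS71.ChevCent

/-- decidable form of `D.InRootSub {j | j ∈ Jl} s`. -/
abbrev InSub (D : ChevalleyDatum) (Jl : List ℕ) (s : ℕ) : Prop :=
  ∀ i ∈ List.range D.rank, i ∉ Jl → (D.coroot.getD s #[]).getD i 0 = 0

lemma inRootSub_iff' {Jl : List ℕ} {s : ℕ} : D.InRootSub {j | j ∈ Jl} s ↔ s < D.nroots ∧ InSub D Jl s := by
  simp only [ChevalleyDatum.InRootSub, Set.mem_setOf_eq, InSub, List.mem_range]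

/-- Decidable hypotheses for `centralizer_eq_E`. -/
structure AbChk (D : ChevalleyDatum) (Ω S₀ Jl Cs LE : List ℕ) (tab : List (ℕ × ℕ × ℕ)) : Prop where
  H : AbHyp D Ω S₀
  cs0 : ∀ s ∈ Cs, s < D.nroots
  csc : ∀ s ∈ Cs, ∀ ρ ∈ S₀, s = ρ ∨ (s ≠ D.neg ρ ∧ ∀ c ∈ D.commTerms ρ s, (2 : ℤ) ∣ c.2.1)
  csJ : ∀ s ∈ List.range D.nroots, InSub D Jl s → s ∈ Cs
  le : GoodList D LE
  le0 : ∀ s ∈ LE, s < D.nroots
  le1 : ∀ s ∈ List.range D.nroots, s ∈ LE ↔ D.IsPosRoot s ∧ ¬ InSub D Jl s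
  tabS : ∀ e ∈ tab, TabEntry D Ω LE e.1 e.2.1 e.2.2 ∧ e.2.1 ∈ S₀ ∧ e.2.2 ∉ S₀ ∧ e.2.2 ∈ Ω ∧ e.1 ∈ LE
  letab : ∀ s ∈ LE, (∀ e ∈ tab, e.1 ≠ s) → s ∈ Cs

/-- A certificate for the torus condition. -/
abbrev detCert (D : ChevalleyDatum) (Jl : List ℕ) (cert : List (ℕ × List (ℕ × ℤ))) (S₀ : List ℕ) : Prop :=
  ∀ j ∈ List.range D.rank, j ∉ Jl → ∃ e ∈ cert, e.1 = j ∧ (∀ p ∈ e.2, p.1 ∈ S₀) ∧
    ∀ i ∈ List.range D.rank, (e.2.map fun p => p.2 * D.cartan i p.1).sum = if i = j then 1 else 0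

lemma det_of_cert (h : Tab D) (h2 : Tab2 D) {Jl : List ℕ} {cert : List (ℕ × List (ℕ × ℤ))} {S₀ : List ℕ}
    (hlt : ∀ ρ ∈ S₀, ρ < D.nroots) (hc : detCert D Jl cert S₀)
    (y : ℕ → Fˣ) (hy : ∀ ρ ∈ S₀, (chi D (psi D y) ρ : Fˣ) = 1) :
    ∀ j, j < D.rank → j ∉ ({j | j ∈ Jl} : Set ℕ) → y j = 1 := by
  intro j hj hjJ
  obtain ⟨e, -, rfl, he1, he2⟩ := hc j (List.mem_range.mpr hj) hjJ
  have key : ∀ L : List (ℕ × ℤ), (∀ p ∈ L, p.1 ∈ S₀) →
      ∏ i ∈ Finset.range D.rank, (y i) ^ (L.map fun p => p.2 * D.cartan i p.1).sum = 1 := by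
    intro L
    induction L with
    | nil => intro _; simp
    | cons a L ih =>
      intro hL
      simp only [List.map_cons, List.sum_cons, zpow_add]
      rw [Finset.prod_mul_distrib, ih fun p hp => hL p (List.mem_cons_of_mem _ hp), mul_one]
      have ha := hL a List.mem_cons_self
      have h3 := hy a.1 ha
      rw [chi_psi h h2 y (hlt _ ha)] at h3
      have h4 : (∏ i ∈ Finset.range D.rank, (y i) ^ D.cartan i a.1) ^ a.2 = 1 := by
        rw [h3, one_zpow]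
      rw [← h4, ← Finset.prod_zpow]
      refine Finset.prod_congr rfl fun i _ => ?_
      rw [← zpow_mul, mul_comm]
  have h5 := key e.2 he1
  rw [Finset.prod_eq_single e.1] at h5
  · rw [he2 _ (List.mem_range.mpr hj), if_pos rfl, zpow_one] at h5
    exact h5
  · intro i hi hij
    rw [he2 i (List.mem_range.mpr (Finset.mem_range.mp hi)), if_neg hij, zpow_zero]
  · intro hn
    exact (hn (Finset.mem_range.mpr hj)).elim

/-- The centraliser from decidable data. -/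
theorem centralizer_eq_chk [CharP F 2] (ax : Ax D F) (h : Tab D) (h2 : Tab2 D) {Ω S₀ Jl Cs LE : List ℕ}
    {tab : List (ℕ × ℕ × ℕ)} {cert : List (ℕ × List (ℕ × ℤ))}
    (K : AbChk D Ω S₀ Jl Cs LE tab) (hW : WeylCond D Ω S₀ {j | j ∈ Jl}) (hc : detCert D Jl cert S₀) :
    D.group F ⊓ Subgroup.centralizer {wordL ax Ω (ind S₀)} = rootClosure ax (· ∈ Cs) := by
  have hS0 : ∀ ρ ∈ S₀, ρ < D.nroots := fun ρ hρ => (K.H.good.pos ρ (K.H.sub ρ hρ)).1
  refine centralizer_eq_E ax h h2 K.H hW K.cs0 ?_ ?_ K.le ?_ tab K.tabS K.letab (det_of_cert h h2 hS0 hc)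
  · intro s hs ρ hρ a b
    rcases K.csc s hs ρ hρ with e | ⟨h3, h4⟩
    · subst e
      rw [xG_add, xG_add, add_comm]
    · by_cases e : s = ρ
      · subst e
        rw [xG_add, xG_add, add_comm]
      · exact xG_commute_of_terms ax (hS0 ρ hρ) (K.cs0 s hs) e h3 (fun c hc => cast_even (h4 c hc)) a b
  · intro s hs
    obtain ⟨h3, h4⟩ := inRootSub_iff'.mp hs
    exact K.csJ s (List.mem_range.mpr h3) h4
  · intro s
    constructor
    · intro hs
      have h0 := K.le0 s hs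
      have h3 := (K.le1 s (List.mem_range.mpr h0)).mp hs
      refine ⟨h3.1, fun h4 => h3.2 (inRootSub_iff'.mp h4).2⟩
    · rintro ⟨hs1, hs2⟩
      refine (K.le1 s (List.mem_range.mpr hs1.1)).mpr ⟨hs1, fun h4 => hs2 ?_⟩
      exact inRootSub_iff'.mpr ⟨hs1.1, h4⟩

/-- Decidable hypotheses for `centralizer_eq_MJ`. -/
theorem centralizer_eq_MJ_chk [CharP F 2] (ax : Ax D F) (h : Tab D) (h2 : Tab2 D) {Ω S₀ Jl : List ℕ}
    {cert : List (ℕ × List (ℕ × ℤ))} (H : AbHyp D Ω S₀) (hW : WeylCond D Ω S₀ {j | j ∈ Jl})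
    (hc : detCert D Jl cert S₀)
    (hU : ∀ s ∈ D.posRoots, ∀ ρ ∈ S₀, s = ρ ∨ (s ≠ D.neg ρ ∧ ∀ c ∈ D.commTerms ρ s, (2 : ℤ) ∣ c.2.1))
    (hN : ∀ j ∈ Jl, j < D.rank → ∀ ρ ∈ S₀, D.neg (D.simple j) ≠ ρ ∧ D.neg (D.simple j) ≠ D.neg ρ ∧
      ∀ c ∈ D.commTerms ρ (D.neg (D.simple j)), (2 : ℤ) ∣ c.2.1) :
    D.group F ⊓ Subgroup.centralizer {wordL ax Ω (ind S₀)} = MJ ax {j | j ∈ Jl} := by
  have hS0 : ∀ ρ ∈ S₀, ρ < D.nroots := fun ρ hρ => (H.good.pos ρ (H.sub ρ hρ)).1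
  refine centralizer_eq_MJ ax h h2 H hW ?_ ?_ (det_of_cert h h2 hS0 hc)
  · intro s hs ρ hρ a b
    rcases hU s (mem_posRoots.mpr hs) ρ hρ with e | ⟨h3, h4⟩
    · subst e
      rw [xG_add, xG_add, add_comm]
    · by_cases e : s = ρ
      · subst e
        rw [xG_add, xG_add, add_comm]
      · exact xG_commute_of_terms ax (hS0 ρ hρ) hs.1 e h3 (fun c hc => cast_even (h4 c hc)) a b
  · intro j hj hjJ ρ hρ a b
    obtain ⟨h3, h4, h5⟩ := hN j hjJ hj ρ hρ
    exact xG_commute_of_terms ax (hS0 ρ hρ) (h.neg_lt _ (h.simple_lt j hj)) h3 h4 (fun c hc => cast_even (h5 c hc)) a b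

end wrap

end Cfsg.Agent.Lib.KS71.ChevWeyl
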