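/-
Symplectic transvections in `PSp_{2m}(F)`: comparison, commutation, products, and the automorphisms
induced by similarities and field automorphisms.
-/
import Mathlib
import Cfsg.Prelude.Def_LieTypeDatum
import Cfsg.Agent.Lib.Classical.SympSimple
import Cfsg.Agent.Lib.Geo.Basic

set_option autoImplicit false

namespace Cfsg.Agent.Lib.KS71.PSpCore

open Matrix Cfsg
open Cfsg.Agent.Lib.Classical.SympForm Cfsg.Agent.Lib.Classical.SympSimple
open Cfsg.Agent.Lib.Geo.Basic

variable {F : Type*} [Field F] {m : ℕ}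

/-- The symplectic group as a type. -/
abbrev Sp (m : ℕ) (F : Type*) [Field F] : Type _ := ↥(Matrix.symplecticGroup (Fin m) F)

/-- The quotient map to `PSp`. -/
abbrev mkS (s : Sp m F) : PSp m F := QuotientGroup.mk s

theorem mkS_mul (s t : Sp m F) : mkS (s * t) = mkS s * mkS t := rfl

theorem mkS_inv (s : Sp m F) : mkS s⁻¹ = (mkS s)⁻¹ := rfl

theorem mkS_one : mkS (1 : Sp m F) = 1 := rfl

theorem mkS_surj (g : PSp m F) : ∃ s, mkS s = g := QuotientGroup.mk_surjective g

theorem sp_mul_inv (s : Sp m F) : s.1 * (s⁻¹).1 = 1 := by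
  rw [← Submonoid.coe_mul, mul_inv_cancel]
  rfl

theorem sp_inv_mul (s : Sp m F) : (s⁻¹).1 * s.1 = 1 := by
  rw [← Submonoid.coe_mul, inv_mul_cancel]
  rfl

theorem sp_mul_coe (s t : Sp m F) : (s * t).1 = s.1 * t.1 := rfl

theorem sp_one_coe : (1 : Sp m F).1 = 1 := rfl

theorem mkS_congr {s t : Sp m F} (h : s.1 = t.1) : mkS s = mkS t := by
  rw [Subtype.ext h]

/-! ### The form -/

theorem form_add_left (u u' v : Fin m ⊕ Fin m → F) :
    sympForm m F (u + u') v = sympForm m F u v + sympForm m F u' v := by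
  simp [sympForm, add_dotProduct]

theorem form_add_right (u v v' : Fin m ⊕ Fin m → F) :
    sympForm m F u (v + v') = sympForm m F u v + sympForm m F u v' := by
  simp [sympForm, mulVec_add, dotProduct_add]

theorem form_smul_left (a : F) (u v : Fin m ⊕ Fin m → F) :
    sympForm m F (a • u) v = a * sympForm m F u v := by
  simp [sympForm, smul_dotProduct]

theorem form_smul_right (a : F) (u v : Fin m ⊕ Fin m → F) :
    sympForm m F u (a • v) = a * sympForm m F u v := by
  simp [sympForm, mulVec_smul, dotProduct_smul]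

theorem form_self (u : Fin m ⊕ Fin m → F) : sympForm m F u u = 0 := sympBilin_isAlt u

theorem form_swap (u v : Fin m ⊕ Fin m → F) : sympForm m F u v = - sympForm m F v u := by
  have h := form_self (u + v)
  rw [form_add_left, form_add_right, form_add_right, form_self, form_self] at h
  linear_combination h

theorem form_zero_left (v : Fin m ⊕ Fin m → F) : sympForm m F 0 v = 0 := by
  simp [sympForm]

theorem form_zero_right (u : Fin m ⊕ Fin m → F) : sympForm m F u 0 = 0 := by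
  simp [sympForm]

theorem form_neg_left (u v : Fin m ⊕ Fin m → F) : sympForm m F (-u) v = - sympForm m F u v := by
  simp [sympForm]

theorem form_neg_right (u v : Fin m ⊕ Fin m → F) : sympForm m F u (-v) = - sympForm m F u v := by
  simp [sympForm, mulVec_neg]

theorem form_sub_left (u u' v : Fin m ⊕ Fin m → F) :
    sympForm m F (u - u') v = sympForm m F u v - sympForm m F u' v := by
  rw [sub_eq_add_neg, form_add_left, form_neg_left, sub_eq_add_neg]

theorem form_sub_right (u v v' : Fin m ⊕ Fin m → F) :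
    sympForm m F u (v - v') = sympForm m F u v - sympForm m F u v' := by
  rw [sub_eq_add_neg, form_add_right, form_neg_right, sub_eq_add_neg]

/-- Every functional is a value of the form. -/
theorem form_J_left (θ y : Fin m ⊕ Fin m → F) :
    sympForm m F (Matrix.J (Fin m) F *ᵥ θ) y = θ ⬝ᵥ y := by
  rw [sympForm_eq_sum]
  have hJ : Matrix.J (Fin m) F *ᵥ θ = Sum.elim (fun i => - θ (Sum.inr i)) (fun i => θ (Sum.inl i)) := by
    ext (i | i) <;>
    simp [Matrix.J, Matrix.mulVec, dotProduct, Matrix.fromBlocks, Fintype.sum_sum_type,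
      Matrix.neg_apply, Matrix.one_apply]
  rw [hJ, dotProduct, Fintype.sum_sum_type, ← Finset.sum_add_distrib]
  refine Finset.sum_congr rfl fun i _ => ?_
  simp

/-- A vector outside a subspace is separated by the form. -/
theorem exists_form_of_notMem (W : Submodule F (Fin m ⊕ Fin m → F)) (u : Fin m ⊕ Fin m → F)
    (hu : u ∉ W) : ∃ x, (∀ w ∈ W, sympForm m F x w = 0) ∧ sympForm m F x u = 1 := by
  obtain ⟨θ, h1, h2⟩ := exists_dotProduct_eq_one_of_notMem W u hu
  exact ⟨Matrix.J (Fin m) F *ᵥ θ, fun w hw => by rw [form_J_left, h1 w hw], by rw [form_J_left, h2]⟩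

theorem exists_form_eq_one {u : Fin m ⊕ Fin m → F} (hu : u ≠ 0) :
    ∃ x, sympForm m F x u = 1 := by
  obtain ⟨x, -, h⟩ := exists_form_of_notMem (⊥ : Submodule F (Fin m ⊕ Fin m → F)) u (by simpa using hu)
  exact ⟨x, h⟩

/-- Separating a pair of vectors: if `u` is not a multiple of `v`, there is `x` with `x ⊥ v` and `B(x,u) = 1`. -/
theorem exists_sep {u v : Fin m ⊕ Fin m → F} (h : ∀ a : F, u ≠ a • v) :
    ∃ x, sympForm m F x v = 0 ∧ sympForm m F x u = 1 := by
  have hu : u ∉ Submodule.span F {v} := by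
    intro hmem
    obtain ⟨a, ha⟩ := Submodule.mem_span_singleton.1 hmem
    exact h a ha.symm
  obtain ⟨x, h1, h2⟩ := exists_form_of_notMem _ u hu
  exact ⟨x, h1 v (Submodule.mem_span_singleton_self v), h2⟩

/-! ### Transvections -/

/-- The transvection `x ↦ x + c B(x, v) v`. -/
def ts (v : Fin m ⊕ Fin m → F) (c : F) : Sp m F :=
  ⟨Cfsg.sympTransvection m v c, sympTransvection_mem v c⟩

/-- The nilpotent part. -/
def NN (v : Fin m ⊕ Fin m → F) (c : F) : Matrix (Fin m ⊕ Fin m) (Fin m ⊕ Fin m) F :=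
  c • vecMulVec v (Matrix.J (Fin m) F *ᵥ v)

theorem coe_ts (v : Fin m ⊕ Fin m → F) (c : F) : (ts v c).1 = 1 + NN v c := rfl

theorem ts_mulVec (v : Fin m ⊕ Fin m → F) (c : F) (x : Fin m ⊕ Fin m → F) :
    (ts v c).1 *ᵥ x = x + (c * sympForm m F x v) • v := sympTransvection_mulVec v c x

theorem NN_mulVec (v : Fin m ⊕ Fin m → F) (c : F) (x : Fin m ⊕ Fin m → F) :
    NN v c *ᵥ x = (c * sympForm m F x v) • v := by
  have h := ts_mulVec v c x
  rw [coe_ts, Matrix.add_mulVec, Matrix.one_mulVec] at h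
  exact add_left_cancel h

theorem NN_mul (v v' : Fin m ⊕ Fin m → F) (c c' : F) :
    NN v c * NN v' c' = (c * c' * sympForm m F v' v) • vecMulVec v (Matrix.J (Fin m) F *ᵥ v') := by
  unfold NN
  rw [Matrix.smul_mul, Matrix.mul_smul, vecMulVec_mul_vecMulVec, smul_smul, vecMulVec_smul, smul_smul]
  congr 1
  rw [sympForm, dotProduct_comm]

theorem NN_sq (v : Fin m ⊕ Fin m → F) (c : F) : NN v c * NN v c = 0 := by
  rw [NN_mul, form_self, mul_zero, zero_smul]

/-- If `c (1 + N) = 1 + M` with `N, M` of square zero, then `c = 1` and `N = M`. -/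
theorem scalar_eq_of_sq_zero {ι : Type*} [Fintype ι] [DecidableEq ι] [Nonempty ι] {c : F}
    {N M : Matrix ι ι F} (hN : N * N = 0)
    (hM : M * M = 0) (h : c • (1 + N) = 1 + M) : c = 1 ∧ N = M := by
  have hne : (1 : Matrix ι ι F) ≠ 0 := one_ne_zero
  have hM' : M = (c - 1) • 1 + c • N := by
    have : M = c • (1 + N) - 1 := by rw [h]; simp
    rw [this, smul_add, sub_smul, one_smul]
    abel
  have h1 : ((c - 1) ^ 2) • (1 : Matrix ι ι F) + (2 * c * (c - 1)) • N = 0 := by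
    have h2 : M * M = ((c - 1) ^ 2) • (1 : Matrix ι ι F) + (2 * c * (c - 1)) • N
        + (c ^ 2) • (N * N) := by
      rw [hM']
      simp only [add_mul, mul_add, smul_mul_assoc, mul_smul_comm, one_mul, mul_one, smul_smul]
      rw [← sub_eq_zero]
      module
    rw [hM, hN, smul_zero, add_zero] at h2
    exact h2.symm
  have h3 : ((c - 1) ^ 2) • N = 0 := by
    have h4 := congrArg (fun X => X * N) h1
    simp only [add_mul, smul_mul_assoc, one_mul, hN, smul_zero, add_zero, zero_mul] at h4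
    exact h4
  have hc : c = 1 := by
    by_contra hc
    have hc1 : (c - 1) ^ 2 ≠ 0 := pow_ne_zero _ (sub_ne_zero.2 hc)
    have hN0 : N = 0 := (smul_eq_zero.1 h3).resolve_left hc1
    rw [hN0, smul_zero, add_zero] at h1
    exact hne ((smul_eq_zero.1 h1).resolve_left hc1)
  refine ⟨hc, ?_⟩
  rw [hc, one_smul] at h
  exact add_left_cancel h

/-- Two elements of `Sp` with the same image differ by a sign. -/
theorem mkS_eq_iff (hm : 1 ≤ m) (s t : Sp m F) :
    mkS s = mkS t ↔ t = s ∨ t = negOne m F * s := by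
  rw [mkS, mkS, QuotientGroup.eq, mem_center_symplecticGroup_iff hm]
  constructor
  · rintro (h | h)
    · left
      rw [inv_mul_eq_one] at h
      exact h.symm
    · right
      rw [inv_mul_eq_iff_eq_mul] at h
      rw [h]
      have hc := (mem_center_symplecticGroup_iff hm (negOne m F)).2 (Or.inr rfl)
      rw [Subgroup.mem_center_iff] at hc
      exact (hc s).symm ▸ rfl
  · rintro (h | h)
    · left
      rw [h]
      exact inv_mul_cancel s
    · right
      rw [h]
      have hc := (mem_center_symplecticGroup_iff hm (negOne m F)).2 (Or.inr rfl)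
      rw [Subgroup.mem_center_iff] at hc
      rw [← hc s, inv_mul_cancel_left]

/-- Comparing two "unipotent" elements of `Sp` with square-zero part in `PSp`. -/
theorem mkS_sq_zero (hm : 1 ≤ m) {s t : Sp m F} {N M : Matrix (Fin m ⊕ Fin m) (Fin m ⊕ Fin m) F}
    (hs : s.1 = 1 + N) (ht : t.1 = 1 + M) (hN : N * N = 0) (hM : M * M = 0)
    (h : mkS s = mkS t) : N = M := by
  have : Nonempty (Fin m ⊕ Fin m) := ⟨Sum.inl ⟨0, hm⟩⟩
  rcases (mkS_eq_iff hm s t).1 h with h | h
  · rw [h, hs] at ht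
    exact add_left_cancel ht
  · have h1 : ((-1 : F)) • (1 + N) = 1 + M := by
      rw [← ht, ← hs, h]
      show _ = (-1 : Matrix (Fin m ⊕ Fin m) (Fin m ⊕ Fin m) F) * s.1
      simp
    exact (scalar_eq_of_sq_zero hN hM h1).2

/-! ### Flags with coordinates -/

/-- Points with a scalar: `v ≠ 0`, `c ≠ 0`. -/
def D (m : ℕ) (F : Type*) [Field F] : Type _ :=
  {d : (Fin m ⊕ Fin m → F) × F // d.1 ≠ 0 ∧ d.2 ≠ 0}

/-- The vector part. -/
def D.v (d : D m F) : Fin m ⊕ Fin m → F := d.1.1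
/-- The scalar part. -/
def D.c (d : D m F) : F := d.1.2
theorem D.hv (d : D m F) : d.v ≠ 0 := d.2.1
theorem D.hc (d : D m F) : d.c ≠ 0 := d.2.2

/-- Build a flag. -/
def D.mk (v : Fin m ⊕ Fin m → F) (c : F) (hv : v ≠ 0) (hc : c ≠ 0) : D m F := ⟨(v, c), hv, hc⟩

/-- The element of `PSp` attached to `d`. -/
def el (d : D m F) : PSp m F := mkS (ts d.v d.c)

/-- Same point. -/
def PP (d d' : D m F) : Prop := ∃ a : F, d'.v = a • d.v

theorem PP.refl (d : D m F) : PP d d := ⟨1, (one_smul _ _).symm⟩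

theorem PP.symm {d d' : D m F} (h : PP d d') : PP d' d := by
  obtain ⟨a, ha⟩ := h
  have ha0 : a ≠ 0 := by
    rintro rfl
    rw [zero_smul] at ha
    exact d'.hv ha
  exact ⟨a⁻¹, by rw [ha, smul_smul, inv_mul_cancel₀ ha0, one_smul]⟩

theorem PP.trans {d d' d'' : D m F} (h : PP d d') (h' : PP d' d'') : PP d d'' := by
  obtain ⟨a, ha⟩ := h
  obtain ⟨b, hb⟩ := h'
  exact ⟨b * a, by rw [hb, ha, smul_smul]⟩

/-- `x` is the image of a transvection. -/
def IsT (x : PSp m F) : Prop := ∃ d : D m F, x = el d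

/-- A nonzero vector has a vector not orthogonal to it. -/
theorem exists_form_ne {v : Fin m ⊕ Fin m → F} (hv : v ≠ 0) : ∃ x, sympForm m F x v ≠ 0 := by
  obtain ⟨x, hx⟩ := exists_form_eq_one hv
  exact ⟨x, by rw [hx]; exact one_ne_zero⟩

theorem exists_one_le (hv : ∃ v : Fin m ⊕ Fin m → F, v ≠ 0) : 1 ≤ m := by
  obtain ⟨v, hv⟩ := hv
  by_contra h
  have h0 : m = 0 := by omega
  subst h0
  apply hv
  funext i
  rcases i with i | i <;> exact i.elim0

theorem D.one_le (d : D m F) : 1 ≤ m := exists_one_le ⟨d.v, d.hv⟩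

theorem el_eq_imp {d d' : D m F} (h : el d = el d') : PP d d' := by
  have hm := d.one_le
  have h1 := mkS_sq_zero hm (coe_ts d.v d.c) (coe_ts d'.v d'.c) (NN_sq _ _) (NN_sq _ _) h
  obtain ⟨x, hx⟩ := exists_form_eq_one d'.hv
  have h2 := congrArg (fun M => M *ᵥ x) h1
  simp only [NN_mulVec, hx, mul_one] at h2
  refine ⟨d'.c⁻¹ * (d.c * sympForm m F x d.v), ?_⟩
  rw [mul_smul, h2, smul_smul, inv_mul_cancel₀ d'.hc, one_smul]

theorem el_ne_one (d : D m F) : el d ≠ 1 := by
  have hm := d.one_le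
  intro h
  have h1 := mkS_sq_zero (s := ts d.v d.c) (t := 1) (M := 0) hm (coe_ts d.v d.c) (by simp [sp_one_coe])
    (NN_sq _ _) (by simp) (by rw [mkS_one]; exact h)
  obtain ⟨x, hx⟩ := exists_form_eq_one d.hv
  have h2 := congrArg (fun M => M *ᵥ x) h1
  simp only [NN_mulVec, hx, mul_one, Matrix.zero_mulVec] at h2
  rcases smul_eq_zero.1 h2 with h3 | h3
  · exact d.hc h3
  · exact d.hv h3

/-- Action of `Sp` on points with scalars. -/
def D.act (s : Sp m F) (d : D m F) : D m F :=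
  D.mk (s.1 *ᵥ d.v) d.c
    (fun h => d.hv (by
      have h1 : (s⁻¹).1 *ᵥ (s.1 *ᵥ d.v) = 0 := by rw [h, Matrix.mulVec_zero]
      rwa [Matrix.mulVec_mulVec, sp_inv_mul, Matrix.one_mulVec] at h1)) d.hc

theorem ts_conj (s : Sp m F) (v : Fin m ⊕ Fin m → F) (c : F) :
    s * ts v c * s⁻¹ = ts (s.1 *ᵥ v) c := by
  apply Subtype.ext
  exact sp_mul_sympTransvection_mul_inv s v c

theorem el_act (s : Sp m F) (d : D m F) : el (D.act s d) = mkS s * el d * (mkS s)⁻¹ := by
  show mkS (ts (s.1 *ᵥ d.v) d.c) = mkS (s * ts d.v d.c * s⁻¹)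
  rw [ts_conj]

theorem IsT_conj {x : PSp m F} (hx : IsT x) (g : PSp m F) : IsT (g * x * g⁻¹) := by
  obtain ⟨d, rfl⟩ := hx
  obtain ⟨s, rfl⟩ := mkS_surj g
  exact ⟨D.act s d, (el_act s d).symm⟩

/-- The action of a product of orthogonal transvections. -/
theorem ts_mul_mulVec {v v' : Fin m ⊕ Fin m → F} (h : sympForm m F v' v = 0) (c c' : F)
    (x : Fin m ⊕ Fin m → F) :
    (ts v c * ts v' c').1 *ᵥ x = x + ((c * sympForm m F x v) • v + (c' * sympForm m F x v') • v') := by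
  rw [sp_mul_coe, ← Matrix.mulVec_mulVec, ts_mulVec, ts_mulVec, form_add_left, form_smul_left, h]
  module

/-- Elements with coordinates commute in `PSp` exactly when their points are orthogonal. -/
theorem commute_iff (d d' : D m F) :
    el d * el d' = el d' * el d ↔ sympForm m F d.v d'.v = 0 := by
  constructor
  · intro hc
    have h1 : el d * el d' * (el d)⁻¹ = el d' := by
      rw [hc, mul_assoc, mul_inv_cancel, mul_one]
    have h3 : el (D.act (ts d.v d.c) d') = el d' := by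
      rw [el_act]
      exact h1
    obtain ⟨a, ha⟩ := PP.symm (el_eq_imp h3)
    have h4 : (D.act (ts d.v d.c) d').v = d'.v + (d.c * sympForm m F d'.v d.v) • d.v :=
      ts_mulVec _ _ _
    rw [h4] at ha
    by_contra hne
    have hk : d.c * sympForm m F d'.v d.v ≠ 0 := by
      refine mul_ne_zero d.hc ?_
      intro h0
      apply hne
      rw [form_swap, h0, neg_zero]
    have h5 := congrArg (fun y => sympForm m F y d'.v) ha
    simp only [form_add_left, form_smul_left, form_self] at h5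
    -- `ha : v' + k v = a v'`, evaluate against `v`
    have h6 : (d.c * sympForm m F d'.v d.v) * sympForm m F d.v d'.v = 0 := by
      simpa using h5
    exact (mul_ne_zero hk hne) h6
  · intro h
    show mkS _ = mkS _
    apply mkS_congr
    apply Matrix.ext_iff_mulVec.2
    intro x
    have h' : sympForm m F d'.v d.v = 0 := by rw [form_swap, h, neg_zero]
    show (ts d.v d.c * ts d'.v d'.c).1 *ᵥ x = (ts d'.v d'.c * ts d.v d.c).1 *ᵥ x
    rw [ts_mul_mulVec h', ts_mul_mulVec h]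
    abel

theorem ts_zero (v : Fin m ⊕ Fin m → F) : ts v (0 : F) = 1 := by
  apply Subtype.ext
  show Cfsg.sympTransvection m v 0 = 1
  simp [Cfsg.sympTransvection]

theorem ts_mul (v : Fin m ⊕ Fin m → F) (c d : F) : ts v c * ts v d = ts v (c + d) := by
  apply Subtype.ext
  exact sympTransvection_mul v c d

theorem ts_smul (a : F) (v : Fin m ⊕ Fin m → F) (c : F) : ts (a • v) c = ts v (a ^ 2 * c) := by
  apply Subtype.ext
  exact sympTransvection_smul a v c

/-- The relation "same point" in group terms. -/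
theorem A_iff (d d' : D m F) :
    (el d * el d' = el d' * el d ∧ (IsT (el d * el d') ∨ el d * el d' = 1)) ↔ PP d d' := by
  have hm := d.one_le
  constructor
  · rintro ⟨hc, hp⟩
    have h0 := (commute_iff d d').1 hc
    have h0' : sympForm m F d'.v d.v = 0 := by rw [form_swap, h0, neg_zero]
    by_contra hne
    have hne1 : ∀ a : F, d'.v ≠ a • d.v := fun a ha => hne ⟨a, ha⟩
    have hne2 : ∀ a : F, d.v ≠ a • d'.v := fun a ha => hne (PP.symm ⟨a, ha⟩)
    obtain ⟨x₁, h11, h12⟩ := exists_sep hne2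
    obtain ⟨x₂, h21, h22⟩ := exists_sep hne1
    have hs : (ts d.v d.c * ts d'.v d'.c).1 = 1 + (NN d.v d.c + NN d'.v d'.c) := by
      apply Matrix.ext_iff_mulVec.2
      intro x
      rw [ts_mul_mulVec h0', Matrix.add_mulVec, Matrix.add_mulVec, Matrix.one_mulVec, NN_mulVec, NN_mulVec]
    have hsq : (NN d.v d.c + NN d'.v d'.c) * (NN d.v d.c + NN d'.v d'.c) = 0 := by
      simp only [add_mul, mul_add, NN_sq, NN_mul, h0, h0', mul_zero, zero_smul, add_zero]
    have hact : ∀ x, (NN d.v d.c + NN d'.v d'.c) *ᵥ x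
        = (d.c * sympForm m F x d.v) • d.v + (d'.c * sympForm m F x d'.v) • d'.v := by
      intro x
      rw [Matrix.add_mulVec, NN_mulVec, NN_mulVec]
    rcases hp with ⟨e, he⟩ | he
    · have h3 := mkS_sq_zero hm hs (coe_ts e.v e.c) hsq (NN_sq _ _) he
      have e1 := congrArg (fun M => M *ᵥ x₁) h3
      have e2 := congrArg (fun M => M *ᵥ x₂) h3
      simp only [hact, NN_mulVec, h11, h12, h21, h22, mul_zero, mul_one, zero_smul, add_zero,
        zero_add] at e1 e2
      -- `d.v` and `d'.v` are both multiples of `e.v`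
      have hb : e.c * sympForm m F x₁ e.v ≠ 0 := by
        intro h0
        rw [h0, zero_smul] at e1
        rcases smul_eq_zero.1 e1 with h | h
        · exact d.hc h
        · exact d.hv h
      apply hne
      refine ⟨d'.c⁻¹ * (e.c * sympForm m F x₂ e.v) * (e.c * sympForm m F x₁ e.v)⁻¹ * d.c, ?_⟩
      have e3 : e.v = (e.c * sympForm m F x₁ e.v)⁻¹ • (d.c • d.v) := by
        rw [e1, smul_smul, inv_mul_cancel₀ hb, one_smul]
      have e4 : d'.v = d'.c⁻¹ • (d'.c • d'.v) := by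
        rw [smul_smul, inv_mul_cancel₀ d'.hc, one_smul]
      rw [e4, e2]
      have e5 : (e.c * sympForm m F x₂ e.v) • e.v = (e.c * sympForm m F x₂ e.v) • ((e.c * sympForm m F x₁ e.v)⁻¹ • (d.c • d.v)) := by
        rw [← e3]
      rw [e5]
      simp only [smul_smul]
      congr 1
      ring
    · have h3 := mkS_sq_zero (t := 1) (M := 0) hm hs (by simp [sp_one_coe]) hsq (by simp) he
      have e1 := congrArg (fun M => M *ᵥ x₁) h3
      simp only [hact, h11, h12, mul_zero, mul_one, zero_smul, add_zero, Matrix.zero_mulVec] at e1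
      rcases smul_eq_zero.1 e1 with h | h
      · exact d.hc h
      · exact d.hv h
  · rintro ⟨a, ha⟩
    constructor
    · rw [commute_iff, ha, form_smul_right, form_self, mul_zero]
    · have hprod : el d * el d' = mkS (ts d.v (d.c + a ^ 2 * d'.c)) := by
        show mkS (ts d.v d.c * ts d'.v d'.c) = _
        rw [ha, ts_smul, ts_mul]
      rw [hprod]
      by_cases hs : d.c + a ^ 2 * d'.c = 0
      · right
        rw [hs, ts_zero]
        rfl
      · left
        exact ⟨D.mk d.v _ d.hv hs, rfl⟩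

/-! ### Automorphisms of `PSp` from automorphisms of `Sp` -/

/-- The automorphism of `PSp` induced by an automorphism of `Sp`. -/
noncomputable def autOf (e : Sp m F ≃* Sp m F) : MulAut (PSp m F) := quotientCenterEquiv e

theorem autOf_mkS (e : Sp m F ≃* Sp m F) (s : Sp m F) : autOf e (mkS s) = mkS (e s) := rfl

theorem autOf_mul (e e' : Sp m F ≃* Sp m F) :
    autOf (e.trans e') = autOf e' * autOf e := by
  apply MulEquiv.ext
  intro x
  obtain ⟨s, rfl⟩ := mkS_surj x
  rfl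

theorem gl_mul_inv (g : GL (Fin m ⊕ Fin m) F) :
    (g : Matrix (Fin m ⊕ Fin m) (Fin m ⊕ Fin m) F) * ((g⁻¹ : GL (Fin m ⊕ Fin m) F) : Matrix (Fin m ⊕ Fin m) (Fin m ⊕ Fin m) F) = 1 := by
  rw [← Units.val_mul, mul_inv_cancel, Units.val_one]

theorem gl_inv_mul (g : GL (Fin m ⊕ Fin m) F) :
    ((g⁻¹ : GL (Fin m ⊕ Fin m) F) : Matrix (Fin m ⊕ Fin m) (Fin m ⊕ Fin m) F) * (g : Matrix (Fin m ⊕ Fin m) (Fin m ⊕ Fin m) F) = 1 := by
  rw [← Units.val_mul, inv_mul_cancel, Units.val_one]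

/-- The form of a `GSp` element. -/
theorem exists_factor {g : GL (Fin m ⊕ Fin m) F} (hg : g ∈ GSp m F) :
    ∃ c : Fˣ, ∀ u v, sympForm m F ((g : Matrix _ _ F) *ᵥ u) ((g : Matrix _ _ F) *ᵥ v) = (c : F) * sympForm m F u v := hg

/-- Conjugation by a similarity preserves the symplectic group. -/
theorem conj_mem {g : GL (Fin m ⊕ Fin m) F} (hg : g ∈ GSp m F) (s : Sp m F) :
    (g : Matrix _ _ F) * s.1 * ((g⁻¹ : GL (Fin m ⊕ Fin m) F) : Matrix _ _ F) ∈ Matrix.symplecticGroup (Fin m) F := by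
  rw [mem_symplecticGroup_iff]
  intro u v
  obtain ⟨c, hc⟩ := exists_factor hg
  rw [← Matrix.mulVec_mulVec, ← Matrix.mulVec_mulVec, ← Matrix.mulVec_mulVec, ← Matrix.mulVec_mulVec, hc,
    (mem_symplecticGroup_iff _).1 s.2, ← hc, Matrix.mulVec_mulVec, Matrix.mulVec_mulVec, gl_mul_inv,
    Matrix.one_mulVec, Matrix.one_mulVec]

/-- Conjugation by a similarity on `Sp`. -/
noncomputable def conjSp (g : GL (Fin m ⊕ Fin m) F) (hg : g ∈ GSp m F) : Sp m F ≃* Sp m F where
  toFun s := ⟨_, conj_mem hg s⟩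
  invFun s := ⟨((g⁻¹ : GL (Fin m ⊕ Fin m) F) : Matrix _ _ F) * s.1 * (g : Matrix _ _ F), by
    have := conj_mem (inv_mem hg) s
    rwa [inv_inv] at this⟩
  left_inv s := by
    apply Subtype.ext
    show ((g⁻¹ : GL (Fin m ⊕ Fin m) F) : Matrix _ _ F) * ((g : Matrix _ _ F) * s.1 * ((g⁻¹ : GL (Fin m ⊕ Fin m) F) : Matrix _ _ F)) * (g : Matrix _ _ F) = s.1
    rw [Matrix.mul_assoc, Matrix.mul_assoc, Matrix.mul_assoc, gl_inv_mul, Matrix.mul_one,
      ← Matrix.mul_assoc, gl_inv_mul, Matrix.one_mul]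
  right_inv s := by
    apply Subtype.ext
    show (g : Matrix _ _ F) * (((g⁻¹ : GL (Fin m ⊕ Fin m) F) : Matrix _ _ F) * s.1 * (g : Matrix _ _ F)) * ((g⁻¹ : GL (Fin m ⊕ Fin m) F) : Matrix _ _ F) = s.1
    rw [Matrix.mul_assoc, Matrix.mul_assoc, Matrix.mul_assoc, gl_mul_inv, Matrix.mul_one,
      ← Matrix.mul_assoc, gl_mul_inv, Matrix.one_mul]
  map_mul' s t := by
    apply Subtype.ext
    show (g : Matrix _ _ F) * (s.1 * t.1) * ((g⁻¹ : GL (Fin m ⊕ Fin m) F) : Matrix _ _ F) =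
      ((g : Matrix _ _ F) * s.1 * ((g⁻¹ : GL (Fin m ⊕ Fin m) F) : Matrix _ _ F)) *
        ((g : Matrix _ _ F) * t.1 * ((g⁻¹ : GL (Fin m ⊕ Fin m) F) : Matrix _ _ F))
    simp only [Matrix.mul_assoc]
    congr 2
    rw [← Matrix.mul_assoc, gl_inv_mul, Matrix.one_mul]

theorem coe_conjSp (g : GL (Fin m ⊕ Fin m) F) (hg : g ∈ GSp m F) (s : Sp m F) :
    (conjSp g hg s).1 = (g : Matrix _ _ F) * s.1 * ((g⁻¹ : GL (Fin m ⊕ Fin m) F) : Matrix _ _ F) := rfl

/-- The entrywise action of a field automorphism on vectors. -/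
def vσ (σ : F ≃+* F) (x : Fin m ⊕ Fin m → F) : Fin m ⊕ Fin m → F := fun i => σ (x i)

theorem vσ_symm (σ : F ≃+* F) (x : Fin m ⊕ Fin m → F) : vσ σ (vσ σ.symm x) = x := by
  funext i
  simp [vσ]

theorem vσ_symm' (σ : F ≃+* F) (x : Fin m ⊕ Fin m → F) : vσ σ.symm (vσ σ x) = x := by
  funext i
  simp [vσ]

theorem vσ_ne {σ : F ≃+* F} {x : Fin m ⊕ Fin m → F} (h : x ≠ 0) : vσ σ x ≠ 0 := by
  intro h0
  apply h
  funext i
  have := congrFun h0 i
  simpa [vσ] using this

theorem vσ_smul (σ : F ≃+* F) (a : F) (x : Fin m ⊕ Fin m → F) : vσ σ (a • x) = σ a • vσ σ x := by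
  funext i
  simp [vσ]

theorem vσ_add (σ : F ≃+* F) (x y : Fin m ⊕ Fin m → F) : vσ σ (x + y) = vσ σ x + vσ σ y := by
  funext i
  simp [vσ]

theorem form_vσ (σ : F ≃+* F) (u v : Fin m ⊕ Fin m → F) :
    sympForm m F (vσ σ u) (vσ σ v) = σ (sympForm m F u v) := by
  rw [sympForm_eq_sum, sympForm_eq_sum, map_sum]
  refine Finset.sum_congr rfl fun i _ => ?_
  simp [vσ]

theorem map_mulVec_vσ (σ : F ≃+* F) (M : Matrix (Fin m ⊕ Fin m) (Fin m ⊕ Fin m) F) (x : Fin m ⊕ Fin m → F) :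
    (M.map σ) *ᵥ (vσ σ x) = vσ σ (M *ᵥ x) := by
  funext i
  simp [vσ, Matrix.mulVec, dotProduct, map_sum]

/-- A field automorphism preserves the symplectic group. -/
theorem field_mem (σ : F ≃+* F) (s : Sp m F) :
    s.1.map σ ∈ Matrix.symplecticGroup (Fin m) F := by
  rw [mem_symplecticGroup_iff]
  intro u v
  have hu : u = vσ σ (vσ σ.symm u) := (vσ_symm σ u).symm
  have hv : v = vσ σ (vσ σ.symm v) := (vσ_symm σ v).symm
  rw [hu, hv, map_mulVec_vσ, map_mulVec_vσ, form_vσ, form_vσ, (mem_symplecticGroup_iff _).1 s.2]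

/-- The entrywise action of a field automorphism on `Sp`. -/
noncomputable def fieldSp (σ : F ≃+* F) : Sp m F ≃* Sp m F where
  toFun s := ⟨s.1.map σ, field_mem σ s⟩
  invFun s := ⟨s.1.map σ.symm, field_mem σ.symm s⟩
  left_inv s := by
    apply Subtype.ext
    refine Matrix.ext fun i j => ?_
    simp
  right_inv s := by
    apply Subtype.ext
    refine Matrix.ext fun i j => ?_
    simp
  map_mul' s t := by
    apply Subtype.ext
    exact Matrix.map_mul (f := (σ : F →+* F))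

theorem coe_fieldSp (σ : F ≃+* F) (s : Sp m F) : (fieldSp σ s).1 = s.1.map σ := rfl

/-! ### Action on points with scalars -/

/-- Transport by a similarity. -/
noncomputable def D.conj (g : GL (Fin m ⊕ Fin m) F) (κ : Fˣ) (d : D m F) : D m F :=
  D.mk ((g : Matrix (Fin m ⊕ Fin m) (Fin m ⊕ Fin m) F) *ᵥ d.v) (d.c * ((κ⁻¹ : Fˣ) : F))
    (fun h => d.hv (by
      have h1 : ((g⁻¹ : GL (Fin m ⊕ Fin m) F) : Matrix (Fin m ⊕ Fin m) (Fin m ⊕ Fin m) F) *ᵥ ((g : Matrix (Fin m ⊕ Fin m) (Fin m ⊕ Fin m) F) *ᵥ d.v) = 0 := by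
        rw [h, Matrix.mulVec_zero]
      rwa [Matrix.mulVec_mulVec, gl_inv_mul, Matrix.one_mulVec] at h1))
    (mul_ne_zero d.hc (Units.ne_zero _))

theorem el_conj (g : GL (Fin m ⊕ Fin m) F) (hg : g ∈ GSp m F) (κ : Fˣ)
    (hκ : ∀ u v, sympForm m F ((g : Matrix _ _ F) *ᵥ u) ((g : Matrix _ _ F) *ᵥ v) = (κ : F) * sympForm m F u v)
    (d : D m F) : el (D.conj g κ d) = autOf (conjSp g hg) (el d) := by
  show mkS _ = mkS (conjSp g hg (ts d.v d.c))
  apply mkS_congr
  apply Matrix.ext_iff_mulVec.2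
  intro x
  show (ts ((g : Matrix _ _ F) *ᵥ d.v) (d.c * ((κ⁻¹ : Fˣ) : F))).1 *ᵥ x = _
  rw [coe_conjSp, ts_mulVec, ← Matrix.mulVec_mulVec, ← Matrix.mulVec_mulVec, ts_mulVec, Matrix.mulVec_add,
    Matrix.mulVec_mulVec, gl_mul_inv, Matrix.one_mulVec, Matrix.mulVec_smul]
  congr 2
  have h1 := hκ (((g⁻¹ : GL (Fin m ⊕ Fin m) F) : Matrix _ _ F) *ᵥ x) d.v
  rw [Matrix.mulVec_mulVec, gl_mul_inv, Matrix.one_mulVec] at h1
  rw [h1, mul_assoc, ← mul_assoc _ (κ : F), Units.inv_mul, one_mul]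

/-- Transport by a field automorphism. -/
def D.field (σ : F ≃+* F) (d : D m F) : D m F :=
  D.mk (vσ σ d.v) (σ d.c) (vσ_ne d.hv) (by simpa using d.hc)

theorem el_field (σ : F ≃+* F) (d : D m F) : el (D.field σ d) = autOf (fieldSp σ) (el d) := by
  show mkS _ = mkS (fieldSp σ (ts d.v d.c))
  apply mkS_congr
  apply Matrix.ext_iff_mulVec.2
  intro x
  show (ts (vσ σ d.v) (σ d.c)).1 *ᵥ x = (ts d.v d.c).1.map σ *ᵥ x
  have hx : x = vσ σ (vσ σ.symm x) := (vσ_symm σ x).symm
  rw [hx, map_mulVec_vσ, ts_mulVec, ts_mulVec, form_vσ, vσ_add, vσ_smul, map_mul]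

/-! ### Points determine an element of `PSp` -/

/-- A matrix fixing every point is scalar. -/
theorem scalar_of_forall_line {ι : Type*} [Fintype ι] [DecidableEq ι] [Nonempty ι] (M : Matrix ι ι F)
    (h : ∀ u : ι → F, u ≠ 0 → ∃ c : F, M *ᵥ u = c • u) : ∃ c : F, M = c • 1 := by
  have hsingle : ∀ i : ι, (Pi.single i 1 : ι → F) ≠ 0 := by
    intro i hi
    have := congrFun hi i
    simp at this
  choose c hc using fun i : ι => h (Pi.single i 1) (hsingle i)
  have hent : ∀ i k : ι, M k i = if k = i then c i else 0 := by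
    intro i k
    have := congrFun (hc i) k
    rw [Matrix.mulVec_single_one, Matrix.col_apply] at this
    rw [this]
    by_cases hk : k = i
    · subst hk; simp
    · simp [hk]
  have heq : ∀ i j : ι, c i = c j := by
    intro i j
    by_cases hij : i = j
    · rw [hij]
    have hne : (Pi.single i 1 + Pi.single j 1 : ι → F) ≠ 0 := by
      intro h0
      have := congrFun h0 i
      simp [hij] at this
    obtain ⟨a, ha⟩ := h _ hne
    have hi := congrFun ha i
    have hj := congrFun ha j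
    rw [Matrix.mulVec_add, Matrix.mulVec_single_one, Matrix.mulVec_single_one] at hi hj
    simp only [Pi.add_apply, Matrix.col_apply, hent, Pi.smul_apply, smul_eq_mul] at hi hj
    simp [hij, Ne.symm hij] at hi hj
    rw [hi, hj]
  obtain ⟨i₀⟩ := ‹Nonempty ι›
  refine ⟨c i₀, Matrix.ext fun k i => ?_⟩
  rw [hent]
  by_cases hk : k = i
  · subst hk
    simp [heq k i₀]
  · simp [hk]

/-- Elements of `Sp` inducing the same permutation of points have the same image in `PSp`. -/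
theorem mkS_eq_of_points (hm : 1 ≤ m) (s t : Sp m F)
    (h : ∀ u : Fin m ⊕ Fin m → F, u ≠ 0 → ∃ c : F, t.1 *ᵥ u = c • (s.1 *ᵥ u)) :
    mkS s = mkS t := by
  have : Nonempty (Fin m ⊕ Fin m) := ⟨Sum.inl ⟨0, hm⟩⟩
  obtain ⟨c, hc⟩ := scalar_of_forall_line ((s⁻¹).1 * t.1) (fun u hu => by
      obtain ⟨c, hc⟩ := h u hu
      refine ⟨c, ?_⟩
      rw [← Matrix.mulVec_mulVec, hc, Matrix.mulVec_smul, Matrix.mulVec_mulVec, sp_inv_mul,
        Matrix.one_mulVec])
  rw [mkS, mkS, QuotientGroup.eq]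
  rw [Subgroup.mem_center_iff]
  intro y
  apply Subtype.ext
  show y.1 * ((s⁻¹).1 * t.1) = ((s⁻¹).1 * t.1) * y.1
  rw [hc]
  simp

/-- Automorphisms that agree on points of transvections are equal. -/
theorem aut_ext (hm : 1 ≤ m) (β₁ β₂ : MulAut (PSp m F)) (f₁ f₂ : D m F → D m F)
    (h₁ : ∀ d, β₁ (el d) = el (f₁ d)) (h₂ : ∀ d, β₂ (el d) = el (f₂ d))
    (hP : ∀ d, PP (f₁ d) (f₂ d))
    (hsurj : ∀ u : Fin m ⊕ Fin m → F, u ≠ 0 → ∃ d : D m F, ∃ c : F, u = c • (f₁ d).v) : β₁ = β₂ := by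
  apply MulEquiv.ext
  intro x
  obtain ⟨s, rfl⟩ := mkS_surj x
  obtain ⟨s₁, hs₁⟩ := mkS_surj (β₁ (mkS s))
  obtain ⟨s₂, hs₂⟩ := mkS_surj (β₂ (mkS s))
  rw [← hs₁, ← hs₂]
  apply mkS_eq_of_points hm
  intro u hu
  obtain ⟨d, c, rfl⟩ := hsurj u hu
  have hc0 : c ≠ 0 := by
    rintro rfl
    exact hu (zero_smul _ _)
  -- apply to the conjugate flag
  have e1 : el (f₁ (D.act s d)) = el (D.act s₁ (f₁ d)) := by
    rw [← h₁, el_act, map_mul, map_mul, map_inv, h₁, ← hs₁, el_act]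
  have e2 : el (f₂ (D.act s d)) = el (D.act s₂ (f₂ d)) := by
    rw [← h₂, el_act, map_mul, map_mul, map_inv, h₂, ← hs₂, el_act]
  have p1 : PP (D.act s₁ (f₁ d)) (f₁ (D.act s d)) := PP.symm (el_eq_imp e1)
  have p2 : PP (f₂ (D.act s d)) (D.act s₂ (f₂ d)) := el_eq_imp e2
  obtain ⟨a, ha⟩ := p1.trans ((hP (D.act s d)).trans p2)
  obtain ⟨b, hb⟩ := hP d
  have ha' : s₂.1 *ᵥ (f₂ d).v = a • (s₁.1 *ᵥ (f₁ d).v) := ha
  have hb0 : b ≠ 0 := by
    rintro rfl
    rw [zero_smul] at hb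
    exact (f₂ d).hv hb
  rw [hb, Matrix.mulVec_smul] at ha'
  refine ⟨b⁻¹ * a, ?_⟩
  rw [Matrix.mulVec_smul, Matrix.mulVec_smul, mul_smul]
  have h3 : s₂.1 *ᵥ (f₁ d).v = b⁻¹ • (a • (s₁.1 *ᵥ (f₁ d).v)) := by
    rw [← ha', smul_smul, inv_mul_cancel₀ hb0, one_smul]
  rw [h3]
  simp only [smul_smul]
  congr 1
  ring

end Cfsg.Agent.Lib.KS71.PSpCore
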