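/-
Automorphisms of `PSp_{2m}(F)` preserve the images of the symplectic transvections
(`m ≥ 2`, and `m ≥ 3` in characteristic two).
-/
import Mathlib
import Cfsg.Agent.Lib.KS71.PSpCore

set_option autoImplicit false

namespace Cfsg.Agent.Lib.KS71.PSpTInv

open Matrix Cfsg
open Cfsg.Agent.Lib.Classical.SympForm Cfsg.Agent.Lib.Classical.SympSimple
open Cfsg.Agent.Lib.KS71.PSpCore

variable {F : Type*} [Field F] {m : ℕ}

/-! ### The elements `x ↦ x + B(x,e) w + B(x,w) e + c B(x,e) e` -/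

/-- The nilpotent part of `rho`. -/
def rhoN (e w : Fin m ⊕ Fin m → F) (c : F) : Matrix (Fin m ⊕ Fin m) (Fin m ⊕ Fin m) F :=
  vecMulVec w (Matrix.J (Fin m) F *ᵥ e) + vecMulVec e (Matrix.J (Fin m) F *ᵥ w)
    + c • vecMulVec e (Matrix.J (Fin m) F *ᵥ e)

theorem rhoN_mulVec (e w : Fin m ⊕ Fin m → F) (c : F) (x : Fin m ⊕ Fin m → F) :
    rhoN e w c *ᵥ x = sympForm m F x e • w + sympForm m F x w • e + (c * sympForm m F x e) • e := by
  unfold rhoN
  rw [Matrix.add_mulVec, Matrix.add_mulVec, Matrix.smul_mulVec, Matrix.vecMulVec_mulVec,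
    Matrix.vecMulVec_mulVec, Matrix.vecMulVec_mulVec, op_smul_eq_smul, op_smul_eq_smul, op_smul_eq_smul,
    smul_smul]
  simp only [sympForm, dotProduct_comm]

theorem rho_mem {e w : Fin m ⊕ Fin m → F} (h : sympForm m F e w = 0) (c : F) :
    1 + rhoN e w c ∈ Matrix.symplecticGroup (Fin m) F := by
  rw [mem_symplecticGroup_iff]
  intro x y
  have h1 : sympForm m F w e = 0 := by rw [form_swap, h, neg_zero]
  have h2 := form_swap w y
  have h3 := form_swap e y
  simp only [Matrix.add_mulVec, Matrix.one_mulVec, rhoN_mulVec, form_add_left, form_add_right,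
    form_smul_left, form_smul_right, form_self, h, h1, h2, h3]
  ring

/-- The element `x ↦ x + B(x,e) w + B(x,w) e + c B(x,e) e` of `Sp`, when `e ⊥ w`. -/
def rho (e w : Fin m ⊕ Fin m → F) (c : F) (h : sympForm m F e w = 0) : Sp m F :=
  ⟨1 + rhoN e w c, rho_mem h c⟩

theorem rho_mulVec {e w : Fin m ⊕ Fin m → F} (c : F) (h : sympForm m F e w = 0)
    (x : Fin m ⊕ Fin m → F) :
    (rho e w c h).1 *ᵥ x
      = x + (sympForm m F x e • w + sympForm m F x w • e + (c * sympForm m F x e) • e) := by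
  show (1 + rhoN e w c) *ᵥ x = _
  rw [Matrix.add_mulVec, Matrix.one_mulVec, rhoN_mulVec]

theorem rhoN_sq {e w : Fin m ⊕ Fin m → F} (c : F) (h : sympForm m F e w = 0) :
    rhoN e w c * rhoN e w c = 0 := by
  apply Matrix.ext_iff_mulVec.2
  intro x
  have h1 : sympForm m F w e = 0 := by rw [form_swap, h, neg_zero]
  rw [← Matrix.mulVec_mulVec, rhoN_mulVec, rhoN_mulVec]
  simp only [form_add_left, form_smul_left, form_self, h, h1, mul_zero, zero_add, add_zero, zero_smul,
    Matrix.zero_mulVec]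

/-! ### The unipotent radical of a point stabiliser -/

/-- The elements fixing `e` and acting trivially on `e^⊥ / e`. -/
def Qe (e : Fin m ⊕ Fin m → F) : Subgroup (Sp m F) where
  carrier := {z | z.1 *ᵥ e = e ∧ ∀ w, sympForm m F w e = 0 → ∃ a : F, z.1 *ᵥ w = w + a • e}
  one_mem' := by
    refine ⟨Matrix.one_mulVec e, fun w _ => ⟨0, ?_⟩⟩
    show (1 : Matrix _ _ F) *ᵥ w = _
    simp
  mul_mem' := by
    rintro a b ⟨ha, ha'⟩ ⟨hb, hb'⟩
    refine ⟨?_, fun w hw => ?_⟩
    · show (a.1 * b.1) *ᵥ e = e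
      rw [← Matrix.mulVec_mulVec, hb, ha]
    · obtain ⟨k, hk⟩ := hb' w hw
      obtain ⟨l, hl⟩ := ha' w hw
      refine ⟨l + k, ?_⟩
      show (a.1 * b.1) *ᵥ w = _
      rw [← Matrix.mulVec_mulVec, hk, Matrix.mulVec_add, Matrix.mulVec_smul, ha, hl, add_smul, add_assoc]
  inv_mem' := by
    rintro a ⟨ha, ha'⟩
    have h1 : (a⁻¹).1 *ᵥ e = e := by
      conv_lhs => rw [← ha]
      rw [Matrix.mulVec_mulVec, sp_inv_mul, Matrix.one_mulVec]
    refine ⟨h1, fun w hw => ?_⟩
    obtain ⟨k, hk⟩ := ha' w hw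
    refine ⟨-k, ?_⟩
    have h2 : (a⁻¹).1 *ᵥ (a.1 *ᵥ w) = w := by
      rw [Matrix.mulVec_mulVec, sp_inv_mul, Matrix.one_mulVec]
    rw [hk, Matrix.mulVec_add, Matrix.mulVec_smul, h1] at h2
    rw [eq_sub_of_add_eq h2, neg_smul, sub_eq_add_neg]

theorem rho_mem_Qe {e w : Fin m ⊕ Fin m → F} (c : F) (h : sympForm m F e w = 0) :
    rho e w c h ∈ Qe e := by
  refine ⟨?_, fun y hy => ⟨sympForm m F y w, ?_⟩⟩
  · rw [rho_mulVec, form_self, h]
    simp
  · rw [rho_mulVec, hy]
    simp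

theorem ts_mem_Qe (e : Fin m ⊕ Fin m → F) (c : F) : ts e c ∈ Qe e := by
  refine ⟨?_, fun y hy => ⟨0, ?_⟩⟩
  · rw [ts_mulVec, form_self]
    simp
  · rw [ts_mulVec, hy]
    simp

theorem form_sp (z : Sp m F) (u v : Fin m ⊕ Fin m → F) :
    sympForm m F (z.1 *ᵥ u) (z.1 *ᵥ v) = sympForm m F u v :=
  (mem_symplecticGroup_iff _).1 z.2 u v

/-- `Qe e` consists of `p`-elements. -/
theorem isPGroup_Qe {p : ℕ} [Fact p.Prime] [CharP F p] (hm : 1 ≤ m) (e : Fin m ⊕ Fin m → F) :
    IsPGroup p (Qe e) := by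
  have : Nonempty (Fin m ⊕ Fin m) := ⟨Sum.inl ⟨0, hm⟩⟩
  have hp2 : 2 ≤ p := (Fact.out : p.Prime).two_le
  rintro ⟨z, hz, hz'⟩
  refine ⟨2, ?_⟩
  apply Subtype.ext
  apply Subtype.ext
  set N : Matrix (Fin m ⊕ Fin m) (Fin m ⊕ Fin m) F := z.1 - 1 with hN
  have hact : ∀ x, N *ᵥ x = z.1 *ᵥ x - x := by
    intro x
    rw [hN, Matrix.sub_mulVec, Matrix.one_mulVec]
  have hN3 : N ^ 3 = 0 := by
    apply Matrix.ext_iff_mulVec.2
    intro x
    have h1 : sympForm m F (N *ᵥ x) e = 0 := by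
      rw [hact, form_sub_left]
      have := form_sp z x e
      rw [hz] at this
      rw [this, sub_self]
    obtain ⟨k, hk⟩ := hz' _ h1
    have h2 : N *ᵥ (N *ᵥ x) = k • e := by
      rw [hact (N *ᵥ x), hk]
      simp
    have h3 : N *ᵥ (k • e) = 0 := by
      rw [Matrix.mulVec_smul, hact, hz]
      simp
    rw [pow_three, ← Matrix.mulVec_mulVec, ← Matrix.mulVec_mulVec, h2, h3]
    simp
  have hz1 : z.1 = 1 + N := by
    rw [hN]
    abel
  have hcomm : Commute (1 : Matrix (Fin m ⊕ Fin m) (Fin m ⊕ Fin m) F) N := Commute.one_left N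
  have hcoe : (((z ^ p ^ 2 : Sp m F)).1) = z.1 ^ p ^ 2 := by
    simp
  show ((z ^ p ^ 2 : Sp m F)).1 = 1
  rw [hcoe, hz1]
  rw [add_pow_expChar_pow_of_commute _ _ hcomm, one_pow]
  have h3 : 3 ≤ p ^ 2 := by nlinarith
  obtain ⟨k, hk⟩ := Nat.exists_eq_add_of_le h3
  rw [hk, pow_add, hN3, zero_mul, add_zero]

/-- A `p`-subgroup of `Sp` fixes a nonzero vector. -/
theorem exists_fixed_vector [Fintype F] {p : ℕ} [Fact p.Prime] [CharP F p] (hm : 1 ≤ m)
    (P : Subgroup (Sp m F)) (hP : IsPGroup p P) :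
    ∃ e : Fin m ⊕ Fin m → F, e ≠ 0 ∧ ∀ z ∈ P, z.1 *ᵥ e = e := by
  classical
  letI : MulAction P (Fin m ⊕ Fin m → F) :=
    { smul := fun z x => z.1.1 *ᵥ x
      one_smul := fun x => Matrix.one_mulVec x
      mul_smul := fun a b x => (Matrix.mulVec_mulVec x a.1.1 b.1.1).symm }
  have hdvd : p ∣ Nat.card (Fin m ⊕ Fin m → F) := by
    obtain ⟨n, -, hn⟩ := FiniteField.card F p
    rw [Nat.card_eq_fintype_card, Fintype.card_fun, hn]
    have hne : Fintype.card (Fin m ⊕ Fin m) ≠ 0 := by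
      simp
      omega
    exact (dvd_pow_self p n.ne_zero).trans (dvd_pow_self _ hne)
  obtain ⟨b, hb, hb0⟩ := hP.exists_fixed_point_of_prime_dvd_card_of_fixed_point
    (Fin m ⊕ Fin m → F) hdvd (a := 0) (by
      intro z
      exact Matrix.mulVec_zero _)
  exact ⟨b, hb0.symm, fun z hz => hb ⟨z, hz⟩⟩

/-- Elements fixing `e` normalise `Qe e`. -/
theorem conj_mem_Qe {e : Fin m ⊕ Fin m → F} {g h : Sp m F} (hg : g.1 *ᵥ e = e) (hh : h ∈ Qe e) :
    g * h * g⁻¹ ∈ Qe e := by
  have hg' : (g⁻¹).1 *ᵥ e = e := by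
    conv_lhs => rw [← hg]
    rw [Matrix.mulVec_mulVec, sp_inv_mul, Matrix.one_mulVec]
  refine ⟨?_, fun w hw => ?_⟩
  · show (g.1 * h.1 * (g⁻¹).1) *ᵥ e = e
    rw [← Matrix.mulVec_mulVec, ← Matrix.mulVec_mulVec, hg', hh.1, hg]
  · have h1 : sympForm m F ((g⁻¹).1 *ᵥ w) e = 0 := by
      have := form_sp g⁻¹ w e
      rw [hg', hw] at this
      exact this
    obtain ⟨k, hk⟩ := hh.2 _ h1
    refine ⟨k, ?_⟩
    show (g.1 * h.1 * (g⁻¹).1) *ᵥ w = _
    rw [← Matrix.mulVec_mulVec, ← Matrix.mulVec_mulVec, hk, Matrix.mulVec_add, Matrix.mulVec_smul, hg,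
      Matrix.mulVec_mulVec, sp_mul_inv, Matrix.one_mulVec]

/-- A Sylow subgroup contains the radical of the stabiliser of a fixed vector. -/
theorem Qe_le {p : ℕ} [Fact p.Prime] [CharP F p] (hm : 1 ≤ m) (P : Sylow p (Sp m F))
    {e : Fin m ⊕ Fin m → F} (he : ∀ z ∈ (P : Subgroup (Sp m F)), z.1 *ᵥ e = e) :
    Qe e ≤ (P : Subgroup (Sp m F)) := by
  have hnorm : (P : Subgroup (Sp m F)) ≤ Subgroup.normalizer (Qe e : Subgroup (Sp m F)) := by
    intro g hg
    rw [Subgroup.mem_normalizer_iff]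
    intro h
    constructor
    · intro hh
      exact conj_mem_Qe (he g hg) hh
    · intro hh
      have h1 : g⁻¹.1 *ᵥ e = e := by
        conv_lhs => rw [← he g hg]
        rw [Matrix.mulVec_mulVec, sp_inv_mul, Matrix.one_mulVec]
      have h2 := conj_mem_Qe h1 hh
      have h3 : g⁻¹ * (g * h * g⁻¹) * g⁻¹⁻¹ = h := by group
      rwa [h3] at h2
  have hp := P.isPGroup'.to_sup_of_normal_right' (isPGroup_Qe hm e) hnorm
  have h := P.is_maximal' hp le_sup_left
  have h2 : Qe e ≤ (P : Subgroup (Sp m F)) ⊔ Qe e := le_sup_right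
  exact (le_of_le_of_eq h2 h)

/-- The shape of an element commuting with the radical. -/
theorem central_struct {z : Sp m F} {e : Fin m ⊕ Fin m → F} (he0 : e ≠ 0) (hze : z.1 *ᵥ e = e)
    (hc : ∀ (w : Fin m ⊕ Fin m → F) (h : sympForm m F e w = 0), z * rho e w 0 h = rho e w 0 h * z) :
    ∃ (w₀ : Fin m ⊕ Fin m → F) (c : F) (h : sympForm m F e w₀ = 0),
      ((2 : F) ≠ 0 → ∃ a : F, w₀ = a • e) ∧ z = rho e w₀ c h := by
  obtain ⟨x₀, hx₀⟩ := exists_form_eq_one he0
  -- the basic identity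
  have hid : ∀ (w : Fin m ⊕ Fin m → F) (_ : sympForm m F e w = 0) (x : Fin m ⊕ Fin m → F),
      sympForm m F x e • (z.1 *ᵥ w) + sympForm m F x w • e
        = sympForm m F x e • w + sympForm m F (z.1 *ᵥ x) w • e := by
    intro w hw x
    have h1 := congrArg (fun s : Sp m F => s.1 *ᵥ x) (hc w hw)
    simp only [sp_mul_coe, ← Matrix.mulVec_mulVec, rho_mulVec] at h1
    have h2 : sympForm m F (z.1 *ᵥ x) e = sympForm m F x e := by
      have := form_sp z x e
      rwa [hze] at this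
    rw [h2, Matrix.mulVec_add, Matrix.mulVec_add, Matrix.mulVec_add, Matrix.mulVec_smul, Matrix.mulVec_smul,
      Matrix.mulVec_smul, hze] at h1
    simp only [zero_mul, zero_smul, add_zero] at h1
    exact add_left_cancel h1
  have hform : ∀ u v, sympForm m F (z.1 *ᵥ u) (z.1 *ᵥ v) = sympForm m F u v := form_sp z
  -- action on `e^⊥`
  have hperp : ∀ w, sympForm m F w e = 0 → ∃ l : F, z.1 *ᵥ w = w + l • e ∧ 2 * l = 0 := by
    intro w hw
    have hw' : sympForm m F e w = 0 := by rw [form_swap, hw, neg_zero]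
    set l := sympForm m F (z.1 *ᵥ x₀) w - sympForm m F x₀ w with hl
    have h1 : z.1 *ᵥ w = w + l • e := by
      have := hid w hw' x₀
      rw [hx₀, one_smul, one_smul] at this
      rw [hl, sub_smul]
      linear_combination (norm := module) this
    refine ⟨l, h1, ?_⟩
    have h2 := hid w hw' x₀
    rw [h1, hx₀, one_smul, one_smul, add_assoc, add_right_inj, ← add_smul] at h2
    -- `B(z x₀, w) + l = B(x₀, w)`
    have h3 : sympForm m F (z.1 *ᵥ x₀) w + l = sympForm m F x₀ w := by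
      have h4 := hform x₀ w
      rw [h1, form_add_right, form_smul_right] at h4
      have h5 : sympForm m F (z.1 *ᵥ x₀) e = 1 := by
        have := hform x₀ e
        rwa [hze, hx₀] at this
      rw [h5, mul_one] at h4
      exact h4
    rw [hl] at h3 ⊢
    linear_combination h3
  set w₀ : Fin m ⊕ Fin m → F := z.1 *ᵥ x₀ - x₀ with hw₀
  have hzx₀ : z.1 *ᵥ x₀ = x₀ + w₀ := by
    rw [hw₀]
    abel
  have hw₀e : sympForm m F w₀ e = 0 := by
    rw [hw₀, form_sub_left]
    have := hform x₀ e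
    rw [hze] at this
    rw [this, sub_self]
  have hew₀ : sympForm m F e w₀ = 0 := by rw [form_swap, hw₀e, neg_zero]
  have hact : ∀ w, sympForm m F w e = 0 → z.1 *ᵥ w = w + sympForm m F w w₀ • e ∧ 2 * sympForm m F w w₀ = 0 := by
    intro w hw
    obtain ⟨l, h1, h2⟩ := hperp w hw
    have h3 := hform w x₀
    rw [h1, hzx₀] at h3
    simp only [form_add_left, form_add_right, form_smul_left, hew₀] at h3
    have h4 := form_swap e x₀
    rw [hx₀] at h4
    rw [h4] at h3
    have h5 : sympForm m F w w₀ = l := by linear_combination h3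
    rw [h5]
    exact ⟨h1, h2⟩
  refine ⟨w₀, - sympForm m F x₀ w₀, hew₀, ?_, ?_⟩
  · intro h2
    by_contra hcon
    push Not at hcon
    obtain ⟨x, h3, h4⟩ := exists_sep (u := w₀) (v := e) hcon
    have := (hact x h3).2
    rw [h4, mul_one] at this
    exact h2 this
  · apply Subtype.ext
    apply Matrix.ext_iff_mulVec.2
    intro x
    rw [rho_mulVec]
    -- decompose `x`
    set a := sympForm m F x e with ha
    have hy : sympForm m F (x - a • x₀) e = 0 := by
      rw [form_sub_left, form_smul_left, hx₀, mul_one, sub_self]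
    have h1 := (hact _ hy).1
    have h2 : x = a • x₀ + (x - a • x₀) := by abel
    have h3 : z.1 *ᵥ x = a • (x₀ + w₀) + (x - a • x₀) + sympForm m F (x - a • x₀) w₀ • e := by
      conv_lhs => rw [h2]
      rw [Matrix.mulVec_add, Matrix.mulVec_smul, hzx₀, h1]
      abel
    rw [h3, form_sub_left, form_smul_left]
    module

/-- `rho` with `w` a multiple of `e` is a transvection. -/
theorem rho_eq_ts {e : Fin m ⊕ Fin m → F} (a c : F) (h : sympForm m F e (a • e) = 0) :
    rho e (a • e) c h = ts e (2 * a + c) := by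
  apply Subtype.ext
  apply Matrix.ext_iff_mulVec.2
  intro x
  rw [rho_mulVec, ts_mulVec, form_smul_right]
  module

/-- Commuting in `PSp` inside a `p`-subgroup means commuting in `Sp`. -/
theorem comm_of_mkS {p : ℕ} [Fact p.Prime] [CharP F p] (hm : 1 ≤ m) (P : Subgroup (Sp m F))
    (hP : IsPGroup p P) {z u : Sp m F} (hz : z ∈ P) (hu : u ∈ P) (h : mkS z * mkS u = mkS u * mkS z) :
    z * u = u * z := by
  have : Nonempty (Fin m ⊕ Fin m) := ⟨Sum.inl ⟨0, hm⟩⟩
  have h1 : mkS (z * u) = mkS (u * z) := h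
  rcases (mkS_eq_iff hm _ _).1 h1 with h2 | h2
  · exact h2.symm
  · by_cases h22 : (2 : F) = 0
    · have hneg : negOne m F = 1 := by
        apply Subtype.ext
        show (-1 : Matrix _ _ F) = 1
        have h3 : (-1 : F) = 1 := by linear_combination -h22
        refine Matrix.ext fun i j => ?_
        by_cases hij : i = j
        · subst hij
          simp [h3]
        · simp [Matrix.one_apply, hij]
      rw [hneg, one_mul] at h2
      exact h2.symm
    · -- `-1` lies in `P`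
      exfalso
      have hn : negOne m F ∈ P := by
        have h3 : negOne m F = u * z * (z * u)⁻¹ := by
          rw [h2, mul_inv_cancel_right]
        rw [h3]
        exact P.mul_mem (P.mul_mem hu hz) (P.inv_mem (P.mul_mem hz hu))
      obtain ⟨k, hk⟩ := hP ⟨_, hn⟩
      have hk' : (negOne m F) ^ p ^ k = 1 := congrArg Subtype.val hk
      have hodd : Odd (p ^ k) := by
        have hp2 : p ≠ 2 := by
          rintro rfl
          exact h22 (by exact_mod_cast CharP.cast_eq_zero F 2)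
        exact ((Fact.out : p.Prime).odd_of_ne_two hp2).pow
      have h5 : ((negOne m F) ^ p ^ k : Sp m F).1 = (-1) ^ p ^ k := by
        simp [negOne]
      have h6 : (-1 : Matrix (Fin m ⊕ Fin m) (Fin m ⊕ Fin m) F) = 1 := by
        rw [← hodd.neg_one_pow, ← h5, hk']
        rfl
      obtain ⟨i⟩ := ‹Nonempty (Fin m ⊕ Fin m)›
      have h7 := congrFun (congrFun h6 i) i
      simp at h7
      apply h22
      linear_combination -h7 + (0 : F)

/-- Moving a vector across the form. -/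
theorem form_inv_left (A : Sp m F) (x u : Fin m ⊕ Fin m → F) :
    sympForm m F ((A⁻¹).1 *ᵥ x) u = sympForm m F x (A.1 *ᵥ u) := by
  have h := form_sp A ((A⁻¹).1 *ᵥ x) u
  rw [Matrix.mulVec_mulVec, sp_mul_inv, Matrix.one_mulVec] at h
  exact h.symm

theorem rho_conj (A : Sp m F) {e w : Fin m ⊕ Fin m → F} (c : F) (h : sympForm m F e w = 0)
    (h' : sympForm m F (A.1 *ᵥ e) (A.1 *ᵥ w) = 0) :
    A * rho e w c h * A⁻¹ = rho (A.1 *ᵥ e) (A.1 *ᵥ w) c h' := by
  apply Subtype.ext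
  apply Matrix.ext_iff_mulVec.2
  intro x
  show (A.1 * (rho e w c h).1 * (A⁻¹).1) *ᵥ x = _
  rw [← Matrix.mulVec_mulVec, ← Matrix.mulVec_mulVec, rho_mulVec, rho_mulVec, form_inv_left, form_inv_left,
    Matrix.mulVec_add, Matrix.mulVec_add, Matrix.mulVec_add, Matrix.mulVec_smul, Matrix.mulVec_smul,
    Matrix.mulVec_smul, Matrix.mulVec_mulVec, sp_mul_inv, Matrix.one_mulVec]

theorem mkS_eq_conj_of_rho (γ : MulAut (PSp m F)) (d₀ : D m F) (g : PSp m F) (A : Sp m F)
    {y : PSp m F} (hy : y = g * γ (el d₀) * g⁻¹) :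
    ∃ v' : Fin m ⊕ Fin m → F, v' ≠ 0 ∧ mkS A * y * (mkS A)⁻¹ = γ (mkS (ts v' d₀.c)) := by
  obtain ⟨s, hs⟩ := mkS_surj (γ.symm (mkS A * g))
  refine ⟨(D.act s d₀).v, (D.act s d₀).hv, ?_⟩
  have h1 : mkS (ts (D.act s d₀).v d₀.c) = mkS s * el d₀ * (mkS s)⁻¹ := el_act s d₀
  rw [h1, hs, map_mul, map_mul, map_inv, MulEquiv.apply_symm_apply, hy]
  group

/-- The basic count: if the class of a rank two element is the image of a transvection class, then
the number of pairs is bounded by the fibre bound times the number of nonzero vectors. -/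
theorem class_bound [Fintype F] (hm : 1 ≤ m) (γ : MulAut (PSp m F)) (d₀ : D m F) (g : PSp m F)
    {e w₀ : Fin m ⊕ Fin m → F} (he0 : e ≠ 0) (hind : ∀ a : F, w₀ ≠ a • e)
    (hew : sympForm m F e w₀ = 0) {c : F} (hz : mkS (rho e w₀ c hew) = g * γ (el d₀) * g⁻¹) (n : ℕ)
    (hfib : ∀ (a b : Fin m ⊕ Fin m → F) (hab : sympForm m F a b = 0), a ≠ 0 → (∀ k : F, b ≠ k • a) →
      ∃ S : Finset (Σ _ : Fin m ⊕ Fin m → F, Fin m ⊕ Fin m → F), S.card ≤ n ∧
        ∀ (a' b' : Fin m ⊕ Fin m → F) (hab' : sympForm m F a' b' = 0), a' ≠ 0 → (∀ k : F, b' ≠ k • a') →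
          mkS (rho a' b' c hab') = mkS (rho a b c hab) → (⟨a', b'⟩ : Σ _ : Fin m ⊕ Fin m → F, Fin m ⊕ Fin m → F) ∈ S) :
    (Fintype.card F ^ (2 * m) - 1) * (Fintype.card F ^ (2 * m - 1) - Fintype.card F) ≤
      n * (Fintype.card F ^ (2 * m) - 1) := by
  classical
  set q := Fintype.card F with hq
  have hq2 : 2 ≤ q := Fintype.one_lt_card
  -- Step 1
  have hind' : LinearIndependent F ![e, w₀] := by
    rw [LinearIndependent.pair_iff' he0]
    exact fun a ha => hind a ha.symm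
  have step1 : ∀ (a b : Fin m ⊕ Fin m → F), a ≠ 0 → (∀ k : F, b ≠ k • a) → ∀ hab : sympForm m F a b = 0,
      ∃ v' : Fin m ⊕ Fin m → F, v' ≠ 0 ∧ mkS (rho a b c hab) = γ (mkS (ts v' d₀.c)) := by
    intro a b ha hb hab
    have hind2 : LinearIndependent F ![a, b] := by
      rw [LinearIndependent.pair_iff' ha]
      exact fun k hk => hb k hk.symm
    obtain ⟨A, -, hA⟩ := exists_closure_family ![e, w₀] ![a, b] hind' hind2 (by
      intro i j
      have h1 : sympForm m F w₀ e = 0 := by rw [form_swap, hew, neg_zero]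
      have h2 : sympForm m F b a = 0 := by rw [form_swap, hab, neg_zero]
      fin_cases i <;> fin_cases j <;> simp [form_self, hew, h1, hab, h2])
    have hA0 : A.1 *ᵥ e = a := hA 0
    have hA1 : A.1 *ᵥ w₀ = b := hA 1
    obtain ⟨v', hv', h⟩ := mkS_eq_conj_of_rho γ d₀ g A hz
    refine ⟨v', hv', ?_⟩
    rw [← h]
    have h' : sympForm m F (A.1 *ᵥ e) (A.1 *ᵥ w₀) = 0 := by rw [hA0, hA1]; exact hab
    have h3 := rho_conj A c hew h'
    have h4 : mkS (A * rho e w₀ c hew * A⁻¹) = mkS A * mkS (rho e w₀ c hew) * (mkS A)⁻¹ := rfl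
    rw [← h4, h3]
    apply mkS_congr
    simp only [hA0, hA1]
  -- choose the map
  have hΦ : ∀ t : (Σ _ : Fin m ⊕ Fin m → F, Fin m ⊕ Fin m → F), ∃ v' : Fin m ⊕ Fin m → F,
      t.1 ≠ 0 → (∀ k : F, t.2 ≠ k • t.1) → ∀ hab : sympForm m F t.1 t.2 = 0,
      v' ≠ 0 ∧ mkS (rho t.1 t.2 c hab) = γ (mkS (ts v' d₀.c)) := by
    intro t
    by_cases h : t.1 ≠ 0 ∧ (∀ k : F, t.2 ≠ k • t.1) ∧ sympForm m F t.1 t.2 = 0
    · obtain ⟨v', h1, h2⟩ := step1 t.1 t.2 h.1 h.2.1 h.2.2
      exact ⟨v', fun _ _ _ => ⟨h1, h2⟩⟩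
    · refine ⟨0, fun h1 h2 h3 => absurd ⟨h1, h2, h3⟩ h⟩
  choose Φ hΦ' using hΦ
  -- the count
  let A : Finset (Fin m ⊕ Fin m → F) := Finset.univ.filter fun a => a ≠ 0
  let Sb : (Fin m ⊕ Fin m → F) → Finset (Fin m ⊕ Fin m → F) := fun a =>
    Finset.univ.filter fun b => sympForm m F a b = 0 ∧ ∀ k : F, b ≠ k • a
  let T : Finset (Σ _ : Fin m ⊕ Fin m → F, Fin m ⊕ Fin m → F) := A.sigma Sb
  have hmemT : ∀ t, t ∈ T ↔ t.1 ≠ 0 ∧ sympForm m F t.1 t.2 = 0 ∧ ∀ k : F, t.2 ≠ k • t.1 := by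
    intro t
    simp [T, A, Sb, Finset.mem_sigma]
  have hcardV : Fintype.card (Fin m ⊕ Fin m → F) = q ^ (2 * m) := by
    rw [Fintype.card_fun]
    simp [two_mul, hq]
  have hcardA : A.card = q ^ (2 * m) - 1 := by
    have : A = Finset.univ.erase (0 : Fin m ⊕ Fin m → F) := by
      ext a
      simp [A]
    rw [this, Finset.card_erase_of_mem (Finset.mem_univ _), Finset.card_univ, hcardV]
  have hSb : ∀ a ∈ A, q ^ (2 * m - 1) - q ≤ (Sb a).card := by
    intro a ha
    have ha0 : a ≠ 0 := by simpa [A] using ha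
    let K : Submodule F (Fin m ⊕ Fin m → F) := LinearMap.ker (sympBilin m F a)
    have hfin : 2 * m - 1 ≤ Module.finrank F K := by
      have h1 := LinearMap.finrank_range_add_finrank_ker (sympBilin m F a)
      have h2 : Module.finrank F (LinearMap.range (sympBilin m F a)) ≤ 1 := by
        have := Submodule.finrank_le (LinearMap.range (sympBilin m F a))
        simpa using this
      have h3 : Module.finrank F (Fin m ⊕ Fin m → F) = 2 * m := by
        simp [two_mul]
      have h4 : Module.finrank F (LinearMap.ker (sympBilin m F a)) = Module.finrank F K := rfl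
      omega
    let Kf : Finset (Fin m ⊕ Fin m → F) := Finset.univ.filter fun b => sympForm m F a b = 0
    have hKf : q ^ (2 * m - 1) ≤ Kf.card := by
      have h1 : Nat.card K = Kf.card := by
        rw [Nat.card_eq_fintype_card]
        refine Fintype.card_of_subtype Kf ?_
        intro x
        simp [Kf, K, LinearMap.mem_ker]
      rw [← h1, Module.natCard_eq_pow_finrank (K := F), Nat.card_eq_fintype_card]
      exact Nat.pow_le_pow_right (by omega) hfin
    let Lf : Finset (Fin m ⊕ Fin m → F) := Finset.univ.image fun k : F => k • a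
    have hLf : Lf.card ≤ q := by
      refine (Finset.card_image_le).trans ?_
      rw [Finset.card_univ]
    have hsub : Kf \ Lf ⊆ Sb a := by
      intro b hb
      simp only [Finset.mem_sdiff, Kf, Lf, Finset.mem_filter, Finset.mem_univ, true_and,
        Finset.mem_image, not_exists] at hb
      simp only [Sb, Finset.mem_filter, Finset.mem_univ, true_and]
      exact ⟨hb.1, fun k hk => hb.2 k hk.symm⟩
    have h2 := Finset.le_card_sdiff Lf Kf
    have h3 := Finset.card_le_card hsub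
    omega
  have hT : (q ^ (2 * m) - 1) * (q ^ (2 * m - 1) - q) ≤ T.card := by
    rw [Finset.card_sigma, ← hcardA]
    have := Finset.card_nsmul_le_sum A (fun a => (Sb a).card) (q ^ (2 * m - 1) - q) hSb
    simpa using this
  have hfib' : ∀ v ∈ T.image Φ, (T.filter fun t => Φ t = v).card ≤ n := by
    intro v hv
    obtain ⟨t₀, ht₀, rfl⟩ := Finset.mem_image.1 hv
    obtain ⟨ha₀, hab₀, hb₀⟩ := (hmemT t₀).1 ht₀
    obtain ⟨S, hS, hS'⟩ := hfib t₀.1 t₀.2 hab₀ ha₀ hb₀
    have hsub : (T.filter fun t => Φ t = Φ t₀) ⊆ S := by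
      intro t ht
      obtain ⟨ht1, ht2⟩ := Finset.mem_filter.1 ht
      obtain ⟨ha, hab, hb⟩ := (hmemT t).1 ht1
      have h1 := (hΦ' t₀ ha₀ hb₀ hab₀).2
      have h2 := (hΦ' t ha hb hab).2
      rw [ht2] at h2
      exact hS' t.1 t.2 hab ha hb (h2.trans h1.symm)
    exact (Finset.card_le_card hsub).trans hS
  have himg : (T.image Φ).card ≤ q ^ (2 * m) - 1 := by
    rw [← hcardA]
    apply Finset.card_le_card
    intro v hv
    obtain ⟨t, ht, rfl⟩ := Finset.mem_image.1 hv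
    obtain ⟨ha, hab, hb⟩ := (hmemT t).1 ht
    simpa [A] using (hΦ' t ha hb hab).1
  have hmain := Finset.card_le_mul_card_image T n hfib'
  calc _ ≤ T.card := hT
    _ ≤ n * (T.image Φ).card := hmain
    _ ≤ n * (q ^ (2 * m) - 1) := Nat.mul_le_mul_left _ himg

/-- The class of a transvection is too small to contain a rank two element, for `m ≥ 3`. -/
theorem class_contra [Fintype F] (hm3 : 3 ≤ m) (γ : MulAut (PSp m F)) (d₀ : D m F) (g : PSp m F)
    {e w₀ : Fin m ⊕ Fin m → F} (he0 : e ≠ 0) (hind : ∀ a : F, w₀ ≠ a • e)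
    (hew : sympForm m F e w₀ = 0) {c : F} (hz : mkS (rho e w₀ c hew) = g * γ (el d₀) * g⁻¹) : False := by
  classical
  have hm : 1 ≤ m := by omega
  have hbound := class_bound hm γ d₀ g he0 hind hew hz (Fintype.card F ^ 4) (by
    intro a b hab ha hb
    let ψ : F × F × F × F → (Σ _ : Fin m ⊕ Fin m → F, Fin m ⊕ Fin m → F) := fun k =>
      ⟨k.1 • a + k.2.1 • b, k.2.2.1 • a + k.2.2.2 • b⟩
    refine ⟨Finset.univ.image ψ, ?_, ?_⟩
    · refine Finset.card_image_le.trans ?_
      rw [Finset.card_univ]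
      simp only [Fintype.card_prod]
      apply le_of_eq
      ring
    · intro a' b' hab' ha' hb' h
      have hN := mkS_sq_zero hm (s := rho a' b' c hab') (t := rho a b c hab) (N := rhoN a' b' c)
        (M := rhoN a b c) rfl rfl (rhoN_sq c hab') (rhoN_sq c hab) h
      have hb'' : ∀ k : F, a' ≠ k • b' := by
        intro k hk
        have hk0 : k ≠ 0 := by
          rintro rfl
          rw [zero_smul] at hk
          exact ha' hk
        apply hb' k⁻¹
        rw [hk, smul_smul, inv_mul_cancel₀ hk0, one_smul]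
      obtain ⟨x₁, h11, h12⟩ := exists_sep (u := b') (v := a') hb'
      obtain ⟨x₂, h21, h22⟩ := exists_sep (u := a') (v := b') hb''
      have e1 := congrArg (fun M => M *ᵥ x₁) hN.symm
      have e2 := congrArg (fun M => M *ᵥ x₂) hN.symm
      simp only [rhoN_mulVec, h11, h12, h21, h22, zero_smul, zero_add, one_smul, mul_zero, add_zero,
        mul_one] at e1 e2
      refine Finset.mem_image.2 ⟨(sympForm m F x₁ b + c * sympForm m F x₁ a, sympForm m F x₁ a,
        sympForm m F x₂ b + c * sympForm m F x₂ a - c * (sympForm m F x₁ b + c * sympForm m F x₁ a),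
        sympForm m F x₂ a - c * sympForm m F x₁ a), Finset.mem_univ _, ?_⟩
      have e3 : (sympForm m F x₁ b + c * sympForm m F x₁ a) • a + sympForm m F x₁ a • b = a' := by
        rw [← e1]
        module
      have e4 : (sympForm m F x₂ b + c * sympForm m F x₂ a - c * (sympForm m F x₁ b + c * sympForm m F x₁ a)) • a
          + (sympForm m F x₂ a - c * sympForm m F x₁ a) • b = b' := by
        have e5 : b' = (sympForm m F x₂ a • b + sympForm m F x₂ b • a + (c * sympForm m F x₂ a) • a) - c • a' := by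
          rw [e2]
          module
        rw [e5, ← e1]
        module
      simp only [ψ, e3, e4])
  set q := Fintype.card F with hq
  have hq2 : 2 ≤ q := Fintype.one_lt_card
  have hpos : 0 < q ^ (2 * m) - 1 := by
    have : 2 ^ 1 ≤ q ^ (2 * m) := by
      calc 2 ^ 1 ≤ q ^ 1 := Nat.pow_le_pow_left hq2 1
        _ ≤ q ^ (2 * m) := Nat.pow_le_pow_right (by omega) (by omega)
    omega
  rw [mul_comm (q ^ 4)] at hbound
  have hle2 := Nat.le_of_mul_le_mul_left hbound hpos
  have h5 : q ^ 5 ≤ q ^ (2 * m - 1) := Nat.pow_le_pow_right (by omega) (by omega)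
  have h6 : q ^ 5 = q * q ^ 4 := by ring
  have h7 : q ^ 4 ≥ 2 * q := by
    have : q ^ 3 ≥ 2 := by
      calc q ^ 3 ≥ 2 ^ 3 := Nat.pow_le_pow_left hq2 3
        _ ≥ 2 := by norm_num
    calc q ^ 4 = q ^ 3 * q := by ring
      _ ≥ 2 * q := Nat.mul_le_mul_right _ this
  have h8 : q * q ^ 4 ≥ 2 * q ^ 4 := Nat.mul_le_mul_right _ hq2
  have hqpos : 0 < q := by omega
  omega

/-- In characteristic two, the class of a transvection cannot contain a rank two element with `c ≠ 0`. -/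
theorem class_contra2 [Fintype F] (hm2 : 2 ≤ m) (h2 : (2 : F) = 0) (γ : MulAut (PSp m F)) (d₀ : D m F)
    (g : PSp m F) {e w₀ : Fin m ⊕ Fin m → F} (he0 : e ≠ 0) (hind : ∀ a : F, w₀ ≠ a • e)
    (hew : sympForm m F e w₀ = 0) {c : F} (hc : c ≠ 0)
    (hz : mkS (rho e w₀ c hew) = g * γ (el d₀) * g⁻¹) : False := by
  classical
  have hm : 1 ≤ m := by omega
  have hbound := class_bound hm γ d₀ g he0 hind hew hz (Fintype.card F) (by
    intro a b hab ha hb
    refine ⟨Finset.univ.image (fun k : F => (⟨a, b + k • a⟩ : Σ _ : Fin m ⊕ Fin m → F, Fin m ⊕ Fin m → F)),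
      Finset.card_image_le.trans (by rw [Finset.card_univ]), ?_⟩
    intro a' b' hab' ha' hb' h
    have hN := mkS_sq_zero hm (s := rho a' b' c hab') (t := rho a b c hab) (N := rhoN a' b' c)
      (M := rhoN a b c) rfl rfl (rhoN_sq c hab') (rhoN_sq c hab) h
    have hval : ∀ (u v x : Fin m ⊕ Fin m → F), sympForm m F (rhoN u v c *ᵥ x) x
        = - c * sympForm m F x u ^ 2 - 2 * (sympForm m F x u * sympForm m F x v) := by
      intro u v x
      have e1 := form_swap u x
      have e2 := form_swap v x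
      rw [rhoN_mulVec, form_add_left, form_add_left, form_smul_left, form_smul_left, form_smul_left, e1, e2]
      ring
    have haa : a' = a := by
      by_contra hne
      have hne' : a' - a ≠ 0 := sub_ne_zero.2 hne
      obtain ⟨x, hx⟩ := exists_form_eq_one hne'
      have e1 := hval a' b' x
      rw [hN, hval a b x, h2, zero_mul, zero_mul, sub_zero, sub_zero] at e1
      have e3 : c * (sympForm m F x a' ^ 2 - sympForm m F x a ^ 2) = 0 := by linear_combination e1
      have e4 := (mul_eq_zero.1 e3).resolve_left hc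
      rw [form_sub_right] at hx
      have e5 : (sympForm m F x a' - sympForm m F x a) ^ 2 = 0 := by
        linear_combination e4 + (sympForm m F x a ^ 2 - sympForm m F x a' * sympForm m F x a) * h2
      rw [hx] at e5
      simp at e5
    subst haa
    -- now compare `b`
    obtain ⟨x, hx⟩ := exists_form_eq_one ha'
    have e1 := congrArg (fun M => M *ᵥ x) hN
    simp only [rhoN_mulVec, hx, one_smul, mul_one] at e1
    have e2 : b' = b + (sympForm m F x b - sympForm m F x b') • a' := by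
      have e3 : b' - b = (sympForm m F x b - sympForm m F x b') • a' := by
        linear_combination (norm := module) e1
      rw [← e3]
      abel
    refine Finset.mem_image.2 ⟨sympForm m F x b - sympForm m F x b', Finset.mem_univ _, ?_⟩
    rw [← e2])
  set q := Fintype.card F with hq
  have hq2 : 2 ≤ q := Fintype.one_lt_card
  have hpos : 0 < q ^ (2 * m) - 1 := by
    have : 2 ^ 1 ≤ q ^ (2 * m) := by
      calc 2 ^ 1 ≤ q ^ 1 := Nat.pow_le_pow_left hq2 1
        _ ≤ q ^ (2 * m) := Nat.pow_le_pow_right (by omega) (by omega)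
    omega
  rw [mul_comm q] at hbound
  have hle2 := Nat.le_of_mul_le_mul_left hbound hpos
  have h5 : q ^ 3 ≤ q ^ (2 * m - 1) := Nat.pow_le_pow_right (by omega) (by omega)
  have h6 : q ^ 3 = q * q * q := by ring
  have h7 : q * q ≥ 2 * q := Nat.mul_le_mul_right _ hq2
  have h8 : q * q * q ≥ 2 * (q * q) := by
    calc q * q * q = q * (q * q) := by ring
      _ ≥ 2 * (q * q) := Nat.mul_le_mul_right _ hq2
  omega

open scoped Pointwise in
/-- A Sylow subgroup is mapped to itself by an automorphism, up to conjugacy. -/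
theorem exists_conj_aut_sylow {G : Type*} [Group G] [Finite G] {p : ℕ} [Fact p.Prime] (P : Sylow p G)
    (β : MulAut G) : ∃ g : G, ∀ y, y ∈ (P : Subgroup G) ↔ ∃ x ∈ (P : Subgroup G), g * β x * g⁻¹ = y := by
  obtain ⟨g, hg⟩ := MulAction.exists_smul_eq G (β • P) P
  refine ⟨g, fun y => ?_⟩
  have h1 : (P : Subgroup G) = MulAut.conj g • (β • (P : Subgroup G)) := by
    conv_lhs => rw [← hg]
    rfl
  constructor
  · intro hy
    have hy' : y ∈ MulAut.conj g • (β • (P : Subgroup G)) := h1 ▸ hy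
    rw [Subgroup.mem_smul_pointwise_iff_exists] at hy'
    obtain ⟨s, hs, rfl⟩ := hy'
    rw [Subgroup.mem_smul_pointwise_iff_exists] at hs
    obtain ⟨x, hx, rfl⟩ := hs
    exact ⟨x, hx, rfl⟩
  · rintro ⟨x, hx, rfl⟩
    have h2 : g * β x * g⁻¹ ∈ MulAut.conj g • (β • (P : Subgroup G)) :=
      ⟨β x, Subgroup.smul_mem_pointwise_smul _ _ _ hx, rfl⟩
    exact h1.symm ▸ h2

/-- The shape of the image of a transvection under an automorphism, up to conjugacy. -/
theorem exists_shape [Fintype F] {p : ℕ} [Fact p.Prime] [CharP F p] (hm1 : 1 ≤ m)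
    (γ : MulAut (PSp m F)) (d : D m F) :
    ∃ (e w₀ : Fin m ⊕ Fin m → F) (c : F) (hew : sympForm m F e w₀ = 0) (d₀ : D m F) (g k : PSp m F),
      e ≠ 0 ∧ mkS (rho e w₀ c hew) = g * γ (el d₀) * g⁻¹ ∧ ((2 : F) ≠ 0 → ∃ a : F, w₀ = a • e) ∧
      γ (el d) = k * mkS (rho e w₀ c hew) * k⁻¹ := by
  classical
  obtain ⟨P⟩ : Nonempty (Sylow p (Sp m F)) := Sylow.nonempty
  obtain ⟨e, he0, hfix⟩ := exists_fixed_vector hm1 (P : Subgroup (Sp m F)) P.isPGroup'
  have hQ := Qe_le hm1 P hfix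
  -- the image of the Sylow subgroup
  let π : Sp m F →* PSp m F := QuotientGroup.mk' _
  have hπ : Function.Surjective π := QuotientGroup.mk'_surjective _
  let Pb : Sylow p (PSp m F) := P.mapSurjective hπ
  have hPb : ∀ y, y ∈ (Pb : Subgroup (PSp m F)) ↔ ∃ z ∈ (P : Subgroup (Sp m F)), mkS z = y := by
    intro y
    show y ∈ (P : Subgroup (Sp m F)).map π ↔ _
    rw [Subgroup.mem_map]
    rfl
  -- move `d` to `e`
  obtain ⟨A, -, hA⟩ := exists_closure_ne_zero d.v e d.hv he0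
  let d₀ : D m F := D.mk e d.c he0 d.hc
  have h0 : el d₀ = mkS A * el d * (mkS A)⁻¹ := by
    rw [← el_act]
    show mkS (ts e d.c) = mkS (ts (A.1 *ᵥ d.v) d.c)
    rw [hA]
  -- `el d₀` is central in `Pb`
  have hz0 : ts e d.c ∈ (P : Subgroup (Sp m F)) := hQ (ts_mem_Qe e d.c)
  have hcent0 : ∀ u ∈ (P : Subgroup (Sp m F)), ts e d.c * u = u * ts e d.c := by
    intro u hu
    have h1 := ts_conj u e d.c
    rw [hfix u hu] at h1
    calc ts e d.c * u = (u * ts e d.c * u⁻¹) * u := by rw [h1]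
      _ = u * ts e d.c := by group
  obtain ⟨g, hg⟩ := exists_conj_aut_sylow Pb γ
  set y := g * γ (el d₀) * g⁻¹ with hy
  have hyP : y ∈ (Pb : Subgroup (PSp m F)) :=
    (hg y).2 ⟨el d₀, (hPb _).2 ⟨_, hz0, rfl⟩, rfl⟩
  have hycent : ∀ u ∈ (Pb : Subgroup (PSp m F)), y * u = u * y := by
    intro u hu
    obtain ⟨x, hx, rfl⟩ := (hg u).1 hu
    obtain ⟨x', hx', rfl⟩ := (hPb x).1 hx
    have h1 : el d₀ * mkS x' = mkS x' * el d₀ := by
      show mkS (ts e d.c * x') = mkS (x' * ts e d.c)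
      rw [hcent0 x' hx']
    have h2 : γ (el d₀) * γ (mkS x') = γ (mkS x') * γ (el d₀) := by
      rw [← map_mul, ← map_mul, h1]
    rw [hy]
    calc g * γ (el d₀) * g⁻¹ * (g * γ (mkS x') * g⁻¹) = g * (γ (el d₀) * γ (mkS x')) * g⁻¹ := by group
      _ = g * (γ (mkS x') * γ (el d₀)) * g⁻¹ := by rw [h2]
      _ = _ := by group
  obtain ⟨z, hzP, hzy⟩ := (hPb y).1 hyP
  have hzc : ∀ u ∈ (P : Subgroup (Sp m F)), z * u = u * z := by
    intro u hu
    apply comm_of_mkS hm1 (P : Subgroup (Sp m F)) P.isPGroup' hzP hu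
    rw [hzy]
    exact hycent _ ((hPb _).2 ⟨u, hu, rfl⟩)
  obtain ⟨w₀, c, hew, hodd, hz⟩ := central_struct he0 (hfix z hzP)
    (fun w h => hzc _ (hQ (rho_mem_Qe 0 h)))
  have hrho : mkS (rho e w₀ c hew) = y := by rw [← hz, hzy]
  refine ⟨e, w₀, c, hew, d₀, g, (g * γ (mkS A))⁻¹, he0, hrho, hodd, ?_⟩
  rw [hrho, hy, h0, map_mul, map_mul, map_inv]
  group

/-- Elements of the form `rho e (a e) c`. -/
theorem isT_of_rho {e : Fin m ⊕ Fin m → F} (he0 : e ≠ 0) (a c : F) (h : sympForm m F e (a • e) = 0)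
    (hne : mkS (rho e (a • e) c h) ≠ 1) : IsT (mkS (rho e (a • e) c h)) := by
  rw [rho_eq_ts] at hne ⊢
  have hne' : 2 * a + c ≠ 0 := by
    intro h0
    apply hne
    rw [h0, ts_zero]
    rfl
  exact ⟨D.mk e _ he0 hne', rfl⟩

/-- Automorphisms of `PSp` preserve the images of transvections. -/
theorem isT_map [Fintype F] {p : ℕ} [Fact p.Prime] [CharP F p] (hm : 2 ≤ m) (h4 : m = 2 → p ≠ 2)
    (γ : MulAut (PSp m F)) {x : PSp m F} (hx : IsT x) : IsT (γ x) := by
  classical
  have hm1 : 1 ≤ m := by omega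
  obtain ⟨d, rfl⟩ := hx
  obtain ⟨e, w₀, c, hew, d₀, g, k, he0, hy, hodd, hk⟩ := exists_shape hm1 γ d
  have hy1 : mkS (rho e w₀ c hew) ≠ 1 := by
    intro h1
    rw [h1] at hk
    have h2 : γ (el d) = 1 := by rw [hk]; group
    exact el_ne_one d ((map_eq_one_iff γ γ.injective).1 h2)
  rw [hk]
  refine IsT_conj ?_ k
  by_cases hw : ∃ a : F, w₀ = a • e
  · obtain ⟨a, rfl⟩ := hw
    exact isT_of_rho he0 a c hew hy1
  · exfalso
    have h2 : (2 : F) = 0 := by
      by_contra h2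
      exact hw (hodd h2)
    have hp2 : p = 2 := by
      have : (p : ℕ) ∣ 2 := (CharP.cast_eq_zero_iff F p 2).1 (by exact_mod_cast h2)
      exact (Nat.prime_dvd_prime_iff_eq (Fact.out) Nat.prime_two).1 this
    have hm3 : 3 ≤ m := by
      by_contra hlt
      have : m = 2 := by omega
      exact h4 this hp2
    push Not at hw
    exact class_contra hm3 γ d₀ g he0 hw hew hy

/-! ### Characteristic two -/

/-- The class of elements `x ↦ x + B(x,a) b + B(x,b) a`. -/
def IsY (x : PSp m F) : Prop :=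
  ∃ (a b : Fin m ⊕ Fin m → F) (hab : sympForm m F a b = 0), a ≠ 0 ∧ (∀ k : F, b ≠ k • a) ∧
    x = mkS (rho a b 0 hab)

theorem IsY_conj {x : PSp m F} (hx : IsY x) (g : PSp m F) : IsY (g * x * g⁻¹) := by
  obtain ⟨a, b, hab, ha, hb, rfl⟩ := hx
  obtain ⟨s, rfl⟩ := mkS_surj g
  have h' : sympForm m F (s.1 *ᵥ a) (s.1 *ᵥ b) = 0 := by rw [form_sp, hab]
  refine ⟨s.1 *ᵥ a, s.1 *ᵥ b, h', ?_, ?_, ?_⟩
  · intro h0
    apply ha
    have h1 : (s⁻¹).1 *ᵥ (s.1 *ᵥ a) = 0 := by rw [h0, Matrix.mulVec_zero]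
    rwa [Matrix.mulVec_mulVec, sp_inv_mul, Matrix.one_mulVec] at h1
  · intro k hk
    apply hb k
    have h1 : (s⁻¹).1 *ᵥ (s.1 *ᵥ b) = (s⁻¹).1 *ᵥ (k • (s.1 *ᵥ a)) := by rw [hk]
    rwa [Matrix.mulVec_mulVec, sp_inv_mul, Matrix.one_mulVec, Matrix.mulVec_smul, Matrix.mulVec_mulVec,
      sp_inv_mul, Matrix.one_mulVec] at h1
  · rw [← rho_conj s 0 hab h']
    rfl

theorem IsY_single {x y : PSp m F} (hx : IsY x) (hy : IsY y) : ∃ g, y = g * x * g⁻¹ := by
  obtain ⟨a, b, hab, ha, hb, rfl⟩ := hx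
  obtain ⟨a', b', hab', ha', hb', rfl⟩ := hy
  have hind : LinearIndependent F ![a, b] := by
    rw [LinearIndependent.pair_iff' ha]
    exact fun k hk => hb k hk.symm
  have hind' : LinearIndependent F ![a', b'] := by
    rw [LinearIndependent.pair_iff' ha']
    exact fun k hk => hb' k hk.symm
  obtain ⟨A, -, hA⟩ := exists_closure_family ![a, b] ![a', b'] hind hind' (by
    intro i j
    have h1 : sympForm m F b a = 0 := by rw [form_swap, hab, neg_zero]
    have h2 : sympForm m F b' a' = 0 := by rw [form_swap, hab', neg_zero]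
    fin_cases i <;> fin_cases j <;> simp [form_self, hab, h1, hab', h2])
  have hA0 : A.1 *ᵥ a = a' := hA 0
  have hA1 : A.1 *ᵥ b = b' := hA 1
  refine ⟨mkS A, ?_⟩
  have h' : sympForm m F (A.1 *ᵥ a) (A.1 *ᵥ b) = 0 := by rw [hA0, hA1]; exact hab'
  have h3 := rho_conj A 0 hab h'
  have h4 : mkS (A * rho a b 0 hab * A⁻¹) = mkS A * mkS (rho a b 0 hab) * (mkS A)⁻¹ := rfl
  rw [← h4, h3]
  apply mkS_congr
  simp only [hA0, hA1]

/-- In characteristic two over a finite field, all transvections are conjugate. -/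
theorem IsT_single [Fintype F] (h2 : (2 : F) = 0) {x y : PSp m F} (hx : IsT x) (hy : IsT y) :
    ∃ g, y = g * x * g⁻¹ := by
  obtain ⟨d, rfl⟩ := hx
  obtain ⟨d', rfl⟩ := hy
  have hchar : ringChar F = 2 := by
    have h1 : ringChar F ∣ 2 := (ringChar.spec F 2).1 (by exact_mod_cast h2)
    rcases (Nat.dvd_prime Nat.prime_two).1 h1 with h3 | h3
    · exact absurd h3 CharP.ringChar_ne_one
    · exact h3
  obtain ⟨a, ha⟩ := FiniteField.isSquare_of_char_two hchar (d.c / d'.c)
  have ha0 : a ≠ 0 := by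
    rintro rfl
    have := div_ne_zero d.hc d'.hc
    rw [ha] at this
    simp at this
  have hts : ts d.v d.c = ts (a • d.v) d'.c := by
    rw [ts_smul]
    congr 1
    have : a ^ 2 = d.c / d'.c := by rw [ha]; ring
    rw [this]
    field_simp [d'.hc]
  obtain ⟨A, -, hA⟩ := exists_closure_ne_zero (a • d.v) d'.v (smul_ne_zero ha0 d.hv) d'.hv
  refine ⟨mkS A, ?_⟩
  show mkS (ts d'.v d'.c) = mkS (A * ts d.v d.c * A⁻¹)
  rw [hts, ts_conj, hA]

/-- In characteristic two, an automorphism maps transvections to transvections or to the elements `IsY`. -/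
theorem isT_or_isY [Fintype F] (hm : 2 ≤ m) (h2 : (2 : F) = 0) (γ : MulAut (PSp m F)) {x : PSp m F} (hx : IsT x) :
    IsT (γ x) ∨ IsY (γ x) := by
  classical
  have hm1 : 1 ≤ m := by omega
  have hp : CharP F 2 := by
    refine CharTwo.of_one_ne_zero_of_two_eq_zero one_ne_zero (by exact_mod_cast h2)
  have : Fact (Nat.Prime 2) := ⟨Nat.prime_two⟩
  obtain ⟨d, rfl⟩ := hx
  obtain ⟨e, w₀, c, hew, d₀, g, k, he0, hy, hodd, hk⟩ := exists_shape (p := 2) hm1 γ d
  have hy1 : mkS (rho e w₀ c hew) ≠ 1 := by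
    intro h1
    rw [h1] at hk
    have h2 : γ (el d) = 1 := by rw [hk]; group
    exact el_ne_one d ((map_eq_one_iff γ γ.injective).1 h2)
  rw [hk]
  by_cases hw : ∃ a : F, w₀ = a • e
  · obtain ⟨a, rfl⟩ := hw
    left
    exact IsT_conj (isT_of_rho he0 a c hew hy1) k
  · push Not at hw
    right
    refine IsY_conj ?_ k
    by_cases hc : c = 0
    · subst hc
      exact ⟨e, w₀, hew, he0, hw, rfl⟩
    · exact (class_contra2 hm h2 γ d₀ g he0 hw hew hc hy).elim

/-- The dichotomy in characteristic two. -/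
theorem dichotomy [Fintype F] (hm : 2 ≤ m) (h2 : (2 : F) = 0) (γ : MulAut (PSp m F)) :
    (∀ x, IsT x → IsT (γ x)) ∨ (∀ x, IsT x → IsY (γ x)) := by
  have hm1 : 1 ≤ m := by omega
  let v₀ : Fin m ⊕ Fin m → F := Pi.single (Sum.inl ⟨0, hm1⟩) 1
  have hv₀ : v₀ ≠ 0 := by
    intro h0
    have := congrFun h0 (Sum.inl ⟨0, hm1⟩)
    simp [v₀] at this
  have hx₀ : IsT (el (D.mk v₀ (1 : F) hv₀ one_ne_zero)) := ⟨_, rfl⟩
  have hconj : ∀ x, IsT x → ∃ g, γ x = γ g * γ (el (D.mk v₀ (1 : F) hv₀ one_ne_zero)) * (γ g)⁻¹ := by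
    intro x hx
    obtain ⟨g, hg⟩ := IsT_single h2 hx₀ hx
    refine ⟨g, ?_⟩
    rw [hg, map_mul, map_mul, map_inv]
  rcases isT_or_isY hm h2 γ hx₀ with h | h
  · left
    intro x hx
    obtain ⟨g, hg⟩ := hconj x hx
    rw [hg]
    exact IsT_conj h _
  · right
    intro x hx
    obtain ⟨g, hg⟩ := hconj x hx
    rw [hg]
    exact IsY_conj h _

end Cfsg.Agent.Lib.KS71.PSpTInv
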