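/-
Automorphisms of `PSp_{2m}(F)`, `F` finite: an automorphism preserving the images of transvections is
induced by a semilinear similarity.
-/
import Mathlib
import Cfsg.Agent.Lib.KS71.PSpTInv
import Cfsg.Agent.Lib.KS71.FTPG

set_option autoImplicit false

namespace Cfsg.Agent.Lib.KS71.PSpAut

open Matrix Cfsg
open Cfsg.Agent.Lib.Classical.SympForm Cfsg.Agent.Lib.Classical.SympSimple
open Cfsg.Agent.Lib.KS71.PSpCore Cfsg.Agent.Lib.KS71.FTPG

variable {F : Type*} [Field F] {m : ℕ}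

/-- Double perp for the span of two vectors. -/
theorem mem_span_pair_iff (x y w : Fin m ⊕ Fin m → F) :
    (∃ a b : F, w = a • x + b • y) ↔
      ∀ θ : Fin m ⊕ Fin m → F, θ ≠ 0 → sympForm m F θ x = 0 → sympForm m F θ y = 0 → sympForm m F θ w = 0 := by
  constructor
  · rintro ⟨a, b, rfl⟩ θ _ h1 h2
    rw [form_add_right, form_smul_right, form_smul_right, h1, h2]
    simp
  · intro h
    by_contra hcon
    have hnot : w ∉ Submodule.span F {x, y} := by
      intro hmem
      obtain ⟨a, b, hab⟩ := Submodule.mem_span_pair.1 hmem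
      exact hcon ⟨a, b, hab.symm⟩
    obtain ⟨θ, h1, h2⟩ := exists_form_of_notMem _ w hnot
    have hθ : θ ≠ 0 := by
      rintro rfl
      rw [form_zero_left] at h2
      exact zero_ne_one h2
    have h3 := h θ hθ (h1 x (Submodule.subset_span (by simp))) (h1 y (Submodule.subset_span (by simp)))
    rw [h2] at h3
    exact one_ne_zero h3

/-- For `m ≥ 2`, two vectors have a common nonzero perpendicular vector. -/
theorem exists_perp_two (hm : 2 ≤ m) (a b : Fin m ⊕ Fin m → F) :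
    ∃ θ : Fin m ⊕ Fin m → F, θ ≠ 0 ∧ sympForm m F θ a = 0 ∧ sympForm m F θ b = 0 := by
  let L : (Fin m ⊕ Fin m → F) →ₗ[F] F × F := ((sympBilin m F).flip a).prod ((sympBilin m F).flip b)
  have hlt : Module.finrank F (F × F) < Module.finrank F (Fin m ⊕ Fin m → F) := by
    simp
    omega
  have hker := LinearMap.ker_ne_bot_of_finrank_lt (f := L) hlt
  obtain ⟨θ, hθ, hθ0⟩ := Submodule.exists_mem_ne_zero_of_ne_bot hker
  have h1 : L θ = 0 := hθ
  have h2 : (sympForm m F θ a, sympForm m F θ b) = (0, 0) := h1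
  exact ⟨θ, hθ0, congrArg Prod.fst h2, congrArg Prod.snd h2⟩

/-- Separating on the right. -/
theorem exists_sep_right {u u' : Fin m ⊕ Fin m → F} (hne : ∀ a : F, u ≠ a • u') :
    ∃ v, sympForm m F u v = 1 ∧ sympForm m F u' v = 0 := by
  obtain ⟨x, h1, h2⟩ := exists_sep hne
  refine ⟨-x, ?_, ?_⟩
  · rw [form_neg_right, form_swap, neg_neg, h2]
  · rw [form_neg_right, form_swap, neg_neg, h1]

/-- Bilinear forms with the same zeros as `sympForm` are proportional to it. -/
theorem form_prop (hm : 1 ≤ m) (M : Matrix (Fin m ⊕ Fin m) (Fin m ⊕ Fin m) F)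
    (h : ∀ u v, sympForm m F (M *ᵥ u) (M *ᵥ v) = 0 ↔ sympForm m F u v = 0) :
    ∃ κ : F, κ ≠ 0 ∧ ∀ u v, sympForm m F (M *ᵥ u) (M *ᵥ v) = κ * sympForm m F u v := by
  -- right values
  have hright : ∀ u : Fin m ⊕ Fin m → F, u ≠ 0 → ∃ v, sympForm m F u v = 1 := by
    intro u hu
    obtain ⟨x, hx⟩ := exists_form_eq_one hu
    refine ⟨-x, ?_⟩
    rw [form_neg_right, form_swap, neg_neg, hx]
  have hlam : ∀ u : Fin m ⊕ Fin m → F, u ≠ 0 → ∃ l : F, ∀ v,
      sympForm m F (M *ᵥ u) (M *ᵥ v) = l * sympForm m F u v := by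
    intro u hu
    obtain ⟨v₀, hv₀⟩ := hright u hu
    refine ⟨sympForm m F (M *ᵥ u) (M *ᵥ v₀), fun v => ?_⟩
    have h1 : sympForm m F u (v - sympForm m F u v • v₀) = 0 := by
      rw [form_sub_right, form_smul_right, hv₀, mul_one, sub_self]
    have h2 := (h _ _).2 h1
    rw [Matrix.mulVec_sub, form_sub_right, Matrix.mulVec_smul, form_smul_right] at h2
    linear_combination h2
  choose! l hl using hlam
  have hpair : ∀ u u' : Fin m ⊕ Fin m → F, (∀ a : F, u ≠ a • u') → u ≠ 0 → u' ≠ 0 → u + u' ≠ 0 →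
      l (u + u') = l u := by
    intro u u' hne hu hu' hs
    obtain ⟨v, h1, h2⟩ := exists_sep_right hne
    have e1 := hl (u + u') hs v
    rw [Matrix.mulVec_add, form_add_left, hl u hu, hl u' hu', form_add_left, h1, h2] at e1
    linear_combination -e1
  have heq : ∀ u u' : Fin m ⊕ Fin m → F, u ≠ 0 → u' ≠ 0 → l u = l u' := by
    intro u u' hu hu'
    by_cases hdep : ∃ a : F, u = a • u'
    · obtain ⟨a, rfl⟩ := hdep
      have ha : a ≠ 0 := by
        rintro rfl
        exact hu (zero_smul _ _)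
      obtain ⟨v, hv⟩ := hright u' hu'
      have e1 := hl (a • u') hu v
      rw [Matrix.mulVec_smul, form_smul_left, hl u' hu', form_smul_left, hv] at e1
      have : a * (l u' - l (a • u')) = 0 := by linear_combination e1
      have h0 := (mul_eq_zero.1 this).resolve_left ha
      linear_combination -h0
    · push Not at hdep
      have hs : u + u' ≠ 0 := by
        intro h0
        apply hdep (-1)
        rw [neg_smul, one_smul]
        exact eq_neg_of_add_eq_zero_left h0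
      have hdep' : ∀ a : F, u' ≠ a • u := by
        intro a ha
        have ha0 : a ≠ 0 := by
          rintro rfl
          exact hu' (by rw [ha, zero_smul])
        apply hdep a⁻¹
        rw [ha, smul_smul, inv_mul_cancel₀ ha0, one_smul]
      have e1 := hpair u u' hdep hu hu' hs
      have e2 := hpair u' u hdep' hu' hu (by rwa [add_comm])
      rw [add_comm] at e2
      rw [← e1, e2]
  have hne : (Pi.single (Sum.inl ⟨0, hm⟩) 1 : Fin m ⊕ Fin m → F) ≠ 0 := by
    intro h0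
    have := congrFun h0 (Sum.inl ⟨0, hm⟩)
    simp at this
  set u₀ : Fin m ⊕ Fin m → F := Pi.single (Sum.inl ⟨0, hm⟩) 1 with hu₀
  refine ⟨l u₀, ?_, ?_⟩
  · obtain ⟨v, hv⟩ := hright u₀ hne
    intro h0
    have e1 := hl u₀ hne v
    rw [h0, zero_mul] at e1
    have e2 := (h _ _).1 e1
    rw [hv] at e2
    exact one_ne_zero e2
  · intro u v
    by_cases hu : u = 0
    · subst hu
      rw [Matrix.mulVec_zero, form_zero_left, form_zero_left, mul_zero]
    · rw [hl u hu v, heq u u₀ hu hne]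

/-- An automorphism preserving the images of transvections (both ways) is induced by a semilinear similarity. -/
theorem main_of_T [Fintype F] (hm : 2 ≤ m) (β : MulAut (PSp m F)) (hT : ∀ x, IsT x → IsT (β x))
    (hT' : ∀ x, IsT x → IsT (β⁻¹ x)) :
    ∃ (g : GL (Fin m ⊕ Fin m) F) (hg : g ∈ GSp m F) (σ : F ≃+* F),
      β = autOf (conjSp g hg) * autOf (fieldSp σ) := by
  classical
  have hm1 : 1 ≤ m := by omega
  have hex : ∀ d : D m F, ∃ d' : D m F, β (el d) = el d' := fun d => hT _ ⟨d, rfl⟩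
  choose f hf using hex
  have hiff : ∀ z, IsT z ↔ IsT (β z) := by
    intro z
    refine ⟨hT z, fun h => ?_⟩
    have := hT' _ h
    simpa using this
  have hPP : ∀ x y : D m F, PP x y ↔ PP (f x) (f y) := by
    intro x y
    rw [← A_iff, ← A_iff, ← hf, ← hf]
    have e1 : β (el x) * β (el y) = β (el x * el y) := (map_mul β _ _).symm
    have e2 : β (el y) * β (el x) = β (el y * el x) := (map_mul β _ _).symm
    rw [e1, e2, β.injective.eq_iff, ← hiff, map_eq_one_iff β β.injective]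
  have hperp' : ∀ x y : D m F, sympForm m F x.v y.v = 0 ↔ sympForm m F (f x).v (f y).v = 0 := by
    intro x y
    rw [← commute_iff, ← commute_iff, ← hf, ← hf, ← map_mul, ← map_mul, β.injective.eq_iff]
  have hsurj : ∀ y : D m F, ∃ x, PP (f x) y := by
    intro y
    obtain ⟨x, hx⟩ := hT' (el y) ⟨y, rfl⟩
    refine ⟨x, el_eq_imp ?_⟩
    rw [← hf, ← hx]
    exact MulEquiv.apply_symm_apply β _
  -- the map on vectors
  let dv : (v : Fin m ⊕ Fin m → F) → v ≠ 0 → D m F := fun v h => D.mk v 1 h one_ne_zero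
  let p : (Fin m ⊕ Fin m → F) → (Fin m ⊕ Fin m → F) := fun v => if h : v ≠ 0 then (f (dv v h)).v else 0
  have hp : ∀ v (h : v ≠ 0), p v = (f (dv v h)).v := fun v h => dif_pos h
  have hp0 : ∀ v : Fin m ⊕ Fin m → F, v ≠ 0 → p v ≠ 0 := by
    intro v hv
    rw [hp v hv]
    exact (f _).hv
  have hfv : ∀ d : D m F, ∃ a : F, a ≠ 0 ∧ (f d).v = a • p d.v := by
    intro d
    have h1 : PP (dv d.v d.hv) d := ⟨1, by show d.v = (1 : F) • d.v; rw [one_smul]⟩
    obtain ⟨a, ha⟩ := (hPP _ _).1 h1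
    rw [← hp] at ha
    refine ⟨a, ?_, ha⟩
    rintro rfl
    rw [zero_smul] at ha
    exact (f d).hv ha
  have hperp : ∀ u v : Fin m ⊕ Fin m → F, u ≠ 0 → v ≠ 0 →
      (sympForm m F u v = 0 ↔ sympForm m F (p u) (p v) = 0) := by
    intro u v hu hv
    rw [hp u hu, hp v hv]
    exact hperp' (dv u hu) (dv v hv)
  have hpsurj : ∀ w : Fin m ⊕ Fin m → F, w ≠ 0 → ∃ u : Fin m ⊕ Fin m → F, u ≠ 0 ∧ ∃ k : F, k ≠ 0 ∧ w = k • p u := by
    intro w hw
    obtain ⟨x, hx⟩ := hsurj (dv w hw)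
    obtain ⟨c, hc⟩ := hx
    obtain ⟨a, ha0, ha⟩ := hfv x
    have hc' : w = c • (f x).v := hc
    refine ⟨x.v, x.hv, c * a, ?_, ?_⟩
    · refine mul_ne_zero ?_ ha0
      rintro rfl
      rw [zero_smul] at hc'
      exact hw hc'
    · rw [hc', ha, smul_smul]
  have hcoll : Coll F p := by
    intro x y w hx hy hw
    rw [mem_span_pair_iff, mem_span_pair_iff]
    constructor
    · intro h θ' hθ' h1 h2
      obtain ⟨θ, hθ, k, hk, rfl⟩ := hpsurj θ' hθ'
      rw [form_smul_left] at h1 h2 ⊢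
      have h3 := (mul_eq_zero.1 h1).resolve_left hk
      have h4 := (mul_eq_zero.1 h2).resolve_left hk
      have h5 := h θ hθ ((hperp θ x hθ hx).2 h3) ((hperp θ y hθ hy).2 h4)
      rw [(hperp θ w hθ hw).1 h5, mul_zero]
    · intro h θ hθ h1 h2
      exact (hperp θ w hθ hw).2 (h (p θ) (hp0 θ hθ) ((hperp θ x hθ hx).1 h1) ((hperp θ y hθ hy).1 h2))
  have hdim : ∀ x y : Fin m ⊕ Fin m → F, ∃ z : Fin m ⊕ Fin m → F, ∀ a b : F, z ≠ a • x + b • y := by
    intro x y
    obtain ⟨θ, hθ, h1, h2⟩ := exists_perp_two hm x y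
    obtain ⟨z, hz⟩ := exists_form_eq_one hθ
    refine ⟨z, fun a b hab => ?_⟩
    rw [hab, form_swap, form_add_right, form_smul_right, form_smul_right, h1, h2] at hz
    simp at hz
  obtain ⟨σ, S, hS⟩ := exists_semilinear hp0 hcoll hdim
  -- the field automorphism
  let σ' : F ≃+* F := RingEquiv.ofBijective σ ⟨σ.injective, Finite.surjective_of_injective σ.injective⟩
  have hσ' : ∀ x, σ' x = σ x := fun x => rfl
  -- the matrix
  let M : Matrix (Fin m ⊕ Fin m) (Fin m ⊕ Fin m) F := Matrix.of fun i j => S (Pi.single j 1) i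
  have hM : ∀ x : Fin m ⊕ Fin m → F, S x = M *ᵥ (vσ σ' x) := by
    intro x
    have hx : x = ∑ j, x j • (Pi.single j 1 : Fin m ⊕ Fin m → F) := by
      funext i
      simp [Finset.sum_apply, Pi.single_apply]
    funext i
    conv_lhs => rw [hx]
    rw [map_sum]
    simp only [map_smulₛₗ, Finset.sum_apply, Pi.smul_apply, smul_eq_mul]
    simp only [Matrix.mulVec, dotProduct, M, Matrix.of_apply, vσ]
    refine Finset.sum_congr rfl fun j _ => ?_
    rw [hσ', mul_comm]
  have hdet : M.det ≠ 0 := by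
    intro h0
    obtain ⟨y, hy0, hy⟩ := Matrix.exists_mulVec_eq_zero_iff.2 h0
    let x : Fin m ⊕ Fin m → F := vσ σ'.symm y
    have hx0 : x ≠ 0 := vσ_ne hy0
    have hSx : S x = 0 := by
      rw [hM, vσ_symm, hy]
    exact (hS x hx0).1 hSx
  let g : GL (Fin m ⊕ Fin m) F := Matrix.GeneralLinearGroup.mkOfDetNeZero M hdet
  have hzero : ∀ u v, sympForm m F (M *ᵥ u) (M *ᵥ v) = 0 ↔ sympForm m F u v = 0 := by
    intro u v
    by_cases hu : u = 0
    · subst hu
      simp [form_zero_left]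
    by_cases hv : v = 0
    · subst hv
      simp [form_zero_right]
    set u₀ := vσ σ'.symm u with hu₀
    set v₀ := vσ σ'.symm v with hv₀
    have hu₀0 : u₀ ≠ 0 := vσ_ne hu
    have hv₀0 : v₀ ≠ 0 := vσ_ne hv
    have e1 : M *ᵥ u = S u₀ := by rw [hM, hu₀, vσ_symm]
    have e2 : M *ᵥ v = S v₀ := by rw [hM, hv₀, vσ_symm]
    obtain ⟨hc1, c₁, hc₁⟩ := hS u₀ hu₀0
    obtain ⟨hc2, c₂, hc₂⟩ := hS v₀ hv₀0
    have hc₁0 : c₁ ≠ 0 := by
      rintro rfl
      rw [zero_smul] at hc₁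
      exact hc1 hc₁
    have hc₂0 : c₂ ≠ 0 := by
      rintro rfl
      rw [zero_smul] at hc₂
      exact hc2 hc₂
    rw [e1, e2, hc₁, hc₂, form_smul_left, form_smul_right]
    have e3 : sympForm m F u v = σ' (sympForm m F u₀ v₀) := by
      rw [← form_vσ, hu₀, hv₀, vσ_symm, vσ_symm]
    rw [e3, map_eq_zero_iff σ' σ'.injective]
    constructor
    · intro h0
      rcases mul_eq_zero.1 h0 with h1 | h1
      · exact absurd h1 hc₁0
      · rcases mul_eq_zero.1 h1 with h2 | h2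
        · exact absurd h2 hc₂0
        · exact (hperp u₀ v₀ hu₀0 hv₀0).2 h2
    · intro h0
      rw [(hperp u₀ v₀ hu₀0 hv₀0).1 h0, mul_zero, mul_zero]
  obtain ⟨κ, hκ0, hκ⟩ := form_prop hm1 M hzero
  let κ' : Fˣ := Units.mk0 κ hκ0
  have hκ' : ∀ u v, sympForm m F ((g : Matrix (Fin m ⊕ Fin m) (Fin m ⊕ Fin m) F) *ᵥ u)
      ((g : Matrix (Fin m ⊕ Fin m) (Fin m ⊕ Fin m) F) *ᵥ v) = (κ' : F) * sympForm m F u v := hκ
  have hg : g ∈ GSp m F := ⟨κ', hκ'⟩
  refine ⟨g, hg, σ', ?_⟩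
  -- comparison of automorphisms
  let f₂ : D m F → D m F := fun d => D.conj g κ' (D.field σ' d)
  have h₂ : ∀ d, (autOf (conjSp g hg) * autOf (fieldSp σ') : MulAut (PSp m F)) (el d) = el (f₂ d) := by
    intro d
    rw [el_conj g hg κ' hκ', el_field]
    rfl
  have hPf : ∀ d, PP (f d) (f₂ d) := by
    intro d
    obtain ⟨a, ha0, ha⟩ := hfv d
    obtain ⟨-, c, hc⟩ := hS d.v d.hv
    have h1 : (f₂ d).v = S d.v := by
      rw [hM]
      rfl
    refine ⟨c * a⁻¹, ?_⟩
    rw [h1, hc, ha, smul_smul, mul_assoc, inv_mul_cancel₀ ha0, mul_one]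
  refine aut_ext hm1 β _ f f₂ hf h₂ hPf ?_
  intro u hu
  obtain ⟨x, hx⟩ := hsurj (dv u hu)
  obtain ⟨c, hc⟩ := hx
  exact ⟨x, c, hc⟩

/-- The shape required by the prelude. -/
theorem isSemilinear (g : GL (Fin m ⊕ Fin m) F) (hg : g ∈ GSp m F) (σ : F ≃+* F) :
    Cfsg.IsInducedBySemilinearPSp g σ (autOf (conjSp g hg) * autOf (fieldSp σ)) := by
  intro s s' h
  apply mkS_congr (s := conjSp g hg (fieldSp σ s)) (t := s')
  rw [coe_conjSp, coe_fieldSp, h]

/-- Main theorem for `PSp`. -/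
theorem gammaPSp_eq_top [Fintype F] {p : ℕ} [Fact p.Prime] [CharP F p] (hm : 2 ≤ m) (h4 : m = 2 → p ≠ 2) :
    Cfsg.gammaPSp m F = ⊤ := by
  rw [eq_top_iff]
  intro β _
  obtain ⟨g, hg, σ, h⟩ := main_of_T hm β (fun x hx => Cfsg.Agent.Lib.KS71.PSpTInv.isT_map hm h4 β hx)
    (fun x hx => Cfsg.Agent.Lib.KS71.PSpTInv.isT_map hm h4 β⁻¹ hx)
  refine Subgroup.subset_closure ⟨g, σ, hg, ?_⟩
  rw [h]
  exact isSemilinear g hg σ

end Cfsg.Agent.Lib.KS71.PSpAut
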