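/-
The group structure of the semilinear automorphisms of `PSp_{2m}(F)`: composition laws of the
basic automorphisms, uniqueness of the factorisation, and the order of `PGSp`.
-/
import Mathlib
import Cfsg.Agent.Lib.KS71.PSpAut
import Cfsg.Agent.Lib.KS71.PSLAutGroup

set_option autoImplicit false

namespace Cfsg.Agent.Lib.KS71.PSpGroup

open Matrix Cfsg
open Cfsg.Agent.Lib.Classical.SympForm Cfsg.Agent.Lib.Classical.SympSimple
open Cfsg.Agent.Lib.KS71.PSpCore

variable {F : Type*} [Field F] {m : ℕ}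

/-- The automorphism of `PSp` induced by an element of `GSp`. -/
noncomputable def cA (g : ↥(GSp m F)) : MulAut (PSp m F) := autOf (conjSp g.1 g.2)

/-- The automorphism of `PSp` induced by a field automorphism. -/
noncomputable def fA (σ : F ≃+* F) : MulAut (PSp m F) := autOf (fieldSp σ)

theorem cA_mkS (g : ↥(GSp m F)) (s : Sp m F) : cA g (mkS s) = mkS (conjSp g.1 g.2 s) := rfl

theorem fA_mkS (σ : F ≃+* F) (s : Sp m F) : fA σ (mkS s) = mkS (fieldSp σ s) := rfl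

theorem cA_mul (g h : ↥(GSp m F)) : cA (g * h) = cA g * cA h := by
  refine MulEquiv.ext fun x => ?_
  obtain ⟨s, rfl⟩ := mkS_surj x
  show mkS (conjSp (g * h).1 (g * h).2 s) = mkS (conjSp g.1 g.2 (conjSp h.1 h.2 s))
  apply mkS_congr
  rw [coe_conjSp, coe_conjSp, coe_conjSp]
  show ((g.1 * h.1 : GL _ F) : Matrix _ _ F) * s.1 * (((g.1 * h.1)⁻¹ : GL _ F) : Matrix _ _ F) = _
  rw [_root_.mul_inv_rev]
  simp only [Units.val_mul, Matrix.mul_assoc]

theorem cA_one : cA (1 : ↥(GSp m F)) = 1 := by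
  refine MulEquiv.ext fun x => ?_
  obtain ⟨s, rfl⟩ := mkS_surj x
  show mkS (conjSp (1 : GL _ F) _ s) = mkS s
  apply mkS_congr
  rw [coe_conjSp]
  simp

theorem cA_inv (g : ↥(GSp m F)) : cA g⁻¹ = (cA g)⁻¹ := by
  apply eq_inv_of_mul_eq_one_left
  rw [← cA_mul, inv_mul_cancel, cA_one]

/-- The homomorphism from `GSp` to the automorphism group. -/
noncomputable def conjHom : ↥(GSp m F) →* MulAut (PSp m F) where
  toFun g := cA g
  map_one' := cA_one
  map_mul' := cA_mul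

theorem conjHom_apply (g : ↥(GSp m F)) : conjHom g = cA g := rfl

theorem fA_mul (σ τ : F ≃+* F) : fA (m := m) (σ * τ) = fA σ * fA τ := by
  refine MulEquiv.ext fun x => ?_
  obtain ⟨s, rfl⟩ := mkS_surj x
  show mkS (fieldSp (σ * τ) s) = mkS (fieldSp σ (fieldSp τ s))
  apply mkS_congr
  rw [coe_fieldSp, coe_fieldSp, coe_fieldSp]
  refine Matrix.ext fun i j => ?_
  rfl

theorem fA_one : fA (1 : F ≃+* F) = (1 : MulAut (PSp m F)) := by
  refine MulEquiv.ext fun x => ?_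
  obtain ⟨s, rfl⟩ := mkS_surj x
  show mkS (fieldSp 1 s) = mkS s
  apply mkS_congr
  rw [coe_fieldSp]
  refine Matrix.ext fun i j => ?_
  rfl

theorem fA_inv (σ : F ≃+* F) : fA (m := m) σ⁻¹ = (fA σ)⁻¹ := by
  apply eq_inv_of_mul_eq_one_left
  rw [← fA_mul, inv_mul_cancel, fA_one]

/-- The homomorphism from the automorphisms of `F` to the automorphism group. -/
noncomputable def fieldHom : (F ≃+* F) →* MulAut (PSp m F) where
  toFun σ := fA σ
  map_one' := fA_one
  map_mul' := fA_mul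

theorem fieldHom_apply (σ : F ≃+* F) : fieldHom (m := m) σ = fA σ := rfl

/-! ### Entrywise action on `GSp` -/

/-- Entrywise action on `GL`. -/
noncomputable def mapGL (σ : F ≃+* F) (g : GL (Fin m ⊕ Fin m) F) : GL (Fin m ⊕ Fin m) F :=
  Matrix.GeneralLinearGroup.map (σ : F →+* F) g

theorem coe_mapGL (σ : F ≃+* F) (g : GL (Fin m ⊕ Fin m) F) :
    (mapGL σ g : Matrix (Fin m ⊕ Fin m) (Fin m ⊕ Fin m) F) = (g : Matrix (Fin m ⊕ Fin m) (Fin m ⊕ Fin m) F).map σ := rfl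

theorem mapGL_mul (σ : F ≃+* F) (g h : GL (Fin m ⊕ Fin m) F) : mapGL σ (g * h) = mapGL σ g * mapGL σ h :=
  map_mul _ g h

theorem mapGL_inv (σ : F ≃+* F) (g : GL (Fin m ⊕ Fin m) F) : mapGL σ g⁻¹ = (mapGL σ g)⁻¹ :=
  map_inv _ g

theorem map_mul_map (σ : F ≃+* F) (A B : Matrix (Fin m ⊕ Fin m) (Fin m ⊕ Fin m) F) :
    (A * B).map σ = A.map σ * B.map σ :=
  Matrix.map_mul (f := (σ : F →+* F))

theorem mapGL_mem (σ : F ≃+* F) {g : GL (Fin m ⊕ Fin m) F} (hg : g ∈ GSp m F) : mapGL σ g ∈ GSp m F := by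
  obtain ⟨c, hc⟩ := exists_factor hg
  refine ⟨Units.map (σ : F →+* F).toMonoidHom c, fun u v => ?_⟩
  have hu : u = vσ σ (vσ σ.symm u) := (vσ_symm σ u).symm
  have hv : v = vσ σ (vσ σ.symm v) := (vσ_symm σ v).symm
  rw [hu, hv, coe_mapGL, map_mulVec_vσ, map_mulVec_vσ, form_vσ, form_vσ, hc, map_mul]
  rfl

/-- The twist of `GSp` by a field automorphism. -/
noncomputable def mapGS (σ : F ≃+* F) : ↥(GSp m F) →* ↥(GSp m F) where
  toFun g := ⟨mapGL σ g.1, mapGL_mem σ g.2⟩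
  map_one' := Subtype.ext (map_one (Matrix.GeneralLinearGroup.map (n := Fin m ⊕ Fin m) (σ : F →+* F)))
  map_mul' g h := Subtype.ext (mapGL_mul σ g.1 h.1)

theorem coe_mapGS (σ : F ≃+* F) (g : ↥(GSp m F)) : (mapGS σ g).1 = mapGL σ g.1 := rfl

/-- Commutation of field automorphisms and conjugations. -/
theorem field_conj (σ : F ≃+* F) (g : ↥(GSp m F)) :
    fA σ * cA g = cA (mapGS σ g) * fA σ := by
  refine MulEquiv.ext fun x => ?_
  obtain ⟨s, rfl⟩ := mkS_surj x
  show mkS (fieldSp σ (conjSp g.1 g.2 s)) = mkS (conjSp (mapGL σ g.1) (mapGL_mem σ g.2) (fieldSp σ s))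
  apply mkS_congr
  rw [coe_fieldSp, coe_conjSp, coe_conjSp, coe_fieldSp, map_mul_map, map_mul_map, ← mapGL_inv, coe_mapGL,
    coe_mapGL]

/-! ### Uniqueness of the factorisation -/

theorem el_semi (g : ↥(GSp m F)) (σ : F ≃+* F) (d : D m F) :
    ∃ d' : D m F, (cA g * fA σ : MulAut (PSp m F)) (el d) = el d' ∧
      d'.v = (g.1 : Matrix (Fin m ⊕ Fin m) (Fin m ⊕ Fin m) F) *ᵥ vσ σ d.v := by
  obtain ⟨κ, hκ⟩ := exists_factor g.2
  refine ⟨D.conj g.1 κ (D.field σ d), ?_, rfl⟩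
  rw [el_conj g.1 g.2 κ hκ, el_field]
  rfl

/-- The vector equality underlying the comparison. -/
theorem semi_compare {g g' : ↥(GSp m F)} {σ σ' : F ≃+* F}
    (h : cA g * fA σ = cA g' * fA σ')
    (v : Fin m ⊕ Fin m → F) (hv : v ≠ 0) :
    ∃ a : F, (g'.1 : Matrix (Fin m ⊕ Fin m) (Fin m ⊕ Fin m) F) *ᵥ vσ σ' v =
      a • ((g.1 : Matrix (Fin m ⊕ Fin m) (Fin m ⊕ Fin m) F) *ᵥ vσ σ v) := by
  let d : D m F := D.mk v 1 hv one_ne_zero
  obtain ⟨d₁, h1, h1'⟩ := el_semi g σ d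
  obtain ⟨d₂, h2, h2'⟩ := el_semi g' σ' d
  rw [h, h2] at h1
  obtain ⟨a, ha⟩ := el_eq_imp h1.symm
  refine ⟨a, ?_⟩
  have e := ha
  rw [h1', h2'] at e
  exact e

/-- If the twist of a vector by `u` is always parallel to its image by `M`, then `M` is scalar and
`u` is trivial. -/
theorem semi_rigid {ι : Type*} [Fintype ι] [DecidableEq ι] {i₀ i₁ : ι} (h01 : i₀ ≠ i₁) (M : Matrix ι ι F)
    (hM : ∀ w : ι → F, w ≠ 0 → M *ᵥ w ≠ 0) (u : F ≃+* F)
    (h : ∀ w : ι → F, w ≠ 0 → ∃ a : F, (fun i => u (w i)) = a • (M *ᵥ w)) :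
    u = RingEquiv.refl F ∧ ∃ c : F, c ≠ 0 ∧ M = c • 1 := by
  classical
  have hsingle : ∀ i : ι, (Pi.single i 1 : ι → F) ≠ 0 := by
    intro i hi
    have := congrFun hi i
    simp at this
  have hmap : ∀ (i : ι), (fun j => u ((Pi.single i 1 : ι → F) j)) = Pi.single i 1 := by
    intro i
    funext j
    by_cases hj : j = i
    · subst hj
      simp
    · simp [hj]
  have h1 : ∀ i : ι, ∃ c : F, c ≠ 0 ∧ M *ᵥ (Pi.single i 1) = c • Pi.single i 1 := by
    intro i
    obtain ⟨a, ha⟩ := h _ (hsingle i)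
    rw [hmap] at ha
    have ha0 : a ≠ 0 := by
      rintro rfl
      rw [zero_smul] at ha
      exact hsingle i ha
    refine ⟨a⁻¹, inv_ne_zero ha0, ?_⟩
    conv_rhs => rw [ha]
    rw [smul_smul, inv_mul_cancel₀ ha0, one_smul]
  choose c hc0 hc using h1
  have hent : ∀ k i : ι, M k i = if k = i then c i else 0 := by
    intro k i
    have := congrFun (hc i) k
    rw [Matrix.mulVec_single_one, Matrix.col_apply] at this
    rw [this]
    by_cases hk : k = i
    · subst hk; simp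
    · simp [hk]
  have hmul : ∀ (w : ι → F) (k : ι), (M *ᵥ w) k = c k * w k := by
    intro w k
    rw [Matrix.mulVec, dotProduct, Finset.sum_eq_single k]
    · rw [hent]
      simp
    · intro j _ hj
      rw [hent]
      simp [Ne.symm hj]
    · simp
  have heq : ∀ i j : ι, c i = c j := by
    intro i j
    by_cases hij : i = j
    · rw [hij]
    have hne : (Pi.single i 1 + Pi.single j 1 : ι → F) ≠ 0 := by
      intro h0
      have := congrFun h0 i
      simp [hij] at this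
    obtain ⟨a, ha⟩ := h _ hne
    have hi := congrFun ha i
    have hj := congrFun ha j
    simp only [Pi.smul_apply, smul_eq_mul, hmul, Pi.add_apply] at hi hj
    simp [hij, Ne.symm hij] at hi hj
    have h3 : a * c i = a * c j := by rw [← hi, ← hj]
    have ha0 : a ≠ 0 := by
      rintro rfl
      simp at hi
    exact mul_left_cancel₀ ha0 h3
  constructor
  · ext x
    show u x = x
    have hne : (Pi.single i₀ 1 + Pi.single i₁ x : ι → F) ≠ 0 := by
      intro h0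
      have := congrFun h0 i₀
      simp [h01] at this
    obtain ⟨a, ha⟩ := h _ hne
    have hi := congrFun ha i₀
    have hj := congrFun ha i₁
    simp only [Pi.smul_apply, smul_eq_mul, hmul, Pi.add_apply] at hi hj
    simp [h01, Ne.symm h01] at hi hj
    rw [hj, heq i₁ i₀]
    calc a * (c i₀ * x) = (a * c i₀) * x := by ring
      _ = x := by rw [← hi, one_mul]
  · refine ⟨c i₀, hc0 i₀, Matrix.ext fun k i => ?_⟩
    rw [hent]
    by_cases hk : k = i
    · subst hk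
      simp [heq k i₀]
    · simp [hk]

/-- The factorisation of semilinear automorphisms is unique. -/
theorem semi_inj (hm : 1 ≤ m) {g g' : ↥(GSp m F)} {σ σ' : F ≃+* F}
    (h : cA g * fA σ = cA g' * fA σ') :
    σ = σ' ∧ ∃ c : Fˣ, (g' : GL _ F) = (g : GL _ F) * Matrix.GeneralLinearGroup.scalar (Fin m ⊕ Fin m) c := by
  have hM : ∀ w : Fin m ⊕ Fin m → F, w ≠ 0 →
      ((g.1⁻¹ * g'.1 : GL _ F) : Matrix (Fin m ⊕ Fin m) (Fin m ⊕ Fin m) F) *ᵥ w ≠ 0 := by
    intro w hw h0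
    apply hw
    have h3 : (((g.1⁻¹ * g'.1)⁻¹ : GL _ F) : Matrix (Fin m ⊕ Fin m) (Fin m ⊕ Fin m) F) *ᵥ
        (((g.1⁻¹ * g'.1 : GL _ F) : Matrix (Fin m ⊕ Fin m) (Fin m ⊕ Fin m) F) *ᵥ w) = 0 := by
      rw [h0, Matrix.mulVec_zero]
    rwa [Matrix.mulVec_mulVec, gl_inv_mul, Matrix.one_mulVec] at h3
  have key : ∀ w : Fin m ⊕ Fin m → F, w ≠ 0 → ∃ a : F, (fun i => (σ'.symm.trans σ) (w i)) =
      a • (((g.1⁻¹ * g'.1 : GL _ F) : Matrix (Fin m ⊕ Fin m) (Fin m ⊕ Fin m) F) *ᵥ w) := by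
    intro w hw
    let v : Fin m ⊕ Fin m → F := vσ σ'.symm w
    have hv : v ≠ 0 := vσ_ne hw
    obtain ⟨a, ha⟩ := semi_compare h v hv
    have hw' : vσ σ' v = w := vσ_symm σ' w
    rw [hw'] at ha
    have ha0 : a ≠ 0 := by
      rintro rfl
      rw [zero_smul] at ha
      exact hM w hw (by
        rw [Units.val_mul, ← Matrix.mulVec_mulVec, ha, Matrix.mulVec_zero])
    refine ⟨a⁻¹, ?_⟩
    have e1 : (fun i => (σ'.symm.trans σ) (w i)) = vσ σ v := rfl
    rw [e1, Units.val_mul, ← Matrix.mulVec_mulVec, ha, Matrix.mulVec_smul, Matrix.mulVec_mulVec, gl_inv_mul,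
      Matrix.one_mulVec, smul_smul, inv_mul_cancel₀ ha0, one_smul]
  have h01 : (Sum.inl ⟨0, hm⟩ : Fin m ⊕ Fin m) ≠ Sum.inr ⟨0, hm⟩ := by simp
  obtain ⟨h1, c, hc0, hc⟩ := semi_rigid h01 _ hM _ key
  have hσ : σ = σ' := by
    ext x
    have := congrArg (fun e : F ≃+* F => e (σ' x)) h1
    simpa using this
  refine ⟨hσ, Units.mk0 c hc0, ?_⟩
  have h2 : g'.1 = g.1 * (g.1⁻¹ * g'.1) := by group
  rw [h2]
  congr 1
  apply Units.ext
  rw [hc]
  refine Matrix.ext fun i j => ?_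
  simp [Matrix.one_apply, Matrix.scalar_apply, Matrix.diagonal_apply]

theorem cA_inj (hm : 1 ≤ m) {g g' : ↥(GSp m F)} (h : cA g = cA g') :
    ∃ c : Fˣ, (g' : GL _ F) = (g : GL _ F) * Matrix.GeneralLinearGroup.scalar (Fin m ⊕ Fin m) c := by
  have h1 : cA g * fA (1 : F ≃+* F) = cA g' * fA (1 : F ≃+* F) := by rw [h]
  exact (semi_inj hm h1).2

theorem fA_injective (hm : 1 ≤ m) : Function.Injective (fA (m := m) (F := F)) := by
  intro σ τ h
  have h1 : (cA (1 : ↥(GSp m F)) * fA σ : MulAut (PSp m F)) = cA (1 : ↥(GSp m F)) * fA τ := by rw [h]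
  exact (semi_inj hm h1).1

/-! ### Scalars -/

theorem scalar_mem (c : Fˣ) : Matrix.GeneralLinearGroup.scalar (Fin m ⊕ Fin m) c ∈ GSp m F := by
  refine ⟨c * c, fun u v => ?_⟩
  have h : ∀ w : Fin m ⊕ Fin m → F, ((Matrix.GeneralLinearGroup.scalar (Fin m ⊕ Fin m) c : GL _ F) : Matrix _ _ F) *ᵥ w = (c : F) • w := by
    intro w
    show Matrix.scalar _ (c : F) *ᵥ w = _
    funext i
    simp [Matrix.mulVec, dotProduct, Matrix.scalar_apply, Matrix.diagonal_apply]
  rw [h, h, form_smul_left, form_smul_right, Units.val_mul]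
  ring

theorem cA_scalar (g : ↥(GSp m F)) (c : Fˣ) :
    cA (g * ⟨Matrix.GeneralLinearGroup.scalar (Fin m ⊕ Fin m) c, scalar_mem c⟩) = cA g := by
  rw [cA_mul]
  have : cA (⟨Matrix.GeneralLinearGroup.scalar (Fin m ⊕ Fin m) c, scalar_mem c⟩ : ↥(GSp m F)) = 1 := by
    refine MulEquiv.ext fun x => ?_
    obtain ⟨s, rfl⟩ := mkS_surj x
    show mkS (conjSp _ _ s) = mkS s
    apply mkS_congr
    rw [coe_conjSp]
    have h1 : Matrix.scalar (Fin m ⊕ Fin m) (c : F) * s.1 = s.1 * Matrix.scalar (Fin m ⊕ Fin m) (c : F) :=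
      Matrix.scalar_comm _ (fun r' => Commute.all _ r') _
    have hc : ((Matrix.GeneralLinearGroup.scalar (Fin m ⊕ Fin m) c : GL _ F) : Matrix (Fin m ⊕ Fin m) (Fin m ⊕ Fin m) F) = Matrix.scalar (Fin m ⊕ Fin m) (c : F) := rfl
    rw [hc, h1, Matrix.mul_assoc, ← hc, gl_mul_inv, Matrix.mul_one]
  rw [this, mul_one]

/-! ### The multiplier -/

theorem factor_unique (hm : 1 ≤ m) {g : GL (Fin m ⊕ Fin m) F} {c d : Fˣ}
    (hc : ∀ u v, sympForm m F ((g : Matrix _ _ F) *ᵥ u) ((g : Matrix _ _ F) *ᵥ v) = (c : F) * sympForm m F u v)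
    (hd : ∀ u v, sympForm m F ((g : Matrix _ _ F) *ᵥ u) ((g : Matrix _ _ F) *ᵥ v) = (d : F) * sympForm m F u v) :
    c = d := by
  have hne : (eL m F ⟨0, hm⟩) ≠ 0 := by
    intro h0
    have := congrFun h0 (Sum.inl ⟨0, hm⟩)
    simp [eL] at this
  obtain ⟨x, hx⟩ := exists_form_eq_one hne
  have h1 := hc x (eL m F ⟨0, hm⟩)
  rw [hd, hx, mul_one, mul_one] at h1
  exact Units.ext h1.symm

open Classical in
/-- The multiplier of an element of `GSp`. -/
noncomputable def multF (g : ↥(GSp m F)) : Fˣ := Classical.choose (exists_factor g.2)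

theorem multF_spec (g : ↥(GSp m F)) (u v : Fin m ⊕ Fin m → F) :
    sympForm m F ((g.1 : Matrix _ _ F) *ᵥ u) ((g.1 : Matrix _ _ F) *ᵥ v) = (multF g : F) * sympForm m F u v :=
  Classical.choose_spec (exists_factor g.2) u v

/-- The multiplier as a homomorphism. -/
noncomputable def mult (hm : 1 ≤ m) : ↥(GSp m F) →* Fˣ where
  toFun := multF
  map_one' := by
    apply factor_unique hm (multF_spec 1)
    intro u v
    show sympForm m F ((1 : Matrix _ _ F) *ᵥ u) ((1 : Matrix _ _ F) *ᵥ v) = _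
    simp
  map_mul' g h := by
    apply factor_unique hm (multF_spec (g * h))
    intro u v
    show sympForm m F ((g.1 * h.1 : GL _ F) *ᵥ u) ((g.1 * h.1 : GL _ F) *ᵥ v) = _
    rw [Units.val_mul, ← Matrix.mulVec_mulVec, ← Matrix.mulVec_mulVec, multF_spec g, multF_spec h, Units.val_mul, mul_assoc]

theorem mult_spec (hm : 1 ≤ m) (g : ↥(GSp m F)) (u v : Fin m ⊕ Fin m → F) :
    sympForm m F ((g.1 : Matrix _ _ F) *ᵥ u) ((g.1 : Matrix _ _ F) *ᵥ v) = (mult hm g : F) * sympForm m F u v :=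
  multF_spec g u v

/-- The diagonal similarity with multiplier `a`. -/
noncomputable def diagG (a : Fˣ) : GL (Fin m ⊕ Fin m) F :=
  ⟨Matrix.diagonal (Sum.elim (fun _ => (a : F)) (fun _ => 1)),
   Matrix.diagonal (Sum.elim (fun _ => ((a⁻¹ : Fˣ) : F)) (fun _ => 1)),
   by
    rw [Matrix.diagonal_mul_diagonal, ← Matrix.diagonal_one]
    congr 1
    funext i
    rcases i with i | i <;> simp,
   by
    rw [Matrix.diagonal_mul_diagonal, ← Matrix.diagonal_one]
    congr 1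
    funext i
    rcases i with i | i <;> simp⟩

theorem diagG_form (a : Fˣ) (u v : Fin m ⊕ Fin m → F) :
    sympForm m F (((diagG a : GL (Fin m ⊕ Fin m) F) : Matrix (Fin m ⊕ Fin m) (Fin m ⊕ Fin m) F) *ᵥ u)
      (((diagG a : GL (Fin m ⊕ Fin m) F) : Matrix (Fin m ⊕ Fin m) (Fin m ⊕ Fin m) F) *ᵥ v) = (a : F) * sympForm m F u v := by
  have h : ∀ w : Fin m ⊕ Fin m → F, ((diagG a : GL (Fin m ⊕ Fin m) F) : Matrix (Fin m ⊕ Fin m) (Fin m ⊕ Fin m) F) *ᵥ w = fun i => Sum.elim (fun _ => (a : F)) (fun _ => 1) i * w i := by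
    intro w
    show Matrix.diagonal _ *ᵥ w = _
    funext i
    rw [Matrix.mulVec_diagonal]
  rw [h, h, sympForm_eq_sum, sympForm_eq_sum, Finset.mul_sum]
  refine Finset.sum_congr rfl fun i _ => ?_
  simp
  ring

theorem diagG_mem (a : Fˣ) : diagG a ∈ GSp m F := ⟨a, diagG_form a⟩

theorem mult_surj (hm : 1 ≤ m) : Function.Surjective (mult hm (F := F)) := by
  intro a
  refine ⟨⟨diagG a, diagG_mem a⟩, ?_⟩
  exact factor_unique hm (mult_spec hm ⟨diagG a, diagG_mem a⟩) (diagG_form a)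

/-- An element of `Sp` as an element of `GL`. -/
def spToGL (s : Sp m F) : GL (Fin m ⊕ Fin m) F :=
  ⟨s.1, (s⁻¹).1, sp_mul_inv s, sp_inv_mul s⟩

theorem coe_spToGL (s : Sp m F) : ((spToGL s : GL _ F) : Matrix _ _ F) = s.1 := rfl

theorem spToGL_mem (s : Sp m F) : spToGL s ∈ GSp m F :=
  ⟨1, fun u v => by
    rw [Units.val_one, one_mul]
    exact (mem_symplecticGroup_iff _).1 s.2 u v⟩

/-- `Sp` as a subgroup of `GSp`. -/
noncomputable def spToGS : Sp m F →* ↥(GSp m F) where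
  toFun s := ⟨spToGL s, spToGL_mem s⟩
  map_one' := by
    apply Subtype.ext
    apply Units.ext
    rfl
  map_mul' s t := by
    apply Subtype.ext
    apply Units.ext
    rfl

theorem coe_spToGS (s : Sp m F) : ((spToGS s).1 : Matrix _ _ F) = s.1 := rfl

theorem spToGS_inj : Function.Injective (spToGS (m := m) (F := F)) := by
  intro s t h
  apply Subtype.ext
  rw [← coe_spToGS, ← coe_spToGS, h]

theorem mem_ker_mult_iff (hm : 1 ≤ m) (g : ↥(GSp m F)) :
    g ∈ (mult hm).ker ↔ (g.1 : Matrix _ _ F) ∈ Matrix.symplecticGroup (Fin m) F := by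
  rw [MonoidHom.mem_ker, mem_symplecticGroup_iff]
  constructor
  · intro h u v
    rw [mult_spec hm, h, Units.val_one, one_mul]
  · intro h
    apply factor_unique hm (mult_spec hm g)
    intro u v
    rw [Units.val_one, one_mul, h]

/-- The scalars in `GSp`. -/
theorem card_scalars [Fintype F] (hm : 1 ≤ m) :
    Nat.card ((Geo.scalars (Fin m ⊕ Fin m) F).subgroupOf (GSp m F)) = Nat.card Fˣ := by
  symm
  have hinj : Function.Injective (Units.map (Matrix.scalar (Fin m ⊕ Fin m) : F →+* Matrix _ _ F).toMonoidHom) := by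
    intro a b h
    have h1 := congrArg (fun g : GL (Fin m ⊕ Fin m) F => (g : Matrix (Fin m ⊕ Fin m) (Fin m ⊕ Fin m) F) (Sum.inl ⟨0, hm⟩) (Sum.inl ⟨0, hm⟩)) h
    apply Units.ext
    simpa [Matrix.scalar_apply, Matrix.diagonal_apply] using h1
  refine Nat.card_congr (Equiv.ofBijective (fun c : Fˣ => ⟨⟨Matrix.GeneralLinearGroup.scalar (Fin m ⊕ Fin m) c, scalar_mem c⟩, ⟨c, rfl⟩⟩) ⟨?_, ?_⟩)
  · intro a b h
    apply hinj
    exact congrArg (fun x => x.1.1) h
  · rintro ⟨⟨g, hg⟩, hg'⟩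
    obtain ⟨c, hc⟩ := hg'
    refine ⟨c, ?_⟩
    apply Subtype.ext
    apply Subtype.ext
    exact hc

theorem card_PGSp [Fintype F] (hm : 1 ≤ m) : Nat.card (PGSp m F) = Nat.card (Sp m F) := by
  classical
  have h1 : Nat.card ↥(GSp m F) = Nat.card (Sp m F) * Nat.card Fˣ := by
    rw [← Subgroup.card_mul_index (mult (F := F) hm).ker, Subgroup.index_ker, (MonoidHom.range_eq_top.2 (mult_surj hm))]
    congr 1
    · symm
      refine Nat.card_congr (Equiv.ofBijective (fun s => ⟨spToGS s, (mem_ker_mult_iff hm _).2 s.2⟩) ⟨?_, ?_⟩)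
      · intro s t h
        apply spToGS_inj
        exact congrArg Subtype.val h
      · rintro ⟨g, hg⟩
        have hg' := (mem_ker_mult_iff hm g).1 hg
        refine ⟨⟨_, hg'⟩, ?_⟩
        apply Subtype.ext
        apply Subtype.ext
        apply Units.ext
        rfl
    · exact Nat.card_congr Subgroup.topEquiv.toEquiv
  have h2 := Subgroup.card_mul_index ((Geo.scalars (Fin m ⊕ Fin m) F).subgroupOf (GSp m F))
  rw [card_scalars hm, h1] at h2
  have h3 : Nat.card (PGSp m F) = ((Geo.scalars (Fin m ⊕ Fin m) F).subgroupOf (GSp m F)).index := rfl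
  rw [h3]
  have hpos : 0 < Nat.card Fˣ := Nat.card_pos
  rw [mul_comm (Nat.card (Sp m F))] at h2
  exact (Nat.eq_of_mul_eq_mul_left hpos h2)

end Cfsg.Agent.Lib.KS71.PSpGroup
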