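/-
The graph automorphism of `Sp_4(F)`, `F` finite of characteristic two: the action of `Sp_4` on
`ker ℓ / ⟨J⟩`, where `ℓ` is the form induced on the alternating square.
Explicitly the matrix of `g` is the `4 × 4` block of `2 × 2` minors of `g` whose row and column pairs
are `{e0,e1}, {f0,f1}, {e0,f1}, {e1,f0}`.
-/
import Mathlib
import Cfsg.Agent.Lib.KS71.PSpGroup

set_option autoImplicit false

namespace Cfsg.Agent.Lib.KS71.PSp4Graph

open Matrix Cfsg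
open Cfsg.Agent.Lib.Classical.SympForm Cfsg.Agent.Lib.Classical.SympSimple
open Cfsg.Agent.Lib.KS71.PSpCore Cfsg.Agent.Lib.KS71.PSpTInv

variable {F : Type*} [Field F]

/-- Index. -/
abbrev e0 : Fin 2 ⊕ Fin 2 := Sum.inl 0
/-- Index. -/
abbrev e1 : Fin 2 ⊕ Fin 2 := Sum.inl 1
/-- Index. -/
abbrev f0 : Fin 2 ⊕ Fin 2 := Sum.inr 0
/-- Index. -/
abbrev f1 : Fin 2 ⊕ Fin 2 := Sum.inr 1

/-- The `2 × 2` minor with rows `r, s` and columns `a, b`. -/
def Mn (g : Matrix (Fin 2 ⊕ Fin 2) (Fin 2 ⊕ Fin 2) F) (r s a b : Fin 2 ⊕ Fin 2) : F :=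
  g r a * g s b - g r b * g s a

/-- The four index pairs. -/
def pr : Fin 2 ⊕ Fin 2 → (Fin 2 ⊕ Fin 2) × (Fin 2 ⊕ Fin 2) :=
  Sum.elim ![(e0, e1), (e0, f1)] ![(f0, f1), (e1, f0)]

/-- The matrix of minors. -/
def phiM (g : Matrix (Fin 2 ⊕ Fin 2) (Fin 2 ⊕ Fin 2) F) : Matrix (Fin 2 ⊕ Fin 2) (Fin 2 ⊕ Fin 2) F :=
  Matrix.of fun I J => Mn g (pr I).1 (pr I).2 (pr J).1 (pr J).2

/-- Cauchy--Binet. -/
theorem Mn_mul (g h : Matrix (Fin 2 ⊕ Fin 2) (Fin 2 ⊕ Fin 2) F) (r s a b : Fin 2 ⊕ Fin 2) :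
    Mn (g * h) r s a b = Mn g r s e0 e1 * Mn h e0 e1 a b + Mn g r s f0 f1 * Mn h f0 f1 a b
      + Mn g r s e0 f1 * Mn h e0 f1 a b + Mn g r s e1 f0 * Mn h e1 f0 a b
      + Mn g r s e0 f0 * Mn h e0 f0 a b + Mn g r s e1 f1 * Mn h e1 f1 a b := by
  simp only [Mn, Matrix.mul_apply, Fintype.sum_sum_type, Fin.sum_univ_two]
  ring

theorem J_expand (A : Matrix (Fin 2 ⊕ Fin 2) (Fin 2 ⊕ Fin 2) F) (r s : Fin 2 ⊕ Fin 2) :
    (A * Matrix.J (Fin 2) F * Aᵀ) r s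
      = - A r e0 * A s f0 + A r f0 * A s e0 - A r e1 * A s f1 + A r f1 * A s e1 := by
  simp [Matrix.mul_apply, Fintype.sum_sum_type, Fin.sum_univ_two, Matrix.J, Matrix.one_apply]
  ring

theorem J_expand' (A : Matrix (Fin 2 ⊕ Fin 2) (Fin 2 ⊕ Fin 2) F) (a b : Fin 2 ⊕ Fin 2) :
    (Aᵀ * Matrix.J (Fin 2) F * A) a b
      = - A e0 a * A f0 b + A f0 a * A e0 b - A e1 a * A f1 b + A f1 a * A e1 b := by
  simp [Matrix.mul_apply, Fintype.sum_sum_type, Fin.sum_univ_two, Matrix.J, Matrix.one_apply]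
  ring

theorem rowRel {g : Matrix (Fin 2 ⊕ Fin 2) (Fin 2 ⊕ Fin 2) F} (hg : g ∈ Matrix.symplecticGroup (Fin 2) F)
    (r s : Fin 2 ⊕ Fin 2) : Mn g r s e0 f0 + Mn g r s e1 f1 = - Matrix.J (Fin 2) F r s := by
  have h := congrFun (congrFun (SymplecticGroup.mem_iff.1 hg) r) s
  rw [J_expand] at h
  rw [← h, Mn, Mn]
  ring

theorem colRel {g : Matrix (Fin 2 ⊕ Fin 2) (Fin 2 ⊕ Fin 2) F} (hg : g ∈ Matrix.symplecticGroup (Fin 2) F)
    (a b : Fin 2 ⊕ Fin 2) : Mn g e0 f0 a b + Mn g e1 f1 a b = - Matrix.J (Fin 2) F a b := by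
  have h := congrFun (congrFun (SymplecticGroup.mem_iff'.1 hg) a) b
  rw [J_expand'] at h
  rw [← h, Mn, Mn]
  ring

theorem J_pr (I : Fin 2 ⊕ Fin 2) : Matrix.J (Fin 2) F (pr I).1 (pr I).2 = 0 := by
  rcases I with i | i <;> fin_cases i <;> simp [pr, Matrix.J, Matrix.one_apply]

theorem phiM_mul (h2 : (2 : F) = 0) {g h : Matrix (Fin 2 ⊕ Fin 2) (Fin 2 ⊕ Fin 2) F}
    (hg : g ∈ Matrix.symplecticGroup (Fin 2) F) (hh : h ∈ Matrix.symplecticGroup (Fin 2) F) :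
    phiM (g * h) = phiM g * phiM h := by
  refine Matrix.ext fun I J => ?_
  have e1' := rowRel hg (pr I).1 (pr I).2
  have e2' := colRel hh (pr J).1 (pr J).2
  rw [J_pr, neg_zero] at e1' e2'
  have hL : phiM (g * h) I J = Mn (g * h) (pr I).1 (pr I).2 (pr J).1 (pr J).2 := rfl
  have hR : (phiM g * phiM h) I J =
      Mn g (pr I).1 (pr I).2 e0 e1 * Mn h e0 e1 (pr J).1 (pr J).2
      + Mn g (pr I).1 (pr I).2 f0 f1 * Mn h f0 f1 (pr J).1 (pr J).2
      + Mn g (pr I).1 (pr I).2 e0 f1 * Mn h e0 f1 (pr J).1 (pr J).2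
      + Mn g (pr I).1 (pr I).2 e1 f0 * Mn h e1 f0 (pr J).1 (pr J).2 := by
    simp only [Matrix.mul_apply, Fintype.sum_sum_type, Fin.sum_univ_two]
    show _ + _ + (_ + _) = _
    simp only [phiM, Matrix.of_apply, pr, Sum.elim_inl, Sum.elim_inr, Matrix.cons_val_zero, Matrix.cons_val_one]
    ring
  rw [hL, hR, Mn_mul]
  linear_combination (Mn h e1 f1 (pr J).1 (pr J).2) * e1'
    + (Mn g (pr I).1 (pr I).2 e0 f0) * e2'
    - (Mn g (pr I).1 (pr I).2 e0 f0 * Mn h e1 f1 (pr J).1 (pr J).2) * h2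

theorem phiM_one : phiM (1 : Matrix (Fin 2 ⊕ Fin 2) (Fin 2 ⊕ Fin 2) F) = 1 := by
  refine Matrix.ext fun I J => ?_
  rcases I with i | i <;> rcases J with j | j <;> fin_cases i <;> fin_cases j <;>
    simp [phiM, Mn, pr, Matrix.one_apply]

/-- The Laplace expansion along two rows. -/
def Lap (g : Matrix (Fin 2 ⊕ Fin 2) (Fin 2 ⊕ Fin 2) F) (r s t u : Fin 2 ⊕ Fin 2) : F :=
  Mn g r s e0 e1 * Mn g t u f0 f1 + Mn g r s f0 f1 * Mn g t u e0 e1 + Mn g r s e0 f1 * Mn g t u e1 f0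
    + Mn g r s e1 f0 * Mn g t u e0 f1 - Mn g r s e0 f0 * Mn g t u e1 f1 - Mn g r s e1 f1 * Mn g t u e0 f0

theorem Lap_rep1 (g : Matrix (Fin 2 ⊕ Fin 2) (Fin 2 ⊕ Fin 2) F) (r s u : Fin 2 ⊕ Fin 2) : Lap g r s r u = 0 := by
  simp only [Lap, Mn]
  ring

theorem Lap_rep2 (g : Matrix (Fin 2 ⊕ Fin 2) (Fin 2 ⊕ Fin 2) F) (r s t : Fin 2 ⊕ Fin 2) : Lap g r s t r = 0 := by
  simp only [Lap, Mn]
  ring

theorem Lap_rep3 (g : Matrix (Fin 2 ⊕ Fin 2) (Fin 2 ⊕ Fin 2) F) (r s u : Fin 2 ⊕ Fin 2) : Lap g r s s u = 0 := by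
  simp only [Lap, Mn]
  ring

theorem Lap_rep4 (g : Matrix (Fin 2 ⊕ Fin 2) (Fin 2 ⊕ Fin 2) F) (r s t : Fin 2 ⊕ Fin 2) : Lap g r s t s = 0 := by
  simp only [Lap, Mn]
  ring

theorem Lap_swap1 (g : Matrix (Fin 2 ⊕ Fin 2) (Fin 2 ⊕ Fin 2) F) : Lap g f0 f1 e0 e1 = Lap g e0 e1 f0 f1 := by
  simp only [Lap, Mn]
  ring

theorem Lap_swap2 (g : Matrix (Fin 2 ⊕ Fin 2) (Fin 2 ⊕ Fin 2) F) : Lap g e0 f1 e1 f0 = Lap g e0 e1 f0 f1 := by
  simp only [Lap, Mn]
  ring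

theorem Lap_swap3 (g : Matrix (Fin 2 ⊕ Fin 2) (Fin 2 ⊕ Fin 2) F) : Lap g e1 f0 e0 f1 = Lap g e0 e1 f0 f1 := by
  simp only [Lap, Mn]
  ring

/-- The determinant, as a Laplace expansion, is one on `Sp_4`, via the Pfaffian. -/
theorem Lap_one {g : Matrix (Fin 2 ⊕ Fin 2) (Fin 2 ⊕ Fin 2) F} (hg : g ∈ Matrix.symplecticGroup (Fin 2) F) :
    Lap g e0 e1 f0 f1 = 1 := by
  have r1 := rowRel hg e0 e1
  have r2 := rowRel hg f0 f1
  have r3 := rowRel hg e0 f0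
  have r4 := rowRel hg e1 f1
  have r5 := rowRel hg e0 f1
  have r6 := rowRel hg e1 f0
  have j1 : Matrix.J (Fin 2) F e0 e1 = 0 := by simp [Matrix.J, Matrix.one_apply]
  have j2 : Matrix.J (Fin 2) F f0 f1 = 0 := by simp [Matrix.J, Matrix.one_apply]
  have j3 : Matrix.J (Fin 2) F e0 f0 = -1 := by simp [Matrix.J, Matrix.one_apply]
  have j4 : Matrix.J (Fin 2) F e1 f1 = -1 := by simp [Matrix.J, Matrix.one_apply]
  have j5 : Matrix.J (Fin 2) F e0 f1 = 0 := by simp [Matrix.J, Matrix.one_apply]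
  have j6 : Matrix.J (Fin 2) F e1 f0 = 0 := by simp [Matrix.J, Matrix.one_apply]
  rw [j1, neg_zero] at r1
  rw [j2, neg_zero] at r2
  rw [j3, neg_neg] at r3
  rw [j4, neg_neg] at r4
  rw [j5, neg_zero] at r5
  rw [j6, neg_zero] at r6
  have key : (Mn g e0 e1 e0 f0 + Mn g e0 e1 e1 f1) * (Mn g f0 f1 e0 f0 + Mn g f0 f1 e1 f1)
      - (Mn g e0 f0 e0 f0 + Mn g e0 f0 e1 f1) * (Mn g e1 f1 e0 f0 + Mn g e1 f1 e1 f1)
      + (Mn g e0 f1 e0 f0 + Mn g e0 f1 e1 f1) * (Mn g e1 f0 e0 f0 + Mn g e1 f0 e1 f1)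
      = - Lap g e0 e1 f0 f1 := by
    simp only [Lap, Mn]
    ring
  rw [r1, r3, r4, r5] at key
  linear_combination key

theorem phiM_mem (h2 : (2 : F) = 0) {g : Matrix (Fin 2 ⊕ Fin 2) (Fin 2 ⊕ Fin 2) F}
    (hg : g ∈ Matrix.symplecticGroup (Fin 2) F) : phiM g ∈ Matrix.symplecticGroup (Fin 2) F := by
  rw [SymplecticGroup.mem_iff]
  refine Matrix.ext fun I K => ?_
  rw [J_expand]
  have e1' := rowRel hg (pr I).1 (pr I).2
  have e2' := rowRel hg (pr K).1 (pr K).2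
  rw [J_pr, neg_zero] at e1' e2'
  have hT : - phiM g I e0 * phiM g K f0 + phiM g I f0 * phiM g K e0 - phiM g I e1 * phiM g K f1
      + phiM g I f1 * phiM g K e1 = Lap g (pr I).1 (pr I).2 (pr K).1 (pr K).2 := by
    show - Mn g (pr I).1 (pr I).2 e0 e1 * Mn g (pr K).1 (pr K).2 f0 f1
      + Mn g (pr I).1 (pr I).2 f0 f1 * Mn g (pr K).1 (pr K).2 e0 e1
      - Mn g (pr I).1 (pr I).2 e0 f1 * Mn g (pr K).1 (pr K).2 e1 f0
      + Mn g (pr I).1 (pr I).2 e1 f0 * Mn g (pr K).1 (pr K).2 e0 f1 = _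
    rw [Lap]
    linear_combination (- Mn g (pr I).1 (pr I).2 e0 e1 * Mn g (pr K).1 (pr K).2 f0 f1
        - Mn g (pr I).1 (pr I).2 e0 f1 * Mn g (pr K).1 (pr K).2 e1 f0
        - Mn g (pr I).1 (pr I).2 e0 f0 * Mn g (pr K).1 (pr K).2 e0 f0) * h2
      + Mn g (pr I).1 (pr I).2 e0 f0 * e2' + Mn g (pr K).1 (pr K).2 e0 f0 * e1'
  rw [hT]
  have hone : (-1 : F) = 1 := by linear_combination -h2
  have hD := Lap_one hg
  rcases I with i | i <;> rcases K with k | k <;> fin_cases i <;> fin_cases k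
  · exact (Lap_rep1 g _ _ _).trans (by simp [Matrix.J, Matrix.one_apply])
  · exact (Lap_rep1 g _ _ _).trans (by simp [Matrix.J, Matrix.one_apply])
  · exact (Lap_rep1 g _ _ _).trans (by simp [Matrix.J, Matrix.one_apply])
  · exact (Lap_rep1 g _ _ _).trans (by simp [Matrix.J, Matrix.one_apply])
  · exact hD.trans (by simp [Matrix.J, Matrix.one_apply, hone])
  · exact (Lap_rep3 g _ _ _).trans (by simp [Matrix.J, Matrix.one_apply])
  · exact (Lap_rep4 g _ _ _).trans (by simp [Matrix.J, Matrix.one_apply])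
  · exact ((Lap_swap2 g).trans hD).trans (by simp [Matrix.J, Matrix.one_apply, hone])
  · exact ((Lap_swap1 g).trans hD).trans (by simp [Matrix.J, Matrix.one_apply])
  · exact (Lap_rep4 g _ _ _).trans (by simp [Matrix.J, Matrix.one_apply])
  · exact (Lap_rep2 g _ _ _).trans (by simp [Matrix.J, Matrix.one_apply])
  · exact ((Lap_swap3 g).trans hD).trans (by simp [Matrix.J, Matrix.one_apply])
  · exact (Lap_rep1 g _ _ _).trans (by simp [Matrix.J, Matrix.one_apply])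
  · exact (Lap_rep2 g _ _ _).trans (by simp [Matrix.J, Matrix.one_apply])
  · exact (Lap_rep3 g _ _ _).trans (by simp [Matrix.J, Matrix.one_apply])
  · exact (Lap_rep1 g _ _ _).trans (by simp [Matrix.J, Matrix.one_apply])

/-- The homomorphism `Sp_4 → Sp_4`. -/
def phi (h2 : (2 : F) = 0) : Sp 2 F →* Sp 2 F where
  toFun s := ⟨phiM s.1, phiM_mem h2 s.2⟩
  map_one' := Subtype.ext phiM_one
  map_mul' s t := Subtype.ext (phiM_mul h2 s.2 t.2)

theorem coe_phi (h2 : (2 : F) = 0) (s : Sp 2 F) : (phi h2 s).1 = phiM s.1 := rfl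

theorem negOne_eq_one (h2 : (2 : F) = 0) {m : ℕ} : negOne m F = 1 := by
  apply Subtype.ext
  show (-1 : Matrix _ _ F) = 1
  have h3 : (-1 : F) = 1 := by linear_combination -h2
  refine Matrix.ext fun i j => ?_
  by_cases hij : i = j
  · subst hij
    simp [h3]
  · simp [Matrix.one_apply, hij]

theorem mkS_inj (h2 : (2 : F) = 0) {m : ℕ} (hm : 1 ≤ m) {s t : Sp m F} (h : mkS s = mkS t) : s = t := by
  rcases (mkS_eq_iff hm s t).1 h with h | h
  · exact h.symm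
  · rw [negOne_eq_one h2, one_mul] at h
    exact h.symm

/-- The induced endomorphism of `PSp_4`. -/
def psi (h2 : (2 : F) = 0) : PSp 2 F →* PSp 2 F :=
  QuotientGroup.lift _ ((QuotientGroup.mk' _).comp (phi h2)) (by
    intro x hx
    have h3 := (mem_center_symplecticGroup_iff (by norm_num) x).1 hx
    rw [negOne_eq_one h2, or_self] at h3
    rw [h3]
    exact one_mem _)

theorem psi_mkS (h2 : (2 : F) = 0) (s : Sp 2 F) : psi h2 (mkS s) = mkS (phi h2 s) := rfl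

/-- A transvection. -/
def t₀ : Sp 2 F := ts (Pi.single e0 1) 1

theorem t₀_apply (r s : Fin 2 ⊕ Fin 2) :
    (t₀ (F := F)).1 r s = (1 : Matrix _ _ F) r s + (if r = e0 ∧ s = f0 then 1 else 0) := by
  have hJ : Matrix.J (Fin 2) F *ᵥ (Pi.single e0 1) = Pi.single f0 1 := by
    funext i
    rcases i with i | i <;> fin_cases i <;>
      simp [Matrix.J, Matrix.mulVec, dotProduct, Fintype.sum_sum_type, Fin.sum_univ_two, Matrix.one_apply]
  show (1 + NN (Pi.single e0 1) (1 : F)) r s = _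
  unfold NN
  rw [hJ, one_smul, Matrix.add_apply, vecMulVec_apply]
  congr 1
  by_cases h1 : r = e0
  · by_cases h2 : s = f0
    · simp [h1, h2]
    · simp [h2, h1]
  · simp [h1]

/-- The image of a transvection under `phi` is not a transvection. -/
theorem phi_t₀_ne (h2 : (2 : F) = 0) (v : Fin 2 ⊕ Fin 2 → F) (c : F) : phi h2 t₀ ≠ ts v c := by
  intro h
  have hmat : ∀ I J, phiM (t₀ (F := F)).1 I J = (ts v c).1 I J := by
    intro I J
    rw [← coe_phi h2, h]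
  have hts : ∀ I J, (ts v c).1 I J = (1 : Matrix _ _ F) I J + c * (v I * (Matrix.J (Fin 2) F *ᵥ v) J) := by
    intro I J
    show (1 + NN v c) I J = _
    unfold NN
    rw [Matrix.add_apply, Matrix.smul_apply, vecMulVec_apply, smul_eq_mul]
  have hent : ∀ a b, (t₀ (F := F)).1 a b = (1 : Matrix _ _ F) a b + (if a = e0 ∧ b = f0 then 1 else 0) := t₀_apply
  have e1' := hmat e1 f0
  have e2' := hmat e0 f1
  have e3' := hmat e1 f1
  have e4' := hmat e0 f0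
  simp only [hts] at e1' e2' e3' e4'
  simp only [phiM, Matrix.of_apply, pr, Mn, Sum.elim_inl, Sum.elim_inr, Matrix.cons_val_zero, Matrix.cons_val_one, hent,
    Matrix.one_apply] at e1' e2' e3' e4'
  simp at e1' e2' e3' e4'
  rcases e3' with h0 | h0 | h0
  · rw [h0] at e1'
    simp at e1'
  · rw [h0] at e1'
    simp at e1'
  · rw [h0] at e2'
    simp at e2'

/-- The graph automorphism. -/
theorem exists_tau [Fintype F] (h2 : (2 : F) = 0) (hq : 3 ≤ Fintype.card F) :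
    ∃ τ : MulAut (PSp 2 F), ∃ x₀ : PSp 2 F, IsT x₀ ∧ ¬ IsT (τ x₀) := by
  have hsimple : IsSimpleGroup (PSp 2 F) :=
    isSimpleGroup_PSp (m := 2) (by norm_num) (fun _ => by rwa [Nat.card_eq_fintype_card])
  have hne : psi h2 (mkS t₀) ≠ 1 := by
    intro h
    rw [psi_mkS] at h
    have h3 := mkS_inj h2 (by norm_num) (s := phi h2 t₀) (t := ts 0 0) (by
      rw [h, ts_zero]
      rfl)
    exact phi_t₀_ne h2 0 0 h3
  have hker : (psi h2).ker = ⊥ := by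
    rcases (psi h2).normal_ker.eq_bot_or_eq_top with h | h
    · exact h
    · exfalso
      apply hne
      have : mkS t₀ ∈ (psi h2).ker := by
        rw [h]
        trivial
      exact this
  have hinj : Function.Injective (psi h2) := (MonoidHom.ker_eq_bot_iff _).1 hker
  have hsurj : Function.Surjective (psi h2) := Finite.injective_iff_surjective.1 hinj
  refine ⟨MulEquiv.ofBijective (psi h2) ⟨hinj, hsurj⟩, mkS t₀, ?_, ?_⟩
  · refine ⟨D.mk (Pi.single e0 1) 1 ?_ one_ne_zero, rfl⟩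
    intro h0
    have := congrFun h0 e0
    simp at this
  · rintro ⟨d, hd⟩
    have h3 : mkS (phi h2 t₀) = mkS (ts d.v d.c) := hd
    exact phi_t₀_ne h2 _ _ (mkS_inj h2 (by norm_num) h3)

end Cfsg.Agent.Lib.KS71.PSp4Graph
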