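/-
The order of the automorphism group of `PSp_{2m}(F)`.
-/
import Mathlib
import Cfsg.Agent.Lib.KS71.PSp4Graph

set_option autoImplicit false

namespace Cfsg.Agent.Lib.KS71.PSpCard

open Matrix Cfsg
open Cfsg.Agent.Lib.Classical.SympForm Cfsg.Agent.Lib.Classical.SympSimple
open Cfsg.Agent.Lib.KS71.PSpCore Cfsg.Agent.Lib.KS71.PSpTInv Cfsg.Agent.Lib.KS71.PSpGroup
open Cfsg.Agent.Lib.KS71.PSpAut Cfsg.Agent.Lib.KS71.PSp4Graph

variable {F : Type*} [Field F] {m : ℕ}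

/-- A chosen representative. -/
noncomputable def rep (x : PGSp m F) : ↥(GSp m F) := Function.surjInv QuotientGroup.mk_surjective x

theorem mk_rep (x : PGSp m F) : (QuotientGroup.mk (rep x) : PGSp m F) = x :=
  Function.surjInv_eq QuotientGroup.mk_surjective x

theorem mk_eq_iff {a b : ↥(GSp m F)} :
    (QuotientGroup.mk a : PGSp m F) = QuotientGroup.mk b ↔
      ∃ c : Fˣ, (b : GL _ F) = (a : GL _ F) * Matrix.GeneralLinearGroup.scalar (Fin m ⊕ Fin m) c := by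
  rw [QuotientGroup.eq]
  constructor
  · rintro ⟨c, hc⟩
    refine ⟨c, ?_⟩
    have h1 : (a⁻¹ * b).1 = Matrix.GeneralLinearGroup.scalar (Fin m ⊕ Fin m) c := hc.symm
    have h2 : b.1 = a.1 * (a⁻¹ * b).1 := by
      show b.1 = a.1 * (a.1⁻¹ * b.1)
      group
    rw [h2, h1]
  · rintro ⟨c, hc⟩
    refine ⟨c, ?_⟩
    show Matrix.GeneralLinearGroup.scalar (Fin m ⊕ Fin m) c = (a.1⁻¹ * b.1)
    rw [hc]
    group

theorem cA_rep_mk (g : ↥(GSp m F)) : cA (rep (QuotientGroup.mk g : PGSp m F)) = cA g := by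
  obtain ⟨c, hc⟩ := mk_eq_iff.1 (mk_rep (QuotientGroup.mk g : PGSp m F))
  have h := cA_scalar (rep (QuotientGroup.mk g : PGSp m F)) c
  have h2 : rep (QuotientGroup.mk g : PGSp m F) * ⟨Matrix.GeneralLinearGroup.scalar (Fin m ⊕ Fin m) c, scalar_mem c⟩ = g :=
    Subtype.ext hc.symm
  rw [h2] at h
  exact h.symm

/-- The count of semilinear automorphisms, as a map. -/
noncomputable def Φ₀ (x : PGSp m F × (F ≃+* F)) : MulAut (PSp m F) := cA (rep x.1) * fA x.2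

theorem Φ₀_inj (hm : 1 ≤ m) : Function.Injective (Φ₀ (m := m) (F := F)) := by
  rintro ⟨x, σ⟩ ⟨y, τ⟩ h
  obtain ⟨h1, c, hc⟩ := semi_inj hm h
  have h2 : x = y := by
    rw [← mk_rep x, ← mk_rep y]
    exact mk_eq_iff.2 ⟨c, hc⟩
  have h1' : σ = τ := h1
  rw [h1', h2]

theorem Φ₀_mk (g : ↥(GSp m F)) (σ : F ≃+* F) :
    Φ₀ ((QuotientGroup.mk g : PGSp m F), σ) = cA g * fA σ := by
  show cA (rep _) * _ = _
  rw [cA_rep_mk]

/-- If `β` preserves `IsT`, so does its inverse. -/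
theorem inv_of_T [Fintype F] (β : MulAut (PSp m F)) (h : ∀ x, IsT x → IsT (β x)) :
    ∀ x, IsT x → IsT (β⁻¹ x) := by
  classical
  let f : {x : PSp m F // IsT x} → {x : PSp m F // IsT x} := fun x => ⟨β x.1, h x.1 x.2⟩
  have hf : Function.Injective f := by
    intro a b hab
    apply Subtype.ext
    exact β.injective (congrArg Subtype.val hab)
  have hs := Finite.injective_iff_surjective.1 hf
  intro x hx
  obtain ⟨y, hy⟩ := hs ⟨x, hx⟩
  have h1 : β y.1 = x := congrArg Subtype.val hy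
  have h2 : β⁻¹ x = y.1 := by
    rw [← h1]
    exact MulEquiv.symm_apply_apply β y.1
  rw [h2]
  exact y.2

theorem semi_isT (g : ↥(GSp m F)) (σ : F ≃+* F) {x : PSp m F} (hx : IsT x) : IsT ((cA g * fA σ : MulAut (PSp m F)) x) := by
  obtain ⟨d, rfl⟩ := hx
  obtain ⟨d', h, -⟩ := el_semi g σ d
  exact ⟨d', h⟩

theorem Φ₀_isT (x : PGSp m F × (F ≃+* F)) {y : PSp m F} (hy : IsT y) : IsT (Φ₀ x y) :=
  semi_isT _ _ hy

/-- Automorphisms preserving transvections. -/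
theorem exists_Φ₀_of_T [Fintype F] (hm : 2 ≤ m) (β : MulAut (PSp m F)) (h : ∀ x, IsT x → IsT (β x)) :
    ∃ x, Φ₀ x = β := by
  obtain ⟨g, hg, σ, hβ⟩ := main_of_T hm β h (inv_of_T β h)
  refine ⟨((QuotientGroup.mk ⟨g, hg⟩ : PGSp m F), σ), ?_⟩
  rw [Φ₀_mk, hβ]
  rfl

theorem card_PSp_mul [Fintype F] {q : ℕ} (hq : Fintype.card F = q) (hm : 1 ≤ m) :
    Nat.card (PGSp m F) = Nat.gcd 2 (q - 1) * Nat.card (PSp m F) := by
  rw [card_PGSp hm, ← card_center_symplecticGroup hq hm]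
  exact (Subgroup.card_mul_index (Subgroup.center (Sp m F))).symm

/-- The non-exceptional case. -/
theorem card_main [Fintype F] {p f : ℕ} [Fact p.Prime] (hF : Fintype.card F = p ^ f) (hf : 1 ≤ f)
    (hm : 2 ≤ m) (h4 : m = 2 → p ≠ 2) :
    Nat.card (MulAut (PSp m F)) = Nat.gcd 2 (p ^ f - 1) * f * Nat.card (PSp m F) := by
  have : CharP F p := charP_of_card_eq_prime_pow hF
  have hb : Function.Bijective (Φ₀ (m := m) (F := F)) :=
    ⟨Φ₀_inj (by omega), fun β => exists_Φ₀_of_T hm β (fun x hx => isT_map hm h4 β hx)⟩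
  rw [← Nat.card_congr (Equiv.ofBijective _ hb), Nat.card_prod,
    Cfsg.Agent.Lib.KS71.PSLAutGroup.card_ringEquiv hF hf, card_PSp_mul hF (by omega)]
  ring

/-- The exceptional case. -/
theorem card_exc [Fintype F] {f : ℕ} (hF : Fintype.card F = 2 ^ f) (hf : 1 ≤ f) (hq : 3 ≤ 2 ^ f) :
    Nat.card (MulAut (PSp 2 F)) = 2 * Nat.gcd 2 (2 ^ f - 1) * f * Nat.card (PSp 2 F) := by
  classical
  have : Fact (Nat.Prime 2) := ⟨Nat.prime_two⟩
  have : CharP F 2 := charP_of_card_eq_prime_pow hF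
  have h2 : (2 : F) = 0 := by exact_mod_cast CharP.cast_eq_zero F 2
  obtain ⟨τ, x₀, hx₀, hτ⟩ := exists_tau h2 (by rw [hF]; exact hq)
  -- the image of `T` under `τ` is the class `Y`
  have hτY : ∀ x, IsT x → IsY (τ x) := by
    rcases dichotomy (by norm_num) h2 τ with h | h
    · exact absurd (h x₀ hx₀) hτ
    · exact h
  have hYτ : ∀ y, IsY y → IsT (τ⁻¹ y) := by
    intro y hy
    obtain ⟨g, hg⟩ := IsY_single (hτY x₀ hx₀) hy
    have h1 : τ⁻¹ y = τ⁻¹ g * x₀ * (τ⁻¹ g)⁻¹ := by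
      rw [hg, map_mul, map_mul, map_inv]
      congr 2
      exact MulEquiv.symm_apply_apply τ x₀
    rw [h1]
    exact IsT_conj hx₀ _
  let Φ : (PGSp 2 F × (F ≃+* F)) × Bool → MulAut (PSp 2 F) := fun x =>
    if x.2 then τ * Φ₀ x.1 else Φ₀ x.1
  have hne : ∀ x y, Φ₀ x ≠ τ * Φ₀ y := by
    intro x y h
    apply hτ
    -- `τ = Φ₀ x * (Φ₀ y)⁻¹` preserves `T`
    have h1 : τ = Φ₀ x * (Φ₀ y)⁻¹ := by rw [h]; group
    rw [h1]
    exact Φ₀_isT x (inv_of_T _ (fun _ h' => Φ₀_isT y h') _ hx₀)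
  have hb : Function.Bijective Φ := by
    constructor
    · rintro ⟨x, a⟩ ⟨y, b⟩ h
      cases a <;> cases b
      · have h1 : Φ₀ x = Φ₀ y := h
        rw [Φ₀_inj (by norm_num) h1]
      · exact absurd h (hne _ _)
      · exact absurd h.symm (hne _ _)
      · have h1 : τ * Φ₀ x = τ * Φ₀ y := h
        rw [Φ₀_inj (by norm_num) (mul_left_cancel h1)]
    · intro β
      rcases dichotomy (by norm_num) h2 β with h | h
      · obtain ⟨x, hx⟩ := exists_Φ₀_of_T (by norm_num) β h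
        exact ⟨(x, false), hx⟩
      · obtain ⟨x, hx⟩ := exists_Φ₀_of_T (by norm_num) (τ⁻¹ * β) (fun y hy => hYτ _ (h y hy))
        refine ⟨(x, true), ?_⟩
        show τ * Φ₀ x = β
        rw [hx]
        group
  rw [← Nat.card_congr (Equiv.ofBijective _ hb), Nat.card_prod, Nat.card_prod,
    Cfsg.Agent.Lib.KS71.PSLAutGroup.card_ringEquiv hF hf, card_PSp_mul hF (by norm_num),
    Nat.card_eq_fintype_card (α := Bool), Fintype.card_bool]
  ring

end Cfsg.Agent.Lib.KS71.PSpCard
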