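/-
Twisted conjugacy in `PGSp_{2m}(F)`: elements of the coset of a field automorphism with the right
order are conjugate to it (Lang-Steinberg for finite fields, by Hilbert 90 and the classification of
alternating forms over the fixed field).
-/
import Mathlib
import Cfsg.Agent.Lib.KS71.PSpCard
import Cfsg.Agent.Lib.KS71.Speiser
import Cfsg.Agent.Lib.Geo.SpFrames

set_option autoImplicit false

namespace Cfsg.Agent.Lib.KS71.PSpTwist

open Matrix Cfsg Cfsg.Geo
open Cfsg.Agent.Lib.Classical.SympForm Cfsg.Agent.Lib.Classical.SympSimple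
open Cfsg.Agent.Lib.KS71.PSpCore Cfsg.Agent.Lib.KS71.PSpGroup Cfsg.Agent.Lib.KS71.Speiser

variable {F : Type*} [Field F] {m : ℕ}

/-- Scalars in `GL`. -/
noncomputable abbrev sc (c : Fˣ) : GL (Fin m ⊕ Fin m) F := Matrix.GeneralLinearGroup.scalar (Fin m ⊕ Fin m) c

theorem coe_sc (c : Fˣ) : ((sc c : GL (Fin m ⊕ Fin m) F) : Matrix (Fin m ⊕ Fin m) (Fin m ⊕ Fin m) F) = (c : F) • 1 := by
  refine Matrix.ext fun i j => ?_
  simp [Matrix.scalar_apply, Matrix.diagonal_apply, Matrix.one_apply]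

theorem sc_mul (c d : Fˣ) : (sc (c * d) : GL (Fin m ⊕ Fin m) F) = sc c * sc d := map_mul _ c d

theorem sc_central (c : Fˣ) (g : GL (Fin m ⊕ Fin m) F) : sc c * g = g * sc c := by
  apply Units.ext
  rw [Units.val_mul, Units.val_mul, coe_sc, Matrix.smul_mul, Matrix.mul_smul, Matrix.one_mul, Matrix.mul_one]

theorem mapGL_sc (σ : F ≃+* F) (c : Fˣ) :
    mapGL σ (sc c : GL (Fin m ⊕ Fin m) F) = sc (Units.map (σ : F →+* F) c) := by
  apply Units.ext
  rw [coe_mapGL, coe_sc, coe_sc]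
  refine Matrix.ext fun i j => ?_
  by_cases h : i = j
  · subst h
    simp
  · simp [h]

theorem mapGL_mapGL (σ τ : F ≃+* F) (g : GL (Fin m ⊕ Fin m) F) : mapGL σ (mapGL τ g) = mapGL (σ * τ) g := by
  apply Units.ext
  rw [coe_mapGL, coe_mapGL, coe_mapGL]
  refine Matrix.ext fun i j => ?_
  rfl

theorem mapGL_one (g : GL (Fin m ⊕ Fin m) F) : mapGL 1 g = g := by
  apply Units.ext
  rw [coe_mapGL]
  refine Matrix.ext fun i j => ?_
  rfl

/-- A scalar in `GSp`. -/
noncomputable def scS (c : Fˣ) : ↥(GSp m F) := ⟨sc c, scalar_mem c⟩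

theorem scS_mul (c d : Fˣ) : (scS (c * d) : ↥(GSp m F)) = scS c * scS d := Subtype.ext (sc_mul c d)

theorem scS_one : (scS (1 : Fˣ) : ↥(GSp m F)) = 1 := Subtype.ext (map_one _)

theorem scS_central (c : Fˣ) (g : ↥(GSp m F)) : scS c * g = g * scS c := Subtype.ext (sc_central c g.1)

theorem mapGS_sc (σ : F ≃+* F) (c : Fˣ) : mapGS σ (scS c : ↥(GSp m F)) = scS (Units.map (σ : F →+* F) c) :=
  Subtype.ext (mapGL_sc σ c)

theorem mapGS_mapGS (σ τ : F ≃+* F) (g : ↥(GSp m F)) : mapGS σ (mapGS τ g) = mapGS (σ * τ) g :=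
  Subtype.ext (mapGL_mapGL σ τ g.1)

theorem mapGS_one (g : ↥(GSp m F)) : mapGS 1 g = g := Subtype.ext (mapGL_one g.1)

/-! ### Matrix criterion -/

theorem mul_form_eq_iff (M : Matrix (Fin m ⊕ Fin m) (Fin m ⊕ Fin m) F) (c : F) :
    (∀ u v, sympForm m F (M *ᵥ u) (M *ᵥ v) = c * sympForm m F u v) ↔
      Mᵀ * Matrix.J (Fin m) F * M = c • Matrix.J (Fin m) F := by
  constructor
  · intro h
    apply Cfsg.Agent.Lib.Classical.MatrixBridge.matrix_ext_dotProduct
    intro u v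
    rw [← sympForm_mulVec, h, Matrix.smul_mulVec, dotProduct_smul]
    rfl
  · intro h u v
    rw [sympForm_mulVec, h, Matrix.smul_mulVec, dotProduct_smul]
    rfl

theorem J_det_ne : (Matrix.J (Fin m) F).det ≠ 0 := by
  have h := Cfsg.Agent.Lib.KS71.PSpCore.sp_inv_mul (m := m) (F := F) ⟨Matrix.J (Fin m) F, SymplecticGroup.J_mem (Fin m) F⟩
  intro h0
  have h1 := congrArg Matrix.det h
  rw [Matrix.det_mul, h0, mul_zero, Matrix.det_one] at h1
  exact zero_ne_one h1

theorem exists_GSp_of_mat [Fintype F] (hm : 1 ≤ m) (M : Matrix (Fin m ⊕ Fin m) (Fin m ⊕ Fin m) F) {c : F} (hc : c ≠ 0)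
    (h : Mᵀ * Matrix.J (Fin m) F * M = c • Matrix.J (Fin m) F) :
    ∃ k : ↥(GSp m F), (k.1 : Matrix (Fin m ⊕ Fin m) (Fin m ⊕ Fin m) F) = M := by
  have hdet : M.det ≠ 0 := by
    intro h0
    have h1 := congrArg Matrix.det h
    rw [Matrix.det_mul, Matrix.det_mul, h0, mul_zero, Matrix.det_smul] at h1
    have h2 : c ^ Fintype.card (Fin m ⊕ Fin m) ≠ 0 := pow_ne_zero _ hc
    exact (mul_ne_zero h2 J_det_ne) h1.symm
  let g : GL (Fin m ⊕ Fin m) F := Matrix.GeneralLinearGroup.mkOfDetNeZero M hdet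
  have hg : g ∈ GSp m F := ⟨Units.mk0 c hc, (mul_form_eq_iff M c).2 h⟩
  exact ⟨⟨g, hg⟩, rfl⟩

theorem J_map {S : Type*} [Field S] (ε : S →+* F) : (Matrix.J (Fin m) S).map ε = Matrix.J (Fin m) F := by
  refine Matrix.ext fun i j => ?_
  rcases i with i | i <;> rcases j with j | j <;>
    simp [Matrix.J, Matrix.one_apply]

/-! ### Alternating forms over a finite field -/

/-- Alternating invertible matrices are congruent to `J`. -/
theorem exists_congr_J {S : Type*} [Field S] [Finite S] (A : Matrix (Fin m ⊕ Fin m) (Fin m ⊕ Fin m) S)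
    (halt : ∀ x : Fin m ⊕ Fin m → S, x ⬝ᵥ (A *ᵥ x) = 0) (hdet : A.det ≠ 0) :
    ∃ h : Matrix (Fin m ⊕ Fin m) (Fin m ⊕ Fin m) S, hᵀ * A * h = Matrix.J (Fin m) S := by
  classical
  let f : (Fin m ⊕ Fin m → S) → (Fin m ⊕ Fin m → S) → S := fun x y => x ⬝ᵥ (A *ᵥ y)
  have hadd : ∀ x y v, f (x + y) v = f x v + f y v := fun x y v => add_dotProduct _ _ _
  have hsmul : ∀ (c : S) (x v : Fin m ⊕ Fin m → S), f (c • x) v = c * f x v := fun c x v => by
    show (c • x) ⬝ᵥ _ = _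
    rw [smul_dotProduct, smul_eq_mul]
  have hadd' : ∀ v x y, f v (x + y) = f v x + f v y := fun v x y => by
    show v ⬝ᵥ (A *ᵥ (x + y)) = _
    rw [Matrix.mulVec_add, dotProduct_add]
  have hsmul' : ∀ (c : S) (v x : Fin m ⊕ Fin m → S), f v (c • x) = c * f v x := fun c v x => by
    show v ⬝ᵥ (A *ᵥ (c • x)) = _
    rw [Matrix.mulVec_smul, dotProduct_smul, smul_eq_mul]
  have hskew : ∀ v w, f v w = - f w v := by
    intro v w
    have h := halt (v + w)
    have h1 : (v + w) ⬝ᵥ (A *ᵥ (v + w)) = f v v + f v w + f w v + f w w := by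
      show f (v + w) (v + w) = _
      rw [hadd, hadd', hadd']
      ring
    rw [h1] at h
    have h2 : f v v = 0 := halt v
    have h3 : f w w = 0 := halt w
    rw [h2, h3] at h
    linear_combination h
  have hnd : ∀ v : Fin m ⊕ Fin m → S, v ≠ 0 → ∃ x, f v x ≠ 0 := by
    intro v hv
    by_contra hcon
    push Not at hcon
    have h1 : v ᵥ* A = 0 := by
      funext i
      have := hcon (Pi.single i 1)
      simpa [f, Matrix.dotProduct_mulVec] using this
    have h2 : A.transpose *ᵥ v = 0 := by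
      rw [Matrix.mulVec_transpose]
      exact h1
    have h3 : A.transpose.det = 0 := Matrix.exists_mulVec_eq_zero_iff.1 ⟨v, hv, h2⟩
    rw [Matrix.det_transpose] at h3
    exact hdet h3
  have hf : IsSymplecticForm f := {
    bilinear := ⟨hadd, hsmul, hadd', hsmul'⟩
    skew := hskew
    alternating := halt
    nondegenerate := fun v hv => by
      obtain ⟨x, hx⟩ := hnd v hv
      refine ⟨⟨x, ?_⟩, ⟨x, hx⟩⟩
      rw [hskew]
      exact neg_ne_zero.2 hx }
  have hE : IsNondegenerateOn f (⊤ : Submodule S (Fin m ⊕ Fin m → S)) := by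
    intro w _ hw
    obtain ⟨x, hx⟩ := hf.nondegenerate w hw |>.1
    obtain ⟨y, hy⟩ := hf.nondegenerate w hw |>.2
    exact ⟨⟨x, trivial, hx⟩, ⟨y, trivial, hy⟩⟩
  obtain ⟨n, e, e', hfin, -, -, h1, h2, h3, -⟩ := Cfsg.Agent.Lib.Geo.SpFrames.exists_frame hf ⊤ hE
  have hmn : m = n := by
    have : Module.finrank S (⊤ : Submodule S (Fin m ⊕ Fin m → S)) = 2 * m := by
      simp [two_mul]
    omega
  subst hmn
  let col : Fin m ⊕ Fin m → (Fin m ⊕ Fin m → S) := Sum.elim e' e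
  refine ⟨Matrix.of fun i j => col j i, ?_⟩
  refine Matrix.ext fun a b => ?_
  have hval : ((Matrix.of fun i j => col j i)ᵀ * A * Matrix.of fun i j => col j i) a b = f (col a) (col b) := by
    show _ = col a ⬝ᵥ (A *ᵥ col b)
    rw [Matrix.mul_assoc, Matrix.mul_apply]
    rfl
  rw [hval]
  rcases a with a | a <;> rcases b with b | b
  · simp [col, h2, Matrix.J]
  · simp only [col, Sum.elim_inl, Sum.elim_inr]
    rw [hskew, h3]
    by_cases hab : a = b
    · subst hab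
      simp [Matrix.J]
    · simp [Matrix.J, Matrix.one_apply, hab, Ne.symm hab]
  · simp only [col, Sum.elim_inl, Sum.elim_inr]
    rw [h3]
    by_cases hab : a = b
    · subst hab
      simp [Matrix.J]
    · simp [Matrix.J, Matrix.one_apply, hab]
  · simp [col, h1, Matrix.J]

/-! ### Twisted products -/

/-- The twisted products `g σ(g) … σ^{k-1}(g)`. -/
noncomputable def twS (σ : F ≃+* F) (g : ↥(GSp m F)) : ℕ → ↥(GSp m F)
  | 0 => 1
  | k + 1 => g * mapGS σ (twS σ g k)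

theorem twS_zero (σ : F ≃+* F) (g : ↥(GSp m F)) : twS σ g 0 = 1 := rfl

theorem twS_succ (σ : F ≃+* F) (g : ↥(GSp m F)) (k : ℕ) :
    twS σ g (k + 1) = g * mapGS σ (twS σ g k) := rfl

theorem twS_succ' (σ : F ≃+* F) (g : ↥(GSp m F)) (k : ℕ) :
    twS σ g (k + 1) = twS σ g k * mapGS (σ ^ k) g := by
  induction k with
  | zero =>
    rw [twS_succ, twS_zero, pow_zero, mapGS_one, one_mul, map_one, mul_one]
  | succ k ih =>
    rw [twS_succ, ih, map_mul, mapGS_mapGS, ← mul_assoc, ← twS_succ, ← pow_succ', ih]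

/-- Powers of a semilinear automorphism. -/
theorem pow_semi (σ : F ≃+* F) (g : ↥(GSp m F)) (k : ℕ) :
    (cA g * fA σ) ^ k = cA (twS σ g k) * fA (σ ^ k) := by
  induction k with
  | zero =>
    rw [pow_zero, twS_zero, cA_one, pow_zero, fA_one, one_mul]
  | succ k ih =>
    rw [pow_succ', ih, twS_succ, pow_succ', cA_mul, fA_mul]
    calc cA g * fA σ * (cA (twS σ g k) * fA (σ ^ k))
        = cA g * (fA σ * cA (twS σ g k)) * fA (σ ^ k) := by
          simp only [mul_assoc]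
      _ = _ := by
          rw [field_conj]
          simp only [mul_assoc]

theorem twS_sc (σ : F ≃+* F) (g : ↥(GSp m F)) (c : Fˣ) (k : ℕ) :
    twS σ (g * scS c) k = twS σ g k * scS (Units.mk0 (nrm σ k c) (nrm_ne_zero σ k c.ne_zero)) := by
  induction k with
  | zero =>
    have h1 : Units.mk0 (nrm σ 0 (c : F)) (nrm_ne_zero σ 0 c.ne_zero) = 1 := by
      apply Units.ext
      simp [nrm]
    rw [twS_zero, twS_zero, h1, scS_one, one_mul]
  | succ k ih =>
    have h1 : Units.mk0 (nrm σ (k + 1) (c : F)) (nrm_ne_zero σ (k + 1) c.ne_zero) =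
        c * Units.map (σ : F →+* F) (Units.mk0 (nrm σ k (c : F)) (nrm_ne_zero σ k c.ne_zero)) := by
      apply Units.ext
      show nrm σ (k + 1) (c : F) = c * σ (nrm σ k (c : F))
      unfold nrm
      rw [Finset.prod_range_succ', map_prod]
      simp only [pow_zero]
      rw [mul_comm]
      congr 1
      refine Finset.prod_congr rfl fun i _ => ?_
      rw [pow_succ']
      rfl
    rw [twS_succ, ih, twS_succ, h1, scS_mul, map_mul, mapGS_sc]
    calc g * scS c * (mapGS σ (twS σ g k) * scS (Units.map (σ : F →+* F) (Units.mk0 (nrm σ k (c : F)) (nrm_ne_zero σ k c.ne_zero))))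
        = g * (scS c * mapGS σ (twS σ g k)) * scS (Units.map (σ : F →+* F) (Units.mk0 (nrm σ k (c : F)) (nrm_ne_zero σ k c.ne_zero))) := by
          simp only [mul_assoc]
      _ = _ := by
          rw [scS_central]
          simp only [mul_assoc]

/-- Speiser's theorem: a cocycle is a coboundary in `GL`. -/
theorem cocycle (σ : F ≃+* F) {r : ℕ} (hr : orderOf σ = r) (hr0 : 0 < r) (g : ↥(GSp m F))
    (h : twS σ g r = 1) : ∃ k : GL (Fin m ⊕ Fin m) F, g.1 * mapGL σ k = k := by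
  classical
  have hσr : σ ^ r = 1 := by rw [← hr]; exact pow_orderOf_eq_one σ
  let τ : (Fin m ⊕ Fin m → F) → (Fin m ⊕ Fin m → F) := fun v => (g.1 : Matrix (Fin m ⊕ Fin m) (Fin m ⊕ Fin m) F) *ᵥ vσ σ v
  have hit : ∀ (k : ℕ) (v : Fin m ⊕ Fin m → F), τ^[k] v =
      ((twS σ g k).1 : Matrix (Fin m ⊕ Fin m) (Fin m ⊕ Fin m) F) *ᵥ vσ (σ ^ k) v := by
    intro k v
    induction k with
    | zero =>
      have : vσ ((σ ^ 0 : F ≃+* F)) v = v := by
        funext i
        rfl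
      rw [this, twS_zero]
      show v = (1 : Matrix (Fin m ⊕ Fin m) (Fin m ⊕ Fin m) F) *ᵥ v
      rw [Matrix.one_mulVec]
    | succ k ih =>
      rw [Function.iterate_succ_apply', ih]
      show (g.1 : Matrix (Fin m ⊕ Fin m) (Fin m ⊕ Fin m) F) *ᵥ vσ σ (((twS σ g k).1 : Matrix (Fin m ⊕ Fin m) (Fin m ⊕ Fin m) F) *ᵥ vσ (σ ^ k) v) = _
      rw [← map_mulVec_vσ, Matrix.mulVec_mulVec, twS_succ]
      show _ = ((g.1 * mapGL σ (twS σ g k).1 : GL _ F) : Matrix (Fin m ⊕ Fin m) (Fin m ⊕ Fin m) F) *ᵥ _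
      rw [Units.val_mul, coe_mapGL]
      congr 1
      funext i
      rw [pow_succ']
      rfl
  have hadd : ∀ u v, τ (u + v) = τ u + τ v := by
    intro u v
    show (g.1 : Matrix (Fin m ⊕ Fin m) (Fin m ⊕ Fin m) F) *ᵥ vσ σ (u + v) = _
    rw [vσ_add, Matrix.mulVec_add]
  have hsmul : ∀ (a : F) v, τ (a • v) = σ a • τ v := by
    intro a v
    show (g.1 : Matrix (Fin m ⊕ Fin m) (Fin m ⊕ Fin m) F) *ᵥ vσ σ (a • v) = _
    rw [vσ_smul, Matrix.mulVec_smul]
  have hspan := span_fixed σ τ hadd hsmul hr hr0 (by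
    intro v
    rw [hit, h, hσr]
    show (1 : Matrix (Fin m ⊕ Fin m) (Fin m ⊕ Fin m) F) *ᵥ _ = _
    rw [Matrix.one_mulVec]
    funext i
    rfl)
  -- a basis of fixed vectors
  obtain ⟨b, hb, hsp, hli⟩ := exists_linearIndependent F {v | τ v = v}
  rw [hspan] at hsp
  let B := Module.Basis.mk hli (by
    rw [Subtype.range_coe_subtype]
    exact hsp.ge)
  haveI : Finite b := Module.Finite.finite_basis B
  letI : Fintype b := Fintype.ofFinite b
  have hcard : Fintype.card b = Fintype.card (Fin m ⊕ Fin m) := by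
    have := Module.finrank_eq_card_basis B
    rw [← this]
    simp
  let e : b ≃ (Fin m ⊕ Fin m) := Fintype.equivOfCardEq hcard
  let M : Matrix (Fin m ⊕ Fin m) (Fin m ⊕ Fin m) F := Matrix.of fun i j => ((e.symm j : b) : Fin m ⊕ Fin m → F) i
  have hcol : ∀ j, M.col j = ((e.symm j : b) : Fin m ⊕ Fin m → F) := by
    intro j
    funext i
    rfl
  have hliM : LinearIndependent F M.col := by
    have h1 : M.col = ((↑) : b → (Fin m ⊕ Fin m → F)) ∘ e.symm := by
      funext j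
      exact hcol j
    rw [h1]
    exact hli.comp _ e.symm.injective
  have hunit : IsUnit M := Matrix.linearIndependent_cols_iff_isUnit.1 hliM
  obtain ⟨k, hk⟩ := hunit
  refine ⟨k, ?_⟩
  apply Units.ext
  rw [Units.val_mul, coe_mapGL, hk]
  refine Matrix.ext fun i j => ?_
  have hfix : τ ((e.symm j : b) : Fin m ⊕ Fin m → F) = ((e.symm j : b) : Fin m ⊕ Fin m → F) := hb (e.symm j).2
  have h2 := congrFun hfix i
  rw [← hcol j] at h2
  have h3 : ((g.1 : Matrix (Fin m ⊕ Fin m) (Fin m ⊕ Fin m) F) * M.map σ) i j =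
      ((g.1 : Matrix (Fin m ⊕ Fin m) (Fin m ⊕ Fin m) F) *ᵥ vσ σ (M.col j)) i := by
    simp [Matrix.mul_apply, Matrix.mulVec, dotProduct, Matrix.col, vσ]
  rw [h3]
  exact h2

/-- The form matrix of a similarity. -/
theorem GSp_mat (hm : 1 ≤ m) (g : ↥(GSp m F)) :
    (g.1 : Matrix (Fin m ⊕ Fin m) (Fin m ⊕ Fin m) F)ᵀ * Matrix.J (Fin m) F * (g.1 : Matrix (Fin m ⊕ Fin m) (Fin m ⊕ Fin m) F)
      = (mult hm g : F) • Matrix.J (Fin m) F :=
  (mul_form_eq_iff _ _).1 (mult_spec hm g)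

theorem J_map_equiv (σ : F ≃+* F) : (Matrix.J (Fin m) F).map σ = Matrix.J (Fin m) F := J_map (σ : F →+* F)

/-- The coboundary may be taken in `GSp`. -/
theorem lift_GSp [Fintype F] (hm : 1 ≤ m) (σ : F ≃+* F) (g : ↥(GSp m F)) (k₁ : GL (Fin m ⊕ Fin m) F)
    (hk : g.1 * mapGL σ k₁ = k₁) : ∃ k : ↥(GSp m F), g * mapGS σ k = k := by
  classical
  -- the fixed field
  let S : Subfield F := (σ : F →+* F).eqLocusField (RingHom.id F)
  have hS : ∀ x : F, x ∈ S ↔ σ x = x := fun x => Iff.rfl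
  letI : Fintype S := Fintype.ofFinite S
  let K : Matrix (Fin m ⊕ Fin m) (Fin m ⊕ Fin m) F := (k₁ : Matrix (Fin m ⊕ Fin m) (Fin m ⊕ Fin m) F)
  have hkK : (g.1 : Matrix (Fin m ⊕ Fin m) (Fin m ⊕ Fin m) F) * K.map σ = K := congrArg Units.val hk
  let A : Matrix (Fin m ⊕ Fin m) (Fin m ⊕ Fin m) F := Kᵀ * Matrix.J (Fin m) F * K
  have hAdet : A.det ≠ 0 := by
    have hK : K.det ≠ 0 := by
      have := (Matrix.GeneralLinearGroup.det k₁).ne_zero
      exact this
    simp only [A, Matrix.det_mul, Matrix.det_transpose]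
    exact mul_ne_zero (mul_ne_zero hK J_det_ne) hK
  have hA : A = (mult hm g : F) • A.map σ := by
    have e1 : A.map σ = (K.map σ)ᵀ * Matrix.J (Fin m) F * K.map σ := by
      show (Kᵀ * Matrix.J (Fin m) F * K).map σ = _
      rw [map_mul_map, map_mul_map, J_map_equiv]
      rfl
    rw [e1]
    show Kᵀ * Matrix.J (Fin m) F * K = _
    conv_lhs => rw [← hkK]
    rw [Matrix.transpose_mul]
    have e2 := GSp_mat hm g
    calc (K.map σ)ᵀ * (g.1 : Matrix (Fin m ⊕ Fin m) (Fin m ⊕ Fin m) F)ᵀ * Matrix.J (Fin m) F * ((g.1 : Matrix (Fin m ⊕ Fin m) (Fin m ⊕ Fin m) F) * K.map σ)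
        = (K.map σ)ᵀ * ((g.1 : Matrix (Fin m ⊕ Fin m) (Fin m ⊕ Fin m) F)ᵀ * Matrix.J (Fin m) F * (g.1 : Matrix (Fin m ⊕ Fin m) (Fin m ⊕ Fin m) F)) * K.map σ := by
          simp only [Matrix.mul_assoc]
      _ = _ := by
          rw [e2, Matrix.mul_smul, Matrix.smul_mul]
  have hA0 : A ≠ 0 := by
    intro h0
    haveI : Nonempty (Fin m ⊕ Fin m) := ⟨Sum.inl ⟨0, hm⟩⟩
    rw [h0, Matrix.det_zero] at hAdet
    exact hAdet rfl
  obtain ⟨a, b, hab⟩ : ∃ a b, A a b ≠ 0 := by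
    by_contra hcon
    push Not at hcon
    exact hA0 (Matrix.ext hcon)
  set y₀ := A a b with hy₀
  have hy₀fix : σ y₀ * (mult hm g : F) = y₀ := by
    have := congrFun (congrFun hA a) b
    simp only [Matrix.smul_apply, Matrix.map_apply, smul_eq_mul] at this
    rw [mul_comm]
    exact this.symm
  have hent : ∀ c d, y₀⁻¹ * A c d ∈ S := by
    intro c d
    rw [hS, map_mul, map_inv₀]
    have h1 := congrFun (congrFun hA c) d
    simp only [Matrix.smul_apply, Matrix.map_apply, smul_eq_mul] at h1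
    have hκ := (mult hm g).ne_zero
    have hσy : σ y₀ ≠ 0 := by
      intro h0
      rw [h0, zero_mul] at hy₀fix
      exact hab hy₀fix.symm
    generalize σ (A c d) = t at h1 ⊢
    rw [h1]
    generalize σ y₀ = s at hy₀fix hσy ⊢
    rw [← hy₀fix]
    field_simp
  let A₀ : Matrix (Fin m ⊕ Fin m) (Fin m ⊕ Fin m) S := Matrix.of fun c d => ⟨y₀⁻¹ * A c d, hent c d⟩
  have hA₀ : A₀.map S.subtype = y₀⁻¹ • A := by
    refine Matrix.ext fun c d => ?_
    rfl
  have hval : ∀ x : Fin m ⊕ Fin m → S, (fun i => ((x i : S) : F)) ⬝ᵥ (A *ᵥ fun i => ((x i : S) : F)) = 0 := by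
    intro x
    have h1 := sympForm_mulVec K (fun i => ((x i : S) : F)) (fun i => ((x i : S) : F))
    rw [form_self] at h1
    exact h1.symm
  have halt : ∀ x : Fin m ⊕ Fin m → S, x ⬝ᵥ (A₀ *ᵥ x) = 0 := by
    intro x
    apply Subtype.val_injective
    show S.subtype (x ⬝ᵥ (A₀ *ᵥ x)) = 0
    have e0 : S.subtype ∘ (A₀ *ᵥ x) = (A₀.map S.subtype) *ᵥ (S.subtype ∘ x) := by
      funext i
      exact RingHom.map_mulVec S.subtype A₀ x i
    rw [RingHom.map_dotProduct, e0, hA₀]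
    have := hval x
    rw [Matrix.smul_mulVec, dotProduct_smul, smul_eq_mul]
    have h2 : (S.subtype ∘ x) = (fun i => ((x i : S) : F)) := rfl
    rw [h2, this, mul_zero]
  have hdet₀ : A₀.det ≠ 0 := by
    intro h0
    have h1 : S.subtype A₀.det = (A₀.map S.subtype).det := RingHom.map_det S.subtype A₀
    rw [h0, map_zero, hA₀, Matrix.det_smul] at h1
    exact (mul_ne_zero (pow_ne_zero _ (inv_ne_zero hab)) hAdet) h1.symm
  obtain ⟨h₀, hh₀⟩ := exists_congr_J A₀ halt hdet₀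
  -- the element
  let H : Matrix (Fin m ⊕ Fin m) (Fin m ⊕ Fin m) F := h₀.map S.subtype
  have hH : Hᵀ * (y₀⁻¹ • A) * H = Matrix.J (Fin m) F := by
    have := congrArg (fun X => X.map S.subtype) hh₀
    beta_reduce at this
    rw [J_map, Matrix.map_mul, Matrix.map_mul, hA₀] at this
    exact this
  have hMat : (K * H)ᵀ * Matrix.J (Fin m) F * (K * H) = y₀ • Matrix.J (Fin m) F := by
    have hH' : Hᵀ * A * H = y₀ • Matrix.J (Fin m) F := by
      rw [← hH, Matrix.mul_smul, Matrix.smul_mul, smul_smul, mul_inv_cancel₀ hab, one_smul]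
    rw [← hH', Matrix.transpose_mul]
    simp only [A, Matrix.mul_assoc]
  obtain ⟨k, hk'⟩ := exists_GSp_of_mat hm (K * H) hab hMat
  refine ⟨k, ?_⟩
  apply Subtype.ext
  apply Units.ext
  show (g.1 : Matrix (Fin m ⊕ Fin m) (Fin m ⊕ Fin m) F) * (k.1 : Matrix (Fin m ⊕ Fin m) (Fin m ⊕ Fin m) F).map σ = k.1
  rw [hk', map_mul_map]
  have hHfix : H.map σ = H := by
    refine Matrix.ext fun c d => ?_
    exact (h₀ c d).2
  rw [hHfix, ← Matrix.mul_assoc, hkK]

/-- The core of the field case. -/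
theorem core_field [Fintype F] (hm : 1 ≤ m) (σ : F ≃+* F) {r : ℕ} (hr : orderOf σ = r)
    (g : ↥(GSp m F)) (h : (cA g * fA σ) ^ r = 1) :
    ∃ k : ↥(GSp m F), cA g * fA σ = cA k * fA σ * (cA k)⁻¹ := by
  haveI : Finite (F ≃+* F) := Finite.of_injective (fun e : F ≃+* F => (e : F → F)) DFunLike.coe_injective
  have hr0 : 0 < r := by
    rw [← hr]
    exact orderOf_pos σ
  have hσr : σ ^ r = 1 := by rw [← hr]; exact pow_orderOf_eq_one σ
  rw [pow_semi, hσr, fA_one, mul_one] at h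
  -- `N_r` is a scalar
  have h1 : cA (twS σ g r) = cA 1 := by rw [h, cA_one]
  obtain ⟨c, hc⟩ := cA_inj hm h1
  have hN : twS σ g r = scS c⁻¹ := by
    have h2 : (1 : GL (Fin m ⊕ Fin m) F) = (twS σ g r).1 * sc c := hc
    apply Subtype.ext
    show (twS σ g r).1 = sc c⁻¹
    have e : (sc c⁻¹ : GL (Fin m ⊕ Fin m) F) = (sc c)⁻¹ := map_inv _ c
    rw [e]
    exact eq_inv_of_mul_eq_one_left h2.symm
  -- the scalar is fixed by `σ`
  have hfix : σ (c : F) = c := by
    have h2 := twS_succ' σ g r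
    rw [twS_succ, hN, hσr, mapGS_one, mapGS_sc, scS_central] at h2
    have h3 := mul_left_cancel h2
    have h4 := congrArg (fun z : ↥(GSp m F) => ((z.1 : GL _ F) : Matrix (Fin m ⊕ Fin m) (Fin m ⊕ Fin m) F)) h3
    have h4' : ((Units.map (σ : F →+* F) c⁻¹ : Fˣ) : F) • (1 : Matrix (Fin m ⊕ Fin m) (Fin m ⊕ Fin m) F) = ((c⁻¹ : Fˣ) : F) • 1 := by
      rw [← coe_sc, ← coe_sc]
      exact h4
    have h5 := congrFun (congrFun h4' (Sum.inl ⟨0, hm⟩)) (Sum.inl ⟨0, hm⟩)
    simp at h5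
    exact inv_injective (by simpa using h5)
  obtain ⟨a, ha0, ha⟩ := nrm_surj σ hr _ c.ne_zero hfix
  let u : Fˣ := Units.mk0 a ha0
  have h6 : twS σ (g * scS u) r = 1 := by
    rw [twS_sc, hN]
    have h7 : Units.mk0 (nrm σ r (u : F)) (nrm_ne_zero σ r u.ne_zero) = c := by
      apply Units.ext
      exact ha
    rw [h7, ← scS_mul, inv_mul_cancel, scS_one]
  obtain ⟨k₁, hk₁⟩ := cocycle σ hr hr0 _ h6
  obtain ⟨k, hk⟩ := lift_GSp hm σ _ k₁ hk₁
  refine ⟨k, ?_⟩
  have h8 : g * scS u = k * (mapGS σ k)⁻¹ := eq_mul_inv_of_mul_eq hk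
  have h9 : cA g = cA k * (cA (mapGS σ k))⁻¹ := by
    have e1 : cA (g * scS u) = cA g := cA_scalar g u
    rw [← e1, h8, cA_mul, cA_inv]
  rw [h9, mul_assoc, mul_assoc]
  congr 1
  have h10 := field_conj σ k
  rw [inv_mul_eq_iff_eq_mul, ← mul_assoc, ← h10, mul_assoc, mul_inv_cancel, mul_one]

end Cfsg.Agent.Lib.KS71.PSpTwist
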