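/-
Conjugacy, centralisers and class counts for field automorphisms of `PSp_{2m}(F)`.
-/
import Mathlib
import Cfsg.Agent.Lib.KS71.PSpTwist
import Cfsg.Agent.Lib.KS71.PSLCent

set_option autoImplicit false

namespace Cfsg.Agent.Lib.KS71.PSpClass

open Matrix Cfsg Cfsg.Geo
open Cfsg.Agent.Lib.Classical.SympForm Cfsg.Agent.Lib.Classical.SympSimple
open Cfsg.Agent.Lib.KS71.PSpCore Cfsg.Agent.Lib.KS71.PSpGroup Cfsg.Agent.Lib.KS71.PSpTwist
open Cfsg.Agent.Lib.KS71.PSpCard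
open Cfsg.Agent.Lib.KS71.Speiser Cfsg.Agent.Lib.KS71.ClassSplit
open Cfsg.Agent.Lib.KS71.PSLClassConj (conj_orderOf)
open Cfsg.Agent.Lib.KS71.PSLCent (FixU mem_FixU inn_normal card_FixU card_units_F order_dvd exists_embed)

variable {F : Type*} [Field F] {m : ℕ}

theorem eq_cA_of_induced {g : GL (Fin m ⊕ Fin m) F} (hg : g ∈ GSp m F) {β : MulAut (PSp m F)}
    (h : IsInducedBySemilinearPSp g (RingEquiv.refl F) β) : β = cA ⟨g, hg⟩ := by
  refine MulEquiv.ext fun x => ?_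
  obtain ⟨s, rfl⟩ := mkS_surj x
  exact h s (conjSp g hg s) (by rw [coe_conjSp]; rfl)

theorem isInner (g : ↥(GSp m F)) : IsInnerDiagonalAutPSp (cA g) := by
  refine ⟨g.1, g.2, fun s s' h => ?_⟩
  apply mkS_congr (s := conjSp g.1 g.2 s) (t := s')
  rw [coe_conjSp, h]
  rfl

theorem mem_inndiag_iff {β : MulAut (PSp m F)} : β ∈ inndiagPSp m F ↔ ∃ g : ↥(GSp m F), β = cA g := by
  constructor
  · intro h
    have h1 : inndiagPSp m F ≤ (conjHom (m := m) (F := F)).range := by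
      apply (Subgroup.closure_le _).2
      rintro β ⟨g, hg, hβ⟩
      exact ⟨⟨g, hg⟩, (eq_cA_of_induced hg hβ).symm⟩
    obtain ⟨g, rfl⟩ := h1 h
    exact ⟨g, rfl⟩
  · rintro ⟨g, rfl⟩
    exact Subgroup.subset_closure (isInner g)

theorem range_eq : (conjHom (m := m) (F := F)).range = inndiagPSp m F := by
  ext β
  rw [mem_inndiag_iff]
  constructor
  · rintro ⟨g, rfl⟩
    exact ⟨g, rfl⟩
  · rintro ⟨g, rfl⟩
    exact ⟨g, rfl⟩

theorem conj_mkS (s : Sp m F) : MulAut.conj (mkS s) = cA (spToGS s) := by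
  refine MulEquiv.ext fun x => ?_
  obtain ⟨t, rfl⟩ := mkS_surj x
  show mkS (s * t * s⁻¹) = mkS (conjSp _ _ t)
  apply mkS_congr
  rw [coe_conjSp]
  rfl

theorem Inn_eq (hm : 1 ≤ m) : (mult hm (F := F)).ker.map conjHom = Cfsg.Inn (PSp m F) := by
  ext β
  constructor
  · rintro ⟨g, hg, rfl⟩
    have h1 := (mem_ker_mult_iff hm g).1 hg
    let s : Sp m F := ⟨_, h1⟩
    have hs : spToGS s = g := by
      apply Subtype.ext
      apply Units.ext
      rfl
    refine ⟨mkS s, ?_⟩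
    rw [conj_mkS, hs]
    rfl
  · rintro ⟨y, rfl⟩
    obtain ⟨s, rfl⟩ := mkS_surj y
    refine ⟨spToGS s, ?_, ?_⟩
    · exact (mem_ker_mult_iff hm _).2 s.2
    · rw [conj_mkS]
      rfl

theorem count_eq (hm : 1 ≤ m) (x : MulAut (PSp m F)) :
    Cfsg.splitClassCount (inndiagPSp m F) (Cfsg.Inn (PSp m F)) x =
      Nat.card (Fˣ ⧸ (((Subgroup.centralizer {x}).comap (conjHom (m := m) (F := F))).map (mult hm))) := by
  rw [← range_eq, ← Inn_eq hm]
  exact split_count _ _ (mult_surj hm) x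

theorem mult_scS (hm : 1 ≤ m) (c : Fˣ) : mult hm (scS c : ↥(GSp m F)) = c ^ 2 := by
  apply factor_unique hm (mult_spec hm (scS c))
  intro u v
  have h : ∀ w : Fin m ⊕ Fin m → F, (((scS c : ↥(GSp m F)).1 : GL _ F) : Matrix (Fin m ⊕ Fin m) (Fin m ⊕ Fin m) F) *ᵥ w = (c : F) • w := by
    intro w
    show ((sc c : GL (Fin m ⊕ Fin m) F) : Matrix (Fin m ⊕ Fin m) (Fin m ⊕ Fin m) F) *ᵥ w = _
    rw [coe_sc, Matrix.smul_mulVec, Matrix.one_mulVec]
  rw [h, h, form_smul_left, form_smul_right]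
  push_cast
  ring

theorem cA_scS (c : Fˣ) : cA (scS c : ↥(GSp m F)) = 1 := by
  have := cA_scalar (1 : ↥(GSp m F)) c
  rw [one_mul, cA_one] at this
  exact this

theorem mult_mapGS (hm : 1 ≤ m) (σ : F ≃+* F) (g : ↥(GSp m F)) :
    mult hm (mapGS σ g) = Units.map (σ : F →+* F).toMonoidHom (mult hm g) := by
  apply factor_unique hm (mult_spec hm (mapGS σ g))
  intro u v
  have hu : u = vσ σ (vσ σ.symm u) := (vσ_symm σ u).symm
  have hv : v = vσ σ (vσ σ.symm v) := (vσ_symm σ v).symm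
  rw [hu, hv, coe_mapGS, coe_mapGL, map_mulVec_vσ, map_mulVec_vσ, form_vσ, form_vσ, mult_spec hm g, map_mul]
  rfl

theorem mem_comap_iff (g : ↥(GSp m F)) (X : MulAut (PSp m F)) :
    g ∈ (Subgroup.centralizer {X}).comap (conjHom (m := m) (F := F)) ↔ cA g * X = X * cA g := by
  rw [Subgroup.mem_comap, Subgroup.mem_centralizer_iff]
  constructor
  · intro h
    exact (h X rfl).symm
  · rintro h _ rfl
    exact h.symm

theorem inndiag_le_Inn_char2 [Fintype F] (h2 : (2 : F) = 0) (hm : 1 ≤ m) {β : MulAut (PSp m F)}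
    (hβ : β ∈ inndiagPSp m F) : β ∈ Cfsg.Inn (PSp m F) := by
  obtain ⟨g, rfl⟩ := mem_inndiag_iff.1 hβ
  have hc : ringChar F = 2 := by
    obtain ⟨p, hp⟩ := CharP.exists F
    have hpp : p.Prime := CharP.char_is_prime F p
    have h3 : p ∣ 2 := (CharP.cast_eq_zero_iff F p 2).1 (by exact_mod_cast h2)
    have h4 : p = 2 := (Nat.prime_dvd_prime_iff_eq hpp Nat.prime_two).1 h3
    rw [← h4]
    exact ringChar.eq F p
  obtain ⟨a, ha⟩ := FiniteField.isSquare_of_char_two hc ((mult hm g : Fˣ) : F)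
  have ha0 : a ≠ 0 := by
    rintro rfl
    rw [mul_zero] at ha
    exact (mult hm g).ne_zero ha
  let u : Fˣ := Units.mk0 a ha0
  rw [← Inn_eq hm]
  refine ⟨g * scS u⁻¹, ?_, ?_⟩
  · rw [SetLike.mem_coe, MonoidHom.mem_ker, map_mul, mult_scS]
    apply Units.ext
    rw [Units.val_mul, ha]
    simp [u]
    field_simp
  · exact cA_scalar g u⁻¹

theorem inn_le_inndiag (hm : 1 ≤ m) : Cfsg.Inn (PSp m F) ≤ inndiagPSp m F := by
  rw [← Inn_eq hm, ← range_eq]
  exact Subgroup.map_le_range _ _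

/-- The inner-diagonal group is normal in the automorphism group. -/
theorem inndiag_normal [Fintype F] (hm : 2 ≤ m) (α δ : MulAut (PSp m F)) (hδ : δ ∈ inndiagPSp m F) :
    α * δ * α⁻¹ ∈ inndiagPSp m F := by
  by_cases h2 : (2 : F) = 0
  · exact inn_le_inndiag (by omega) (inn_normal α δ (inndiag_le_Inn_char2 h2 (by omega) hδ))
  · obtain ⟨p, hp⟩ := CharP.exists F
    have hpp : p.Prime := CharP.char_is_prime F p
    haveI : Fact p.Prime := ⟨hpp⟩
    have h4 : m = 2 → p ≠ 2 := by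
      intro _ hp2
      subst hp2
      exact h2 (by exact_mod_cast CharP.cast_eq_zero F 2)
    obtain ⟨x, rfl⟩ := exists_Φ₀_of_T hm α (fun y hy => Cfsg.Agent.Lib.KS71.PSpTInv.isT_map hm h4 α hy)
    obtain ⟨h, rfl⟩ := mem_inndiag_iff.1 hδ
    refine mem_inndiag_iff.2 ⟨rep x.1 * mapGS x.2 h * (rep x.1)⁻¹, ?_⟩
    show cA (rep x.1) * fA x.2 * cA h * (cA (rep x.1) * fA x.2)⁻¹ = _
    rw [cA_mul, cA_mul, cA_inv, mul_assoc (cA _) (fA _) (cA h), field_conj]
    group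

theorem eq_field_of_isStd {σ : F ≃+* F} {β : MulAut (PSp m F)} (h : IsStdFieldAutPSp σ β) : β = fA σ := by
  refine MulEquiv.ext fun x => ?_
  obtain ⟨s, rfl⟩ := mkS_surj x
  exact h s (fieldSp σ s) rfl

theorem orderOf_field (hm : 1 ≤ m) (σ : F ≃+* F) : orderOf (fA (m := m) σ) = orderOf σ :=
  orderOf_injective (fieldHom (m := m) (F := F)) (fA_injective hm) σ

/-- Finishing argument: transport the core statement along a conjugation. -/
theorem transport [Fintype F] (hm : 2 ≤ m) (x δ α X : MulAut (PSp m F)) {r : ℕ}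
    (hαx : α * x * α⁻¹ = X) (hδ : δ ∈ inndiagPSp m F)
    (hcore : ∀ g : ↥(GSp m F), (cA g * X) ^ r = 1 → ∃ k : ↥(GSp m F), cA g * X = cA k * X * (cA k)⁻¹)
    (hord : (δ * x) ^ r = 1) : Cfsg.IsConjUnder (inndiagPSp m F) x (δ * x) := by
  have h1 := inndiag_normal hm α δ hδ
  obtain ⟨g, hg⟩ := mem_inndiag_iff.1 h1
  have h2 : cA g * X = α * (δ * x) * α⁻¹ := by
    rw [← hg, ← hαx]
    group
  obtain ⟨k, hk⟩ := hcore g (by
    rw [h2, conj_pow, hord, mul_one, mul_inv_cancel])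
  have h3 : α⁻¹ * cA k * (α⁻¹)⁻¹ ∈ inndiagPSp m F :=
    inndiag_normal hm α⁻¹ _ (mem_inndiag_iff.2 ⟨k, rfl⟩)
  refine ⟨_, h3, ?_⟩
  rw [h2] at hk
  have h4 : δ * x = α⁻¹ * (α * (δ * x) * α⁻¹) * α := by group
  rw [h4, hk, ← hαx]
  group

/-- The conjugacy statement. -/
theorem main_conj [Fintype F] (hm : 2 ≤ m) (x δ : MulAut (PSp m F)) (hx : IsFieldAutClassPSp x)
    {r : ℕ} (hxr : orderOf x = r) (hδ : δ ∈ inndiagPSp m F) :
    orderOf (δ * x) = r ↔ Cfsg.IsConjUnder (inndiagPSp m F) x (δ * x) := by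
  constructor
  · intro hy
    have hord : (δ * x) ^ r = 1 := by
      rw [← hy]
      exact pow_orderOf_eq_one _
    obtain ⟨α, σ, hσ, hstd⟩ := hx
    have h1 := eq_field_of_isStd hstd
    have hσr : orderOf σ = r := by
      rw [← orderOf_field (by omega : 1 ≤ m) σ, ← h1, conj_orderOf, hxr]
    exact transport hm x δ α _ h1 hδ (fun g hg => core_field (by omega) σ hσr g hg) hord
  · rintro ⟨h, -, hh⟩
    rw [hh, conj_orderOf, hxr]

/-! ### Centralisers -/

/-- Elements whose conjugation commutes with a field automorphism are scalar multiples of fixed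
matrices. -/
theorem cc_field [Finite F] (hm : 1 ≤ m) (σ : F ≃+* F) (g : ↥(GSp m F))
    (h : cA g * fA σ = fA σ * cA g) : ∃ b : Fˣ, mapGS σ (g * scS b) = g * scS b := by
  haveI : Finite (F ≃+* F) := Finite.of_injective (fun e : F ≃+* F => (e : F → F)) DFunLike.coe_injective
  have hr0 : 0 < orderOf σ := orderOf_pos σ
  have hσr : σ ^ orderOf σ = 1 := pow_orderOf_eq_one σ
  rw [field_conj] at h
  have h1 := mul_right_cancel h
  obtain ⟨c, hc⟩ := cA_inj hm h1
  have hc' : mapGS σ g = g * scS c := Subtype.ext hc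
  have hk : ∀ k, mapGS (σ ^ k) g = g * scS (Units.mk0 (nrm σ k (c : F)) (nrm_ne_zero σ k c.ne_zero)) := by
    intro k
    induction k with
    | zero =>
      have h3 : Units.mk0 (nrm σ 0 (c : F)) (nrm_ne_zero σ 0 c.ne_zero) = 1 := by
        apply Units.ext
        simp [nrm]
      rw [pow_zero, mapGS_one, h3, scS_one, mul_one]
    | succ k ih =>
      have h3 : Units.mk0 (nrm σ (k + 1) (c : F)) (nrm_ne_zero σ (k + 1) c.ne_zero) =
          c * Units.map (σ : F →+* F) (Units.mk0 (nrm σ k (c : F)) (nrm_ne_zero σ k c.ne_zero)) := by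
        apply Units.ext
        show nrm σ (k + 1) (c : F) = c * σ (nrm σ k (c : F))
        unfold nrm
        rw [Finset.prod_range_succ', map_prod]
        simp only [pow_zero]
        rw [mul_comm]
        congr 1
        refine Finset.prod_congr rfl fun i _ => ?_
        rw [pow_succ']
        rfl
      rw [pow_succ', ← mapGS_mapGS, ih, map_mul, mapGS_sc, hc', h3, scS_mul, mul_assoc]
  have h5 := hk (orderOf σ)
  rw [hσr, mapGS_one] at h5
  have h6 : (scS (Units.mk0 (nrm σ (orderOf σ) (c : F)) (nrm_ne_zero σ _ c.ne_zero)) : ↥(GSp m F)) = 1 :=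
    mul_eq_left.1 h5.symm
  have h7 : nrm σ (orderOf σ) (c : F) = 1 := by
    have h8 := congrArg (fun z : ↥(GSp m F) => ((z.1 : GL _ F) : Matrix (Fin m ⊕ Fin m) (Fin m ⊕ Fin m) F)) h6
    have h8' : ((Units.mk0 (nrm σ (orderOf σ) (c : F)) (nrm_ne_zero σ _ c.ne_zero) : Fˣ) : F) • (1 : Matrix (Fin m ⊕ Fin m) (Fin m ⊕ Fin m) F) = 1 := by
      rw [← coe_sc]
      exact h8
    have h9 := congrFun (congrFun h8' (Sum.inl ⟨0, hm⟩)) (Sum.inl ⟨0, hm⟩)
    simpa using h9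
  obtain ⟨b, hb0, hb⟩ := hilbert90 σ rfl hr0 _ h7
  refine ⟨Units.mk0 b hb0, ?_⟩
  rw [map_mul, mapGS_sc, hc', mul_assoc, ← scS_mul]
  congr 2
  apply Units.ext
  exact hb

theorem mapGS_diag (σ : F ≃+* F) (u : Fˣ) (hu : σ (u : F) = u) :
    mapGS σ (⟨diagG u, diagG_mem u⟩ : ↥(GSp m F)) = ⟨diagG u, diagG_mem u⟩ := by
  apply Subtype.ext
  apply Units.ext
  rw [coe_mapGS, coe_mapGL]
  refine Matrix.ext fun i j => ?_
  by_cases hij : i = j
  · subst hij
    rcases i with i | i <;> simp [diagG, hu]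
  · simp [diagG, Matrix.diagonal_apply, hij]

theorem mult_diag (hm : 1 ≤ m) (u : Fˣ) : mult hm (⟨diagG u, diagG_mem u⟩ : ↥(GSp m F)) = u :=
  factor_unique hm (mult_spec hm ⟨diagG u, diagG_mem u⟩) (diagG_form u)

theorem D_field [Finite F] (hm : 1 ≤ m) (σ : F ≃+* F) :
    ((Subgroup.centralizer {fA (m := m) σ}).comap (conjHom (m := m) (F := F))).map (mult hm) =
      FixU σ ⊔ (powMonoidHom 2 : Fˣ →* Fˣ).range := by
  apply le_antisymm
  · rintro _ ⟨g, hg, rfl⟩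
    have h1 := (mem_comap_iff g _).1 hg
    obtain ⟨b, hb⟩ := cc_field hm σ g h1
    have h2 : mult hm (g * scS b) ∈ FixU σ := by
      rw [mem_FixU]
      have h3 := mult_mapGS hm σ (g * scS b)
      rw [hb] at h3
      exact (congrArg Units.val h3).symm
    have h3 : mult hm g = mult hm (g * scS b) * (b⁻¹) ^ 2 := by
      rw [map_mul, mult_scS, inv_pow, mul_inv_cancel_right]
    rw [h3]
    exact Subgroup.mul_mem _ (Subgroup.mem_sup_left h2) (Subgroup.mem_sup_right ⟨b⁻¹, rfl⟩)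
  · apply sup_le
    · intro u hu
      refine ⟨⟨diagG u, diagG_mem u⟩, ?_, mult_diag hm u⟩
      rw [SetLike.mem_coe, mem_comap_iff, field_conj, mapGS_diag σ u hu]
    · rintro _ ⟨c, rfl⟩
      refine ⟨scS c, ?_, mult_scS hm c⟩
      rw [SetLike.mem_coe, mem_comap_iff, cA_scS, one_mul, mul_one]

section count

variable [Fintype F] {p f : ℕ} [Fact p.Prime]

theorem count_field (hF : Fintype.card F = p ^ f) (hm : 1 ≤ m) (σ : F ≃+* F) :
    Cfsg.splitClassCount (inndiagPSp m F) (Cfsg.Inn (PSp m F)) (fA σ) =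
      Nat.gcd 2 ((p ^ f - 1) / (p ^ (f / orderOf σ) - 1)) := by
  rw [count_eq hm, D_field hm, sup_comm]
  have h1 : FixU σ = (powMonoidHom ((p ^ f - 1) / (p ^ (f / orderOf σ) - 1)) : Fˣ →* Fˣ).range := by
    have h2 := subgroup_eq_range (FixU σ)
    rwa [card_FixU hF, card_units_F hF] at h2
  rw [h1]
  have hd : (p ^ f - 1) / (p ^ (f / orderOf σ) - 1) ∣ Nat.card Fˣ := by
    rw [card_units_F hF]
    apply Nat.div_dvd_of_dvd
    have h2 := Subgroup.card_subgroup_dvd_card (FixU σ)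
    rwa [card_FixU hF, card_units_F hF] at h2
  exact index_range_sup 2 _ hd

end count

theorem geom_parity (a : ℕ) (ha : Odd a) (r : ℕ) : (∑ i ∈ Finset.range r, a ^ i) % 2 = r % 2 := by
  induction r with
  | zero => simp
  | succ r ih =>
    rw [Finset.sum_range_succ, Nat.add_mod, ih]
    have : a ^ r % 2 = 1 := Nat.odd_iff.1 (ha.pow)
    rw [this]
    omega

/-- The arithmetic of the class count. -/
theorem arith {p f r : ℕ} (hp : p.Prime) (hf : 1 ≤ f) (hr0 : 0 < r) (hr : r ∣ f) :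
    Nat.gcd 2 ((p ^ f - 1) / (p ^ (f / r) - 1)) = Nat.gcd (Nat.gcd 2 (p ^ f - 1)) r := by
  have hfr : f / r * r = f := Nat.div_mul_cancel hr
  have hfr0 : 0 < f / r := Nat.div_pos (Nat.le_of_dvd (by omega) hr) hr0
  set q₀ := p ^ (f / r) with hq₀
  have hq : p ^ f = q₀ ^ r := by
    rw [hq₀, ← pow_mul, hfr]
  have hq₀2 : 2 ≤ q₀ := by
    calc 2 ≤ p := hp.two_le
      _ ≤ p ^ (f / r) := Nat.le_self_pow hfr0.ne' p
  rw [hq, ← Nat.geomSum_eq hq₀2 r]
  have hdvd : (∑ i ∈ Finset.range r, q₀ ^ i) ∣ q₀ ^ r - 1 := by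
    rw [Nat.geomSum_eq hq₀2 r]
    apply Nat.div_dvd_of_dvd
    simpa using Nat.sub_dvd_pow_sub_pow q₀ 1 r
  rcases Nat.even_or_odd p with hp2 | hp2
  · -- `p = 2`
    have hq₀e : Even q₀ := by
      rw [hq₀]
      exact hp2.pow_of_ne_zero hfr0.ne'
    have hqe : Even (q₀ ^ r) := hq₀e.pow_of_ne_zero hr0.ne'
    have hpos : 1 ≤ q₀ ^ r := Nat.one_le_pow _ _ (by omega)
    have hodd : Odd (q₀ ^ r - 1) := by
      obtain ⟨k, hk⟩ := hqe
      exact ⟨k - 1, by omega⟩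
    have h1 : Nat.gcd 2 (q₀ ^ r - 1) = 1 := (Nat.coprime_two_left.2 hodd)
    have h2 : Odd (∑ i ∈ Finset.range r, q₀ ^ i) := Odd.of_dvd_nat hodd hdvd
    rw [h1, Nat.gcd_one_left, Nat.coprime_two_left.2 h2]
  · have hq₀o : Odd q₀ := hp2.pow
    have hqo : Odd (q₀ ^ r) := hq₀o.pow
    have hev : Even (q₀ ^ r - 1) := by
      obtain ⟨k, hk⟩ := hqo
      exact ⟨k, by omega⟩
    have h1 : Nat.gcd 2 (q₀ ^ r - 1) = 2 := Nat.gcd_eq_left hev.two_dvd
    rw [h1]
    have h2 := geom_parity q₀ hq₀o r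
    rw [Nat.gcd_rec 2, Nat.gcd_rec 2 r, h2]

/-- The centraliser of a standard field automorphism. -/
theorem cent_iso [Finite F] (hm : 1 ≤ m) (σ : F ≃+* F) {F₀ : Type*} [Field F₀] (ι₀ : F₀ →+* F)
    (hι₀ : ∀ x, σ x = x ↔ x ∈ Set.range ι₀) :
    Nonempty (↥(inndiagPSp m F ⊓ Subgroup.centralizer {fA (m := m) σ}) ≃* PGSp m F₀) := by
  classical
  let mapι₁ : GL (Fin m ⊕ Fin m) F₀ →* GL (Fin m ⊕ Fin m) F := Matrix.GeneralLinearGroup.map ι₀
  have hmapι₁ : ∀ u : GL (Fin m ⊕ Fin m) F₀, ((mapι₁ u : GL (Fin m ⊕ Fin m) F) : Matrix (Fin m ⊕ Fin m) (Fin m ⊕ Fin m) F) =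
      (u : Matrix (Fin m ⊕ Fin m) (Fin m ⊕ Fin m) F₀).map ι₀ := fun u => rfl
  have hmemι : ∀ u : ↥(GSp m F₀), mapι₁ u.1 ∈ GSp m F := by
    intro u
    obtain ⟨c, hc⟩ := exists_factor u.2
    refine ⟨Units.map (ι₀ : F₀ →* F) c, ?_⟩
    rw [mul_form_eq_iff]
    have h1 := (mul_form_eq_iff _ _).1 hc
    have h2 := congrArg (fun X => X.map ι₀) h1
    beta_reduce at h2
    rw [Matrix.map_mul, Matrix.map_mul, J_map, Matrix.map_smul' ι₀ _ _ (map_mul ι₀), J_map] at h2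
    exact h2
  let mapι : ↥(GSp m F₀) →* ↥(GSp m F) :=
    { toFun := fun u => ⟨mapι₁ u.1, hmemι u⟩
      map_one' := Subtype.ext (map_one mapι₁)
      map_mul' := fun a b => Subtype.ext (map_mul mapι₁ a.1 b.1) }
  let base : ↥(GSp m F₀) →* MulAut (PSp m F) := conjHom.comp mapι
  have hfix : ∀ u : ↥(GSp m F₀), mapGS σ (mapι u) = mapι u := by
    intro u
    apply Subtype.ext
    apply Units.ext
    rw [coe_mapGS, coe_mapGL]
    refine Matrix.ext fun i j => ?_
    exact (hι₀ _).2 ⟨_, rfl⟩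
  have hbase : ∀ u, base u ∈ inndiagPSp m F ⊓ Subgroup.centralizer {fA (m := m) σ} := by
    intro u
    refine ⟨mem_inndiag_iff.2 ⟨mapι u, rfl⟩, ?_⟩
    have : mapι u ∈ (Subgroup.centralizer {fA (m := m) σ}).comap (conjHom (m := m) (F := F)) := by
      rw [mem_comap_iff, field_conj, hfix]
    exact this
  let Ψ : ↥(GSp m F₀) →* ↥(inndiagPSp m F ⊓ Subgroup.centralizer {fA (m := m) σ}) :=
    base.codRestrict _ hbase
  have hsurj : Function.Surjective Ψ := by
    rintro ⟨δ, hδ₁, hδ₂⟩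
    obtain ⟨g, rfl⟩ := mem_inndiag_iff.1 hδ₁
    have h1 : g ∈ (Subgroup.centralizer {fA (m := m) σ}).comap (conjHom (m := m) (F := F)) := hδ₂
    rw [mem_comap_iff] at h1
    obtain ⟨b, hb⟩ := cc_field hm σ g h1
    set g' := g * scS b with hg'
    have hent : ∀ i j, ∃ y : F₀, ι₀ y = ((g'.1 : GL _ F) : Matrix (Fin m ⊕ Fin m) (Fin m ⊕ Fin m) F) i j := by
      intro i j
      apply (hι₀ _).1
      have := congrArg (fun z : ↥(GSp m F) => ((z.1 : GL _ F) : Matrix (Fin m ⊕ Fin m) (Fin m ⊕ Fin m) F) i j) hb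
      exact this
    choose pre hpre using hent
    let u₀ : Matrix (Fin m ⊕ Fin m) (Fin m ⊕ Fin m) F₀ := Matrix.of pre
    have hmap : u₀.map ι₀ = ((g'.1 : GL _ F) : Matrix (Fin m ⊕ Fin m) (Fin m ⊕ Fin m) F) := by
      refine Matrix.ext fun i j => ?_
      exact hpre i j
    have hκ : σ ((mult hm g' : Fˣ) : F) = (mult hm g' : Fˣ) := by
      have h3 := mult_mapGS hm σ g'
      rw [hb] at h3
      exact (congrArg Units.val h3).symm
    obtain ⟨κ₀, hκ₀⟩ := (hι₀ _).1 hκ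
    have hκ₀0 : κ₀ ≠ 0 := by
      rintro rfl
      rw [map_zero] at hκ₀
      exact (mult hm g').ne_zero hκ₀.symm
    have hMat : u₀ᵀ * Matrix.J (Fin m) F₀ * u₀ = κ₀ • Matrix.J (Fin m) F₀ := by
      have hinj : Function.Injective (fun X : Matrix (Fin m ⊕ Fin m) (Fin m ⊕ Fin m) F₀ => X.map ι₀) :=
        Matrix.map_injective ι₀.injective
      apply hinj
      beta_reduce
      rw [Matrix.map_mul, Matrix.map_mul, J_map, Matrix.map_smul' ι₀ _ _ (map_mul ι₀), J_map, hκ₀]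
      rw [Matrix.transpose_map, hmap]
      exact GSp_mat hm g'
    haveI : Finite F₀ := Finite.of_injective ι₀ ι₀.injective
    letI : Fintype F₀ := Fintype.ofFinite _
    obtain ⟨k₀, hk₀⟩ := exists_GSp_of_mat hm u₀ hκ₀0 hMat
    refine ⟨k₀, ?_⟩
    apply Subtype.ext
    have h3 : mapι k₀ = g' := by
      apply Subtype.ext
      apply Units.ext
      show (k₀.1 : Matrix (Fin m ⊕ Fin m) (Fin m ⊕ Fin m) F₀).map ι₀ = _
      rw [hk₀]
      exact hmap
    show cA (mapι k₀) = _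
    rw [h3]
    exact cA_scalar g b
  have hker : Ψ.ker = (Geo.scalars (Fin m ⊕ Fin m) F₀).subgroupOf (GSp m F₀) := by
    ext u
    have h1 : u ∈ Ψ.ker ↔ cA (mapι u) = 1 := by
      rw [MonoidHom.mem_ker]
      constructor
      · intro h
        exact congrArg Subtype.val h
      · intro h
        exact Subtype.ext h
    rw [h1, Subgroup.mem_subgroupOf, Geo.mem_scalars_iff]
    constructor
    · intro h
      have h2 : cA (mapι u) = cA 1 := by rw [h, cA_one]
      obtain ⟨c, hc⟩ := cA_inj hm h2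
      let i₀ : Fin m ⊕ Fin m := Sum.inl ⟨0, hm⟩
      have hc1 : (1 : GL (Fin m ⊕ Fin m) F) = (mapι u).1 * sc c := hc
      have hc2 : (mapι u).1 = sc c⁻¹ := by
        have e : (sc c⁻¹ : GL (Fin m ⊕ Fin m) F) = (sc c)⁻¹ := map_inv _ c
        rw [e]
        exact eq_inv_of_mul_eq_one_left hc1.symm
      have hent : ∀ i j, ι₀ ((u.1 : Matrix (Fin m ⊕ Fin m) (Fin m ⊕ Fin m) F₀) i j) = if i = j then ((c⁻¹ : Fˣ) : F) else 0 := by
        intro i j
        have h3 := congrArg (fun z : GL (Fin m ⊕ Fin m) F => (z : Matrix (Fin m ⊕ Fin m) (Fin m ⊕ Fin m) F) i j) hc2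
        simp only [coe_sc] at h3
        have h4 : ((mapι u).1 : Matrix (Fin m ⊕ Fin m) (Fin m ⊕ Fin m) F) i j = ι₀ ((u.1 : Matrix (Fin m ⊕ Fin m) (Fin m ⊕ Fin m) F₀) i j) := rfl
        rw [h4] at h3
        rw [h3]
        by_cases hij : i = j
        · subst hij
          simp
        · simp [hij]
      have hne : (u.1 : Matrix (Fin m ⊕ Fin m) (Fin m ⊕ Fin m) F₀) i₀ i₀ ≠ 0 := by
        intro h0
        have e2 := hent i₀ i₀
        rw [h0, map_zero, if_pos rfl] at e2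
        exact (c⁻¹).ne_zero e2.symm
      refine ⟨Units.mk0 _ hne, ?_⟩
      refine Matrix.ext fun i j => ?_
      by_cases hij : i = j
      · subst hij
        have e1 := hent i i
        have e2 := hent i₀ i₀
        simp only [if_true] at e1 e2
        have e3 : (u.1 : Matrix (Fin m ⊕ Fin m) (Fin m ⊕ Fin m) F₀) i i = (u.1 : Matrix (Fin m ⊕ Fin m) (Fin m ⊕ Fin m) F₀) i₀ i₀ :=
          ι₀.injective (e1.trans e2.symm)
        simp [e3]
      · have e1 := hent i j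
        rw [if_neg hij] at e1
        have e2 : (u.1 : Matrix (Fin m ⊕ Fin m) (Fin m ⊕ Fin m) F₀) i j = 0 := by
          apply ι₀.injective
          rw [e1, map_zero]
        simp [e2, hij]
    · rintro ⟨v, hv⟩
      let w : Fˣ := Units.map (ι₀ : F₀ →* F) v
      have h3 : mapι u = scS w := by
        apply Subtype.ext
        apply Units.ext
        show (u.1 : Matrix (Fin m ⊕ Fin m) (Fin m ⊕ Fin m) F₀).map ι₀ = ((sc w : GL (Fin m ⊕ Fin m) F) : Matrix (Fin m ⊕ Fin m) (Fin m ⊕ Fin m) F)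
        rw [hv, coe_sc]
        refine Matrix.ext fun i j => ?_
        by_cases hij : i = j
        · subst hij
          simp [w]
        · simp [hij]
      rw [h3, cA_scS]
  let e1 := QuotientGroup.quotientKerEquivOfSurjective Ψ hsurj
  let e2 : (↥(GSp m F₀) ⧸ Ψ.ker) ≃* PGSp m F₀ := QuotientGroup.quotientMulEquivOfEq hker
  exact ⟨e1.symm.trans e2⟩

end Cfsg.Agent.Lib.KS71.PSpClass
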