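/-
An abstract form of the rank one argument for characters of `p`-defect zero.

Let `V` be an irreducible complex representation of `G` whose character vanishes on the non-trivial elements of `U`,
with `U = U_j X` where `X` is a root subgroup and the reflection `s` normalizes `U_j`.  The space `V^{U_j}` has
dimension `q m` where `m = dim V^U`, and it is spanned by `V^U` and its images by the `x(t) s`.  Comparing dimensions
determines all linear relations between these, which gives the action of the torus on `V^U`.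
-/
import Mathlib

set_option autoImplicit false
set_option linter.unusedSectionVars false
set_option linter.unusedVariables false
set_option linter.style.haveILetI false

namespace Cfsg.Agent.Lib.KS71.StDefectAbs

open Module

section fix

variable {G : Type*} [Group G] {V : Type*} [AddCommGroup V] [Module ℂ V] (ρ : Representation ℂ G V)

/-- The vectors fixed by a subgroup. -/
def Fx (K : Subgroup G) : Submodule ℂ V where
  carrier := {v | ∀ k ∈ K, ρ k v = v}
  add_mem' := fun {a b} ha hb k hk => by rw [map_add, ha k hk, hb k hk]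
  zero_mem' := fun k _ => map_zero _
  smul_mem' := fun c v hv k hk => by rw [map_smul, hv k hk]

lemma mem_Fx {K : Subgroup G} {v : V} : v ∈ Fx ρ K ↔ ∀ k ∈ K, ρ k v = v := Iff.rfl

lemma Fx_anti {K L : Subgroup G} (hKL : K ≤ L) : Fx ρ L ≤ Fx ρ K := fun _ hv k hk => hv k (hKL hk)

/-- The average over a subgroup. -/
noncomputable def avg (K : Subgroup G) [Fintype K] : V →ₗ[ℂ] V := (Nat.card K : ℂ)⁻¹ • ∑ k : K, ρ k

variable {K : Subgroup G} [Fintype K]

lemma avg_apply (v : V) : avg ρ K v = (Nat.card K : ℂ)⁻¹ • ∑ k : K, ρ k v := by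
  simp [avg, LinearMap.sum_apply]

lemma card_ne_zero : (Nat.card K : ℂ) ≠ 0 := by
  haveI : Finite K := Finite.of_fintype _
  exact Nat.cast_ne_zero.mpr Nat.card_pos.ne'

lemma avg_mem (v : V) : avg ρ K v ∈ Fx ρ K := by
  intro k₀ hk₀
  rw [avg_apply, map_smul, map_sum]
  congr 1
  have e : ∀ k : K, ρ k₀ (ρ k v) = ρ ((⟨k₀, hk₀⟩ * k : K) : G) v := by
    intro k
    rw [Subgroup.coe_mul, map_mul, Module.End.mul_apply]
  simp_rw [e]
  exact Equiv.sum_comp (Equiv.mulLeft (⟨k₀, hk₀⟩ : K)) (fun k : K => ρ (k : G) v)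

lemma avg_of_mem {v : V} (hv : v ∈ Fx ρ K) : avg ρ K v = v := by
  rw [avg_apply]
  have e : ∀ k : K, ρ k v = v := fun k => hv k k.2
  simp_rw [e]
  rw [Finset.sum_const, Finset.card_univ, ← Nat.card_eq_fintype_card, ← Nat.cast_smul_eq_nsmul ℂ, smul_smul,
    inv_mul_cancel₀ card_ne_zero, one_smul]

lemma avg_smul {k₀ : G} (hk₀ : k₀ ∈ K) (v : V) : avg ρ K (ρ k₀ v) = avg ρ K v := by
  rw [avg_apply, avg_apply]
  congr 1
  have e : ∀ k : K, ρ k (ρ k₀ v) = ρ ((k * ⟨k₀, hk₀⟩ : K) : G) v := by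
    intro k
    rw [Subgroup.coe_mul, map_mul, Module.End.mul_apply]
  simp_rw [e]
  exact Equiv.sum_comp (Equiv.mulRight (⟨k₀, hk₀⟩ : K)) (fun k : K => ρ (k : G) v)

lemma avg_conj {g : G} (hg : ∀ k ∈ K, g * k * g⁻¹ ∈ K) (v : V) : ρ g (avg ρ K v) = avg ρ K (ρ g v) := by
  rw [avg_apply, avg_apply, map_smul, map_sum]
  congr 1
  let φ : K → K := fun k => ⟨g * k * g⁻¹, hg k k.2⟩
  have hφ : Function.Injective φ := by
    intro a b e
    have e' : g * (a : G) * g⁻¹ = g * (b : G) * g⁻¹ := congrArg Subtype.val e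
    apply Subtype.ext
    simpa using e'
  have hb : Function.Bijective φ := hφ.bijective_of_finite
  have e : ∀ k : K, ρ g (ρ k v) = ρ (φ k : G) (ρ g v) := by
    intro k
    rw [← Module.End.mul_apply, ← Module.End.mul_apply, ← map_mul, ← map_mul]
    congr 2
    simp [φ]
  simp_rw [e]
  exact (Equiv.ofBijective φ hb).sum_comp (fun k : K => ρ (k : G) (ρ g v))

variable [FiniteDimensional ℂ V]

/-- The dimension of the space of fixed vectors. -/
lemma finrank_Fx : (finrank ℂ (Fx ρ K) : ℂ) = (Nat.card K : ℂ)⁻¹ * ∑ k : K, ρ.character k := by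
  have hp : LinearMap.IsProj (Fx ρ K) (avg ρ K) := ⟨avg_mem ρ, fun _ hv => avg_of_mem ρ hv⟩
  rw [← hp.trace, avg, map_smul, map_sum, smul_eq_mul]
  rfl

lemma character_one : ρ.character (1 : G) = (finrank ℂ V : ℂ) := by
  rw [Representation.character, map_one, LinearMap.trace_one]

lemma finrank_Fx_of_vanish (hK : ∀ k ∈ K, k ≠ 1 → ρ.character k = 0) :
    finrank ℂ (Fx ρ K) * Nat.card K = finrank ℂ V := by
  classical
  have h1 := finrank_Fx ρ (K := K)
  have h3 : ∑ k : K, ρ.character k = ρ.character (1 : G) := by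
    rw [Finset.sum_eq_single (1 : K)]
    · rfl
    · intro k _ hk
      exact hK k k.2 (fun e => hk (Subtype.ext e))
    · simp
  rw [h3, character_one] at h1
  have h4 : ((finrank ℂ (Fx ρ K) * Nat.card K : ℕ) : ℂ) = (finrank ℂ V : ℂ) := by
    rw [Nat.cast_mul, h1, mul_comm _ (Nat.card K : ℂ), ← mul_assoc, mul_inv_cancel₀ card_ne_zero, one_mul]
  exact_mod_cast h4

end fix

section irr

variable {G : Type*} [Group G] {V : Type*} [AddCommGroup V] [Module ℂ V] (ρ : Representation ℂ G V)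

/-- The images of a non-zero subspace span an irreducible representation. -/
lemma span_orbit_eq_top [ρ.IsIrreducible] (W : Submodule ℂ V) (hW : W ≠ ⊥) :
    Submodule.span ℂ {v | ∃ g, ∃ f ∈ W, v = ρ g f} = ⊤ := by
  let K : Subrepresentation ρ :=
    { toSubmodule := Submodule.span ℂ {v | ∃ g, ∃ f ∈ W, v = ρ g f}
      apply_mem_toSubmodule := by
        intro g v hv
        have hle : Submodule.span ℂ {v | ∃ g, ∃ f ∈ W, v = ρ g f} ≤
            (Submodule.span ℂ {v | ∃ g, ∃ f ∈ W, v = ρ g f}).comap (ρ g) := by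
          rw [Submodule.span_le]
          rintro _ ⟨g', f, hf, rfl⟩
          apply Submodule.subset_span
          refine ⟨g * g', f, hf, ?_⟩
          rw [map_mul, Module.End.mul_apply]
        exact hle hv }
  rcases eq_bot_or_eq_top K with hK | hK
  · exfalso
    apply hW
    rw [eq_bot_iff]
    intro f hf
    have h1 : f ∈ K.toSubmodule := by
      apply Submodule.subset_span
      exact ⟨1, f, hf, by simp⟩
    rw [hK] at h1
    exact h1
  · exact congrArg Subrepresentation.toSubmodule hK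

end irr

section conj

variable {G : Type*} [Group G] [Finite G]

/-- In a finite group, an element mapping a subgroup into itself normalizes it. -/
lemma conj_inv_mem {K : Subgroup G} {g : G} (hg : ∀ c ∈ K, g * c * g⁻¹ ∈ K) : ∀ c ∈ K, g⁻¹ * c * g ∈ K := by
  have h1 : ∀ n : ℕ, ∀ c ∈ K, g ^ n * c * (g ^ n)⁻¹ ∈ K := by
    intro n
    induction n with
    | zero => intro c hc; simpa using hc
    | succ n ih =>
      intro c hc
      have := hg _ (ih c hc)
      have e : g ^ (n + 1) * c * (g ^ (n + 1))⁻¹ = g * (g ^ n * c * (g ^ n)⁻¹) * g⁻¹ := by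
        rw [pow_succ']
        group
      rw [e]
      exact this
  intro c hc
  have hn : 0 < orderOf g := orderOf_pos g
  have h3 := h1 (orderOf g - 1) c hc
  have e1 : g ^ (orderOf g - 1) = g⁻¹ := by
    apply eq_inv_of_mul_eq_one_left
    rw [← pow_succ, Nat.sub_add_cancel hn, pow_orderOf_eq_one]
  rw [e1, inv_inv] at h3
  exact h3

end conj

variable {G : Type*} [Group G] [Finite G] {V : Type*} [AddCommGroup V] [Module ℂ V] [FiniteDimensional ℂ V]
variable (ρ : Representation ℂ G V)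
variable {F : Type*} [Field F] [Fintype F]

/-- The data of the argument. -/
structure Sys (U Uj B : Subgroup G) (x h : F → G) (s : G) : Prop where
  x_add : ∀ a b, x (a + b) = x a * x b
  x_mem : ∀ t, x t ∈ U
  Uj_le : Uj ≤ U
  U_form : ∀ u ∈ U, ∃ c ∈ Uj, ∃ t, u = c * x t
  x_norm : ∀ t, ∀ c ∈ Uj, x t * c * (x t)⁻¹ ∈ Uj
  s_norm : ∀ c ∈ Uj, s * c * s⁻¹ ∈ Uj
  B_norm : ∀ b ∈ B, ∀ u ∈ U, b * u * b⁻¹ ∈ U
  h_mem : ∀ t, t ≠ 0 → h t ∈ B
  h_one : h 1 = 1
  ss_mem : s * s ∈ B
  rel : ∀ t, t ≠ 0 → s * x t * s = x (-t⁻¹) * s * (h t * (s * s)) * x (-t⁻¹)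
  card_U : Nat.card U = Fintype.card F * Nat.card Uj
  bruhat : ∀ g, ∃ t, ∃ c ∈ Uj, ∃ y, ∃ b ∈ B, (∀ u, y⁻¹ * x u * y ∈ U) ∧
    (g = x t * c * y * b ∨ g = x t * c * s * y * b)

/-- The map from `V^U` and copies of it. -/
noncomputable def Phi (U : Subgroup G) (x : F → G) (s : G) : (↥(Fx ρ U) × (F → ↥(Fx ρ U))) →ₗ[ℂ] V where
  toFun p := (p.1 : V) + ∑ t, ρ (x t * s) (p.2 t : V)
  map_add' a b := by
    simp only [Prod.fst_add, Prod.snd_add, Pi.add_apply, Submodule.coe_add, map_add, Finset.sum_add_distrib]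
    abel
  map_smul' c a := by
    simp only [Prod.smul_fst, Prod.smul_snd, Pi.smul_apply, Submodule.coe_smul, map_smul, RingHom.id_apply, smul_add,
      Finset.smul_sum]

lemma Phi_apply (U : Subgroup G) (x : F → G) (s : G) (p : ↥(Fx ρ U) × (F → ↥(Fx ρ U))) :
    Phi ρ U x s p = (p.1 : V) + ∑ t, ρ (x t * s) (p.2 t : V) := rfl

/-- The operator `S`. -/
noncomputable def SS (x : F → G) (s : G) (f : V) : V := ∑ t, ρ (x t * s) f

variable {U Uj B : Subgroup G} {x h : F → G} {s : G} (hS : Sys U Uj B x h s)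

include hS

lemma x_zero : x 0 = 1 := by
  have := hS.x_add 0 0
  rw [add_zero] at this
  exact left_eq_mul.mp this

lemma x_inv (t : F) : (x t)⁻¹ = x (-t) := by
  apply inv_eq_of_mul_eq_one_right
  rw [← hS.x_add, add_neg_cancel, x_zero hS]

lemma mem_F0 {v : V} : v ∈ Fx ρ U ↔ v ∈ Fx ρ Uj ∧ ∀ t, ρ (x t) v = v := by
  constructor
  · intro hv
    exact ⟨Fx_anti ρ hS.Uj_le hv, fun t => hv _ (hS.x_mem t)⟩
  · rintro ⟨h1, h3⟩ u hu
    obtain ⟨c, hc, t, rfl⟩ := hS.U_form u hu
    rw [map_mul, Module.End.mul_apply, h3, h1 c hc]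

lemma B_pres {b : G} (hb : b ∈ B) {f : V} (hf : f ∈ Fx ρ U) : ρ b f ∈ Fx ρ U := by
  intro u hu
  have h1 := hS.B_norm b⁻¹ (Subgroup.inv_mem _ hb) u hu
  rw [inv_inv] at h1
  have e : u * b = b * (b⁻¹ * u * b) := by group
  rw [← Module.End.mul_apply, ← map_mul, e, map_mul, Module.End.mul_apply, hf _ h1]

lemma SS_mem {f : V} (hf : f ∈ Fx ρ U) : SS ρ x s f ∈ Fx ρ U := by
  rw [mem_F0 ρ hS]
  constructor
  · intro c hc
    rw [SS, map_sum]
    apply Finset.sum_congr rfl
    intro t _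
    have h1 := hS.x_norm (-t) c hc
    rw [← x_inv hS, inv_inv] at h1
    have h3 := conj_inv_mem hS.s_norm _ h1
    have e : c * (x t * s) = x t * s * (s⁻¹ * ((x t)⁻¹ * c * x t) * s) := by group
    rw [← Module.End.mul_apply, ← map_mul, e, map_mul, Module.End.mul_apply, hf _ (hS.Uj_le h3)]
  · intro u
    rw [SS, map_sum]
    have e : ∀ t, ρ (x u) (ρ (x t * s) f) = ρ (x (u + t) * s) f := by
      intro t
      rw [← Module.End.mul_apply, ← map_mul, hS.x_add, mul_assoc]
    simp_rw [e]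
    exact Equiv.sum_comp (Equiv.addLeft u) (fun t => ρ (x t * s) f)

lemma avg_y_mem [Fintype Uj] {y : G} (hy : ∀ u, y⁻¹ * x u * y ∈ U) {f : V} (hf : f ∈ Fx ρ U) :
    avg ρ Uj (ρ y f) ∈ Fx ρ U := by
  rw [mem_F0 ρ hS]
  refine ⟨avg_mem ρ _, fun u => ?_⟩
  rw [avg_conj ρ (hS.x_norm u)]
  congr 1
  have e : x u * y = y * (y⁻¹ * x u * y) := by group
  rw [← Module.End.mul_apply, ← map_mul, e, map_mul, Module.End.mul_apply, hf _ (hy u)]

/-- The images of `V^U` under `x(t) s` span `V^{U_j}` together with `V^U`. -/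
lemma avg_mem_range [Fintype Uj] (g : G) {f : V} (hf : f ∈ Fx ρ U) :
    avg ρ Uj (ρ g f) ∈ LinearMap.range (Phi ρ U x s) := by
  obtain ⟨t, c, hc, y, b, hb, hy, e⟩ := hS.bruhat g
  have hf' := B_pres ρ hS hb hf
  set f' := ρ b f with hf'def
  have hw := avg_y_mem ρ hS hy hf'
  set w := avg ρ Uj (ρ y f') with hwdef
  rcases e with rfl | rfl
  · have e1 : ρ (x t * c * y * b) f = ρ (x t) (ρ c (ρ y f')) := by
      rw [hf'def]
      simp only [map_mul, Module.End.mul_apply]
    rw [e1, ← avg_conj ρ (hS.x_norm t), avg_smul ρ hc, ← hwdef, hw _ (hS.x_mem t)]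
    refine ⟨(⟨w, hw⟩, 0), ?_⟩
    rw [Phi_apply]
    simp
  · have e1 : ρ (x t * c * s * y * b) f = ρ (x t) (ρ c (ρ s (ρ y f'))) := by
      rw [hf'def]
      simp only [map_mul, Module.End.mul_apply]
    rw [e1, ← avg_conj ρ (hS.x_norm t), avg_smul ρ hc, ← avg_conj ρ hS.s_norm, ← hwdef]
    classical
    refine ⟨(0, Pi.single t ⟨w, hw⟩), ?_⟩
    rw [Phi_apply]
    simp only [Submodule.coe_zero, zero_add]
    rw [Finset.sum_eq_single t]
    · rw [Pi.single_eq_same, map_mul, Module.End.mul_apply]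
    · intro u _ hu
      rw [Pi.single_eq_of_ne hu]
      simp
    · simp

lemma F0_le_range [Fintype Uj] [ρ.IsIrreducible] (h0 : Fx ρ U ≠ ⊥) : Fx ρ Uj ≤ LinearMap.range (Phi ρ U x s) := by
  have hle : Submodule.span ℂ {v | ∃ g, ∃ f ∈ Fx ρ U, v = ρ g f} ≤
      (LinearMap.range (Phi ρ U x s)).comap (avg ρ Uj) := by
    rw [Submodule.span_le]
    rintro _ ⟨g, f, hf, rfl⟩
    exact avg_mem_range ρ hS g hf
  rw [span_orbit_eq_top ρ _ h0] at hle
  intro v hv
  have := hle (Submodule.mem_top (x := v))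
  rwa [Submodule.mem_comap, avg_of_mem ρ hv] at this

lemma card_Uj_pos : 0 < Nat.card Uj := Nat.card_pos

/-- The dimension of the kernel. -/
lemma finrank_ker_le [Fintype Uj] [ρ.IsIrreducible] (h0 : Fx ρ U ≠ ⊥)
    (hvan : ∀ k ∈ U, k ≠ 1 → ρ.character k = 0) :
    finrank ℂ (LinearMap.ker (Phi ρ U x s)) ≤ finrank ℂ (Fx ρ U) := by
  classical
  haveI : Fintype U := Fintype.ofFinite _
  have d1 := finrank_Fx_of_vanish ρ (K := U) hvan
  have d2 := finrank_Fx_of_vanish ρ (K := Uj) (fun k hk => hvan k (hS.Uj_le hk))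
  have d3 : finrank ℂ (Fx ρ Uj) = Fintype.card F * finrank ℂ (Fx ρ U) := by
    have h3 := d1.trans d2.symm
    rw [hS.card_U] at h3
    have h4 : Fintype.card F * finrank ℂ (Fx ρ U) * Nat.card Uj = finrank ℂ (Fx ρ Uj) * Nat.card Uj := by
      rw [← h3]; ring
    exact (Nat.eq_of_mul_eq_mul_right (card_Uj_pos hS) h4).symm
  have h3 := LinearMap.finrank_range_add_finrank_ker (Phi ρ U x s)
  have h4 : finrank ℂ (Fx ρ Uj) ≤ finrank ℂ (LinearMap.range (Phi ρ U x s)) :=
    Submodule.finrank_mono (F0_le_range ρ hS h0)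
  rw [Module.finrank_prod, Module.finrank_pi_fintype] at h3
  simp only [Finset.sum_const, Finset.card_univ, smul_eq_mul] at h3
  omega

/-- The operator `S` on `V^U`. -/
noncomputable def SL (hS : Sys U Uj B x h s) : ↥(Fx ρ U) →ₗ[ℂ] ↥(Fx ρ U) :=
  LinearMap.codRestrict (Fx ρ U) ((∑ t, ρ (x t * s)) ∘ₗ (Fx ρ U).subtype) (fun f => by
    have := SS_mem ρ hS f.2
    simpa [SS] using this)

lemma SL_coe (f : ↥(Fx ρ U)) : (SL ρ hS f : V) = SS ρ x s f := by
  simp [SL, SS]

/-- The elements of the kernel coming from `S`. -/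
noncomputable def kap (hS : Sys U Uj B x h s) : ↥(Fx ρ U) →ₗ[ℂ] (↥(Fx ρ U) × (F → ↥(Fx ρ U))) :=
  LinearMap.prod (-(SL ρ hS)) (LinearMap.pi fun _ => LinearMap.id)

lemma kap_fst (f : ↥(Fx ρ U)) : (kap ρ hS f).1 = - SL ρ hS f := rfl
lemma kap_snd (f : ↥(Fx ρ U)) (t : F) : (kap ρ hS f).2 t = f := rfl

lemma kap_inj : Function.Injective (kap ρ hS) := by
  intro a b e
  have := congrFun (congrArg Prod.snd e) 0
  simpa [kap_snd] using this

lemma Phi_kap (f : ↥(Fx ρ U)) : Phi ρ U x s (kap ρ hS f) = 0 := by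
  rw [Phi_apply, kap_fst]
  simp only [kap_snd]
  simp only [Submodule.coe_neg, SL_coe, SS]
  simp

/-- All the relations come from `S`. -/
lemma ker_eq_range [Fintype Uj] [ρ.IsIrreducible] (h0 : Fx ρ U ≠ ⊥)
    (hvan : ∀ k ∈ U, k ≠ 1 → ρ.character k = 0) {r : ↥(Fx ρ U) × (F → ↥(Fx ρ U))}
    (hr : Phi ρ U x s r = 0) : ∃ f, kap ρ hS f = r := by
  have hle : LinearMap.range (kap ρ hS) ≤ LinearMap.ker (Phi ρ U x s) := by
    rintro _ ⟨f, rfl⟩
    exact Phi_kap ρ hS f
  have hd : finrank ℂ (LinearMap.ker (Phi ρ U x s)) ≤ finrank ℂ (LinearMap.range (kap ρ hS)) := by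
    rw [LinearMap.finrank_range_of_inj (kap_inj ρ hS)]
    exact finrank_ker_le ρ hS h0 hvan
  have e := Submodule.eq_of_le_of_finrank_le hle hd
  have : r ∈ LinearMap.range (kap ρ hS) := by
    rw [e]
    exact hr
  exact this

open scoped Classical in
/-- The relation given by the rank one computation. -/
lemma rho_s_SS {f : V} (hf : f ∈ Fx ρ U) :
    ρ s (SS ρ x s f) = ρ (s * s) f + ∑ t ∈ Finset.univ.erase (0 : F), ρ (x (-t⁻¹) * s) (ρ (h t * (s * s)) f) := by
  classical
  rw [SS, map_sum, ← Finset.add_sum_erase _ _ (Finset.mem_univ (0 : F))]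
  congr 1
  · rw [x_zero hS, one_mul, map_mul, Module.End.mul_apply]
  · apply Finset.sum_congr rfl
    intro t ht
    have ht0 : t ≠ 0 := Finset.ne_of_mem_erase ht
    have e := hS.rel t ht0
    have e2 : s * (x t * s) = s * x t * s := by group
    rw [← Module.End.mul_apply, ← map_mul, e2, e, map_mul, Module.End.mul_apply, hf _ (hS.x_mem _)]
    simp only [map_mul, Module.End.mul_apply]

/-- **The consequence of the dimension count.** -/
theorem main [ρ.IsIrreducible] (hvan : ∀ k ∈ U, k ≠ 1 → ρ.character k = 0) (h0 : Fx ρ U ≠ ⊥) :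
    (∀ t, t ≠ 0 → ∀ f ∈ Fx ρ U, ρ (h t) f = f) ∧ ∀ f ∈ Fx ρ U, SS ρ x s f = - ρ (s * s) f := by
  classical
  haveI : Fintype Uj := Fintype.ofFinite _
  -- the relation
  have key : ∀ f ∈ Fx ρ U, ∀ t, t ≠ 0 → SS ρ x s f = - ρ (h t * (s * s)) f := by
    intro f hf
    let f₀ : ↥(Fx ρ U) := ⟨f, hf⟩
    have hss : ρ (s * s) f ∈ Fx ρ U := B_pres ρ hS hS.ss_mem hf
    let g : F → ↥(Fx ρ U) := fun u =>
      if hu : u = 0 then SL ρ hS f₀ else
        - ⟨ρ (h (-u⁻¹) * (s * s)) f, B_pres ρ hS (Subgroup.mul_mem _ (hS.h_mem _ (neg_ne_zero.mpr (inv_ne_zero hu))) hS.ss_mem) hf⟩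
    have hg0 : g 0 = SL ρ hS f₀ := dif_pos rfl
    have hg1 : ∀ u, u ≠ 0 → (g u : V) = - ρ (h (-u⁻¹) * (s * s)) f := by
      intro u hu
      simp only [g, dif_neg hu]
      rfl
    have hSL : (SL ρ hS f₀ : V) = SS ρ x s f := SL_coe ρ hS f₀
    have hr : Phi ρ U x s (- (⟨ρ (s * s) f, hss⟩ : ↥(Fx ρ U)), g) = 0 := by
      rw [Phi_apply]
      simp only [Submodule.coe_neg]
      rw [← Finset.add_sum_erase _ _ (Finset.mem_univ (0 : F)), hg0, hSL]
      have e1 : ρ (x 0 * s) (SS ρ x s f) = ρ s (SS ρ x s f) := by rw [x_zero hS, one_mul]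
      have e2 : ∑ u ∈ Finset.univ.erase (0 : F), ρ (x u * s) (g u : V) =
          - ∑ t ∈ Finset.univ.erase (0 : F), ρ (x (-t⁻¹) * s) (ρ (h t * (s * s)) f) := by
        rw [← Finset.sum_neg_distrib]
        refine Finset.sum_bij' (fun u _ => -u⁻¹) (fun t _ => -t⁻¹) ?_ ?_ ?_ ?_ ?_
        · intro u hu
          simp only [Finset.mem_erase, Finset.mem_univ, and_true] at hu ⊢
          exact neg_ne_zero.mpr (inv_ne_zero hu)
        · intro u hu
          simp only [Finset.mem_erase, Finset.mem_univ, and_true] at hu ⊢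
          exact neg_ne_zero.mpr (inv_ne_zero hu)
        · intro u _
          simp
        · intro u _
          simp
        · intro u hu
          have hu0 : u ≠ 0 := Finset.ne_of_mem_erase hu
          rw [hg1 u hu0, map_neg]
          simp
      rw [e2, e1, rho_s_SS ρ hS hf]
      abel
    obtain ⟨f₁, hf₁⟩ := ker_eq_range ρ hS h0 hvan hr
    have e0 : f₁ = SL ρ hS f₀ := by
      have := congrFun (congrArg Prod.snd hf₁) 0
      rw [kap_snd] at this
      rw [this]
      exact hg0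
    intro t ht
    have htu : -t⁻¹ ≠ 0 := neg_ne_zero.mpr (inv_ne_zero ht)
    have e5 := congrFun (congrArg Prod.snd hf₁) (-t⁻¹)
    rw [kap_snd] at e5
    have e6 : (f₁ : V) = (g (-t⁻¹) : V) := congrArg Subtype.val e5
    rw [hg1 _ htu, (show -(-t⁻¹)⁻¹ = t by simp), e0, hSL] at e6
    exact e6
  have hone : ∀ f ∈ Fx ρ U, SS ρ x s f = - ρ (s * s) f := by
    intro f hf
    have := key f hf 1 one_ne_zero
    rwa [hS.h_one, one_mul] at this
  refine ⟨?_, hone⟩
  intro t ht f hf
  have hf' : ρ (s * s)⁻¹ f ∈ Fx ρ U := B_pres ρ hS (Subgroup.inv_mem _ hS.ss_mem) hf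
  have e1 := key _ hf' t ht
  rw [hone _ hf'] at e1
  have e2 : ρ (s * s) (ρ (s * s)⁻¹ f) = f := by
    rw [← Module.End.mul_apply, ← map_mul, mul_inv_cancel, map_one, Module.End.one_apply]
  have e3 : ρ (h t * (s * s)) (ρ (s * s)⁻¹ f) = ρ (h t) f := by
    rw [map_mul, Module.End.mul_apply, e2]
  rw [e2, e3] at e1
  exact (neg_injective e1).symm

omit hS in
omit [FiniteDimensional ℂ V] in
/-- Elements acting trivially on a subspace. -/
def StabF (ρ : Representation ℂ G V) (W : Submodule ℂ V) : Subgroup G where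
  carrier := {g | ∀ f ∈ W, ρ g f = f}
  one_mem' := fun f _ => by simp
  mul_mem' := fun {a b} ha hb f hf => by rw [map_mul, Module.End.mul_apply, hb f hf, ha f hf]
  inv_mem' := fun {a} ha f hf => by
    have e : ρ a⁻¹ (ρ a f) = f := by
      rw [← Module.End.mul_apply, ← map_mul, inv_mul_cancel, map_one, Module.End.one_apply]
    rw [ha f hf] at e
    exact e

omit hS in
/-- Frobenius reciprocity for a permutation character. -/
theorem sum_char_mul_fix (P : Subgroup G) [Fintype G] :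
    ∑ g : G, ρ.character g * (Nat.card (MulAction.fixedBy (G ⧸ P) g) : ℂ) =
      (Nat.card G : ℂ) * (finrank ℂ (Fx ρ P) : ℂ) := by
  classical
  haveI : Fintype (G ⧸ P) := Fintype.ofFinite _
  haveI : Fintype P := Fintype.ofFinite _
  have e1 : ∀ g : G, (Nat.card (MulAction.fixedBy (G ⧸ P) g) : ℂ) = ∑ σ : G ⧸ P, if g • σ = σ then 1 else 0 := by
    intro g
    rw [Finset.sum_boole]
    congr 1
    rw [Nat.card_eq_fintype_card, Fintype.card_subtype]
    rfl
  simp_rw [e1, Finset.mul_sum]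
  rw [Finset.sum_comm]
  have e2 : ∀ σ : G ⧸ P, ∑ g : G, ρ.character g * (if g • σ = σ then 1 else 0) = ∑ p : P, ρ.character (p : G) := by
    intro σ
    induction σ using QuotientGroup.induction_on with
    | H y =>
      simp only [mul_ite, mul_one, mul_zero]
      rw [← Finset.sum_filter]
      symm
      refine Finset.sum_bij (fun (p : P) _ => y * p * y⁻¹) ?_ ?_ ?_ ?_
      · intro p _
        simp only [Finset.mem_filter, Finset.mem_univ, true_and]
        show ((y * p * y⁻¹ * y : G) : G ⧸ P) = (y : G ⧸ P)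
        apply QuotientGroup.eq.mpr
        have : (y * p * y⁻¹ * y)⁻¹ * y = (p : G)⁻¹ := by group
        rw [this]
        exact P.inv_mem p.2
      · intro p _ p' _ e
        apply Subtype.ext
        simpa using e
      · intro g hg
        simp only [Finset.mem_filter, Finset.mem_univ, true_and] at hg
        have h3 : ((g * y : G) : G ⧸ P) = (y : G ⧸ P) := hg
        have h4 := QuotientGroup.eq.mp h3
        have h5 : y⁻¹ * g * y ∈ P := by
          have := P.inv_mem h4
          have e : ((g * y)⁻¹ * y)⁻¹ = y⁻¹ * g * y := by group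
          rwa [e] at this
        refine ⟨⟨_, h5⟩, Finset.mem_univ _, ?_⟩
        simp only
        group
      · intro p _
        rw [Representation.char_conj]
  simp_rw [e2]
  rw [Finset.sum_const, Finset.card_univ, nsmul_eq_mul, finrank_Fx ρ (K := P)]
  have e3 := Subgroup.card_eq_card_quotient_mul_card_subgroup P
  rw [e3, Nat.card_eq_fintype_card (α := G ⧸ P)]
  push_cast
  rw [mul_assoc, mul_inv_cancel_left₀ card_ne_zero]

end Cfsg.Agent.Lib.KS71.StDefectAbs
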