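/-
Subgroups of `U` normalised by `B` are products of root subgroups: the core reductions.
-/
import Mathlib
import Cfsg.Agent.Lib.KS71.BTCent

set_option autoImplicit false
set_option linter.unusedSectionVars false
set_option linter.unusedVariables false

namespace Cfsg.Agent.Lib.KS71.WCCore

open Cfsg Cfsg.Lie Cfsg.Lie.ChevalleyDatum
open Cfsg.Agent.Lib.Chev.Tables Cfsg.Agent.Lib.Chev.Tables2 Cfsg.Agent.Lib.Chev.Tables3 Cfsg.Agent.Lib.Chev.Raise
open Cfsg.Agent.Lib.Chev.Basic Cfsg.Agent.Lib.Chev.AxBasic Cfsg.Agent.Lib.Chev.Torus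
open Cfsg.Agent.Lib.Chev.Products Cfsg.Agent.Lib.Chev.Products2 Cfsg.Agent.Lib.Chev.Mono1
open Cfsg.Agent.Lib.Chev.Mono2 Cfsg.Agent.Lib.Chev.Mono3 Cfsg.Agent.Lib.Chev.Bn
open Cfsg.Agent.Lib.Chev.Order1 Cfsg.Agent.Lib.Chev.Order2 Cfsg.Agent.Lib.Chev.Parab
open Cfsg.Agent.Lib.KS71.StWeyl Cfsg.Agent.Lib.KS71.StCell Cfsg.Agent.Lib.KS71.BTFun Cfsg.Agent.Lib.KS71.BTInter
open Cfsg.Agent.Lib.KS71.BTMain Cfsg.Agent.Lib.Chev.Diag Cfsg.Agent.Lib.KS71.BTCent

variable {D : ChevalleyDatum} {F : Type*} [Field F]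
variable (h : Tab D) (h2 : Tab2 D) (ax : Ax D F)

/-- Sets of positive roots closed upwards under the commutator formula. -/
structure Upper (D : ChevalleyDatum) (P : ℕ → Prop) : Prop where
  pos : ∀ r, P r → D.IsPosRoot r
  up : ∀ r s, P r → D.IsPosRoot s → s ≠ r → ∀ c ∈ D.commTerms s r, P c.1

lemma Upper.gp {P : ℕ → Prop} (hP : Upper D P) : GP D P where
  pos := hP.pos
  closed := fun r s hr hs hrs c hc => hP.up s r hs (hP.pos r hr) (by omega) c hc

section upper
include h

lemma xG_conj_upper {P : ℕ → Prop} (hP : Upper D P) {s : ℕ} (hs : D.IsPosRoot s) (t : F)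
    {u : GL D.Idx F} (hu : u ∈ rootClosure ax P) :
    (xG ax s t)⁻¹ * u * xG ax s t ∈ rootClosure ax P := by
  have key : (xG ax s t)⁻¹ * u * (xG ax s t)⁻¹⁻¹ ∈ rootClosure ax P := by
    refine conj_mem_of_gen ax ?_ hu
    intro r w hr
    have hrP := hP.pos r hr
    by_cases hrs : r = s
    · subst hrs
      have : (xG ax r t)⁻¹ * xG ax r w * (xG ax r t)⁻¹⁻¹ = xG ax r w := by
        rw [inv_inv, xG_inv, xG_add, xG_add]
        congr 1
        ring
      rw [this]
      exact xG_mem_rootClosure ax hr w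
    · have hneg : r ≠ D.neg s := by
        intro he
        rw [he] at hrP
        exact not_isNeg_of_isPos h hrP ((isNegRoot_neg h hs.1).mpr hs)
      have e := xG_comm ax hs.1 hrP.1 hrs hneg t w
      have e2 : (xG ax s t)⁻¹ * xG ax r w * (xG ax s t)⁻¹⁻¹ = xG ax r w * wordG ax (D.commWord F s r t w) := by
        rw [inv_inv, mul_assoc, e]; group
      rw [e2]
      refine Subgroup.mul_mem _ (xG_mem_rootClosure ax hr w) ?_
      apply wordG_mem_rootClosure
      intro p hp
      simp only [commWord, List.mem_map] at hp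
      obtain ⟨c, hc, rfl⟩ := hp
      exact hP.up r s hr hs (fun e => hrs e.symm) c hc
  simpa using key

lemma borel_le_nor_upper {P : ℕ → Prop} (hP : Upper D P) :
    D.borelSubgroup F ≤ Subgroup.normalizer (rootClosure ax P : Set (GL D.Idx F)) := by
  apply sup_le
  · rw [posUnipotent_eq ax]
    apply rootClosure_le
    intro s t hs
    apply mem_normalizer_of_conj
    · intro u hu
      have := xG_conj_upper h ax hP hs (-t) hu
      rw [xG_inv, neg_neg, ← xG_inv ax s t] at this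
      exact this
    · intro u hu
      exact xG_conj_upper h ax hP hs t hu
  · exact diagonal_le_normalizer ax h (fun r hr => (hP.pos r hr).1)

lemma term_gt {r s : ℕ} (hr : D.IsPosRoot r) (hs : D.IsPosRoot s) {c : ℕ × ℤ × ℕ × ℕ} (hc : c ∈ D.commTerms s r) :
    r < c.1 := by
  obtain ⟨hlt, hi, hj, hv⟩ := commTerms_spec h hs.1 hr.1 hc
  rw [← lex_lt_iff h hr.1 hlt]
  have h1 := lin_vec (f := lexW D.rank) hv
  have h2 : 0 < lex D r := lex_pos h hr
  have h3 : 0 < lex D s := lex_pos h hs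
  simp only [lex] at h2 h3 ⊢
  rw [h1]
  have h4 : (1 : ℤ) ≤ (c.2.2.1 : ℤ) := by exact_mod_cast hi
  have h5 : (1 : ℤ) ≤ (c.2.2.2 : ℤ) := by exact_mod_cast hj
  nlinarith

lemma term_gt' {r s : ℕ} (hr : D.IsPosRoot r) (hs : D.IsPosRoot s) {c : ℕ × ℤ × ℕ × ℕ} (hc : c ∈ D.commTerms r s) :
    r < c.1 := by
  obtain ⟨hlt, hi, hj, hv⟩ := commTerms_spec h hr.1 hs.1 hc
  rw [← lex_lt_iff h hr.1 hlt]
  have h1 := lin_vec (f := lexW D.rank) hv
  have h2 : 0 < lex D r := lex_pos h hr
  have h3 : 0 < lex D s := lex_pos h hs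
  simp only [lex] at h2 h3 ⊢
  rw [h1]
  have h4 : (1 : ℤ) ≤ (c.2.2.1 : ℤ) := by exact_mod_cast hi
  have h5 : (1 : ℤ) ≤ (c.2.2.2 : ℤ) := by exact_mod_cast hj
  nlinarith

lemma isPos_of_gt {m k : ℕ} (hm : D.IsPosRoot m) (hk : k < D.nroots) (hmk : m ≤ k) : D.IsPosRoot k := by
  by_contra hn
  have h3 := (not_isPos_iff h hk).mp hn
  have h4 : lex D m ≤ lex D k := by
    rcases Nat.lt_or_ge m k with h5 | h5
    · exact le_of_lt (lex_strictMono h hk h5)
    · have : m = k := by omega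
      rw [this]
  have h5 := lex_pos h hm
  have h6 : 0 < lex D (D.neg k) := lex_pos h ((isPosRoot_neg h hk).mpr h3)
  have h7 : lex D (D.neg k) = - lex D k := lin_neg h _ hk
  omega

end upper

/-- Positive roots of index at least `m`. -/
def PG (D : ChevalleyDatum) (m r : ℕ) : Prop := D.IsPosRoot r ∧ m ≤ r

/-- The subgroup generated by the root subgroups of index at least `m`. -/
def Uge (m : ℕ) : Subgroup (GL D.Idx F) := rootClosure ax (PG D m)

include h in
lemma upper_PG (m : ℕ) : Upper D (PG D m) where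
  pos := fun r hr => hr.1
  up := by
    intro r s hr hs hne c hc
    have h3 := term_gt h hr.1 hs hc
    exact ⟨commTerms_pos h hs hr.1 hc, by have := hr.2; omega⟩

lemma Uge_le_U (m : ℕ) : Uge ax m ≤ D.posUnipotent F := by
  rw [posUnipotent_eq ax]
  exact rootClosure_mono ax fun r hr => hr.1

lemma Uge_succ_le (m : ℕ) : Uge ax (m + 1) ≤ Uge ax m :=
  rootClosure_mono ax fun r hr => ⟨hr.1, by have := hr.2; omega⟩

lemma Uge_bot {m : ℕ} (hm : D.nroots ≤ m) : Uge ax m = (⊥ : Subgroup (GL D.Idx F)) := by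
  rw [eq_bot_iff]
  apply rootClosure_le
  intro r t hr
  have := hr.1.1
  have := hr.2
  omega

lemma Uge_eq_succ {m : ℕ} (hm : ¬ D.IsPosRoot m) : Uge ax m = Uge ax (m + 1) := by
  apply le_antisymm
  · apply rootClosure_mono
    intro r hr
    refine ⟨hr.1, ?_⟩
    have h3 := hr.2
    have h4 : r ≠ m := fun e => hm (e ▸ hr.1)
    omega
  · exact Uge_succ_le ax m

include h in
lemma xG_conj_Uge {m s : ℕ} (hs : D.IsPosRoot s) (t : F) {u : GL D.Idx F} (hu : u ∈ Uge ax m) :
    (xG ax s t)⁻¹ * u * xG ax s t ∈ Uge ax m :=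
  xG_conj_upper h ax (upper_PG h m) hs t hu

include h in
lemma xG_conj_Uge' {m s : ℕ} (hs : D.IsPosRoot s) (t : F) {u : GL D.Idx F} (hu : u ∈ Uge ax m) :
    xG ax s t * u * (xG ax s t)⁻¹ ∈ Uge ax m := by
  have := xG_conj_Uge h ax hs (-t) hu
  rwa [xG_inv, neg_neg, ← xG_inv] at this

include h in
/-- Splitting off the lowest root element. -/
lemma exists_split {m : ℕ} (hm : D.IsPosRoot m) {x : GL D.Idx F} (hx : x ∈ Uge ax m) :
    ∃ α : F, ∃ y ∈ Uge ax (m + 1), x = xG ax m α * y := by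
  let S : Subgroup (GL D.Idx F) :=
    { carrier := {g | ∃ c : F, ∃ y ∈ Uge ax (m + 1), g = xG ax m c * y}
      one_mem' := ⟨0, 1, Subgroup.one_mem _, by simp⟩
      mul_mem' := by
        rintro _ _ ⟨c, y, hy, rfl⟩ ⟨c', y', hy', rfl⟩
        refine ⟨c + c', (xG ax m c')⁻¹ * y * xG ax m c' * y',
          Subgroup.mul_mem _ (xG_conj_Uge h ax hm c' hy) hy', ?_⟩
        rw [← xG_add]
        group
      inv_mem' := by
        rintro _ ⟨c, y, hy, rfl⟩
        refine ⟨-c, (xG ax m (-c))⁻¹ * y⁻¹ * xG ax m (-c),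
          xG_conj_Uge h ax hm (-c) (Subgroup.inv_mem _ hy), ?_⟩
        rw [xG_inv, neg_neg, ← xG_inv]
        group }
  have hle : Uge ax m ≤ S := by
    apply rootClosure_le
    intro r t hr
    by_cases hrm : r = m
    · subst hrm
      exact ⟨t, 1, Subgroup.one_mem _, by simp⟩
    · refine ⟨0, xG ax r t, xG_mem_rootClosure ax ⟨hr.1, ?_⟩ t, by simp⟩
      have := hr.2
      omega
  exact hle hx

/-- The working hypotheses on `X`. -/
structure WC (ax : Ax D F) (X : Subgroup (GL D.Idx F)) : Prop where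
  le : X ≤ D.posUnipotent F
  nor : ∀ b ∈ D.borelSubgroup F, ∀ x ∈ X, b * x * b⁻¹ ∈ X

variable {ax} {X : Subgroup (GL D.Idx F)}

lemma WC.conjU (hw : WC ax X) {u x : GL D.Idx F} (hu : u ∈ D.posUnipotent F) (hx : x ∈ X) : u * x * u⁻¹ ∈ X :=
  hw.nor u ((le_sup_left : D.posUnipotent F ≤ _) hu) x hx

lemma WC.conjU' (hw : WC ax X) {u x : GL D.Idx F} (hu : u ∈ D.posUnipotent F) (hx : x ∈ X) : u⁻¹ * x * u ∈ X := by
  have := hw.conjU (Subgroup.inv_mem _ hu) hx
  simpa using this

variable (ax) (X)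

/-- All of the root subgroup `X_r` lies in `X`. -/
def Sr (r : ℕ) : Prop := ∀ t : F, xG ax r t ∈ X

/-- The roots `r ≥ m` with `X_r ≤ X`. -/
def SP (m r : ℕ) : Prop := D.IsPosRoot r ∧ m ≤ r ∧ Sr ax X r

/-- The part of `X` in `U_{≥ m}` is generated by root subgroups. -/
def Dec (m : ℕ) : Prop := ∀ x ∈ X, x ∈ Uge ax m → x ∈ rootClosure ax (SP ax X m)

/-- The reduction step for the pair `m < k`. -/
def Step (m k : ℕ) : Prop :=
  ∀ α b : F, α ≠ 0 → b ≠ 0 → ∀ w ∈ Uge ax (k + 1), xG ax m α * xG ax k b * w ∈ X →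
    (∀ j, m < j → Dec ax X j) → Sr ax X k

variable {ax} {X}

lemma xG_mem_U {s : ℕ} (hs : D.IsPosRoot s) (t : F) : xG ax s t ∈ D.posUnipotent F := by
  rw [posUnipotent_eq ax]
  exact xG_mem_rootClosure ax hs t

include h h2 in
/-- The leading root element. -/
lemma Sr_of_lead {k : ℕ} (hk : D.IsPosRoot k) {c : F} (hc : c ≠ 0) {w : GL D.Idx F} (hw : w ∈ Uge ax (k + 1))
    (hx : xG ax k c * w ∈ X) (hd : Dec ax X k) : Sr ax X k := by
  by_contra hn
  have h3 : xG ax k c * w ∈ Uge ax k :=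
    Subgroup.mul_mem _ (xG_mem_rootClosure ax ⟨hk, le_rfl⟩ c) (Uge_succ_le ax k hw)
  have h4 := hd _ hx h3
  have h5 : rootClosure ax (SP ax X k) ≤ Uge ax (k + 1) := by
    apply rootClosure_mono
    intro r hr
    refine ⟨hr.1, ?_⟩
    have h6 := hr.2.1
    have h7 : r ≠ k := fun e => hn (e ▸ hr.2.2)
    omega
  have h6 := h5 h4
  have h7 : xG ax k c ∈ Uge ax (k + 1) := by
    have := Subgroup.mul_mem _ h6 (Subgroup.inv_mem _ hw)
    simpa using this
  have h8 := P_of_xG_mem h h2 ax (upper_PG h (k + 1)).gp hk hc h7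
  have := h8.2
  omega

include h in
/-- A separating torus element gives the reduction step. -/
lemma step_of_sep (hw : WC ax X) {m k : ℕ} (hm : D.IsPosRoot m) (hk : D.IsPosRoot k) (h2 : Tab2 D) (hmk : m < k)
    {y : ℕ → Fˣ} (hy : tor D y ∈ D.diagonalSubgroup F) (h1 : chi D y m = 1) (h3 : chi D y k ≠ 1) :
    Step ax X m k := by
  intro α b hα hb w hw₁ hx hdec
  have hτB : (tor D y : GL D.Idx F) ∈ D.borelSubgroup F := (le_sup_right : D.diagonalSubgroup F ≤ _) hy
  have hw' : tor D y * w * (tor D y)⁻¹ ∈ Uge ax (k + 1) :=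
    (Subgroup.mem_normalizer_iff.mp (borel_le_nor_upper h ax (upper_PG h (k + 1)) hτB) w).mp hw₁
  have e1 : tor D y * (xG ax m α * xG ax k b * w) * (tor D y)⁻¹ =
      xG ax m α * xG ax k ((chi D y k : Fˣ) * b) * (tor D y * w * (tor D y)⁻¹) := by
    have e2 := tor_conj_xG ax h y hm.1 α
    have e3 := tor_conj_xG ax h y hk.1 b
    rw [h1, Units.val_one, one_mul] at e2
    have e4 : tor D y * (xG ax m α * xG ax k b * w) * (tor D y)⁻¹ =
        (tor D y * xG ax m α * (tor D y)⁻¹) * (tor D y * xG ax k b * (tor D y)⁻¹) * (tor D y * w * (tor D y)⁻¹) := by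
      group
    rw [e4, e2, e3]
  have h4 := hw.nor _ hτB _ hx
  rw [e1] at h4
  set w' := tor D y * w * (tor D y)⁻¹ with hw'def
  set γ : F := ((chi D y k : Fˣ) : F) with hγ
  have h5 := Subgroup.mul_mem _ h4 (Subgroup.inv_mem _ hx)
  have h6 := hw.conjU' (xG_mem_U (ax := ax) hm α) h5
  have hγ1 : γ - 1 ≠ 0 := by
    intro he
    apply h3
    apply Units.ext
    rw [Units.val_one]
    exact sub_eq_zero.mp he
  have e4 : (xG ax m α)⁻¹ * (xG ax m α * xG ax k (γ * b) * w' * (xG ax m α * xG ax k b * w)⁻¹) * xG ax m α =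
      xG ax k ((γ - 1) * b) * (xG ax k b * (w' * w⁻¹) * (xG ax k b)⁻¹) := by
    have e5 : xG ax k (γ * b) = xG ax k ((γ - 1) * b) * xG ax k b := by
      rw [xG_add]
      congr 1
      ring
    rw [e5]
    group
  rw [e4] at h6
  exact Sr_of_lead h h2 hk (mul_ne_zero hγ1 hb)
    (xG_conj_Uge' h ax hk b (Subgroup.mul_mem _ hw' (Subgroup.inv_mem _ hw₁))) h6 (hdec k hmk)

include h in
/-- Removing the tail of an element of `X`. -/
lemma lead_aux (hw : WC ax X) {m : ℕ} (hm : D.IsPosRoot m) (hstep : ∀ k, m < k → D.IsPosRoot k → Step ax X m k)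
    (hdec : ∀ j, m < j → Dec ax X j) :
    ∀ (n k : ℕ), D.nroots ≤ k + n → m < k → ∀ y ∈ Uge ax k, ∀ α : F, α ≠ 0 → xG ax m α * y ∈ X → xG ax m α ∈ X := by
  intro n
  induction n with
  | zero =>
    intro k hk hmk y hy α hα hx
    rw [Uge_bot ax (by omega), Subgroup.mem_bot] at hy
    rwa [hy, mul_one] at hx
  | succ n ih =>
    intro k hk hmk y hy α hα hx
    by_cases hk0 : k < D.nroots
    · have hkp := isPos_of_gt h hm hk0 hmk.le
      obtain ⟨b, w, hw₁, rfl⟩ := exists_split h ax hkp hy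
      by_cases hb : b = 0
      · subst hb
        rw [xG_zero, one_mul] at hx
        exact ih (k + 1) (by omega) (by omega) w hw₁ α hα hx
      · have h3 : Sr ax X k := hstep k hmk hkp α b hα hb w hw₁ (by rwa [mul_assoc]) hdec
        have hwU := Uge_le_U ax (k + 1) hw₁
        have h4 := hw.conjU' hwU (h3 (-b))
        have h5 := Subgroup.mul_mem _ hx h4
        have e : xG ax m α * (xG ax k b * w) * (w⁻¹ * xG ax k (-b) * w) = xG ax m α * w := by
          rw [show xG ax k (-b) = (xG ax k b)⁻¹ from (xG_inv ax k b).symm]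
          group
        rw [e] at h5
        exact ih (k + 1) (by omega) (by omega) w hw₁ α hα h5
    · rw [Uge_bot ax (by omega), Subgroup.mem_bot] at hy
      rwa [hy, mul_one] at hx

include h h2 in
/-- The descent step. -/
lemma dec_step (hw : WC ax X) {m : ℕ} (hstep : ∀ k, m < k → D.IsPosRoot m → D.IsPosRoot k → Step ax X m k)
    (hfull : ∀ r t, D.IsPosRoot r → t ≠ (0 : F) → xG ax r t ∈ X → Sr ax X r)
    (hdec : ∀ j, m < j → Dec ax X j) : Dec ax X m := by
  intro x hx hxm
  have hle : rootClosure ax (SP ax X (m + 1)) ≤ rootClosure ax (SP ax X m) :=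
    rootClosure_mono ax fun r hr => ⟨hr.1, by have := hr.2.1; omega, hr.2.2⟩
  by_cases hm : D.IsPosRoot m
  · obtain ⟨α, y, hy, rfl⟩ := exists_split h ax hm hxm
    by_cases hα : α = 0
    · subst hα
      rw [xG_zero, one_mul] at hx ⊢
      exact hle (hdec (m + 1) (by omega) y hx hy)
    · have h3 := lead_aux h hw hm (fun k hk hkp => hstep k hk hm hkp) hdec D.nroots (m + 1) (by omega) (by omega) y hy α hα hx
      have h4 := hfull m α hm hα h3
      have h5 : y ∈ X := by
        have := Subgroup.mul_mem _ (Subgroup.inv_mem _ h3) hx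
        simpa using this
      exact Subgroup.mul_mem _ (xG_mem_rootClosure ax ⟨hm, le_rfl, h4⟩ α) (hle (hdec (m + 1) (by omega) y h5 hy))
  · rw [Uge_eq_succ ax hm] at hxm
    exact hle (hdec (m + 1) (by omega) x hx hxm)

include h h2 in
/-- The decomposition of `X` into root subgroups. -/
theorem dec_all (hw : WC ax X) (hstep : ∀ m k, m < k → D.IsPosRoot m → D.IsPosRoot k → Step ax X m k)
    (hfull : ∀ r t, D.IsPosRoot r → t ≠ (0 : F) → xG ax r t ∈ X → Sr ax X r) : ∀ m, Dec ax X m := by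
  have key : ∀ n m, D.nroots ≤ m + n → Dec ax X m := by
    intro n
    induction n with
    | zero =>
      intro m hm x hx hxm
      rw [Uge_bot ax (by omega), Subgroup.mem_bot] at hxm
      rw [hxm]
      exact Subgroup.one_mem _
    | succ n ih =>
      intro m hm
      exact dec_step h h2 hw (hstep m) hfull (fun j hj => ih j (by omega))
  intro m
  exact key D.nroots m (by omega)

include h h2 in
/-- Words with non-zero coefficients in distinct positive roots in `X`. -/
lemma word_letters_aux (hw : WC ax X) {m : ℕ} (hdec : ∀ j, m < j → Dec ax X j) :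
    ∀ (n : ℕ) (L : List (ℕ × F)), L.length ≤ n → (∀ p ∈ L, D.IsPosRoot p.1 ∧ m < p.1 ∧ p.2 ≠ 0) → (L.map Prod.fst).Nodup →
      wordG ax L ∈ X → ∀ p ∈ L, Sr ax X p.1 := by
  classical
  intro n
  induction n with
  | zero =>
    intro L hL _ _ _ p hp
    have : L = [] := List.length_eq_zero_iff.mp (by omega)
    subst this
    simp at hp
  | succ n ih =>
    intro L hL hpos hnd hx
    by_cases hne : L = []
    · subst hne
      intro p hp
      simp at hp
    obtain ⟨q, hq, hmin⟩ := L.toFinset.exists_min_image (fun p => p.1) ⟨_, List.mem_toFinset.mpr (List.head_mem hne)⟩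
    rw [List.mem_toFinset] at hq
    obtain ⟨A, B, rfl⟩ := List.append_of_mem hq
    have hnd' := hnd
    rw [List.map_append, List.map_cons] at hnd'
    have hdisj := List.nodup_append.mp hnd'
    have hq1 : q.1 ∉ B.map Prod.fst := (List.nodup_cons.mp hdisj.2.1).1
    have hA : ∀ p ∈ A, D.IsPosRoot p.1 ∧ q.1 + 1 ≤ p.1 := by
      intro p hp
      have h3 := hmin p (List.mem_toFinset.mpr (by simp [hp]))
      have h4 : p.1 ≠ q.1 := by
        have := hdisj.2.2 p.1 (List.mem_map_of_mem hp) q.1 (by simp)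
        exact this
      exact ⟨(hpos p (by simp [hp])).1, by omega⟩
    have hB : ∀ p ∈ B, D.IsPosRoot p.1 ∧ q.1 + 1 ≤ p.1 := by
      intro p hp
      have h3 := hmin p (List.mem_toFinset.mpr (by simp [hp]))
      have h4 : p.1 ≠ q.1 := by
        intro he
        exact hq1 (he ▸ List.mem_map_of_mem hp)
      exact ⟨(hpos p (by simp [hp])).1, by omega⟩
    have hqp := hpos q (by simp)
    have hAw : wordG ax A ∈ Uge ax (q.1 + 1) := wordG_mem_rootClosure ax (fun p hp => hA p hp)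
    have hBw : wordG ax B ∈ Uge ax (q.1 + 1) := wordG_mem_rootClosure ax (fun p hp => hB p hp)
    have e : wordG ax (A ++ q :: B) = xG ax q.1 q.2 * ((xG ax q.1 q.2)⁻¹ * wordG ax A * xG ax q.1 q.2 * wordG ax B) := by
      rw [wordG_append, wordG_cons]
      group
    have h3 : Sr ax X q.1 := by
      apply Sr_of_lead h h2 hqp.1 hqp.2.2 (w := (xG ax q.1 q.2)⁻¹ * wordG ax A * xG ax q.1 q.2 * wordG ax B)
      · exact Subgroup.mul_mem _ (xG_conj_Uge h ax hqp.1 _ hAw) hBw
      · rwa [← e]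
      · exact hdec _ hqp.2.1
    have hAU : wordG ax A ∈ D.posUnipotent F := Uge_le_U ax _ hAw
    have h4 := hw.conjU hAU (h3 (-q.2))
    have h5 := Subgroup.mul_mem _ h4 hx
    have e2 : wordG ax A * xG ax q.1 (-q.2) * (wordG ax A)⁻¹ * wordG ax (A ++ q :: B) = wordG ax (A ++ B) := by
      rw [wordG_append, wordG_append, wordG_cons, show xG ax q.1 (-q.2) = (xG ax q.1 q.2)⁻¹ from (xG_inv ax _ _).symm]
      group
    rw [e2] at h5
    have hall := ih (A ++ B) (by simp only [List.length_append, List.length_cons] at hL ⊢; omega)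
      (fun p hp => hpos p (by
        rcases List.mem_append.mp hp with hp | hp <;> simp [hp]))
      (by
        rw [List.map_append]
        rw [List.nodup_append] at hnd' ⊢
        exact ⟨hnd'.1, (List.nodup_cons.mp hnd'.2.1).2, fun a ha b hb => hnd'.2.2 a ha b (List.mem_cons_of_mem _ hb)⟩) h5
    intro p hp
    rcases List.mem_append.mp hp with hp | hp
    · exact hall p (List.mem_append_left _ hp)
    · rcases List.mem_cons.mp hp with rfl | hp
      · exact h3
      · exact hall p (List.mem_append_right _ hp)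

lemma wordG_filter (L : List (ℕ × F)) [DecidablePred fun p : ℕ × F => p.2 ≠ 0] :
    wordG ax (L.filter fun p => p.2 ≠ 0) = wordG ax L := by
  induction L with
  | nil => rfl
  | cons a L ih =>
    rw [wordG_cons, List.filter_cons]
    by_cases ha : a.2 = 0
    · simp only [ne_eq, ha, not_true_eq_false, decide_false, Bool.false_eq_true, if_false, ih]
      rw [xG_zero, one_mul]
    · simp only [ne_eq, ha, not_false_eq_true, decide_true, if_true, wordG_cons, ih]

include h h2 in
/-- A word in distinct positive roots in `X` has all its letters in `X`. -/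
theorem word_letters (hw : WC ax X) {m : ℕ} (hdec : ∀ j, m < j → Dec ax X j) {L : List (ℕ × F)}
    (hpos : ∀ p ∈ L, D.IsPosRoot p.1 ∧ m < p.1) (hnd : (L.map Prod.fst).Nodup) (hx : wordG ax L ∈ X)
    {p : ℕ × F} (hp : p ∈ L) (hp0 : p.2 ≠ 0) : Sr ax X p.1 := by
  classical
  have hF : p ∈ L.filter (fun p => decide (p.2 ≠ 0)) := List.mem_filter.mpr ⟨hp, by simpa using hp0⟩
  refine word_letters_aux h h2 hw hdec _ (L.filter fun p => decide (p.2 ≠ 0)) le_rfl ?_ ?_ ?_ p hF
  · intro q hq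
    have h3 := List.mem_filter.mp hq
    exact ⟨(hpos q h3.1).1, (hpos q h3.1).2, by simpa using h3.2⟩
  · exact hnd.sublist ((List.filter_sublist).map _)
  · rwa [wordG_filter]

include h in
/-- Commutators with the head of an element whose tail commutes. -/
lemma tail_comm (hw : WC ax X) {m s : ℕ} (hm : D.IsPosRoot m) (hs : D.IsPosRoot s) (hne : s ≠ m) {α u : F} {y : GL D.Idx F}
    (hx : xG ax m α * y ∈ X) (hc : xG ax s u * y = y * xG ax s u) : wordG ax (D.commWord F m s α u) ∈ X := by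
  have hneg : s ≠ D.neg m := by
    intro he
    rw [he] at hs
    exact not_isNeg_of_isPos h hs ((isNegRoot_neg h hm.1).mpr hm)
  have e := xG_comm ax hm.1 hs.1 hne hneg α u
  have h3 := hw.conjU (xG_mem_U (ax := ax) hs u) hx
  have h4 := Subgroup.mul_mem _ h3 (Subgroup.inv_mem _ hx)
  have hg : xG ax m α * xG ax s u ∈ D.posUnipotent F :=
    Subgroup.mul_mem _ (xG_mem_U (ax := ax) hm α) (xG_mem_U (ax := ax) hs u)
  have h5 := hw.conjU' hg h4
  have e2 : (xG ax m α * xG ax s u)⁻¹ * (xG ax s u * (xG ax m α * y) * (xG ax s u)⁻¹ * (xG ax m α * y)⁻¹) *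
      (xG ax m α * xG ax s u) = wordG ax (D.commWord F m s α u) := by
    have e3 : xG ax s u * (xG ax m α * y) * (xG ax s u)⁻¹ * (xG ax m α * y)⁻¹ =
        (xG ax s u * xG ax m α) * (y * (xG ax s u)⁻¹ * y⁻¹) * (xG ax m α)⁻¹ := by group
    have e4 : y * (xG ax s u)⁻¹ * y⁻¹ = (xG ax s u)⁻¹ := by
      have : y * (xG ax s u)⁻¹ * y⁻¹ = (y * xG ax s u * y⁻¹)⁻¹ := by group
      rw [this, ← hc]
      group
    rw [e3, e4, e]
    group
  rwa [e2] at h5

end Cfsg.Agent.Lib.KS71.WCCore
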