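/-
Weakly closed subgroups of `U`: the tables.
-/
import Mathlib
import Cfsg.Agent.Lib.KS71.WCCore

set_option autoImplicit false
set_option linter.unusedSectionVars false
set_option linter.unusedVariables false

namespace Cfsg.Agent.Lib.KS71.WCTab

open Cfsg Cfsg.Lie Cfsg.Lie.ChevalleyDatum
open Cfsg.Agent.Lib.Chev.Tables Cfsg.Agent.Lib.Chev.Tables2 Cfsg.Agent.Lib.Chev.Tables3 Cfsg.Agent.Lib.Chev.Raise
open Cfsg.Agent.Lib.Chev.Basic Cfsg.Agent.Lib.Chev.AxBasic Cfsg.Agent.Lib.Chev.Torus
open Cfsg.Agent.Lib.Chev.Products Cfsg.Agent.Lib.Chev.Products2 Cfsg.Agent.Lib.Chev.Mono1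
open Cfsg.Agent.Lib.Chev.Mono2 Cfsg.Agent.Lib.Chev.Mono3 Cfsg.Agent.Lib.Chev.Bn
open Cfsg.Agent.Lib.Chev.Order1 Cfsg.Agent.Lib.Chev.Order2 Cfsg.Agent.Lib.Chev.Parab
open Cfsg.Agent.Lib.KS71.StWeyl Cfsg.Agent.Lib.KS71.StCell Cfsg.Agent.Lib.KS71.BTFun Cfsg.Agent.Lib.KS71.BTInter
open Cfsg.Agent.Lib.KS71.BTMain Cfsg.Agent.Lib.Chev.Diag Cfsg.Agent.Lib.KS71.BTCent Cfsg.Agent.Lib.KS71.WCCore

/-- A computable form of `pair`. -/
def pairN (D : ChevalleyDatum) (r s : ℕ) : ℕ → ℤ
  | 0 => 0
  | n + 1 => pairN D r s n + (D.coroot.getD r #[]).getD n 0 * D.cartan n s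

lemma pair_eq_pairN (D : ChevalleyDatum) (r s : ℕ) : pair D r s = pairN D r s D.rank := by
  rw [pair]
  induction D.rank with
  | zero => rfl
  | succ n ih => rw [Finset.sum_range_succ, ih, pairN]

/-- Every coroot pairs to two with its root. -/
def chkPair (D : ChevalleyDatum) : Bool :=
  allBelow D.nroots fun r => pairN D r r D.rank == 2

/-- Separation of two positive roots by a coroot, for `q ≥ 5`. -/
def sepG (D : ChevalleyDatum) : Bool :=
  allBelow D.nroots fun m => !(decide (D.IsPosRoot m)) ||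
    allBelow D.nroots fun k => !(decide (m < k)) ||
      Cfsg.Agent.Lib.Chev.Tables2.anyBelow D.nroots fun c =>
        (pairN D c m D.rank == 0) && (let e := pairN D c k D.rank; (e != 0) && decide (e.natAbs ≤ 3))

/-- Commutator separation of the pair `m < k` by the root `s`, in characteristic two. -/
def wordSep (D : ChevalleyDatum) (m k s : ℕ) : Bool :=
  decide (D.IsPosRoot s) && (s != m) && ((D.commTerms m s).any fun c => (c.1 == k) && (c.2.1 % 2 != 0)) &&
    decide ((D.commTerms m s).map Prod.fst).Nodup &&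
    allBelow D.nroots fun j => !(decide (k ≤ j)) || !(decide (D.IsPosRoot j)) || (D.commTerms j s).isEmpty

/-- Separation of two positive roots for `q = 4`. -/
def sep4 (D : ChevalleyDatum) : Bool :=
  allBelow D.nroots fun m => !(decide (D.IsPosRoot m)) ||
    allBelow D.nroots fun k => !(decide (m < k)) ||
      (Cfsg.Agent.Lib.Chev.Tables2.anyBelow D.nroots fun c =>
        (pairN D c m D.rank % 3 == 0) && (pairN D c k D.rank % 3 != 0)) ||
      Cfsg.Agent.Lib.Chev.Tables2.anyBelow D.nroots fun s => wordSep D m k s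

/-- Separation of two positive roots for `q = 3`. -/
def sep3 (D : ChevalleyDatum) : Bool :=
  allBelow D.nroots fun m => !(decide (D.IsPosRoot m)) ||
    allBelow D.nroots fun k => !(decide (m < k)) ||
      Cfsg.Agent.Lib.Chev.Tables2.anyBelow D.nroots fun c =>
        (pairN D c m D.rank % 2 == 0) && (pairN D c k D.rank % 2 != 0)

/-- The non-vanishing condition on a structure constant, in characteristic two, three, or at least five. -/
def nzq (p : ℕ) (C : ℤ) : Bool :=
  match p with
  | 2 => C % 2 != 0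
  | 3 => C % 3 != 0
  | _ => (C != 0) && decide (C.natAbs ≤ 3)

/-- Reaching each root from a simple root in its support by commutators. -/
def reachChk (D : ChevalleyDatum) (p : ℕ) : Bool :=
  allBelow D.rank fun i => allBelow D.nroots fun r =>
    !(decide (D.IsPosRoot r) && decide (0 < coef D r i) && (r != D.simple i)) ||
      Cfsg.Agent.Lib.Chev.Tables2.anyBelow D.rank fun k => Cfsg.Agent.Lib.Chev.Tables2.anyBelow D.nroots fun rp =>
        decide (D.IsPosRoot rp) && decide (0 < coef D rp i) && (rp != D.simple k) &&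
          ((D.commTerms rp (D.simple k)).any fun c => (c.1 == r) && nzq p c.2.1) &&
          decide ((D.commTerms rp (D.simple k)).map Prod.fst).Nodup

/-- All the checks which hold for all types. -/
theorem chk_all {D : ChevalleyDatum} (hD : D ∈ [chevG2, chevB2, chevD4, chevF4, chevE6, chevE7, chevE8]) :
    chkPair D = true ∧ sepG D = true ∧ sep4 D = true ∧ reachChk D 2 = true ∧ reachChk D 3 = true ∧ reachChk D 5 = true := by
  simp only [List.mem_cons, List.not_mem_nil, or_false] at hD
  rcases hD with rfl | rfl | rfl | rfl | rfl | rfl | rfl <;> decide +kernel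

/-- The check for `q = 3`. -/
theorem chk_three {D : ChevalleyDatum} (hD : D ∈ [chevE6, chevE7, chevE8]) : sep3 D = true := by
  simp only [List.mem_cons, List.not_mem_nil, or_false] at hD
  rcases hD with rfl | rfl | rfl <;> decide +kernel

end Cfsg.Agent.Lib.KS71.WCTab
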