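/-
Weakly closed subgroups of `U` are unipotent radicals.
-/
import Mathlib
import Cfsg.Agent.Lib.KS71.WCCore
import Cfsg.Agent.Lib.KS71.WCTab

set_option autoImplicit false
set_option linter.unusedSectionVars false
set_option linter.unusedVariables false

namespace Cfsg.Agent.Lib.KS71.WCMain

open Cfsg Cfsg.Lie Cfsg.Lie.ChevalleyDatum
open Cfsg.Agent.Lib.Chev.Tables Cfsg.Agent.Lib.Chev.Tables2 Cfsg.Agent.Lib.Chev.Tables3 Cfsg.Agent.Lib.Chev.Raise
open Cfsg.Agent.Lib.Chev.Basic Cfsg.Agent.Lib.Chev.AxBasic Cfsg.Agent.Lib.Chev.Torus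
open Cfsg.Agent.Lib.Chev.Products Cfsg.Agent.Lib.Chev.Products2 Cfsg.Agent.Lib.Chev.Mono1
open Cfsg.Agent.Lib.Chev.Mono2 Cfsg.Agent.Lib.Chev.Mono3 Cfsg.Agent.Lib.Chev.Bn
open Cfsg.Agent.Lib.Chev.Order1 Cfsg.Agent.Lib.Chev.Order2 Cfsg.Agent.Lib.Chev.Parab
open Cfsg.Agent.Lib.KS71.StWeyl Cfsg.Agent.Lib.KS71.StCell Cfsg.Agent.Lib.KS71.BTFun Cfsg.Agent.Lib.KS71.BTInter
open Cfsg.Agent.Lib.KS71.BTMain Cfsg.Agent.Lib.Chev.Diag Cfsg.Agent.Lib.KS71.BTCent Cfsg.Agent.Lib.KS71.WCCore
open Cfsg.Agent.Lib.KS71.WCTab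

variable {D : ChevalleyDatum} {F : Type*} [Field F]

/-! ### Non-vanishing of the constants -/

lemma cast_two {C : ℤ} (h2F : (2 : F) = 0) (hC : C % 2 ≠ 0) : (C : F) ≠ 0 := by
  have h1 : C % 2 = 1 := by omega
  have h3 : ((C % 2 + 2 * (C / 2) : ℤ) : F) = (C : F) := by rw [Int.emod_add_mul_ediv]
  rw [← h3]
  push_cast
  rw [h2F]
  have h4 : ((C % 2 : ℤ) : F) = 1 := by rw [h1]; simp
  rw [h4]
  simp

lemma cast_three {C : ℤ} (h3F : (3 : F) = 0) (hC : C % 3 ≠ 0) : (C : F) ≠ 0 := by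
  have h1 : C % 3 = 1 ∨ C % 3 = 2 := by omega
  have h3 : ((C % 3 + 3 * (C / 3) : ℤ) : F) = (C : F) := by rw [Int.emod_add_mul_ediv]
  rw [← h3]
  push_cast
  rw [h3F]
  rcases h1 with h1 | h1
  · have h4 : ((C % 3 : ℤ) : F) = 1 := by rw [h1]; simp
    rw [h4]
    simp
  · have h4 : ((C % 3 : ℤ) : F) = 2 := by rw [h1]; simp
    rw [h4]
    simp only [zero_mul, add_zero]
    intro h2
    have : (1 : F) = 3 - 2 := by ring
    rw [h3F, h2] at this
    simp at this

lemma cast_gen {C : ℤ} (h2F : (2 : F) ≠ 0) (h3F : (3 : F) ≠ 0) (hC : C ≠ 0) (hC' : C.natAbs ≤ 3) : (C : F) ≠ 0 := by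
  have h1 : C = 1 ∨ C = 2 ∨ C = 3 ∨ C = -1 ∨ C = -2 ∨ C = -3 := by omega
  rcases h1 with rfl | rfl | rfl | rfl | rfl | rfl <;> simp [h2F, h3F]

lemma exists_reach_p : ∃ p, (p = 2 ∨ p = 3 ∨ p = 5) ∧ ∀ C : ℤ, nzq p C = true → (C : F) ≠ 0 := by
  by_cases h2F : (2 : F) = 0
  · refine ⟨2, Or.inl rfl, fun C hC => cast_two h2F ?_⟩
    simpa [nzq] using hC
  by_cases h3F : (3 : F) = 0
  · refine ⟨3, Or.inr (Or.inl rfl), fun C hC => cast_three h3F ?_⟩
    simpa [nzq] using hC
  · refine ⟨5, Or.inr (Or.inr rfl), fun C hC => ?_⟩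
    simp only [nzq, Bool.and_eq_true, bne_iff_ne, decide_eq_true_eq] at hC
    exact cast_gen h2F h3F hC.1 hC.2

variable (h : Tab D) (h2 : Tab2 D) (ax : Ax D F) {ax} {X : Subgroup (GL D.Idx F)}

/-! ### Saturation of the root subgroups -/

include h in
/-- One non-trivial element of a root subgroup gives the whole root subgroup. -/
theorem full [Fintype F] (hp : chkPair D = true) (hw : WC ax X) {r : ℕ} (hr : r < D.nroots) {t₀ : F} (h0 : t₀ ≠ 0)
    (hm : xG ax r t₀ ∈ X) : Sr ax X r := by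
  have hpp : pair D r r = 2 := by
    have := allBelow_spec hp r hr
    rw [pair_eq_pairN]
    simpa using this
  have hsq : ∀ u : F, u ≠ 0 → xG ax r (u ^ 2 * t₀) ∈ X := by
    intro u hu
    have h3 := hG_eq_tor ax h hr (Units.mk0 u hu)
    have h4 := hG_mem_diagonal ax hr hu
    simp only [Units.val_mk0] at h3
    rw [h3] at h4
    have h5 := hw.nor _ ((le_sup_right : D.diagonalSubgroup F ≤ _) h4) _ hm
    rw [tor_conj_xG ax h _ hr, chi_hW h _ _ hr, hpp] at h5
    have e : (((Units.mk0 u hu) ^ (2 : ℤ) : Fˣ) : F) = u ^ 2 := by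
      simp [zpow_ofNat]
    rwa [e] at h5
  have hadd : ∀ a b : F, xG ax r a ∈ X → xG ax r b ∈ X → xG ax r (a + b) ∈ X := by
    intro a b ha hb
    rw [← xG_add]
    exact Subgroup.mul_mem _ ha hb
  have hneg : ∀ a : F, xG ax r a ∈ X → xG ax r (-a) ∈ X := by
    intro a ha
    rw [← xG_inv]
    exact Subgroup.inv_mem _ ha
  have hsq0 : ∀ u : F, xG ax r (u ^ 2 * t₀) ∈ X := by
    intro u
    by_cases hu : u = 0
    · subst hu
      simp only [ne_eq, OfNat.ofNat_ne_zero, not_false_eq_true, zero_pow, zero_mul, xG_zero]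
      exact Subgroup.one_mem _
    · exact hsq u hu
  have hall : ∀ y : F, xG ax r (y * t₀) ∈ X := by
    intro y
    by_cases h2F : (2 : F) = 0
    · have hc : ringChar F = 2 := by
        haveI : CharP F 2 := by
          have := CharTwo.of_one_ne_zero_of_two_eq_zero (R := F) one_ne_zero h2F
          exact this
        exact ringChar.eq F 2
      obtain ⟨a, ha⟩ := FiniteField.isSquare_of_char_two hc y
      have := hsq0 a
      rwa [show a ^ 2 = y by rw [ha]; ring] at this
    · have e : y = ((y + 1) / 2) ^ 2 - ((y - 1) / 2) ^ 2 := by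
        field_simp
        ring
      have e2 : y * t₀ = ((y + 1) / 2) ^ 2 * t₀ + -(((y - 1) / 2) ^ 2 * t₀) := by
        nth_rewrite 1 [e]
        ring
      rw [e2]
      exact hadd _ _ (hsq0 _) (hneg _ (hsq0 _))
  intro t
  have := hall (t / t₀)
  rwa [div_mul_cancel₀ _ h0] at this

/-! ### The reduction steps from the tables -/

include h in
/-- A coroot separating `m` and `k` modulo the order of a unit gives the reduction step. -/
lemma step_of_pair (h2 : Tab2 D) (hw : WC ax X) {m k c : ℕ} (hm : D.IsPosRoot m) (hk : D.IsPosRoot k) (hmk : m < k)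
    (hc : c < D.nroots) (g : Fˣ) (h1 : g ^ pair D c m = 1) (h3 : g ^ pair D c k ≠ 1) : Step ax X m k := by
  refine step_of_sep h hw hm hk h2 hmk (y := hW D c g) ?_ ?_ ?_
  · rw [← hG_eq_tor ax h hc]
    exact hG_mem_diagonal ax hc g.ne_zero
  · rwa [chi_hW h _ _ hm.1]
  · rwa [chi_hW h _ _ hk.1]

include h h2 in
/-- The commutator separation in characteristic two. -/
lemma step_of_word (hw : WC ax X) (h2F : (2 : F) = 0) {m k s : ℕ} (hm : D.IsPosRoot m) (hk : m < k)
    (hs : wordSep D m k s = true) : Step ax X m k := by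
  simp only [wordSep, Bool.and_eq_true, decide_eq_true_eq, bne_iff_ne, List.any_eq_true] at hs
  obtain ⟨⟨⟨⟨hsp, hne⟩, c, hc, hck, hcC⟩, hnd⟩, hall⟩ := hs
  intro α b hα hb w hw₁ hx hdec
  have hk0 : D.IsPosRoot k := by
    have h3 := commTerms_pos h hm hsp hc
    rwa [beq_iff_eq.mp hck] at h3
  have hcomm : ∀ y ∈ Uge ax k, xG ax s 1 * y = y * xG ax s 1 := by
    intro y hy
    refine rootClosure_induction ax (Q := fun y => xG ax s 1 * y = y * xG ax s 1) (by simp) ?_ ?_ hy
    · intro j t hj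
      have hemp := allBelow_spec hall j hj.1.1
      simp only [Bool.or_eq_true, Bool.not_eq_true', decide_eq_false_iff_not, List.isEmpty_iff] at hemp
      have he : D.commTerms j s = [] := by
        rcases hemp with (hemp | hemp) | hemp
        · exact absurd hj.2 hemp
        · exact absurd hj.1 hemp
        · exact hemp
      by_cases hsj : s = j
      · subst hsj
        rw [xG_add, xG_add, add_comm]
      · have hneg : s ≠ D.neg j := by
          intro he'
          have hs' := hsp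
          rw [he'] at hs'
          exact not_isNeg_of_isPos h hs' ((isNegRoot_neg h hj.1.1).mpr hj.1)
        have e := xG_comm ax hj.1.1 hsp.1 hsj hneg t 1
        rw [commWord, he, List.map_nil, wordG_nil, mul_one] at e
        exact e
    · intro a b' ha hb'
      rw [← mul_assoc, ha, mul_assoc, hb', mul_assoc]
  have hy : xG ax k b * w ∈ Uge ax k :=
    Subgroup.mul_mem _ (xG_mem_rootClosure ax ⟨hk0, le_rfl⟩ b) (Uge_succ_le ax k hw₁)
  have h3 := tail_comm h hw hm hsp hne (α := α) (u := 1) (y := xG ax k b * w) (by rwa [← mul_assoc]) (hcomm _ hy)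
  have hmem : ((c.1, (c.2.1 : F) * (-α) ^ c.2.2.1 * (1 : F) ^ c.2.2.2) : ℕ × F) ∈ D.commWord F m s α 1 := by
    simp only [commWord, List.mem_map]
    exact ⟨c, hc, rfl⟩
  have hCF : (c.2.1 : F) ≠ 0 := cast_two h2F (by simpa using hcC)
  have h4 := word_letters h h2 hw hdec (L := D.commWord F m s α 1) ?_ ?_ h3 hmem ?_
  · have hc1 : c.1 = k := beq_iff_eq.mp hck
    rwa [← hc1]
  · intro p hp
    simp only [commWord, List.mem_map] at hp
    obtain ⟨c', hc', rfl⟩ := hp
    exact ⟨commTerms_pos h hm hsp hc', term_gt' h hm hsp hc'⟩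
  · simpa [commWord, List.map_map, Function.comp_def] using hnd
  · simp only [one_pow, mul_one]
    exact mul_ne_zero hCF (pow_ne_zero _ (neg_ne_zero.mpr hα))

/-- A generator of the multiplicative group. -/
lemma exists_gen [Fintype F] : ∃ g : Fˣ, ∀ e : ℤ, g ^ e = 1 ↔ ((Fintype.card F - 1 : ℕ) : ℤ) ∣ e := by
  classical
  obtain ⟨g, hg⟩ := IsCyclic.exists_generator (α := Fˣ)
  refine ⟨g, fun e => ?_⟩
  rw [← orderOf_dvd_iff_zpow_eq_one, orderOf_eq_card_of_forall_mem_zpowers hg, Nat.card_eq_fintype_card,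
    Fintype.card_units]

include h h2 in
/-- The reduction steps, `q ≥ 5`. -/
lemma steps_gen [Fintype F] (hq : 5 ≤ Fintype.card F) (hs : sepG D = true) (hw : WC ax X) {m k : ℕ}
    (hmk : m < k) (hm : D.IsPosRoot m) (hk : D.IsPosRoot k) : Step ax X m k := by
  obtain ⟨g, hg⟩ := exists_gen (F := F)
  have h3 := allBelow_spec hs m hm.1
  simp only [hm, decide_true, Bool.not_true, Bool.false_or] at h3
  have h4 := allBelow_spec h3 k hk.1
  simp only [hmk, decide_true, Bool.not_true, Bool.false_or] at h4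
  obtain ⟨c, hc, h5⟩ := Cfsg.Agent.Lib.Chev.Tables2.anyBelow_spec h4
  simp only [Bool.and_eq_true, beq_iff_eq, bne_iff_ne, decide_eq_true_eq] at h5
  refine step_of_pair h h2 hw hm hk hmk hc g ?_ ?_
  · rw [pair_eq_pairN, h5.1, zpow_zero]
  · rw [pair_eq_pairN, Ne, hg]
    intro hd
    have h6 := Int.natAbs_dvd_natAbs.mpr hd
    have h7 := Nat.le_of_dvd (Int.natAbs_pos.mpr h5.2.1) h6
    simp only [Int.natAbs_natCast] at h7
    omega

include h h2 in
/-- The reduction steps, `q = 3`. -/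
lemma steps_three [Fintype F] (hq : Fintype.card F = 3) (hs : sep3 D = true) (hw : WC ax X) {m k : ℕ}
    (hmk : m < k) (hm : D.IsPosRoot m) (hk : D.IsPosRoot k) : Step ax X m k := by
  obtain ⟨g, hg⟩ := exists_gen (F := F)
  have h3 := allBelow_spec hs m hm.1
  simp only [hm, decide_true, Bool.not_true, Bool.false_or] at h3
  have h4 := allBelow_spec h3 k hk.1
  simp only [hmk, decide_true, Bool.not_true, Bool.false_or] at h4
  obtain ⟨c, hc, h5⟩ := Cfsg.Agent.Lib.Chev.Tables2.anyBelow_spec h4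
  simp only [Bool.and_eq_true, beq_iff_eq, bne_iff_ne] at h5
  refine step_of_pair h h2 hw hm hk hmk hc g ?_ ?_
  · rw [pair_eq_pairN, hg, hq]
    exact Int.dvd_of_emod_eq_zero h5.1
  · rw [pair_eq_pairN, Ne, hg, hq]
    intro hd
    exact h5.2 (Int.emod_eq_zero_of_dvd hd)

include h h2 in
/-- The reduction steps, `q = 4`. -/
lemma steps_four [Fintype F] (hq : Fintype.card F = 4) (hs : sep4 D = true) (hw : WC ax X) {m k : ℕ}
    (hmk : m < k) (hm : D.IsPosRoot m) (hk : D.IsPosRoot k) : Step ax X m k := by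
  obtain ⟨g, hg⟩ := exists_gen (F := F)
  have h2F : (2 : F) = 0 := by
    have h5 := FiniteField.cast_card_eq_zero F
    rw [hq] at h5
    have h6 : (2 : F) * 2 = 0 := by
      rw [← h5]
      norm_num
    simpa using h6
  have h3 := allBelow_spec hs m hm.1
  simp only [hm, decide_true, Bool.not_true, Bool.false_or] at h3
  have h4 := allBelow_spec h3 k hk.1
  simp only [hmk, decide_true, Bool.not_true, Bool.false_or, Bool.or_eq_true] at h4
  rcases h4 with h4 | h4
  · obtain ⟨c, hc, h5⟩ := Cfsg.Agent.Lib.Chev.Tables2.anyBelow_spec h4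
    simp only [Bool.and_eq_true, beq_iff_eq, bne_iff_ne] at h5
    refine step_of_pair h h2 hw hm hk hmk hc g ?_ ?_
    · rw [pair_eq_pairN, hg, hq]
      exact Int.dvd_of_emod_eq_zero h5.1
    · rw [pair_eq_pairN, Ne, hg, hq]
      intro hd
      exact h5.2 (Int.emod_eq_zero_of_dvd hd)
  · obtain ⟨s, -, h5⟩ := Cfsg.Agent.Lib.Chev.Tables2.anyBelow_spec h4
    exact step_of_word h h2 hw h2F hm hmk h5

/-! ### The final argument -/

lemma X_eq (hw : WC ax X) (hd : Dec ax X 0) :
    X = rootClosure ax (fun r => D.IsPosRoot r ∧ Sr ax X r) := by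
  apply le_antisymm
  · intro x hx
    have h3 : x ∈ Uge ax 0 := by
      have h4 := hw.le hx
      rw [posUnipotent_eq ax] at h4
      exact rootClosure_mono ax (fun r hr => ⟨hr, Nat.zero_le _⟩) h4
    exact rootClosure_mono ax (fun r hr => ⟨hr.1, hr.2.2⟩) (hd x hx h3)
  · apply rootClosure_le
    intro r t hr
    exact hr.2 t

include h h2 in
lemma Sr_reflect (hwc : ∀ g ∈ D.group F, X.map (MulAut.conj g).toMonoidHom ≤ D.posUnipotent F →
      X.map (MulAut.conj g).toMonoidHom = X)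
    (hX : X = rootClosure ax (fun r => D.IsPosRoot r ∧ Sr ax X r)) {j : ℕ} (hj : j < D.rank)
    (hjn : ¬ Sr ax X (D.simple j)) {r : ℕ} (hr : D.IsPosRoot r) (hS : Sr ax X r) : Sr ax X (D.reflectRoot j r) := by
  obtain ⟨c, hc⟩ := exists_isNor_sG h ax h2 (F := F) hj
  have hg : sG ax j ∈ D.group F := monomial_le_group h ax (sG_mem_monomial h h2 ax hj)
  have hle : X.map (MulAut.conj (sG ax j)).toMonoidHom ≤ D.posUnipotent F := by
    rintro _ ⟨x, hx, rfl⟩
    simp only [MulEquiv.coe_toMonoidHom, MulAut.conj_apply]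
    rw [hX] at hx
    refine conj_mem_of_gen ax ?_ hx
    rintro r' t ⟨hr', hS'⟩
    rw [hc.conj ⟨r', hr'.1⟩ t]
    apply xG_mem_U
    apply isPos_reflect h h2 hj hr'
    intro he
    exact hjn (he ▸ hS')
  have heq := hwc _ hg hle
  have hmem : ∀ x ∈ X, sG ax j * x * (sG ax j)⁻¹ ∈ X := by
    intro x hx
    have h3 : sG ax j * x * (sG ax j)⁻¹ ∈ X.map (MulAut.conj (sG ax j)).toMonoidHom := ⟨x, hx, rfl⟩
    rwa [heq] at h3
  intro t
  have h3 := hmem _ (hS (((c ⟨r, hr.1⟩ : Fˣ) : F)⁻¹ * t))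
  rw [hc.conj ⟨r, hr.1⟩] at h3
  have e : ((c ⟨r, hr.1⟩ : Fˣ) : F) * (((c ⟨r, hr.1⟩ : Fˣ) : F)⁻¹ * t) = t := by
    have := (c ⟨r, hr.1⟩).ne_zero
    field_simp
  rw [e] at h3
  exact h3

/-- The nodes whose simple root subgroup is not in `X`. -/
def JX (ax : Ax D F) (X : Subgroup (GL D.Idx F)) : Set ℕ := {j | j < D.rank ∧ ¬ Sr ax X (D.simple j)}

include h h2 in
lemma no_levi (hwc : ∀ g ∈ D.group F, X.map (MulAut.conj g).toMonoidHom ≤ D.posUnipotent F →
      X.map (MulAut.conj g).toMonoidHom = X)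
    (hX : X = rootClosure ax (fun r => D.IsPosRoot r ∧ Sr ax X r)) (k : ℕ) :
    ∀ r, D.IsPosRoot r → D.InRootSub (JX ax X) r → (ht D r).toNat ≤ k → ¬ Sr ax X r := by
  induction k with
  | zero =>
    intro r hr _ hk
    have := ht_pos h hr
    omega
  | succ k ih =>
    intro r hr hrJ hk hS
    have hr0 := hr.1
    have hsup := (inRootSub_iff h hr0).mp hrJ
    rcases h2.descent r hr with ⟨i, hi, rfl⟩ | ⟨i, hi, hA, hw⟩
    · have hiJ : i ∈ JX ax X := by
        by_contra hn
        have := hsup i hi hn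
        rw [h.coef_simple i hi i hi, if_pos rfl] at this
        exact one_ne_zero this
      exact hiJ.2 hS
    · have hiJ : i ∈ JX ax X := by
        by_contra hn
        exact coef_ne_zero_of_cartan_pos h h2 hi hr hA (hsup i hi hn)
      have hlin := lin_reflect h (fun _ => 1) hi hr0
      have hw0 := hw.1
      have hkk : (ht D (D.reflectRoot i r)).toNat ≤ k := by
        have h3 : ht D (D.reflectRoot i r) = ht D r - D.cartan i r := by
          simpa [ht] using hlin
        have h4 := ht_pos h hw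
        omega
      have hwJ : D.InRootSub (JX ax X) (D.reflectRoot i r) := by
        rw [inRootSub_iff h hw0]
        intro m hm hmJ
        rw [h.coef_reflect i hi r hr0 m hm, if_neg (fun e : m = i => hmJ (e ▸ hiJ)), hsup m hm hmJ, sub_zero]
      exact ih _ hw hwJ hkk (Sr_reflect h h2 hwc hX hi hiJ.2 hr hS)

include h h2 in
lemma le_radical (hwc : ∀ g ∈ D.group F, X.map (MulAut.conj g).toMonoidHom ≤ D.posUnipotent F →
      X.map (MulAut.conj g).toMonoidHom = X)
    (hX : X = rootClosure ax (fun r => D.IsPosRoot r ∧ Sr ax X r)) : X ≤ D.unipotentRadical F (JX ax X) := by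
  rw [unipotentRadical_eq h h2 ax]
  conv_lhs => rw [hX]
  apply rootClosure_mono
  rintro r ⟨hr, hS⟩
  exact ⟨hr, fun hsub => no_levi h h2 hwc hX _ r hr hsub le_rfl hS⟩

include h h2 in
lemma Sr_of_reach (hw : WC ax X) (hd : ∀ m, Dec ax X m) {p : ℕ} (hp : reachChk D p = true)
    (hpF : ∀ C : ℤ, nzq p C = true → (C : F) ≠ 0) {i : ℕ} (hi : i < D.rank) (hiS : Sr ax X (D.simple i)) :
    ∀ r, D.IsPosRoot r → 0 < coef D r i → Sr ax X r := by
  intro r
  induction r using Nat.strong_induction_on with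
  | _ r ih =>
    intro hr hc
    by_cases hrs : r = D.simple i
    · rw [hrs]
      exact hiS
    have h3 := allBelow_spec hp i hi
    have h4 := allBelow_spec h3 r hr.1
    have hrs' : (r != D.simple i) = true := bne_iff_ne.mpr hrs
    simp only [hr, hc, hrs', decide_true, Bool.and_self, Bool.not_true, Bool.false_or] at h4
    obtain ⟨k, hk, h5⟩ := Cfsg.Agent.Lib.Chev.Tables2.anyBelow_spec h4
    obtain ⟨rp, hrp, h6⟩ := Cfsg.Agent.Lib.Chev.Tables2.anyBelow_spec h5
    simp only [Bool.and_eq_true, decide_eq_true_eq, bne_iff_ne, List.any_eq_true, beq_iff_eq] at h6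
    obtain ⟨⟨⟨⟨hrpp, hrpc⟩, hne⟩, c, hcm, hc1, hcnz⟩, hnd⟩ := h6
    have hsp := simple_isPos h hk
    have hlt : rp < r := by
      rw [← hc1]
      exact term_gt' h hrpp hsp hcm
    have hSrp := ih rp hlt hrpp hrpc
    have h7 := tail_comm h hw hrpp hsp (Ne.symm hne) (α := (1 : F)) (u := (1 : F)) (y := 1) (by rw [mul_one]; exact hSrp 1)
      (by rw [mul_one, one_mul])
    have hmem : ((c.1, (c.2.1 : F) * (-1) ^ c.2.2.1 * (1 : F) ^ c.2.2.2) : ℕ × F) ∈ D.commWord F rp (D.simple k) 1 1 := by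
      simp only [commWord, List.mem_map]
      exact ⟨c, hcm, rfl⟩
    have h8 := word_letters h h2 hw (m := rp) (fun j _ => hd j) (L := D.commWord F rp (D.simple k) 1 1) ?_ ?_ h7 hmem ?_
    · rwa [← hc1]
    · intro p hp
      simp only [commWord, List.mem_map] at hp
      obtain ⟨c', hc', rfl⟩ := hp
      exact ⟨commTerms_pos h hrpp hsp hc', term_gt' h hrpp hsp hc'⟩
    · simpa [commWord, List.map_map, Function.comp_def] using hnd
    · simp only [one_pow, mul_one]
      exact mul_ne_zero (hpF _ hcnz) (pow_ne_zero _ (neg_ne_zero.mpr one_ne_zero))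

include h h2 in
lemma radical_le (hw : WC ax X) (hd : ∀ m, Dec ax X m) {p : ℕ} (hp : reachChk D p = true)
    (hpF : ∀ C : ℤ, nzq p C = true → (C : F) ≠ 0) : D.unipotentRadical F (JX ax X) ≤ X := by
  rw [unipotentRadical_eq h h2 ax]
  apply rootClosure_le
  rintro r t ⟨hr, hn⟩
  rw [inRootSub_iff h hr.1] at hn
  push Not at hn
  obtain ⟨i, hi, hiJ, hc⟩ := hn
  have h3 : 0 < coef D r i := lt_of_le_of_ne ((isPosRoot_iff h hr.1).mp hr i hi) (Ne.symm hc)
  have h4 : Sr ax X (D.simple i) := by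
    by_contra hS
    exact hiJ ⟨hi, hS⟩
  exact Sr_of_reach h h2 hw hd hp hpF hi h4 r hr h3 t

include h in
lemma wc_of_hwc (hXU : X ≤ D.posUnipotent F)
    (hwc : ∀ g ∈ D.group F, X.map (MulAut.conj g).toMonoidHom ≤ D.posUnipotent F →
      X.map (MulAut.conj g).toMonoidHom = X) : WC ax X where
  le := hXU
  nor := by
    intro b hb x hx
    have hup : Upper D D.IsPosRoot :=
      ⟨fun r hr => hr, fun r s hr hs _ c hc => commTerms_pos h hs hr hc⟩
    have hle : X.map (MulAut.conj b).toMonoidHom ≤ D.posUnipotent F := by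
      rintro _ ⟨y, hy, rfl⟩
      simp only [MulEquiv.coe_toMonoidHom, MulAut.conj_apply]
      have h3 := hXU hy
      rw [posUnipotent_eq ax] at h3 ⊢
      exact (Subgroup.mem_normalizer_iff.mp (borel_le_nor_upper h ax hup hb) y).mp h3
    have heq := hwc b (borel_le_group h ax hb) hle
    have h3 : b * x * b⁻¹ ∈ X.map (MulAut.conj b).toMonoidHom := ⟨x, hx, rfl⟩
    rwa [heq] at h3

/-- **Weakly closed subgroups of `U` are unipotent radicals.** -/
theorem weakly_closed [Fintype F] (hD : D ∈ [chevG2, chevB2, chevD4, chevF4, chevE6, chevE7, chevE8]) (ax : Ax D F)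
    (h2q : Fintype.card F ≠ 2) (h3q : D ∈ [chevG2, chevB2, chevD4, chevF4] → Fintype.card F ≠ 3)
    (h : Tab D) (h2 : Tab2 D) (X : Subgroup (GL D.Idx F)) (hXU : X ≤ D.posUnipotent F)
    (hwc : ∀ g ∈ D.group F, X.map (MulAut.conj g).toMonoidHom ≤ D.posUnipotent F →
      X.map (MulAut.conj g).toMonoidHom = X) :
    ∃ J : Set ℕ, (∀ j ∈ J, j < D.rank) ∧ X = D.unipotentRadical F J := by
  obtain ⟨hc0, hc1, hc2, hc3, hc4, hc5⟩ := chk_all hD
  have hw : WC ax X := wc_of_hwc h hXU hwc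
  have hq1 : 1 < Fintype.card F := Fintype.one_lt_card
  have hstep : ∀ m k, m < k → D.IsPosRoot m → D.IsPosRoot k → Step ax X m k := by
    intro m k hmk hm hk
    by_cases hq3 : Fintype.card F = 3
    · have hE : D ∈ [chevE6, chevE7, chevE8] := by
        simp only [List.mem_cons, List.not_mem_nil, or_false] at hD ⊢
        rcases hD with rfl | rfl | rfl | rfl | rfl | rfl | rfl
        · exact absurd hq3 (h3q (by simp))
        · exact absurd hq3 (h3q (by simp))
        · exact absurd hq3 (h3q (by simp))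
        · exact absurd hq3 (h3q (by simp))
        · simp
        · simp
        · simp
      exact steps_three h h2 hq3 (chk_three hE) hw hmk hm hk
    by_cases hq4 : Fintype.card F = 4
    · exact steps_four h h2 hq4 hc2 hw hmk hm hk
    · exact steps_gen h h2 (by omega) hc1 hw hmk hm hk
  have hd : ∀ m, Dec ax X m :=
    dec_all h h2 hw hstep (fun r t hr ht hx => full h hc0 hw hr.1 ht hx)
  have hX := X_eq hw (hd 0)
  obtain ⟨p, hp, hpF⟩ := exists_reach_p (F := F)
  have hreach : reachChk D p = true := by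
    rcases hp with rfl | rfl | rfl
    · exact hc3
    · exact hc4
    · exact hc5
  refine ⟨JX ax X, fun j hj => hj.1, le_antisymm (le_radical h h2 hwc hX) (radical_le h h2 hw hd hreach hpF)⟩

end Cfsg.Agent.Lib.KS71.WCMain
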