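/-
The Weyl group of type G2 as a table of encoded permutations of the roots.
-/
import Mathlib
import Cfsg.Agent.Lib.KS71.ChevWeyl

set_option autoImplicit false
set_option maxRecDepth 100000

namespace Cfsg.Agent.Lib.KS71.WeylTabG2

open Cfsg.Agent.Lib.KS71.ChevWeyl

/-- The reflections in the simple roots. -/
def gens : List ℕ := [818720935014300135744,750716034944943005697]

/-- All elements of the Weyl group. -/
def table : List ℕ := [1189812668901397131,
5819244534368076171,
73824144603725206218,
80777161062706606410,
368990904479070061254,
380591081329021435974,
443949098219646775941,
455549275069598150661,
743763018485961605505,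
750716034944943005697,
818720935014300135744,
823350366879766814784]

theorem id_chk : idChk table Cfsg.Lie.chevG2.nroots = true := by decide +kernel

theorem closed_chk : closedChk table gens Cfsg.Lie.chevG2.nroots = true := by decide +kernel

theorem gens_chk : gensChk Cfsg.Lie.chevG2 gens = true := by decide +kernel

end Cfsg.Agent.Lib.KS71.WeylTabG2
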