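/-
A binary search tree of natural numbers, used to check the closure of a large table of the Weyl group.
-/
import Mathlib
import Cfsg.Agent.Lib.KS71.ChevWeyl

set_option autoImplicit false

namespace Cfsg.Agent.Lib.KS71.WeylTree

open Cfsg.Agent.Lib.KS71.ChevWeyl

/-- Binary trees with natural numbers at the nodes. -/
inductive NT where
  | e : NT
  | n : NT → ℕ → NT → NT

namespace NT

/-- The list of the entries. -/
def toL : NT → List ℕ
  | e => []
  | n l x r => x :: (toL l ++ toL r)

/-- Search in the tree. -/
def find : NT → ℕ → Bool
  | e, _ => false
  | n l x r, y => bif Nat.beq x y then true else bif Nat.ble y x then find l y else find r y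

lemma mem_of_find : ∀ (T : NT) (y : ℕ), find T y = true → y ∈ toL T
  | e, _, h => by simp [find] at h
  | n l x r, y, h => by
    rw [find] at h
    cases h1 : Nat.beq x y
    · rw [h1] at h
      cases h2 : Nat.ble y x
      · rw [h2] at h
        have := mem_of_find r y h
        simp [toL, this]
      · rw [h2] at h
        have := mem_of_find l y h
        simp [toL, this]
    · have := Nat.eq_of_beq_eq_true h1
      simp [toL, this]

end NT

/-- The closure check with the tree. -/
def closedChkT (T : NT) (gens : List ℕ) (n : ℕ) : Bool :=
  T.toL.all fun x => gens.all fun g =>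
    T.find (cmpX g x n 0) && (List.range n).all fun k => lkp (cmpX g x n 0) k == lkp g (lkp x k)

lemma closedChk_of_tree {T : NT} {gens : List ℕ} {n : ℕ} (h : closedChkT T gens n = true) :
    closedChk T.toL gens n = true := by
  simp only [closedChkT, List.all_eq_true, Bool.and_eq_true] at h
  simp only [closedChk, List.all_eq_true, Bool.and_eq_true]
  intro x hx g hg
  obtain ⟨h1, h2⟩ := h x hx g hg
  exact ⟨List.contains_iff_mem.mpr (NT.mem_of_find T _ h1), h2⟩

end Cfsg.Agent.Lib.KS71.WeylTree
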